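import Cfsg.Agent.Lib.Helper26.ProjExt3

set_option autoImplicit false

namespace Cfsg.Agent.Lib.Helper26

open Cfsg
open scoped ComplexConjugate

universe u

variable {G : Type u} [Group G]

/-- twist an irreducible representation by a linear character and descend it along a surjection -/
theorem exists_descend {Γ : Type u} [Group Γ] {π : Γ →* G} (hπ : Function.Surjective π) {m : ℕ}
    (τ : Representation ℂ Γ (Fin m → ℂ)) (hτ : τ.IsIrreducible) (μ : Γ →* ℂˣ)
    (hker : ∀ a ∈ π.ker, ((μ a : ℂˣ) : ℂ) • τ a = 1) :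
    ∃ χ : G → ℂ, IsIrrCharacter G χ ∧ ∀ γ, χ (π γ) = (μ γ : ℂ) * τ.character γ := by
  let τ' : Γ →* Module.End ℂ (Fin m → ℂ) :=
    { toFun := fun γ => ((μ γ : ℂˣ) : ℂ) • τ γ
      map_one' := by simp
      map_mul' := by
        intro a b
        rw [map_mul, map_mul, Units.val_mul, smul_mul_smul_comm] }
  have hle : π.ker ≤ τ'.toHomUnits.ker := by
    intro a ha
    rw [MonoidHom.mem_ker]
    apply Units.ext
    rw [MonoidHom.coe_toHomUnits]
    exact hker a ha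
  let L : G →* (Module.End ℂ (Fin m → ℂ))ˣ := π.liftOfSurjective hπ ⟨τ'.toHomUnits, hle⟩
  have hL : ∀ γ, ((L (π γ) : (Module.End ℂ (Fin m → ℂ))ˣ) : Module.End ℂ (Fin m → ℂ))
      = ((μ γ : ℂˣ) : ℂ) • τ γ := by
    intro γ
    have := MonoidHom.liftOfRightInverse_comp_apply π _ (Function.rightInverse_surjInv hπ)
      ⟨τ'.toHomUnits, hle⟩ γ
    have h2 : L (π γ) = τ'.toHomUnits γ := this
    rw [h2, MonoidHom.coe_toHomUnits]
    rfl
  let τ'' : Representation ℂ G (Fin m → ℂ) := (Units.coeHom _).comp L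
  have hτ'' : ∀ γ, τ'' (π γ) = ((μ γ : ℂˣ) : ℂ) • τ γ := hL
  refine ⟨τ''.character, ⟨m, τ'', ?_, rfl⟩, fun γ => ?_⟩
  · rw [Helper25.isIrreducible_iff] at hτ ⊢
    refine ⟨hτ.1, fun U hU => hτ.2 U (fun γ v hv => ?_)⟩
    have h1 := hU (π γ) v hv
    rw [hτ''] at h1
    have h2 : τ γ v = ((μ γ : ℂˣ) : ℂ)⁻¹ • ((((μ γ : ℂˣ) : ℂ) • τ γ) v) := by
      rw [LinearMap.smul_apply, smul_smul, inv_mul_cancel₀ (Units.ne_zero _), one_smul]
    rw [h2]
    exact U.smul_mem _ h1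
  · show LinearMap.trace ℂ _ (τ'' (π γ)) = _
    rw [hτ'', map_smul, smul_eq_mul]
    rfl


lemma irreducible_of_char {A : Type u} [Group A] [Finite A] {V : Type} [AddCommGroup V]
    [Module ℂ V] [FiniteDimensional ℂ V] (ρ' : Representation ℂ A V)
    (h : IsIrrCharacter A ρ'.character) : ρ'.IsIrreducible := by
  obtain ⟨n, ρ, hρ, hχ⟩ := h
  obtain ⟨e⟩ := Helper2.equiv_of_char_eq ρ ρ' hχ
  exact Helper2.isIrreducible_of_equiv e

/-- a subgroup of `ℤ` containing, for each prime `p`, a natural number prime to `p`, contains 1 -/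
lemma one_mem_of_coprime (H : AddSubgroup ℤ)
    (h : ∀ p : ℕ, p.Prime → ∃ k : ℕ, (k : ℤ) ∈ H ∧ Nat.Coprime k p) : (1 : ℤ) ∈ H := by
  have key : ∀ k : ℕ, 0 < k → (k : ℤ) ∈ H → (1 : ℤ) ∈ H := by
    intro k
    induction k using Nat.strong_induction_on with
    | _ k ih =>
      intro hk hkH
      by_cases h1 : k = 1
      · subst h1; exact_mod_cast hkH
      obtain ⟨k', hk'H, hcop⟩ := h k.minFac (Nat.minFac_prime h1)
      have hg : ((Nat.gcd k k' : ℕ) : ℤ) ∈ H := by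
        have := Int.gcd_eq_gcd_ab (k : ℤ) (k' : ℤ)
        rw [Int.gcd_natCast_natCast] at this
        rw [this]
        refine H.add_mem ?_ ?_
        · rw [mul_comm, ← smul_eq_mul]; exact H.zsmul_mem hkH _
        · rw [mul_comm, ← smul_eq_mul]; exact H.zsmul_mem hk'H _
      have hgpos : 0 < Nat.gcd k k' := Nat.gcd_pos_of_pos_left _ hk
      have hgle : Nat.gcd k k' ≤ k := Nat.le_of_dvd hk (Nat.gcd_dvd_left _ _)
      have hgne : Nat.gcd k k' ≠ k := by
        intro he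
        have h2 : k ∣ k' := he ▸ Nat.gcd_dvd_right k k'
        have h3 : k.minFac ∣ k' := (Nat.minFac_dvd k).trans h2
        have h4 : k.minFac ∣ Nat.gcd k' k.minFac := Nat.dvd_gcd h3 dvd_rfl
        rw [hcop] at h4
        exact (Nat.minFac_prime h1).one_lt.ne' (Nat.dvd_one.mp h4)
      exact ih _ (lt_of_le_of_ne hgle hgne) hgpos hg
  obtain ⟨k, hkH, hcop⟩ := h 2 Nat.prime_two
  refine key k (Nat.pos_of_ne_zero ?_) hkH
  rintro rfl
  simp at hcop

section ext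

variable {N : Subgroup G} {Γ : Type u} [Group Γ]

/-- the integers `m` such that `c^{-m}` (on `ker π`) extends to a linear character of `Γ`
trivial on `σ N`. -/
def extSub (π : Γ →* G) (σ : N →* Γ) (c : Γ → ℂ) (hc : ∀ a ∈ π.ker, c a ≠ 0) : AddSubgroup ℤ where
  carrier := {m | ∃ μ : Γ →* ℂˣ, (∀ n, μ (σ n) = 1) ∧
    ∀ a ∈ π.ker, ((μ a : ℂˣ) : ℂ) * (c a) ^ m = 1}
  add_mem' := by
    rintro m m' ⟨μ, h1, h2⟩ ⟨μ', h1', h2'⟩
    refine ⟨μ * μ', fun n => by rw [MonoidHom.mul_apply, h1, h1', one_mul], fun a ha => ?_⟩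
    rw [MonoidHom.mul_apply, Units.val_mul, zpow_add₀ (hc a ha)]
    calc ((μ a : ℂˣ) : ℂ) * (μ' a : ℂˣ) * (c a ^ m * c a ^ m')
        = (((μ a : ℂˣ) : ℂ) * c a ^ m) * (((μ' a : ℂˣ) : ℂ) * c a ^ m') := by ring
      _ = 1 := by rw [h2 a ha, h2' a ha, one_mul]
  zero_mem' := ⟨1, fun _ => rfl, fun a _ => by simp⟩
  neg_mem' := by
    rintro m ⟨μ, h1, h2⟩
    refine ⟨μ⁻¹, fun n => by rw [MonoidHom.inv_apply, h1, inv_one], fun a ha => ?_⟩
    rw [MonoidHom.inv_apply, Units.val_inv_eq_inv_val, zpow_neg, ← mul_inv, h2 a ha, inv_one]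

end ext

theorem index_mem_extSub {N : Subgroup G} [Fintype N] {ϑ : N → ℂ}
    (hϑ : IsIrrCharacter N ϑ) {Γ : Type u} [Group Γ] [Finite Γ] {π : Γ →* G} {σ : N →* Γ}
    {ϑ' : Γ → ℂ} (d : CExt N ϑ Γ π σ ϑ') (hc : ∀ a ∈ π.ker, ϑ' a / ϑ' 1 ≠ 0)
    (P : Subgroup G) (hNP : N ≤ P) (η : P → ℂ) (hη : IsIrrCharacter P η)
    (hηN : ∀ n : N, η ⟨n, hNP n.2⟩ = ϑ n) :
    (P.index : ℤ) ∈ extSub π σ (fun a => ϑ' a / ϑ' 1) hc := by
  classical
  obtain ⟨m, τ, hτ, hτχ⟩ := d.irr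
  have hnorm := d.normal
  have hσK : ∀ n, σ n ∈ P.comap π := fun n => by
    show π (σ n) ∈ P
    rw [d.sec]; exact hNP n.2
  have : Fintype (P.comap π) := Fintype.ofFinite _
  let πK : P.comap π →* P := (π.comp (P.comap π).subtype).codRestrict P (fun x => x.2)
  have hπK : Function.Surjective πK := by
    rintro ⟨y, hy⟩
    obtain ⟨x, rfl⟩ := d.surj y
    exact ⟨⟨x, hy⟩, rfl⟩
  have hψ : IsIrrCharacter (P.comap π) (fun x => η (πK x)) :=
    Helper25.isIrrCharacter_comp_surjective πK hπK hη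
  let τσ : Representation ℂ N (Fin m → ℂ) := τ.comp σ
  let τK : Representation ℂ (P.comap π) (Fin m → ℂ) := τ.comp (P.comap π).subtype
  have hρ' : τσ.IsIrreducible := irreducible_of_char τσ (by
    have : τσ.character = ϑ := by
      funext n
      show τ.character (σ n) = _
      rw [hτχ, d.ext]
    rw [this]; exact hϑ)
  have hτK : τK.IsIrreducible := by
    rw [Helper25.isIrreducible_iff] at hρ' ⊢
    exact ⟨hρ'.1, fun U hU => hρ'.2 U (fun n v hv => hU ⟨σ n, hσK n⟩ v hv)⟩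
  have hϑK : IsIrrCharacter (P.comap π) (fun x : P.comap π => ϑ' x) := by
    rw [← hτχ]; exact ⟨m, τK, hτK, rfl⟩
  have : Fintype (σ.range.subgroupOf (P.comap π)) := Fintype.ofFinite _
  have hN'mem : ∀ x : σ.range.subgroupOf (P.comap π),
      (π.comp ((P.comap π).subtype.comp (σ.range.subgroupOf (P.comap π)).subtype)) x ∈ N := by
    rintro ⟨x, hx⟩
    obtain ⟨n, hn⟩ := Subgroup.mem_subgroupOf.mp hx
    show π (x : Γ) ∈ N
    rw [← hn, d.sec]; exact n.2
  let f : σ.range.subgroupOf (P.comap π) →* N :=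
    (π.comp ((P.comap π).subtype.comp (σ.range.subgroupOf (P.comap π)).subtype)).codRestrict N
      hN'mem
  have hf : Function.Surjective f := fun n =>
    ⟨⟨⟨σ n, hσK n⟩, Subgroup.mem_subgroupOf.mpr ⟨n, rfl⟩⟩, Subtype.ext (d.sec n)⟩
  have hfσ : ∀ x : σ.range.subgroupOf (P.comap π), ((x : P.comap π) : Γ) = σ (f x) := by
    rintro ⟨x, hx⟩
    obtain ⟨n, hn⟩ := Subgroup.mem_subgroupOf.mp hx
    have h1 : f ⟨x, hx⟩ = n := Subtype.ext (by
      show π (x : Γ) = n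
      rw [← hn, d.sec])
    rw [h1]; exact hn.symm
  have hres1 : (fun x : σ.range.subgroupOf (P.comap π) => ϑ' ((x : P.comap π) : Γ))
      = fun x => ϑ (f x) := by
    funext x
    exact (congrArg ϑ' (hfσ x)).trans (d.ext _)
  have hres : IsIrrCharacter (σ.range.subgroupOf (P.comap π))
      (fun x : σ.range.subgroupOf (P.comap π) => ϑ' ((x : P.comap π) : Γ)) := by
    rw [hres1]
    exact Helper25.isIrrCharacter_comp_surjective f hf hϑ
  have hψres : (fun x : σ.range.subgroupOf (P.comap π) => η (πK (x : P.comap π)))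
      = fun x : σ.range.subgroupOf (P.comap π) => ϑ' ((x : P.comap π) : Γ) := by
    rw [hres1]
    funext x
    exact hηN (f x)
  have hcon : classInner (fun x : σ.range.subgroupOf (P.comap π) => η (πK (x : P.comap π)))
      (fun x : σ.range.subgroupOf (P.comap π) => ϑ' ((x : P.comap π) : Γ)) ≠ 0 := by
    rw [hψres, Helper7.classInner_irr_self hres]; exact one_ne_zero
  obtain ⟨β, hβ, hβ1, hβ2⟩ := gallagher_ext (σ.range.subgroupOf (P.comap π)) hϑK hres hψ hcon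
  have hϑ'1 : ϑ' 1 ≠ 0 := Helper7.irr_apply_one_ne_zero d.irr
  have hη1 : η 1 = ϑ' 1 := by
    have h1 := hηN 1
    have h2 := d.ext 1
    rw [map_one] at h2
    rw [h2, ← h1]
    rfl
  have hβone : β 1 = 1 := by
    have h1 := congrFun hβ2 1
    simp only [Pi.mul_apply, map_one, OneMemClass.coe_one] at h1
    rw [hη1] at h1
    exact mul_right_cancel₀ hϑ'1 (h1.trans (one_mul _).symm)
  obtain ⟨μK, hμK⟩ := Helper7.exists_hom_of_linear (Helper7.isCharacter_of_irr hβ) hβone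
  have htriv : ∀ x : P.comap π, (x : Γ) ∈ σ.range → μK x = 1 := by
    intro x hx
    apply Units.ext
    rw [← hμK, hβ1 x (Subgroup.mem_subgroupOf.mpr hx), hβone]
    rfl
  refine ⟨MonoidHom.transfer μK, fun n => ?_, fun a ha => ?_⟩
  · have : Fintype (Quotient (MulAction.orbitRel (Subgroup.zpowers (σ n)) (Γ ⧸ P.comap π))) :=
      Fintype.ofFinite _
    rw [MonoidHom.transfer_eq_prod_quotient_orbitRel_zpowers_quot]
    refine Finset.prod_eq_one (fun q _ => htriv _ ?_)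
    have h1 := hnorm.conj_mem _ (Subgroup.pow_mem _ (⟨n, rfl⟩ : σ n ∈ σ.range)
      (Function.minimalPeriod (σ n • ·) q.out)) q.out.out⁻¹
    rwa [inv_inv] at h1
  · have hac := Subgroup.mem_center_iff.mp (d.central ha)
    have haK : a ∈ P.comap π := by
      show π a ∈ P
      rw [MonoidHom.mem_ker.mp ha]; exact P.one_mem
    have key : ∀ (k : ℕ) (g₀ : Γ), g₀⁻¹ * a ^ k * g₀ ∈ P.comap π →
        g₀⁻¹ * a ^ k * g₀ = a ^ k := by
      intro k g₀ _
      have h1 : g₀ * a ^ k = a ^ k * g₀ := by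
        have : Commute g₀ a := hac g₀
        exact this.pow_right k
      rw [mul_assoc, ← h1, inv_mul_cancel_left]
    rw [MonoidHom.transfer_eq_pow μK a key]
    have h2 : (⟨a ^ (P.comap π).index, MonoidHom.transfer_eq_pow_aux a key⟩ : P.comap π)
        = (⟨a, haK⟩ : P.comap π) ^ (P.comap π).index := Subtype.ext rfl
    rw [h2, map_pow, Units.val_pow_eq_pow_val, ← hμK,
      Subgroup.index_comap_of_surjective P d.surj, zpow_natCast, ← mul_pow]
    have h3 := congrFun hβ2 ⟨a, haK⟩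
    simp only [Pi.mul_apply] at h3
    have h4 : πK ⟨a, haK⟩ = 1 := Subtype.ext (MonoidHom.mem_ker.mp ha)
    rw [h4, hη1] at h3
    have h5 : β ⟨a, haK⟩ * (ϑ' a / ϑ' 1) = 1 := by
      rw [← mul_div_assoc, h3, div_self hϑ'1]
    rw [h5, one_pow]

/-- Isaacs 11.31: an invariant character extends if it extends to the preimages of Sylow
subgroups of the quotient. -/
theorem extends_of_sylow [Finite G] (N : Subgroup G) [hN : N.Normal] {ϑ : N → ℂ}
    (hϑ : IsIrrCharacter N ϑ)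
    (hinv : ∀ (g : G) (n : N), ϑ ⟨g * n * g⁻¹, hN.conj_mem n n.2 g⟩ = ϑ n)
    (hsyl : ∀ p : ℕ, p.Prime → ∃ (P : Subgroup G) (hNP : N ≤ P) (η : P → ℂ),
      Nat.Coprime P.index p ∧ IsIrrCharacter P η ∧ ∀ n : N, η ⟨(n : G), hNP n.2⟩ = ϑ n) :
    ∃ χ : G → ℂ, IsIrrCharacter G χ ∧ ∀ n : N, χ n = ϑ n := by
  classical
  have : Fintype N := Fintype.ofFinite _
  obtain ⟨Γ, _, _, π, σ, ϑ', d⟩ := exists_cext N hϑ hinv
  obtain ⟨m, τ, hτ, hτχ⟩ := id d.irr
  have hϑ'1 : ϑ' 1 ≠ 0 := Helper7.irr_apply_one_ne_zero d.irr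
  have hscal : ∀ a ∈ π.ker, τ a = (ϑ' a / ϑ' 1) • (1 : Module.End ℂ (Fin m → ℂ)) := by
    intro a ha
    have hzc := d.central ha
    obtain ⟨c, hc⟩ := Helper2.schur τ (τ a) (fun g => by
      have h1 := Subgroup.mem_center_iff.mp hzc g
      show τ a * τ g = τ g * τ a
      rw [← map_mul, ← map_mul, h1])
    have h1 : ϑ' a = c * ϑ' 1 := by
      rw [← hτχ]
      show LinearMap.trace ℂ _ (τ a) = c * LinearMap.trace ℂ _ (τ 1)
      rw [hc, map_smul, map_one, smul_eq_mul]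
      rfl
    rw [h1, mul_div_assoc, div_self hϑ'1, mul_one, hc]
    rfl
  have hV : Nontrivial (Fin m → ℂ) := Helper2.nontrivial_of_irr τ
  have hc : ∀ a ∈ π.ker, ϑ' a / ϑ' 1 ≠ 0 := by
    intro a ha h0
    have h1 := hscal a ha
    rw [h0, zero_smul] at h1
    have h2 : τ a⁻¹ * τ a = 1 := by rw [← map_mul, inv_mul_cancel, map_one]
    rw [h1, mul_zero] at h2
    exact zero_ne_one h2
  have hone : (1 : ℤ) ∈ extSub π σ (fun a => ϑ' a / ϑ' 1) hc := by
    refine one_mem_of_coprime _ (fun p hp => ?_)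
    obtain ⟨P, hNP, η, hcop, hη, hηN⟩ := hsyl p hp
    exact ⟨P.index, index_mem_extSub hϑ d hc P hNP η hη hηN, hcop⟩
  obtain ⟨μ, hμ1, hμ2⟩ := hone
  obtain ⟨χ, hχ, hχπ⟩ := exists_descend d.surj τ hτ μ (fun a ha => by
    have h1 := hμ2 a ha
    rw [zpow_one] at h1
    rw [hscal a ha, smul_smul, h1, one_smul])
  refine ⟨χ, hχ, fun n => ?_⟩
  have h1 := hχπ (σ n)
  rw [d.sec, hμ1, hτχ, d.ext] at h1
  rw [h1]; simp

end Cfsg.Agent.Lib.Helper26
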