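import Cfsg.Agent.Lib.Helper26.BPSat3

/-!
# Brauer pairs of blocks with abelian defect groups
-/

set_option autoImplicit false
set_option linter.unusedSectionVars false
set_option linter.unusedVariables false
set_option linter.style.haveILetI false

open Cfsg Cfsg.FusionSystem
open Cfsg.Agent.Lib.Helper7 Cfsg.Agent.Lib.Helper24

namespace Cfsg.Agent.Lib.Helper26.BP

noncomputable section
open Classical

universe u
variable {M : Ideal AlgInt} [M.IsPrime] {p : ℕ} [hp : Fact p.Prime]
variable {G : Type u} [Group G] [Fintype G]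
variable [CharP (resField M) p]

theorem le_centralizer_of_ab {P Q : Subgroup G} (hab : ∀ x ∈ P, ∀ y ∈ P, x * y = y * x)
    (hQP : Q ≤ P) : P ≤ Subgroup.centralizer (Q : Set G) := by
  intro x hx
  rw [Subgroup.mem_centralizer_iff]
  intro y hy
  exact hab y (hQP hy) x hx

theorem centralizer_le_normalizer' (Q : Subgroup G) :
    Subgroup.centralizer (Q : Set G) ≤ Subgroup.normalizer (Q : Set G) := by
  intro x hx
  rw [Subgroup.mem_normalizer_iff]
  intro y
  rw [Subgroup.mem_centralizer_iff] at hx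
  constructor
  · intro hy
    have := hx y hy
    rw [← this]; simpa using hy
  · intro hy
    have h1 := hx _ hy
    have h2 : x * y * x⁻¹ = y := by
      have : x * y * x⁻¹ * x = x * (x * y * x⁻¹) := h1
      have h3 : x * y = x * (x * y * x⁻¹) := by simpa using this
      exact (mul_left_cancel h3).symm
    rwa [h2] at hy

/-- for abelian `P`, every pair below `(P, e)` is normal in it -/
theorem LE.ns_of_ab {a m : FP M G} (ha : LE p ⊤ a m) (hm : IsPair p ⊤ m)
    (hab : ∀ x ∈ m.1, ∀ y ∈ m.1, x * y = y * x) : NS p ⊤ a m := by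
  obtain ⟨γ, h1, h2⟩ := ha.exists_ns_mid hm (R := m.1) ha.fst_le le_rfl
    ((le_centralizer_of_ab hab ha.fst_le).trans (centralizer_le_normalizer' _))
  have : ((m.1, γ) : FP M G) = m := h2.eq_of_fst_eq rfl
  rwa [this] at h1

theorem ab_factor (hM : IsPModular p M) {a m : FP M G} (ha : LE p ⊤ a m) (hm : IsPair p ⊤ m)
    (htm : Terminal p ⊤ m) (hab : ∀ x ∈ m.1, ∀ y ∈ m.1, x * y = y * x) {x : G}
    (hx : x ∈ stabP a) : ∃ c ∈ Subgroup.centralizer (a.1 : Set G), c * x ∈ stabP m := by
  have hpa := ha.isPair_left hm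
  have hns := ha.ns_of_ab hm hab
  have hC : Subgroup.centralizer (a.1 : Set G) ≤ stabP a := by
    have := hpa.cen_le_stabP
    rwa [cen_top] at this
  have hPC := le_centralizer_of_ab hab ha.fst_le
  have h1 := hns.bot_sub hM le_rfl hC hPC
  have hns' : NS p ⊤ a (act x m) := by
    have := hns.act (x := x) (Subgroup.mem_top x)
    rwa [mem_stabP.1 hx] at this
  have hxN : cjS x a.1 = a.1 := congrArg Prod.fst (mem_stabP.1 hx)
  have hPC' : (act x m).1 ≤ Subgroup.centralizer (a.1 : Set G) := by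
    have := cjS_mono (x := x) hPC
    rwa [cjS_centralizer, hxN] at this
  have h2 := hns'.bot_sub hM le_rfl hC hPC'
  obtain ⟨c, hc, hcm⟩ := Terminal.conj h1 (htm.mono le_top) h2
    ((htm.act (Subgroup.mem_top x)).mono le_top)
  exact ⟨c, hc, by rw [mem_stabP, act_mul]; exact hcm⟩

theorem inf_normalizer_le_stabP_of_le {a m : FP M G} (ha : LE p ⊤ a m) :
    stabP m ⊓ Subgroup.normalizer (a.1 : Set G) ≤ stabP a := by
  intro y hy
  have h1 := ha.act (x := y) (Subgroup.mem_top y)
  rw [mem_stabP.1 hy.1] at h1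
  exact h1.unique ha (cjS_eq_self_iff.2 hy.2)

theorem relIndex_of_factor {A C T : Subgroup G} (hAT : A ≤ T) (hCT : C ≤ T)
    (hN : T ≤ Subgroup.normalizer (C : Set G))
    (hfac : ∀ x ∈ T, ∃ y ∈ A, ∃ c ∈ C, x = y * c) : C.relIndex T = C.relIndex A := by
  have hT : T = A ⊔ C := by
    apply le_antisymm
    · intro x hx
      obtain ⟨y, hy, c, hc, rfl⟩ := hfac x hx
      exact Subgroup.mul_mem _ (Subgroup.mem_sup_left hy) (Subgroup.mem_sup_right hc)
    · exact sup_le hAT hCT
  rw [hT]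
  letI := Subgroup.normal_subgroupOf_of_le_normalizer (hAT.trans hN)
  letI := Subgroup.normal_subgroupOf_sup_of_le_normalizer (hAT.trans hN)
  exact Nat.card_congr
    (QuotientGroup.quotientInfEquivProdNormalizerQuotient A C (hAT.trans hN)).toEquiv.symm

theorem s4682 (hM : IsPModular p M) {B : Set (IrrCharacter G)} {P Q : Subgroup G}
    {e : Set (IrrCharacter (Subgroup.centralizer (P : Set G)))}
    {f : Set (IrrCharacter (Subgroup.centralizer (Q : Set G)))}
    (hmax : IsMaximalBrauerPair p M B P e) (hab : ∀ x ∈ P, ∀ y ∈ P, x * y = y * x)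
    (hf : IsPBlock M f) (hle : SubpairLE p M Q f P e)
    (TQ : Subgroup G) (hTQ : ∀ y : G, y ∈ TQ ↔ y ∈ Subgroup.normalizer (Q : Set G) ∧
      StabilizesBlock (Subgroup.centralizer (Q : Set G)) f y)
    (TP : Subgroup G) (hTP : ∀ y : G, y ∈ TP ↔ y ∈ Subgroup.normalizer (P : Set G) ∧
      StabilizesBlock (Subgroup.centralizer (P : Set G)) e y) :
    (∀ x ∈ TQ, ∃ y ∈ TP, ∃ c ∈ Subgroup.centralizer (Q : Set G), x = y * c) ∧
    ((Subgroup.centralizer (Q : Set G)).subgroupOf TQ).index =
      ((TP ⊓ Subgroup.centralizer (Q : Set G)).subgroupOf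
        (TP ⊓ Subgroup.normalizer (Q : Set G))).index := by
  have hPe := hmax.1.1
  have hm := isPair_of_isBrauerPair hPe
  have htm := terminal_of_maximal hmax
  have ha := le_of_subpairLE hle
  have hpa := ha.isPair_left hm
  have eQ := eq_stabP hf hTQ
  have eP := eq_stabP hPe.2 hTP
  have hC : Subgroup.centralizer (Q : Set G) ≤ TQ := by
    have := hpa.cen_le_stabP
    rwa [cen_top, ← eQ] at this
  have key : ∀ x ∈ TQ, ∃ y ∈ TP, ∃ c ∈ Subgroup.centralizer (Q : Set G), x = y * c := by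
    intro x hx
    have hx' : x⁻¹ ∈ stabP ((Q, sbl M _ f) : FP M G) := by
      rw [← eQ]; exact TQ.inv_mem hx
    obtain ⟨c, hc, hcx⟩ := ab_factor hM ha hm htm hab hx'
    refine ⟨(c * x⁻¹)⁻¹, ?_, c, hc, by group⟩
    rw [eP]; exact Subgroup.inv_mem _ hcx
  refine ⟨key, ?_⟩
  have hA : TP ⊓ Subgroup.normalizer (Q : Set G) ≤ TQ := by
    rw [eP, eQ]; exact inf_normalizer_le_stabP_of_le ha
  have hTN : TQ ≤ Subgroup.normalizer (Q : Set G) := fun y hy => ((hTQ y).1 hy).1
  have h1 := relIndex_of_factor hA hC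
    (hTN.trans (normalizer_le_normalizer_centralizer Q)) (fun x hx => by
      obtain ⟨y, hy, c, hc, rfl⟩ := key x hx
      refine ⟨y, ⟨hy, ?_⟩, c, hc, rfl⟩
      have : y = y * c * c⁻¹ := by group
      rw [this]
      exact Subgroup.mul_mem _ (hTN hx)
        (Subgroup.inv_mem _ (centralizer_le_normalizer' Q hc)))
  show (Subgroup.centralizer (Q : Set G)).relIndex TQ =
    (TP ⊓ Subgroup.centralizer (Q : Set G)).relIndex (TP ⊓ Subgroup.normalizer (Q : Set G))
  rw [h1, ← Subgroup.inf_relIndex_right]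
  congr 1
  apply le_antisymm
  · exact fun y hy => ⟨hy.2.1, hy.1⟩
  · exact fun y hy => ⟨hy.2, hy.1, centralizer_le_normalizer' Q hy.2⟩

end

end Cfsg.Agent.Lib.Helper26.BP
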