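import Mathlib

/-!
# Group algebra as functions with convolution, truncation, conjugation and the Brauer map
-/

set_option autoImplicit false
set_option linter.unusedSectionVars false
set_option linter.unusedVariables false
set_option linter.style.haveILetI false

namespace Cfsg.Agent.Lib.Helper26.BP

noncomputable section
open Classical

/-- The group algebra of `G` over `k`, as functions with the convolution product. -/
def GA (k : Type*) (G : Type*) := G → k

namespace GA

variable {k : Type*} {G : Type*}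

instance [AddCommGroup k] : AddCommGroup (GA k G) := inferInstanceAs (AddCommGroup (G → k))

@[ext] theorem ext' {a b : GA k G} (h : ∀ g, a g = b g) : a = b := funext h

section addgrp
variable [AddCommGroup k]
@[simp] theorem add_apply (a b : GA k G) (g : G) : (a + b) g = a g + b g := rfl
@[simp] theorem zero_apply (g : G) : (0 : GA k G) g = 0 := rfl
@[simp] theorem neg_apply (a : GA k G) (g : G) : (-a) g = - a g := rfl
@[simp] theorem sub_apply (a b : GA k G) (g : G) : (a - b) g = a g - b g := rfl
theorem sum_apply {ι : Type*} (s : Finset ι) (f : ι → GA k G) (g : G) :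
    (∑ i ∈ s, f i) g = ∑ i ∈ s, f i g := by
  have : ∀ (F : ι → G → k), (∑ i ∈ s, F i) g = ∑ i ∈ s, F i g := fun F => Finset.sum_apply g s F
  exact this f
end addgrp

variable [CommRing k] [Group G] [Fintype G]

instance : Mul (GA k G) := ⟨fun a b x => ∑ g, a g * b (g⁻¹ * x)⟩
instance : One (GA k G) := ⟨fun g => if g = 1 then 1 else 0⟩

theorem mul_apply (a b : GA k G) (x : G) : (a * b) x = ∑ g, a g * b (g⁻¹ * x) := rfl
theorem one_apply (g : G) : (1 : GA k G) g = if g = 1 then 1 else 0 := rfl

theorem mul_assoc' (a b c : GA k G) : a * b * c = a * (b * c) := by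
  ext x
  simp only [mul_apply, Finset.sum_mul, Finset.mul_sum]
  rw [Finset.sum_comm]
  apply Finset.sum_congr rfl
  intro h _
  apply Fintype.sum_equiv (Equiv.mulLeft h⁻¹)
  intro g
  simp [mul_assoc]

instance : Ring (GA k G) :=
  { (inferInstance : AddCommGroup (GA k G)) with
    mul := (· * ·)
    one := 1
    left_distrib := fun a b c => by
      ext x; simp only [mul_apply, add_apply, mul_add, Finset.sum_add_distrib]
    right_distrib := fun a b c => by
      ext x; simp only [mul_apply, add_apply, add_mul, Finset.sum_add_distrib]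
    zero_mul := fun a => by ext x; simp [mul_apply]
    mul_zero := fun a => by ext x; simp [mul_apply]
    mul_assoc := mul_assoc'
    one_mul := fun a => by
      ext x
      rw [mul_apply, Finset.sum_eq_single 1]
      · simp [one_apply]
      · intro g _ hg; simp [one_apply, hg]
      · intro h; exact absurd (Finset.mem_univ _) h
    mul_one := fun a => by
      ext x
      rw [mul_apply, Finset.sum_eq_single x]
      · simp [one_apply]
      · intro g _ hg
        have : g⁻¹ * x ≠ 1 := by
          intro h; apply hg; rw [inv_mul_eq_one] at h; exact h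
        simp [one_apply, this]
      · intro h; exact absurd (Finset.mem_univ _) h }

end GA

open GA

variable {k : Type*} {G : Type*} [CommRing k] [Group G] [Fintype G]

/-- the conjugate subgroup `x K x⁻¹` -/
abbrev cjS (x : G) (K : Subgroup G) : Subgroup G := K.map (MulAut.conj x).toMonoidHom

theorem mem_cjS {x g : G} {K : Subgroup G} : g ∈ cjS x K ↔ x⁻¹ * g * x ∈ K := by
  constructor
  · rintro ⟨y, hy, rfl⟩
    simpa [mul_assoc] using hy
  · intro h
    exact ⟨_, h, by simp [mul_assoc]⟩

theorem cjS_one (K : Subgroup G) : cjS 1 K = K := by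
  ext g; rw [mem_cjS]; simp

theorem cjS_mul (x y : G) (K : Subgroup G) : cjS (x * y) K = cjS x (cjS y K) := by
  ext g; simp only [mem_cjS, mul_assoc, mul_inv_rev]

theorem cjS_mono {x : G} {K L : Subgroup G} (h : K ≤ L) : cjS x K ≤ cjS x L :=
  Subgroup.map_mono h

theorem cjS_le_iff {x : G} {K L : Subgroup G} : cjS x K ≤ cjS x L ↔ K ≤ L := by
  constructor
  · intro h g hg
    have : x * g * x⁻¹ ∈ cjS x K := by rw [mem_cjS]; simpa [mul_assoc] using hg
    have := h this
    rw [mem_cjS] at this; simpa [mul_assoc] using this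
  · exact cjS_mono

theorem cjS_inf (x : G) (K L : Subgroup G) : cjS x (K ⊓ L) = cjS x K ⊓ cjS x L := by
  ext g; simp only [mem_cjS, Subgroup.mem_inf]

theorem cjS_eq_self_of_mem {x : G} {K : Subgroup G} (hx : x ∈ K) : cjS x K = K := by
  ext g
  rw [mem_cjS]
  constructor
  · intro h
    have := K.mul_mem (K.mul_mem hx h) (K.inv_mem hx)
    simpa [mul_assoc] using this
  · intro h
    exact K.mul_mem (K.mul_mem (K.inv_mem hx) h) hx

theorem cjS_eq_self_iff {x : G} {K : Subgroup G} :
    cjS x K = K ↔ x ∈ Subgroup.normalizer (K : Set G) := by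
  rw [Subgroup.mem_normalizer_iff]
  constructor
  · intro h g
    constructor
    · intro hg
      rw [← h, mem_cjS]; simpa [mul_assoc] using hg
    · intro hg
      rw [← h, mem_cjS] at hg; simpa [mul_assoc] using hg
  · intro h
    ext g
    rw [mem_cjS, h (x⁻¹ * g * x)]
    simp [mul_assoc]

theorem cjS_centralizer (x : G) (K : Subgroup G) :
    cjS x (Subgroup.centralizer (K : Set G)) = Subgroup.centralizer ((cjS x K : Subgroup G) : Set G) := by
  ext g
  rw [mem_cjS, Subgroup.mem_centralizer_iff, Subgroup.mem_centralizer_iff]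
  constructor
  · intro h y hy
    have hy' : x⁻¹ * y * x ∈ K := mem_cjS.1 hy
    have := h _ hy'
    have h2 : x * (x⁻¹ * y * x * (x⁻¹ * g * x)) * x⁻¹ = x * (x⁻¹ * g * x * (x⁻¹ * y * x)) * x⁻¹ := by
      rw [this]
    simpa [mul_assoc] using h2
  · intro h y hy
    have hy' : x * y * x⁻¹ ∈ cjS x K := by rw [mem_cjS]; simpa [mul_assoc] using hy
    have := h _ hy'
    have h2 : x⁻¹ * (x * y * x⁻¹ * g) * x = x⁻¹ * (g * (x * y * x⁻¹)) * x := by rw [this]
    simpa [mul_assoc] using h2

theorem cjS_normalizer (x : G) (K : Subgroup G) :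
    cjS x (Subgroup.normalizer (K : Set G)) = Subgroup.normalizer ((cjS x K : Subgroup G) : Set G) := by
  ext g
  rw [mem_cjS, ← cjS_eq_self_iff, ← cjS_eq_self_iff, ← cjS_mul]
  constructor
  · intro h
    have : cjS x (cjS (x⁻¹ * g * x) K) = cjS x K := by rw [h]
    rw [← cjS_mul] at this
    simpa [mul_assoc] using this
  · intro h
    have : cjS x⁻¹ (cjS (g * x) K) = cjS x⁻¹ (cjS x K) := by rw [h]
    rw [← cjS_mul, ← cjS_mul] at this
    simpa [mul_assoc, cjS_one] using this

theorem card_cjS (x : G) (K : Subgroup G) : Nat.card (cjS x K) = Nat.card K :=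
  Subgroup.card_map_of_injective (MulAut.conj x).injective

theorem isPGroup_cjS {p : ℕ} {K : Subgroup G} (h : IsPGroup p K) (x : G) : IsPGroup p (cjS x K) :=
  h.map _

/-- conjugation by `x` on the group algebra -/
def cj (x : G) : GA k G →+* GA k G where
  toFun a := fun g => a (x⁻¹ * g * x)
  map_one' := by
    ext g
    have : x⁻¹ * g * x = 1 ↔ g = 1 := by
      constructor
      · intro h
        have : g = x * (x⁻¹ * g * x) * x⁻¹ := by simp [mul_assoc]
        rw [this, h]; simp
      · rintro rfl; simp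
    simp [one_apply, this]
  map_mul' a b := by
    ext g
    simp only [mul_apply]
    symm
    apply Fintype.sum_equiv (MulAut.conj x⁻¹).toEquiv
    intro h
    simp [mul_assoc]
  map_zero' := rfl
  map_add' _ _ := rfl

theorem cj_apply (x : G) (a : GA k G) (g : G) : cj x a g = a (x⁻¹ * g * x) := rfl

@[simp] theorem cj_one (a : GA k G) : cj (1 : G) a = a := by
  ext g; simp [cj_apply]

theorem cj_mul (x y : G) (a : GA k G) : cj (x * y) a = cj x (cj y a) := by
  ext g; simp [cj_apply, mul_assoc]

@[simp] theorem cj_inv_cj (x : G) (a : GA k G) : cj x⁻¹ (cj x a) = a := by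
  rw [← cj_mul]; simp

@[simp] theorem cj_cj_inv (x : G) (a : GA k G) : cj x (cj x⁻¹ a) = a := by
  rw [← cj_mul]; simp

theorem cj_injective (x : G) : Function.Injective (cj x : GA k G → GA k G) := by
  intro a b h
  have := congrArg (cj x⁻¹) h
  simpa using this

/-- truncation to a subgroup -/
def tr (K : Subgroup G) (a : GA k G) : GA k G := fun g => if g ∈ K then a g else 0

theorem tr_apply (K : Subgroup G) (a : GA k G) (g : G) : tr K a g = if g ∈ K then a g else 0 := rfl
theorem tr_of_mem {K : Subgroup G} (a : GA k G) {g : G} (h : g ∈ K) : tr K a g = a g := by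
  simp [tr_apply, h]
theorem tr_of_not_mem {K : Subgroup G} (a : GA k G) {g : G} (h : g ∉ K) : tr K a g = 0 := by
  simp [tr_apply, h]

@[simp] theorem tr_zero (K : Subgroup G) : tr K (0 : GA k G) = 0 := by
  ext g; simp [tr_apply]
theorem tr_add (K : Subgroup G) (a b : GA k G) : tr K (a + b) = tr K a + tr K b := by
  ext g; by_cases h : g ∈ K <;> simp [tr_apply, h]
theorem tr_sub (K : Subgroup G) (a b : GA k G) : tr K (a - b) = tr K a - tr K b := by
  ext g; by_cases h : g ∈ K <;> simp [tr_apply, h]
theorem tr_sum {ι : Type*} (K : Subgroup G) (s : Finset ι) (f : ι → GA k G) :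
    tr K (∑ i ∈ s, f i) = ∑ i ∈ s, tr K (f i) := by
  ext g
  by_cases h : g ∈ K <;> simp [tr_apply, h, GA.sum_apply]
theorem tr_one (K : Subgroup G) : tr K (1 : GA k G) = 1 := by
  ext g
  by_cases h : g ∈ K
  · simp [tr_apply, h]
  · have : g ≠ 1 := by rintro rfl; exact h K.one_mem
    simp [tr_apply, h, one_apply, this]
theorem tr_tr (K L : Subgroup G) (a : GA k G) : tr K (tr L a) = tr (K ⊓ L) a := by
  ext g
  by_cases h : g ∈ K <;> by_cases h' : g ∈ L <;> simp [tr_apply, h, h', Subgroup.mem_inf]

/-- supported in a subgroup -/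
def SuppIn (K : Subgroup G) (a : GA k G) : Prop := ∀ g, g ∉ K → a g = 0

theorem suppIn_tr (K : Subgroup G) (a : GA k G) : SuppIn K (tr K a) := fun g hg => tr_of_not_mem a hg
theorem SuppIn.tr_eq {K : Subgroup G} {a : GA k G} (h : SuppIn K a) : tr K a = a := by
  ext g; by_cases hg : g ∈ K
  · exact tr_of_mem a hg
  · rw [tr_of_not_mem a hg, h g hg]
theorem SuppIn.mono {K L : Subgroup G} {a : GA k G} (h : SuppIn K a) (hKL : K ≤ L) : SuppIn L a :=
  fun g hg => h g (fun h' => hg (hKL h'))
theorem SuppIn.tr {K : Subgroup G} {a : GA k G} (h : SuppIn K a) (L : Subgroup G) :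
    SuppIn K (tr L a) := by
  intro g hg
  by_cases h' : g ∈ L
  · rw [tr_of_mem a h', h g hg]
  · exact tr_of_not_mem a h'
theorem SuppIn.tr_inf {K : Subgroup G} {a : GA k G} (h : SuppIn K a) (L : Subgroup G) :
    SuppIn (K ⊓ L) (BP.tr L a) := by
  intro g hg
  by_cases h' : g ∈ L
  · rw [tr_of_mem a h']; exact h g (fun h'' => hg ⟨h'', h'⟩)
  · exact tr_of_not_mem a h'
theorem suppIn_zero (K : Subgroup G) : SuppIn K (0 : GA k G) := fun _ _ => rfl
theorem suppIn_one (K : Subgroup G) : SuppIn K (1 : GA k G) := by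
  intro g hg
  have : g ≠ 1 := by rintro rfl; exact hg K.one_mem
  simp [one_apply, this]
theorem SuppIn.add {K : Subgroup G} {a b : GA k G} (ha : SuppIn K a) (hb : SuppIn K b) :
    SuppIn K (a + b) := fun g hg => by simp [ha g hg, hb g hg]
theorem SuppIn.sub {K : Subgroup G} {a b : GA k G} (ha : SuppIn K a) (hb : SuppIn K b) :
    SuppIn K (a - b) := fun g hg => by simp [ha g hg, hb g hg]
theorem SuppIn.sum {ι : Type*} {K : Subgroup G} {s : Finset ι} {f : ι → GA k G}
    (h : ∀ i ∈ s, SuppIn K (f i)) : SuppIn K (∑ i ∈ s, f i) := by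
  intro g hg
  rw [GA.sum_apply]
  exact Finset.sum_eq_zero (fun i hi => h i hi g hg)
theorem SuppIn.mul {K : Subgroup G} {a b : GA k G} (ha : SuppIn K a) (hb : SuppIn K b) :
    SuppIn K (a * b) := by
  intro x hx
  rw [mul_apply]
  apply Finset.sum_eq_zero
  intro g _
  by_cases hg : g ∈ K
  · have : g⁻¹ * x ∉ K := by
      intro h
      apply hx
      have := K.mul_mem hg h
      simpa using this
    rw [hb _ this, mul_zero]
  · rw [ha g hg, zero_mul]
theorem SuppIn.pow {K : Subgroup G} {a : GA k G} (ha : SuppIn K a) (n : ℕ) : SuppIn K (a ^ n) := by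
  induction n with
  | zero => rw [pow_zero]; exact suppIn_one K
  | succ n ih => rw [pow_succ]; exact ih.mul ha

/-- invariant under conjugation by the elements of a subgroup -/
def Inv (K : Subgroup G) (a : GA k G) : Prop := ∀ x ∈ K, cj x a = a

theorem Inv.mono {K L : Subgroup G} {a : GA k G} (h : Inv L a) (hKL : K ≤ L) : Inv K a :=
  fun x hx => h x (hKL hx)
theorem inv_zero (K : Subgroup G) : Inv K (0 : GA k G) := fun x _ => map_zero _
theorem inv_one (K : Subgroup G) : Inv K (1 : GA k G) := fun x _ => map_one _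
theorem Inv.add {K : Subgroup G} {a b : GA k G} (ha : Inv K a) (hb : Inv K b) : Inv K (a + b) :=
  fun x hx => by rw [map_add, ha x hx, hb x hx]
theorem Inv.sub {K : Subgroup G} {a b : GA k G} (ha : Inv K a) (hb : Inv K b) : Inv K (a - b) :=
  fun x hx => by rw [map_sub, ha x hx, hb x hx]
theorem Inv.mul {K : Subgroup G} {a b : GA k G} (ha : Inv K a) (hb : Inv K b) : Inv K (a * b) :=
  fun x hx => by rw [map_mul, ha x hx, hb x hx]
theorem Inv.pow {K : Subgroup G} {a : GA k G} (ha : Inv K a) (n : ℕ) : Inv K (a ^ n) :=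
  fun x hx => by rw [map_pow, ha x hx]
theorem Inv.sum {ι : Type*} {K : Subgroup G} {s : Finset ι} {f : ι → GA k G}
    (h : ∀ i ∈ s, Inv K (f i)) : Inv K (∑ i ∈ s, f i) := by
  intro x hx
  rw [map_sum]
  exact Finset.sum_congr rfl (fun i hi => h i hi x hx)
theorem Inv.apply {K : Subgroup G} {a : GA k G} (h : Inv K a) {x : G} (hx : x ∈ K) (g : G) :
    a (x * g * x⁻¹) = a g := by
  have := congrFun (h x⁻¹ (K.inv_mem hx)) g
  rw [cj_apply] at this
  simpa using this
theorem Inv.apply' {K : Subgroup G} {a : GA k G} (h : Inv K a) {x : G} (hx : x ∈ K) (g : G) :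
    a (x⁻¹ * g * x) = a g := congrFun (h x hx) g

theorem cj_tr (x : G) (K : Subgroup G) (a : GA k G) : cj x (tr K a) = tr (cjS x K) (cj x a) := by
  ext g
  rw [cj_apply, tr_apply, tr_apply, cj_apply]
  simp only [mem_cjS]

theorem SuppIn.cj {K : Subgroup G} {a : GA k G} (h : SuppIn K a) (x : G) :
    SuppIn (cjS x K) (cj x a) := by
  intro g hg
  rw [cj_apply]
  exact h _ (fun h' => hg (mem_cjS.2 h'))

theorem Inv.cj {K : Subgroup G} {a : GA k G} (h : Inv K a) (x : G) :
    Inv (cjS x K) (BP.cj x a) := by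
  intro y hy
  rw [mem_cjS] at hy
  have := h _ hy
  rw [← cj_mul]
  have h2 : y * x = x * (x⁻¹ * y * x) := by simp [mul_assoc]
  rw [h2, cj_mul, this]

/-- truncation to a subgroup normalized by `L` preserves `L`-invariance -/
theorem Inv.tr {L K : Subgroup G} {a : GA k G} (h : Inv L a)
    (hLK : L ≤ Subgroup.normalizer (K : Set G)) : Inv L (BP.tr K a) := by
  intro x hx
  rw [cj_tr, h x hx, cjS_eq_self_iff.2 (hLK hx)]

/-- an element invariant under `K` commutes with everything supported on `K` -/
theorem comm_of_inv {K : Subgroup G} {a b : GA k G} (ha : Inv K a) (hb : SuppIn K b) :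
    a * b = b * a := by
  ext x
  rw [mul_apply, mul_apply]
  apply Fintype.sum_equiv ((Equiv.inv G).trans (Equiv.mulRight x))
  intro g
  simp only [Equiv.trans_apply, Equiv.inv_apply, Equiv.coe_mulRight]
  by_cases h : g⁻¹ * x ∈ K
  · have := ha.apply' h g
    have h2 : (g⁻¹ * x)⁻¹ * g * (g⁻¹ * x) = (g⁻¹ * x)⁻¹ * x := by simp [mul_assoc]
    rw [h2] at this
    rw [this, mul_comm]
  · rw [hb _ h]; simp

/-! ### fixed points of `p`-groups -/

theorem dvd_card_of_no_fixed' {p : ℕ} (hp : p.Prime) {Q : Type*} [Group Q] (hQ : IsPGroup p Q)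
    {X : Type*} (σ : Q →* Equiv.Perm X) (s : Finset X)
    (hs : ∀ q, ∀ x ∈ s, σ q x ∈ s) (hfix : ∀ x ∈ s, ∃ q, σ q x ≠ x) : p ∣ s.card := by
  haveI : Fact p.Prime := ⟨hp⟩
  letI : MulAction Q X := MulAction.compHom X σ
  let Y : SubMulAction Q X :=
    { carrier := {x | x ∈ s}
      smul_mem' := fun q x hx => hs q x hx }
  haveI : Finite Y := by
    have : Finite {x // x ∈ s} := inferInstance
    exact this
  have h1 := hQ.card_modEq_card_fixedPoints Y
  have h2 : IsEmpty (MulAction.fixedPoints Q Y) := by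
    constructor
    rintro ⟨⟨x, hx⟩, hfx⟩
    obtain ⟨q, hq⟩ := hfix x hx
    apply hq
    have := hfx q
    exact congrArg Subtype.val this
  have h3 : Nat.card (MulAction.fixedPoints Q Y) = 0 := by
    rw [Nat.card_eq_zero]; exact Or.inl h2
  have h4 : Nat.card Y = s.card := by
    have : Nat.card Y = Nat.card {x // x ∈ s} := rfl
    rw [this, Nat.card_eq_fintype_card, Fintype.card_coe]
  rw [h3, h4] at h1
  exact (Nat.modEq_zero_iff_dvd).1 h1

/-- Summing an invariant function over an invariant finite set: only the fixed points of a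
`p`-group matter in characteristic `p`. -/
theorem sum_fixed {p : ℕ} (hp : p.Prime) [CharP k p] {Q : Type*} [Group Q] (hQ : IsPGroup p Q)
    {X : Type*} (σ : Q →* Equiv.Perm X) (s : Finset X) (hs : ∀ q, ∀ x ∈ s, σ q x ∈ s)
    (F : X → k) (hF : ∀ q x, F (σ q x) = F x) [DecidablePred fun x => ∀ q, σ q x = x] :
    ∑ x ∈ s, F x = ∑ x ∈ s.filter (fun x => ∀ q, σ q x = x), F x := by
  rw [← Finset.sum_filter_add_sum_filter_not s (fun x => ∀ q, σ q x = x)]
  have : ∑ x ∈ s.filter (fun x => ¬ ∀ q, σ q x = x), F x = 0 := by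
    rw [Finset.sum_comp (fun v => v) F]
    apply Finset.sum_eq_zero
    intro v hv
    rw [nsmul_eq_mul]
    have : p ∣ (Finset.filter (fun x => F x = v) (s.filter (fun x => ¬ ∀ q, σ q x = x))).card := by
      apply dvd_card_of_no_fixed' hp hQ σ
      · intro q x hx
        simp only [Finset.mem_filter] at hx ⊢
        refine ⟨⟨hs q x hx.1.1, ?_⟩, by rw [hF]; exact hx.2⟩
        intro h
        apply hx.1.2
        intro q'
        have := h (q * q' * q⁻¹)
        rw [map_mul, map_mul, Equiv.Perm.mul_apply, Equiv.Perm.mul_apply, ← Equiv.Perm.mul_apply (σ q⁻¹),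
          ← map_mul] at this
        simp only [inv_mul_cancel, map_one, Equiv.Perm.one_apply] at this
        exact (σ q).injective this
      · intro x hx
        simp only [Finset.mem_filter] at hx
        exact not_forall.1 hx.1.2
    rw [(CharP.cast_eq_zero_iff k p _).2 this, zero_mul]
  rw [this, add_zero]

/-- conjugation action of a subgroup on the group -/
def conjPerm' (Q : Subgroup G) : Q →* Equiv.Perm G :=
  (MulAut.toPerm G).comp (MulAut.conj.comp Q.subtype)

theorem conjPerm'_apply (Q : Subgroup G) (q : Q) (x : G) :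
    conjPerm' Q q x = q * x * (q : G)⁻¹ := rfl

theorem conjPerm'_fixed_iff (Q : Subgroup G) (x : G) :
    (∀ q, conjPerm' Q q x = x) ↔ x ∈ Subgroup.centralizer (Q : Set G) := by
  rw [Subgroup.mem_centralizer_iff]
  constructor
  · intro h q hq
    have := h ⟨q, hq⟩
    rw [conjPerm'_apply] at this
    exact mul_inv_eq_iff_eq_mul.1 this
  · intro h q
    rw [conjPerm'_apply]
    exact mul_inv_eq_iff_eq_mul.2 (h q q.2)

/-- the Brauer map (truncation to the centralizer) -/
def br (P : Subgroup G) (a : GA k G) : GA k G := tr (Subgroup.centralizer (P : Set G)) a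

theorem br_mul {p : ℕ} (hp : p.Prime) [CharP k p] {P : Subgroup G} (hP : IsPGroup p P)
    {a b : GA k G} (ha : Inv P a) (hb : Inv P b) : br P (a * b) = br P a * br P b := by
  ext y
  by_cases hy : y ∈ Subgroup.centralizer (P : Set G)
  · rw [br, tr_of_mem _ hy, mul_apply, mul_apply]
    rw [sum_fixed hp hP (conjPerm' P) Finset.univ (fun _ _ _ => Finset.mem_univ _)
      (fun g => a g * b (g⁻¹ * y))]
    · rw [Finset.sum_filter]
      apply Finset.sum_congr rfl
      intro g _
      by_cases hg : g ∈ Subgroup.centralizer (P : Set G)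
      · have h2 : g⁻¹ * y ∈ Subgroup.centralizer (P : Set G) :=
          Subgroup.mul_mem _ (Subgroup.inv_mem _ hg) hy
        rw [if_pos ((conjPerm'_fixed_iff P g).2 hg), br, br, tr_of_mem _ hg, tr_of_mem _ h2]
      · rw [if_neg (fun h => hg ((conjPerm'_fixed_iff P g).1 h)), br, tr_of_not_mem _ hg, zero_mul]
    · intro q g
      rw [conjPerm'_apply, ha.apply q.2]
      have h2 : ((q : G) * g * (q : G)⁻¹)⁻¹ * y = (q : G) * (g⁻¹ * y) * (q : G)⁻¹ := by
        have := (Subgroup.mem_centralizer_iff.1 hy) q q.2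
        have h3 : y * (q : G)⁻¹ = (q : G)⁻¹ * y := by
          rw [eq_inv_mul_iff_mul_eq, ← mul_assoc, this, mul_assoc, mul_inv_cancel, mul_one]
        simp only [mul_inv_rev, inv_inv, mul_assoc]
        rw [h3]
      rw [h2, hb.apply q.2]
  · rw [br, tr_of_not_mem _ hy]
    symm
    exact ((suppIn_tr _ a).mul (suppIn_tr _ b)) y hy

theorem br_one (P : Subgroup G) : br P (1 : GA k G) = 1 := tr_one _
@[simp] theorem br_zero (P : Subgroup G) : br P (0 : GA k G) = 0 := tr_zero _
theorem br_add (P : Subgroup G) (a b : GA k G) : br P (a + b) = br P a + br P b := tr_add _ _ _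
theorem br_sum {ι : Type*} (P : Subgroup G) (s : Finset ι) (f : ι → GA k G) :
    br P (∑ i ∈ s, f i) = ∑ i ∈ s, br P (f i) := tr_sum _ _ _

theorem br_pow {p : ℕ} (hp : p.Prime) [CharP k p] {P : Subgroup G} (hP : IsPGroup p P)
    {a : GA k G} (ha : Inv P a) (n : ℕ) : br P (a ^ n) = (br P a) ^ n := by
  induction n with
  | zero => simp [br_one]
  | succ n ih => rw [pow_succ, br_mul hp hP (ha.pow n) ha, ih, pow_succ]

theorem cj_br (x : G) (P : Subgroup G) (a : GA k G) : cj x (br P a) = br (cjS x P) (cj x a) := by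
  rw [br, br, cj_tr, cjS_centralizer]

theorem br_eq_self {P : Subgroup G} {a : GA k G}
    (h : SuppIn (Subgroup.centralizer (P : Set G)) a) : br P a = a := h.tr_eq

/-- for `a` supported on `C(P)`: truncating to `C(D)` is truncating to `C(P ⊔ D)` -/
theorem br_sup {P D : Subgroup G} {a : GA k G}
    (h : SuppIn (Subgroup.centralizer (P : Set G)) a) : br (P ⊔ D) a = br D a := by
  ext g
  rw [br, br, tr_apply, tr_apply]
  by_cases hg : g ∈ Subgroup.centralizer (P : Set G)
  · have : g ∈ Subgroup.centralizer ((P ⊔ D : Subgroup G) : Set G) ↔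
        g ∈ Subgroup.centralizer (D : Set G) := by
      constructor
      · intro h'
        exact Subgroup.centralizer_le (by exact_mod_cast (le_sup_right : D ≤ P ⊔ D)) h'
      · intro h'
        have h1 : P ≤ Subgroup.centralizer ({g} : Set G) := by
          intro y hy
          rw [Subgroup.mem_centralizer_singleton_iff]
          exact ((Subgroup.mem_centralizer_iff.1 hg) y hy)
        have h2 : D ≤ Subgroup.centralizer ({g} : Set G) := by
          intro y hy
          rw [Subgroup.mem_centralizer_singleton_iff]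
          exact ((Subgroup.mem_centralizer_iff.1 h') y hy)
        rw [Subgroup.mem_centralizer_iff]
        intro y hy
        have := (sup_le h1 h2) hy
        rw [Subgroup.mem_centralizer_singleton_iff] at this
        exact this
    simp only [this]
  · rw [h g hg]; simp

end

end Cfsg.Agent.Lib.Helper26.BP
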