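import Cfsg.Agent.Lib.Helper26.BPLoc

/-!
# Applications: defect groups of the blocks in Brauer pairs below a maximal pair
-/

set_option autoImplicit false
set_option linter.unusedSectionVars false
set_option linter.unusedVariables false
set_option linter.style.haveILetI false

open Cfsg
open Cfsg.Agent.Lib.Helper7 Cfsg.Agent.Lib.Helper24

namespace Cfsg.Agent.Lib.Helper26.BP

noncomputable section
open Classical

universe u
variable {M : Ideal AlgInt} [M.IsPrime] {p : ℕ} [hp : Fact p.Prime]

theorem exists_defectGroup_ge {K : Type u} [Group K] [Fintype K] (hM : IsPModular p M)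
    {e : Set (IrrCharacter K)} (he : IsPBlock M e) {Q : Subgroup K} (hQ : IsPGroup p Q)
    (hbr : br Q (bl M e) ≠ 0) : ∃ D, IsDefectGroup p M e D ∧ Q ≤ D := by
  obtain ⟨g, hg⟩ := exists_defectClass he
  obtain ⟨t, P', hP'⟩ := defect_aux hM he hg hQ hbr
  refine ⟨_, isDefectGroup_conj ⟨g, hg, P', rfl⟩ t⁻¹, ?_⟩
  have := cjS_mono (x := t⁻¹) hP'
  rwa [cjS_inv_cjS] at this

variable {G : Type u} [Group G] [Fintype G]

theorem exists_defectGroup_ge' (hM : IsPModular p M) {K : Subgroup G}
    {e : Set (IrrCharacter K)} (he : IsPBlock M e) {R : Subgroup G} (hRK : R ≤ K)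
    (hR : IsPGroup p R) (hbr : br R (sbl M K e) ≠ 0) :
    ∃ D : Subgroup K, IsDefectGroup p M e D ∧ R.subgroupOf K ≤ D := by
  apply exists_defectGroup_ge hM he (hR.of_equiv (Subgroup.subgroupOfEquivOfLe hRK).symm)
  rw [br_bl_ne_zero_iff, Subgroup.map_subgroupOf_eq_of_le hRK]
  exact hbr

variable [CharP (resField M) p]

/-- the centralizer functor on pairs -/
def Kcen (b : FP M G) : Subgroup G := Subgroup.centralizer (b.1 : Set G)

theorem Kcen_le_stabP (b : FP M G) (hb : IsPair p ⊤ b) : Kcen b ≤ stabP b := by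
  have := hb.cen_le_stabP
  rwa [cen_top] at this

theorem Kcen_act (x : G) (b : FP M G) : Kcen (act x b) = cjS x (Kcen b) :=
  (cjS_centralizer x b.1).symm

theorem s4661 (hM : IsPModular p M) {B : Set (IrrCharacter G)} {P Q : Subgroup G}
    {e : Set (IrrCharacter (Subgroup.centralizer (P : Set G)))}
    {f : Set (IrrCharacter (Subgroup.centralizer (Q : Set G)))}
    (hmax : IsMaximalBrauerPair p M B P e) (hf : IsPBlock M f) (hle : SubpairLE p M Q f P e) :
    (∃ D : Subgroup (Subgroup.centralizer (Q : Set G)), IsDefectGroup p M f D ∧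
      (P ⊓ Subgroup.centralizer (Q : Set G)).subgroupOf (Subgroup.centralizer (Q : Set G)) ≤ D) ∧
    ∃ x : G, SubpairLE p M (Q.map (MulAut.conj x).toMonoidHom) (conjBlock Q x f) P e ∧
      IsDefectGroup p M (conjBlock Q x f)
        ((P ⊓ Subgroup.centralizer ((Q.map (MulAut.conj x).toMonoidHom) : Set G)).subgroupOf
          (Subgroup.centralizer ((Q.map (MulAut.conj x).toMonoidHom) : Set G))) := by
  have hPe := hmax.1.1
  have hB := hmax.1.2.1
  have hm := (isBrauerPairOf_iff hB hPe).1 hmax.1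
  have htm := terminal_of_maximal hmax
  have ha := le_of_subpairLE hle
  have hpa := ha.isPair_left hm.2.1
  constructor
  · exact exists_defectGroup_ge' hM hf inf_le_right (hPe.1.to_le inf_le_left)
      (ha.br_inf_ne_zero hm.2.1 (Kcen_le_stabP _ hpa))
  · obtain ⟨x, _, hxle, hdef⟩ := exists_conj_isDef hm htm ha Kcen Kcen_le_stabP
      (fun _ => le_top) (fun x _ b => Kcen_act x b)
    refine ⟨x, ?_, ?_⟩
    · rw [subpairLE_iff ⟨isPGroup_cjS hpa.pg x, isPBlock_conjBlock Q x hf⟩ hPe, sbl_conjBlock]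
      exact hxle
    · rw [isDefectGroup_subgroupOf_iff hM (isPBlock_conjBlock Q x hf) inf_le_right, sbl_conjBlock]
      exact hdef

end

end Cfsg.Agent.Lib.Helper26.BP
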