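import Cfsg.Agent.Lib.Helper26.BPStab

/-!
# Applications: the stabilizer of a Brauer pair
-/

set_option autoImplicit false
set_option linter.unusedSectionVars false
set_option linter.unusedVariables false
set_option linter.style.haveILetI false

open Cfsg
open Cfsg.Agent.Lib.Helper7 Cfsg.Agent.Lib.Helper24

namespace Cfsg.Agent.Lib.Helper26.BP

noncomputable section
open Classical

universe u
variable {M : Ideal AlgInt} [M.IsPrime] {p : ℕ} [hp : Fact p.Prime]
variable {G : Type u} [Group G] [Fintype G]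

theorem eq_stabP {Q T : Subgroup G} {f : Set (IrrCharacter (Subgroup.centralizer (Q : Set G)))}
    (hf : IsPBlock M f)
    (hT : ∀ y : G, y ∈ T ↔ y ∈ Subgroup.normalizer (Q : Set G) ∧
      StabilizesBlock (Subgroup.centralizer (Q : Set G)) f y) :
    T = stabP ((Q, sbl M _ f) : FP M G) := by
  ext y
  rw [hT, mem_stabP_iff, stabilizesBlock_iff hf]
  constructor
  · rintro ⟨h1, _, h2⟩
    exact ⟨h1, h2⟩
  · rintro ⟨h1, h2⟩
    exact ⟨h1, normalizer_le_normalizer_centralizer Q h1, h2⟩

theorem sbl_eq_of_coeff {C T : Subgroup G} (hCT : C ≤ T) {f : Set (IrrCharacter C)}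
    {F : Set (IrrCharacter T)} (h : ∀ t : T, blockCoeff F t = subgroupBlockCoeff C f (t : G)) :
    sbl M T F = sbl M C f := by
  ext g
  rw [sbl, sbl, red_apply, red_apply]
  by_cases hg : g ∈ T
  · rw [subgroupBlockCoeff_of_mem T F hg, h ⟨g, hg⟩]
  · rw [subgroupBlockCoeff_of_not_mem T F hg,
      subgroupBlockCoeff_of_not_mem C f (fun h' => hg (hCT h'))]

theorem centralizer_le_of_stab {Q T : Subgroup G}
    {f : Set (IrrCharacter (Subgroup.centralizer (Q : Set G)))} (hQf : IsBrauerPair p M Q f)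
    (hT : ∀ y : G, y ∈ T ↔ y ∈ Subgroup.normalizer (Q : Set G) ∧
      StabilizesBlock (Subgroup.centralizer (Q : Set G)) f y) :
    Subgroup.centralizer (Q : Set G) ≤ T := by
  have hTs := eq_stabP hQf.2 hT
  have := (isPair_of_isBrauerPair hQf).cen_le_stabP
  rw [cen_top] at this
  rw [hTs]; exact this

theorem exists_stab_block (hM : IsPModular p M) {Q T : Subgroup G}
    {f : Set (IrrCharacter (Subgroup.centralizer (Q : Set G)))} (hQf : IsBrauerPair p M Q f)
    (hT : ∀ y : G, y ∈ T ↔ y ∈ Subgroup.normalizer (Q : Set G) ∧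
      StabilizesBlock (Subgroup.centralizer (Q : Set G)) f y) :
    ∃ F : Set (IrrCharacter T), IsPBlock M F ∧
      ∀ t : T, blockCoeff F t = subgroupBlockCoeff (Subgroup.centralizer (Q : Set G)) f (t : G) := by
  have hTs := eq_stabP hQf.2 hT
  apply exists_block_of_stable hM hQf.1 hQf.2
  · rw [hTs]; exact (isPair_of_isBrauerPair hQf).self_le_stabP
  · exact centralizer_le_of_stab hQf hT
  · exact fun y hy => ((hT y).1 hy).1
  · exact fun y hy => ((hT y).1 hy).2

variable [CharP (resField M) p]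

theorem LE.inf_stabP_eq {H : Subgroup G} {a m : FP M G} (h : LE p H a m) (hm : IsPair p H m) :
    m.1 ⊓ stabP a = m.1 ⊓ Subgroup.normalizer (a.1 : Set G) :=
  le_antisymm (inf_le_inf_left _ (stabP_le_normalizer a))
    (le_inf inf_le_left (h.inf_normalizer_le_stabP hm))

theorem s4662 (hM : IsPModular p M) {B : Set (IrrCharacter G)} {P Q : Subgroup G}
    {e : Set (IrrCharacter (Subgroup.centralizer (P : Set G)))}
    {f : Set (IrrCharacter (Subgroup.centralizer (Q : Set G)))}
    (hmax : IsMaximalBrauerPair p M B P e) (hf : IsPBlock M f) (hle : SubpairLE p M Q f P e)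
    (T : Subgroup G) (hT : ∀ y : G, y ∈ T ↔ y ∈ Subgroup.normalizer (Q : Set G) ∧
      StabilizesBlock (Subgroup.centralizer (Q : Set G)) f y) :
    (∃ F : Set (IrrCharacter T), IsPBlock M F ∧
      (∀ t : T, blockCoeff F t = subgroupBlockCoeff (Subgroup.centralizer (Q : Set G)) f (t : G)) ∧
      ∃ D : Subgroup T, IsDefectGroup p M F D ∧
        (P ⊓ Subgroup.normalizer (Q : Set G)).subgroupOf T ≤ D) ∧
    ∃ x : G, SubpairLE p M (Q.map (MulAut.conj x).toMonoidHom) (conjBlock Q x f) P e ∧
      ∀ (T' : Subgroup G), (∀ y : G, y ∈ T' ↔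
        y ∈ Subgroup.normalizer ((Q.map (MulAut.conj x).toMonoidHom) : Set G) ∧
        StabilizesBlock (Subgroup.centralizer ((Q.map (MulAut.conj x).toMonoidHom) : Set G))
          (conjBlock Q x f) y) →
      ∃ F' : Set (IrrCharacter T'), IsPBlock M F' ∧
        (∀ t : T', blockCoeff F' t = subgroupBlockCoeff
          (Subgroup.centralizer ((Q.map (MulAut.conj x).toMonoidHom) : Set G))
          (conjBlock Q x f) (t : G)) ∧
        IsDefectGroup p M F'
          ((P ⊓ Subgroup.normalizer ((Q.map (MulAut.conj x).toMonoidHom) : Set G)).subgroupOf T') := by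
  have hPe := hmax.1.1
  have hB := hmax.1.2.1
  have hm := (isBrauerPairOf_iff hB hPe).1 hmax.1
  have htm := terminal_of_maximal hmax
  have ha := le_of_subpairLE hle
  have hpa := ha.isPair_left hm.2.1
  have hQf : IsBrauerPair p M Q f := ⟨hpa.pg, hf⟩
  constructor
  · obtain ⟨F, hF, hFc⟩ := exists_stab_block hM hQf hT
    refine ⟨F, hF, hFc, ?_⟩
    have hTs := eq_stabP hf hT
    apply exists_defectGroup_ge' hM hF _ (hPe.1.to_le inf_le_left)
    · rw [sbl_eq_of_coeff (centralizer_le_of_stab hQf hT) hFc]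
      have := ha.br_inf_ne_zero hm.2.1 (le_refl (stabP _))
      rwa [ha.inf_stabP_eq hm.2.1] at this
    · rw [hTs]; exact ha.inf_normalizer_le_stabP hm.2.1
  · obtain ⟨x, _, hxle, hdef⟩ := exists_conj_isDef hm htm ha stabP (fun _ _ => le_refl _)
      (fun _ => le_top) (fun x _ b => stabP_act x b)
    have hQf' : IsBrauerPair p M (Q.map (MulAut.conj x).toMonoidHom) (conjBlock Q x f) :=
      ⟨isPGroup_cjS hpa.pg x, isPBlock_conjBlock Q x hf⟩
    refine ⟨x, ?_, ?_⟩
    · rw [subpairLE_iff hQf' hPe, sbl_conjBlock]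
      exact hxle
    · intro T' hT'
      obtain ⟨F', hF', hFc'⟩ := exists_stab_block hM hQf' hT'
      refine ⟨F', hF', hFc', ?_⟩
      have hTs' := eq_stabP hQf'.2 hT'
      rw [sbl_conjBlock] at hTs'
      have hle' : P ⊓ Subgroup.normalizer ((Q.map (MulAut.conj x).toMonoidHom) : Set G) ≤ T' := by
        rw [hTs']; exact hxle.inf_normalizer_le_stabP hm.2.1
      rw [isDefectGroup_subgroupOf_iff hM hF' hle',
        sbl_eq_of_coeff (centralizer_le_of_stab hQf' hT') hFc', sbl_conjBlock, hTs']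
      have := hxle.inf_stabP_eq hm.2.1
      rw [this] at hdef
      exact hdef

end

end Cfsg.Agent.Lib.Helper26.BP
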