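import Cfsg.Agent.Lib.Helper26.BPRed
import Cfsg.Agent.Lib.Helper24.BlockTransport

/-!
# Block idempotents of subgroups inside the modular group algebra of the ambient group
-/

set_option autoImplicit false
set_option linter.unusedSectionVars false
set_option linter.unusedVariables false
set_option linter.style.haveILetI false

open Cfsg
open Cfsg.Agent.Lib.Helper7 Cfsg.Agent.Lib.Helper24

namespace Cfsg.Agent.Lib.Helper26.BP

noncomputable section
open Classical

universe u

section emb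
variable {k : Type*} [CommRing k] {G : Type u} [Group G] [Fintype G]

/-- extension by zero -/
def emb (K : Subgroup G) (a : GA k K) : GA k G := fun g => if h : g ∈ K then a ⟨g, h⟩ else 0

/-- restriction -/
def rs (K : Subgroup G) (a : GA k G) : GA k K := fun x => a x

variable (K : Subgroup G)

theorem emb_of_mem (a : GA k K) {g : G} (h : g ∈ K) : emb K a g = a ⟨g, h⟩ := dif_pos h
theorem emb_coe (a : GA k K) (x : K) : emb K a (x : G) = a x := by
  rw [emb_of_mem K a x.2]
theorem emb_of_not_mem (a : GA k K) {g : G} (h : g ∉ K) : emb K a g = 0 := dif_neg h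
theorem rs_apply (a : GA k G) (x : K) : rs K a x = a x := rfl
@[simp] theorem rs_emb (a : GA k K) : rs K (emb K a) = a := by
  ext x; rw [rs_apply, emb_coe]
theorem suppIn_emb (a : GA k K) : SuppIn K (emb K a) := fun g hg => emb_of_not_mem K a hg
variable {K}
theorem emb_rs {a : GA k G} (h : SuppIn K a) : emb K (rs K a) = a := by
  ext g
  by_cases hg : g ∈ K
  · rw [emb_of_mem K _ hg]; rfl
  · rw [emb_of_not_mem K _ hg, h g hg]
variable (K)
theorem emb_injective : Function.Injective (emb K : GA k K → GA k G) := by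
  intro a b h
  rw [← rs_emb K a, h, rs_emb]
theorem emb_zero : emb K (0 : GA k K) = 0 := by
  ext g; by_cases hg : g ∈ K
  · rw [emb_of_mem K _ hg]; rfl
  · rw [emb_of_not_mem K _ hg]; rfl
theorem emb_add (a b : GA k K) : emb K (a + b) = emb K a + emb K b := by
  ext g; by_cases hg : g ∈ K
  · rw [GA.add_apply, emb_of_mem K _ hg, emb_of_mem K _ hg, emb_of_mem K _ hg]; rfl
  · rw [GA.add_apply, emb_of_not_mem K _ hg, emb_of_not_mem K _ hg, emb_of_not_mem K _ hg, add_zero]
theorem emb_one : emb K (1 : GA k K) = 1 := by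
  ext g; by_cases hg : g ∈ K
  · rw [emb_of_mem K _ hg, GA.one_apply, GA.one_apply]
    have : (⟨g, hg⟩ : K) = 1 ↔ g = 1 := by
      rw [Subtype.ext_iff]; rfl
    simp only [this]
  · rw [emb_of_not_mem K _ hg, suppIn_one K g hg]
theorem sum_emb_mul (a : GA k K) (F : G → k) : ∑ g, emb K a g * F g = ∑ h : K, a h * F h := by
  have h1 : ∑ h : K, a h * F h = ∑ h : K, emb K a (h : G) * F (h : G) := by
    apply Finset.sum_congr rfl
    intro h _
    rw [emb_coe]
  rw [h1]
  have h3 := Finset.sum_image (s := (Finset.univ : Finset K)) (g := fun h : K => (h : G))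
    (f := fun g => emb K a g * F g) (fun a _ b _ hab => Subtype.ext hab)
  rw [← h3]
  symm
  apply Finset.sum_subset (Finset.subset_univ _)
  intro x _ hx
  have hxH : x ∉ K := by
    intro hm
    apply hx
    exact Finset.mem_image.2 ⟨⟨x, hm⟩, Finset.mem_univ _, rfl⟩
  rw [emb_of_not_mem K a hxH, zero_mul]
theorem emb_mul (a b : GA k K) : emb K (a * b) = emb K a * emb K b := by
  ext x
  rw [GA.mul_apply, sum_emb_mul K a (fun g => emb K b (g⁻¹ * x))]
  by_cases hx : x ∈ K
  · rw [emb_of_mem K _ hx, GA.mul_apply]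
    apply Finset.sum_congr rfl
    intro h _
    have : (h : G)⁻¹ * x = ((h⁻¹ * ⟨x, hx⟩ : K) : G) := rfl
    rw [this, emb_coe]
  · rw [emb_of_not_mem K _ hx]
    symm
    apply Finset.sum_eq_zero
    intro h _
    have : (h : G)⁻¹ * x ∉ K := by
      intro h'
      apply hx
      have := K.mul_mem h.2 h'
      simpa using this
    rw [emb_of_not_mem K _ this, mul_zero]
theorem emb_pow (a : GA k K) (n : ℕ) : emb K (a ^ n) = (emb K a) ^ n := by
  induction n with
  | zero => rw [pow_zero, pow_zero, emb_one]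
  | succ n ih => rw [pow_succ, pow_succ, emb_mul, ih]
theorem cj_emb (x : K) (a : GA k K) : cj (x : G) (emb K a) = emb K (cj x a) := by
  ext g
  rw [cj_apply]
  by_cases hg : g ∈ K
  · have h2 : (x : G)⁻¹ * g * x ∈ K := K.mul_mem (K.mul_mem (K.inv_mem x.2) hg) x.2
    rw [emb_of_mem K _ hg, emb_of_mem K _ h2, cj_apply]
    rfl
  · have h2 : (x : G)⁻¹ * g * x ∉ K := by
      intro h
      apply hg
      have := K.mul_mem (K.mul_mem x.2 h) (K.inv_mem x.2)
      simpa [mul_assoc] using this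
    rw [emb_of_not_mem K _ hg, emb_of_not_mem K _ h2]
variable {K}
theorem inv_emb {a : GA k K} (h : Inv ⊤ a) : Inv K (emb K a) := by
  intro x hx
  have := cj_emb K ⟨x, hx⟩ a
  rw [h _ (Subgroup.mem_top _)] at this
  exact this
theorem inv_rs {a : GA k G} (h : Inv K a) : Inv ⊤ (rs K a) := by
  intro x _
  ext g
  rw [cj_apply, rs_apply, rs_apply]
  exact h.apply' x.2 g
end emb

section blk
variable {M : Ideal AlgInt} [M.IsPrime] {G : Type u} [Group G] [Fintype G]

/-- the idempotent in `kG` of a set of irreducible characters of the subgroup `K` -/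
def sbl (M : Ideal AlgInt) [M.IsPrime] (K : Subgroup G) (e : Set (IrrCharacter K)) : KG M G :=
  red M (subgroupBlockCoeff K e)

theorem subgroupBlockCoeff_of_mem (K : Subgroup G) (e : Set (IrrCharacter K)) {g : G} (hg : g ∈ K) :
    subgroupBlockCoeff K e g = blockCoeff e ⟨g, hg⟩ := by
  unfold subgroupBlockCoeff
  exact dif_pos hg

theorem subgroupBlockCoeff_of_not_mem (K : Subgroup G) (e : Set (IrrCharacter K)) {g : G}
    (hg : g ∉ K) : subgroupBlockCoeff K e g = 0 := by
  unfold subgroupBlockCoeff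
  exact dif_neg hg

theorem sbl_eq_emb (K : Subgroup G) (e : Set (IrrCharacter K)) : sbl M K e = emb K (bl M e) := by
  ext g
  by_cases hg : g ∈ K
  · rw [emb_of_mem K _ hg, sbl, red_apply, subgroupBlockCoeff_of_mem K e hg]; rfl
  · rw [emb_of_not_mem K _ hg, sbl, red_apply, subgroupBlockCoeff_of_not_mem K e hg, resC_zero]

theorem memLocalRing_subgroupBlockCoeff {K : Subgroup G} {e : Set (IrrCharacter K)}
    (he : IsPBlock M e) (g : G) : MemLocalRing M (subgroupBlockCoeff K e g) := by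
  by_cases hg : g ∈ K
  · rw [subgroupBlockCoeff_of_mem K e hg]; exact osima he _
  · rw [subgroupBlockCoeff_of_not_mem K e hg]; exact memLocalRing_zero

/-- `ε` is the idempotent of a block of the subgroup `K` -/
def IsBlk (M : Ideal AlgInt) [M.IsPrime] (K : Subgroup G) (ε : KG M G) : Prop :=
  ∃ e : Set (IrrCharacter K), IsPBlock M e ∧ ε = sbl M K e

theorem isBlk_sbl {K : Subgroup G} {e : Set (IrrCharacter K)} (he : IsPBlock M e) :
    IsBlk M K (sbl M K e) := ⟨e, he, rfl⟩

theorem sbl_injective {K : Subgroup G} {e e' : Set (IrrCharacter K)} (he : IsPBlock M e)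
    (he' : IsPBlock M e') (h : sbl M K e = sbl M K e') : e = e' := by
  rw [sbl_eq_emb, sbl_eq_emb] at h
  exact bl_injective he he' (emb_injective K h)

variable {K : Subgroup G} {ε ε' : KG M G}

theorem IsBlk.supp (h : IsBlk M K ε) : SuppIn K ε := by
  obtain ⟨e, he, rfl⟩ := h
  rw [sbl_eq_emb]; exact suppIn_emb K _

theorem IsBlk.inv (h : IsBlk M K ε) : Inv K ε := by
  obtain ⟨e, he, rfl⟩ := h
  rw [sbl_eq_emb]; exact inv_emb (bl_inv e)

theorem IsBlk.idem (h : IsBlk M K ε) : ε * ε = ε := by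
  obtain ⟨e, he, rfl⟩ := h
  rw [sbl_eq_emb, ← emb_mul, bl_idem he]

theorem IsBlk.ne_zero (h : IsBlk M K ε) : ε ≠ 0 := by
  obtain ⟨e, he, rfl⟩ := h
  rw [sbl_eq_emb]
  intro h0
  rw [← emb_zero K] at h0
  exact bl_ne_zero he (emb_injective K h0)

theorem IsBlk.orth (h : IsBlk M K ε) (h' : IsBlk M K ε') (hne : ε ≠ ε') : ε * ε' = 0 := by
  obtain ⟨e, he, rfl⟩ := h
  obtain ⟨e', he', rfl⟩ := h'
  have : e ≠ e' := by rintro rfl; exact hne rfl
  rw [sbl_eq_emb, sbl_eq_emb, ← emb_mul, bl_orth he he' this, emb_zero]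

theorem IsBlk.local (h : IsBlk M K ε) {z : KG M G} (hzs : SuppIn K z) (hzi : Inv K z) :
    (∃ n, (z * ε) ^ n = 0) ∨ ∃ w, SuppIn K w ∧ Inv K w ∧ z * w = ε := by
  obtain ⟨e, he, rfl⟩ := h
  rw [sbl_eq_emb]
  rcases bl_local he (inv_rs hzi) with ⟨n, hn⟩ | ⟨w, hw, hzw⟩
  · left
    refine ⟨n, ?_⟩
    rw [← emb_rs hzs, ← emb_mul, ← emb_pow, hn, emb_zero]
  · right
    refine ⟨emb K w, suppIn_emb K w, inv_emb hw, ?_⟩
    rw [← emb_rs hzs, ← emb_mul, hzw]

theorem IsBlk.dichotomy (h : IsBlk M K ε) {a : KG M G} (has : SuppIn K a) (hai : Inv K a)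
    (hidem : a * a = a) : a * ε = ε ∨ a * ε = 0 := by
  obtain ⟨e, he, rfl⟩ := h
  rw [sbl_eq_emb]
  have hid : rs K a * rs K a = rs K a := by
    apply emb_injective K
    rw [emb_mul, emb_rs has, hidem]
  rcases mul_bl_dichotomy he (inv_rs hai) hid with h | h
  · left
    rw [← emb_rs has, ← emb_mul, h]
  · right
    rw [← emb_rs has, ← emb_mul, h, emb_zero]

theorem exists_isBlk {a : KG M G} (has : SuppIn K a) (hai : Inv K a)
    (hidem : a * a = a) (hne : a ≠ 0) : ∃ ε, IsBlk M K ε ∧ a * ε = ε := by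
  have hid : rs K a * rs K a = rs K a := by
    apply emb_injective K
    rw [emb_mul, emb_rs has, hidem]
  have hne' : rs K a ≠ 0 := by
    intro h
    apply hne
    rw [← emb_rs has, h, emb_zero]
  obtain ⟨e, he, h⟩ := exists_bl (inv_rs hai) hid hne'
  refine ⟨sbl M K e, isBlk_sbl he, ?_⟩
  rw [sbl_eq_emb, ← emb_rs has, ← emb_mul, h]

theorem IsBlk.comm (h : IsBlk M K ε) {b : KG M G} (hb : SuppIn K b) : ε * b = b * ε :=
  comm_of_inv h.inv hb

theorem finite_blks (M : Ideal AlgInt) [M.IsPrime] (K : Subgroup G) :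
    {ε : KG M G | IsBlk M K ε}.Finite := by
  haveI : Finite (IrrCharacter K) := inferInstance
  have : {ε : KG M G | IsBlk M K ε} ⊆ Set.range (fun e : Set (IrrCharacter K) => sbl M K e) := by
    rintro ε ⟨e, _, rfl⟩
    exact ⟨e, rfl⟩
  exact (Set.finite_range _).subset this

/-- the finite set of block idempotents of `K` -/
def blks (M : Ideal AlgInt) [M.IsPrime] (K : Subgroup G) : Finset (KG M G) :=
  (finite_blks M K).toFinset

theorem mem_blks : ε ∈ blks M K ↔ IsBlk M K ε := by
  simp [blks]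

theorem sum_blks_mul (h : IsBlk M K ε) : (∑ η ∈ blks M K, η) * ε = ε := by
  rw [Finset.sum_mul, Finset.sum_eq_single ε]
  · exact h.idem
  · intro η hη hne
    exact (mem_blks.1 hη).orth h hne
  · intro hn
    exact absurd (mem_blks.2 h) hn

theorem sum_blks (M : Ideal AlgInt) [M.IsPrime] (K : Subgroup G) : ∑ η ∈ blks M K, η = 1 := by
  set s : KG M G := ∑ η ∈ blks M K, η with hs
  have hss : SuppIn K s := SuppIn.sum (fun η hη => (mem_blks.1 hη).supp)
  have hsi : Inv K s := Inv.sum (fun η hη => (mem_blks.1 hη).inv)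
  have hid : s * s = s := by
    conv_lhs => rw [hs, Finset.mul_sum]
    rw [hs]
    apply Finset.sum_congr rfl
    intro η hη
    exact sum_blks_mul (mem_blks.1 hη)
  by_contra hne
  have h1 : (1 - s) * (1 - s) = 1 - s := by
    rw [mul_sub, sub_mul, sub_mul, hid]; simp
  have h2 : (1 : KG M G) - s ≠ 0 := fun h => hne (sub_eq_zero.1 h).symm
  obtain ⟨ε, hε, h3⟩ := exists_isBlk ((suppIn_one K).sub hss) ((inv_one K).sub hsi) h1 h2
  rw [sub_mul, one_mul, sum_blks_mul hε, sub_self] at h3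
  exact hε.ne_zero h3.symm

/-! ### conjugation -/

/-- conjugation by `x` as an isomorphism between a subgroup and its conjugate -/
def cjEquiv (x : G) {K K' : Subgroup G} (h : cjS x K = K') : K ≃* K' where
  toFun k := ⟨x * k * x⁻¹, by rw [← h, mem_cjS]; simpa [mul_assoc] using k.2⟩
  invFun k' := ⟨x⁻¹ * k' * x, mem_cjS.1 (h ▸ k'.2)⟩
  left_inv k := by ext; simp [mul_assoc]
  right_inv k' := by ext; simp [mul_assoc]
  map_mul' a b := by ext; simp [mul_assoc]

theorem cjEquiv_coe (x : G) {K K' : Subgroup G} (h : cjS x K = K') (k : K) :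
    ((cjEquiv x h k : K') : G) = x * k * x⁻¹ := rfl

theorem cjEquiv_symm_coe (x : G) {K K' : Subgroup G} (h : cjS x K = K') (k : K') :
    (((cjEquiv x h).symm k : K) : G) = x⁻¹ * k * x := rfl

/-- the conjugate of a set of irreducible characters -/
def cjBlk (x : G) {K K' : Subgroup G} (h : cjS x K = K') (e : Set (IrrCharacter K)) :
    Set (IrrCharacter K') := mapIrr (cjEquiv x h) ⁻¹' e

theorem isPBlock_cjBlk (x : G) {K K' : Subgroup G} (h : cjS x K = K') {e : Set (IrrCharacter K)}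
    (he : IsPBlock M e) : IsPBlock M (cjBlk x h e) := isPBlock_preimage _ he

theorem sbl_cjBlk (x : G) {K K' : Subgroup G} (h : cjS x K = K') (e : Set (IrrCharacter K)) :
    sbl M K' (cjBlk x h e) = cj x (sbl M K e) := by
  ext g
  rw [cj_apply, sbl, sbl, red_apply, red_apply]
  by_cases hg : g ∈ K'
  · have hg' : x⁻¹ * g * x ∈ K := by rw [← h, mem_cjS] at hg; exact hg
    rw [subgroupBlockCoeff_of_mem K' _ hg, subgroupBlockCoeff_of_mem K _ hg']
    have := blockCoeff_preimage (cjEquiv x h) e ⟨x⁻¹ * g * x, hg'⟩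
    have h2 : cjEquiv x h ⟨x⁻¹ * g * x, hg'⟩ = ⟨g, hg⟩ := by
      ext; rw [cjEquiv_coe]; simp [mul_assoc]
    rw [h2] at this
    rw [← this]; rfl
  · have hg' : x⁻¹ * g * x ∉ K := by rw [← h, mem_cjS] at hg; exact hg
    rw [subgroupBlockCoeff_of_not_mem K' _ hg, subgroupBlockCoeff_of_not_mem K _ hg']

theorem IsBlk.cj (h : IsBlk M K ε) (x : G) : IsBlk M (cjS x K) (cj x ε) := by
  obtain ⟨e, he, rfl⟩ := h
  exact ⟨cjBlk x rfl e, isPBlock_cjBlk x rfl he, (sbl_cjBlk x rfl e).symm⟩

theorem IsBlk.cj' (h : IsBlk M K ε) (x : G) {K' : Subgroup G} (hK : cjS x K = K') :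
    IsBlk M K' (BP.cj x ε) := hK ▸ h.cj x

theorem conjBlock_eq (Q : Subgroup G) (x : G)
    (f : Set (IrrCharacter (Subgroup.centralizer (Q : Set G)))) :
    conjBlock Q x f = cjBlk x (cjS_centralizer x Q) f := by
  ext ξ'
  constructor
  · rintro ⟨ξ, hξ, h⟩
    have : mapIrr (cjEquiv x (cjS_centralizer x Q)) ξ' = ξ := by
      apply Subtype.ext
      funext c
      rw [mapIrr_apply]
      exact h c _ (cjEquiv_coe x _ c)
    show mapIrr _ ξ' ∈ f
    rw [this]; exact hξ
  · intro h
    refine ⟨_, h, ?_⟩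
    intro c c' hc
    rw [mapIrr_apply]
    have : cjEquiv x (cjS_centralizer x Q) c = c' := by
      ext
      rw [cjEquiv_coe, hc]
    rw [this]

theorem sbl_conjBlock (Q : Subgroup G) (x : G)
    (f : Set (IrrCharacter (Subgroup.centralizer (Q : Set G)))) :
    sbl M _ (conjBlock Q x f) = cj x (sbl M _ f) := by
  rw [conjBlock_eq, sbl_cjBlk]

theorem isPBlock_conjBlock (Q : Subgroup G) (x : G)
    {f : Set (IrrCharacter (Subgroup.centralizer (Q : Set G)))} (hf : IsPBlock M f) :
    IsPBlock M (conjBlock Q x f) := by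
  rw [conjBlock_eq]; exact isPBlock_cjBlk x _ hf

theorem stabilizesBlock_iff {e : Set (IrrCharacter K)} (he : IsPBlock M e) (x : G) :
    StabilizesBlock K e x ↔
      x ∈ Subgroup.normalizer (K : Set G) ∧ cj x (sbl M K e) = sbl M K e := by
  constructor
  · rintro ⟨hx, h⟩
    refine ⟨hx, ?_⟩
    have hK := cjS_eq_self_iff.2 hx
    rw [← sbl_cjBlk x hK]
    congr 1
    have hb := isPBlock_cjBlk (M := M) x hK he
    obtain ⟨χ, hχ⟩ := isPBlock_nonempty he
    obtain ⟨χ', hχ', hc⟩ := h χ hχ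
    have h1 : χ' ∈ cjBlk x hK e := by
      have : mapIrr (cjEquiv x hK) χ' = χ := by
        apply Subtype.ext
        funext c
        rw [mapIrr_apply]
        exact hc c _ (cjEquiv_coe x _ c)
      show mapIrr _ χ' ∈ e
      rw [this]; exact hχ
    exact (isPBlock_eq_blockOf hb h1).trans (isPBlock_eq_blockOf he hχ').symm
  · rintro ⟨hx, h⟩
    refine ⟨hx, ?_⟩
    have hK := cjS_eq_self_iff.2 hx
    rw [← sbl_cjBlk x hK] at h
    have h2 := sbl_injective (isPBlock_cjBlk (M := M) x hK he) he h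
    intro χ hχ
    refine ⟨mapIrr (cjEquiv x hK).symm χ, ?_, ?_⟩
    · rw [← h2]
      show mapIrr _ (mapIrr _ χ) ∈ e
      rw [mapIrr_mapIrr_symm]; exact hχ
    · intro k k' hk
      rw [mapIrr_apply]
      have : (cjEquiv x hK).symm k' = k := by
        ext
        rw [cjEquiv_symm_coe, hk]; simp [mul_assoc]
      rw [this]

end blk


end

end Cfsg.Agent.Lib.Helper26.BP
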