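import Cfsg.Agent.Lib.Helper26.BPStab

/-!
# A block stable under a `p`-group has a stable conjugacy class in its support
-/

set_option autoImplicit false
set_option linter.unusedSectionVars false
set_option linter.unusedVariables false
set_option linter.style.haveILetI false

open Cfsg
open Cfsg.Agent.Lib.Helper7 Cfsg.Agent.Lib.Helper24

namespace Cfsg.Agent.Lib.Helper26.BP

noncomputable section
open Classical

universe u
variable {M : Ideal AlgInt} [M.IsPrime] {p : ℕ} [hp : Fact p.Prime]
variable {G : Type u} [Group G] [Fintype G]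

/-- the action of a normalizing subgroup on the conjugacy classes of `C` -/
def clsPerm {C U : Subgroup G} (hUN : U ≤ Subgroup.normalizer (C : Set G)) :
    U →* Equiv.Perm (ConjClasses C) where
  toFun u :=
    { toFun := ConjClasses.map (cjEquiv (u : G) (cjS_eq_self_iff.2 (hUN u.2))).toMonoidHom
      invFun := ConjClasses.map (cjEquiv (u : G) (cjS_eq_self_iff.2 (hUN u.2))).symm.toMonoidHom
      left_inv := by
        intro K
        obtain ⟨y, rfl⟩ := ConjClasses.mk_surjective K
        show ConjClasses.mk _ = ConjClasses.mk y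
        congr 1
        exact (cjEquiv (u : G) (cjS_eq_self_iff.2 (hUN u.2))).symm_apply_apply y
      right_inv := by
        intro K
        obtain ⟨y, rfl⟩ := ConjClasses.mk_surjective K
        show ConjClasses.mk _ = ConjClasses.mk y
        congr 1
        exact (cjEquiv (u : G) (cjS_eq_self_iff.2 (hUN u.2))).apply_symm_apply y }
  map_one' := by
    ext1 K
    obtain ⟨y, rfl⟩ := ConjClasses.mk_surjective K
    show ConjClasses.mk _ = ConjClasses.mk y
    congr 1
    ext
    show (1 : G) * y * (1 : G)⁻¹ = y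
    simp
  map_mul' u v := by
    ext1 K
    obtain ⟨y, rfl⟩ := ConjClasses.mk_surjective K
    show ConjClasses.mk _ = ConjClasses.mk _
    congr 1
    ext
    show ((u : G) * v) * y * ((u : G) * v)⁻¹ = (u : G) * ((v : G) * y * (v : G)⁻¹) * (u : G)⁻¹
    simp [mul_assoc]

theorem clsPerm_mk {C U : Subgroup G} (hUN : U ≤ Subgroup.normalizer (C : Set G)) (u : U) (y : C) :
    clsPerm hUN u (ConjClasses.mk y)
      = ConjClasses.mk (cjEquiv (u : G) (cjS_eq_self_iff.2 (hUN u.2)) y) := rfl

theorem exists_stable_class [CharP (resField M) p] {C U : Subgroup G} {e : Set (IrrCharacter C)}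
    (he : IsPBlock M e) (hU : IsPGroup p U) (hst : ∀ u ∈ U, StabilizesBlock C e u) :
    ∃ y : C, ¬ MemLocalIdeal M (blockCoeff e y) ∧
      ∀ u ∈ U, ∃ c : C, u * (y : G) * u⁻¹ = c * y * (c : G)⁻¹ := by
  haveI := Fintype.ofFinite (ConjClasses C)
  have hUN : U ≤ Subgroup.normalizer (C : Set G) := fun u hu => (hst u hu).1
  obtain ⟨ξ, hξ⟩ := isPBlock_nonempty he
  have h1 := Om_eq_sum_centralChar (isClassFunction_blockCoeff e) ξ
  rw [Om_blockCoeff, Set.indicator_of_mem hξ] at h1
  have hR : ∀ K : ConjClasses C,
      MemLocalRing M (blockCoeff e K.out * centralChar (ξ : C → ℂ) K.out) :=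
    fun K => memLocalRing_mul (osima he _) (memLocalRing_centralChar ξ _)
  have h2 : ∑ K : ConjClasses C, resC M (blockCoeff e K.out * centralChar (ξ : C → ℂ) K.out) = 1 := by
    rw [← resC_sum _ _ (fun K _ => hR K), ← h1, resC_one]
  have hinv : ∀ (u : U) (K : ConjClasses C),
      resC M (blockCoeff e (clsPerm hUN u K).out * centralChar (ξ : C → ℂ) (clsPerm hUN u K).out)
        = resC M (blockCoeff e K.out * centralChar (ξ : C → ℂ) K.out) := by
    intro u K
    set α := cjEquiv (u : G) (cjS_eq_self_iff.2 (hUN u.2)) with hα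
    have hc : IsConj (clsPerm hUN u K).out (α K.out) := by
      rw [← ConjClasses.mk_eq_mk_iff_isConj]
      have e1 : ConjClasses.mk (clsPerm hUN u K).out = clsPerm hUN u K := Quotient.out_eq _
      have e2 : ConjClasses.mk K.out = K := Quotient.out_eq K
      rw [e1]
      conv_lhs => rw [← e2]
      rfl
    have hstab : mapIrr α ⁻¹' e = e := cjBlk_eq_of_stabilizes he (hst u u.2)
    have b1 : blockCoeff e (clsPerm hUN u K).out = blockCoeff e K.out := by
      rw [classFunction_eq_of_isConj (isClassFunction_blockCoeff e) hc]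
      have := blockCoeff_preimage α e K.out
      rwa [hstab] at this
    have hmem : mapIrr α ξ ∈ e := by
      have : ξ ∈ mapIrr α ⁻¹' e := by rw [hstab]; exact hξ
      exact this
    have b2 : MemLocalIdeal M (centralChar (ξ : C → ℂ) (clsPerm hUN u K).out
        - centralChar (ξ : C → ℂ) K.out) := by
      obtain ⟨c, hc'⟩ := isConj_iff.1 hc.symm
      rw [← hc', centralChar_conj (isClassFunction_irr ξ), ← centralChar_comp α]
      exact sameBlock_of_mem he hmem hξ K.out
    rw [b1, resC_mul (osima he _) (memLocalRing_centralChar ξ _),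
      resC_mul (osima he _) (memLocalRing_centralChar ξ _),
      (resC_eq_iff (memLocalRing_centralChar ξ _) (memLocalRing_centralChar ξ _)).2 b2]
  rw [sum_fixed hp.out hU (clsPerm hUN) Finset.univ (fun _ _ _ => Finset.mem_univ _)
    (fun K => resC M (blockCoeff e K.out * centralChar (ξ : C → ℂ) K.out)) hinv] at h2
  obtain ⟨K, hK, hne⟩ := Finset.exists_ne_zero_of_sum_ne_zero (h2 ▸ one_ne_zero)
  rw [Finset.mem_filter] at hK
  refine ⟨K.out, ?_, ?_⟩
  · intro hm
    apply hne
    rw [resC_eq_zero_iff (hR K)]
    exact memLocalIdeal_mul_right hm (memLocalRing_centralChar ξ _)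
  · intro u hu
    have h3 := hK.2 ⟨u, hu⟩
    have e2 : ConjClasses.mk K.out = K := Quotient.out_eq K
    rw [← e2, clsPerm_mk, ConjClasses.mk_eq_mk_iff_isConj] at h3
    obtain ⟨c, hc⟩ := isConj_iff.1 h3.symm
    refine ⟨c, ?_⟩
    have := congrArg Subtype.val hc
    exact this.symm

end

end Cfsg.Agent.Lib.Helper26.BP
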