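import Cfsg.Agent.Lib.Helper26.BPPair

/-!
# Translation between the frozen definitions of Brauer pairs and the group algebra version
-/

set_option autoImplicit false
set_option linter.unusedSectionVars false
set_option linter.unusedVariables false
set_option linter.style.haveILetI false

open Cfsg
open Cfsg.Agent.Lib.Helper7 Cfsg.Agent.Lib.Helper24

namespace Cfsg.Agent.Lib.Helper26.BP

noncomputable section
open Classical

universe u
variable {M : Ideal AlgInt} [M.IsPrime] {G : Type u} [Group G] [Fintype G] {p : ℕ}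

/-- blocks of `G` and blocks of `⊤` -/
theorem sbl_top (B : Set (IrrCharacter G)) :
    sbl M ⊤ (mapIrr (Subgroup.topEquiv (G := G)).symm ⁻¹' B) = bl M B := by
  ext g
  rw [sbl, red_apply, subgroupBlockCoeff_of_mem _ _ (Subgroup.mem_top g), bl, red_apply]
  congr 1
  exact blockCoeff_preimage (Subgroup.topEquiv (G := G)).symm B g

theorem isBlk_top_bl {B : Set (IrrCharacter G)} (hB : IsPBlock M B) : IsBlk M ⊤ (bl M B) :=
  ⟨_, isPBlock_preimage _ hB, (sbl_top B).symm⟩

theorem exists_of_isBlk_top {β : KG M G} (h : IsBlk M ⊤ β) :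
    ∃ B : Set (IrrCharacter G), IsPBlock M B ∧ β = bl M B := by
  obtain ⟨f, hf, rfl⟩ := h
  refine ⟨mapIrr (Subgroup.topEquiv (G := G)) ⁻¹' f, isPBlock_preimage _ hf, ?_⟩
  ext g
  rw [sbl, red_apply, subgroupBlockCoeff_of_mem _ _ (Subgroup.mem_top g), bl, red_apply]
  congr 1
  exact (blockCoeff_preimage (Subgroup.topEquiv (G := G)) f ⟨g, Subgroup.mem_top g⟩).symm

theorem exists_of_isBlk_cen_top {Q : Subgroup G} {ε : KG M G} (h : IsBlk M (cen ⊤ Q) ε) :
    ∃ f : Set (IrrCharacter (Subgroup.centralizer (Q : Set G))), IsPBlock M f ∧ ε = sbl M _ f := by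
  rw [cen_top] at h
  exact h

theorem emb_red_resH (K : Subgroup G) (β : G → ℂ) :
    emb K (red M (resH K β)) = tr K (red M β) := by
  ext g
  by_cases hg : g ∈ K
  · rw [emb_of_mem K _ hg, tr_of_mem _ hg]; rfl
  · rw [emb_of_not_mem K _ hg, tr_of_not_mem _ hg]

/-- The central-character condition in the definition of Brauer pairs, in the group algebra. -/
theorem omega_iff {P : Subgroup G} {e : Set (IrrCharacter (Subgroup.centralizer (P : Set G)))}
    (he : IsPBlock M e) {β : G → ℂ} (hβR : ∀ g, MemLocalRing M (β g))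
    (hβc : ∀ x ∈ Subgroup.centralizer (P : Set G), ∀ g, β (x * g * x⁻¹) = β g)
    (hid : br P (red M β) * br P (red M β) = br P (red M β)) :
    (∀ ξ ∈ e, MemLocalIdeal M (brauerOmega P β
      (ξ : Subgroup.centralizer (P : Set G) → ℂ) - 1)) ↔
      br P (red M β) * sbl M _ e = sbl M _ e := by
  have hc : IsClassFunction (Subgroup.centralizer (P : Set G)) (resH (Subgroup.centralizer (P : Set G)) β) := fun g x => hβc x x.2 g
  have hcR : ∀ g, MemLocalRing M (resH (Subgroup.centralizer (P : Set G)) β g) := fun g => hβR g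
  have hemb : emb (Subgroup.centralizer (P : Set G)) (red M (resH (Subgroup.centralizer (P : Set G)) β)) = br P (red M β) := emb_red_resH (Subgroup.centralizer (P : Set G)) β
  have hid' : red M (resH (Subgroup.centralizer (P : Set G)) β) * red M (resH (Subgroup.centralizer (P : Set G)) β) = red M (resH (Subgroup.centralizer (P : Set G)) β) := by
    apply emb_injective _
    rw [emb_mul, hemb, hid]
  have key : ∀ ξ ∈ e, (MemLocalIdeal M (brauerOmega P β (ξ : Subgroup.centralizer (P : Set G) → ℂ) - 1) ↔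
      br P (red M β) * sbl M _ e = sbl M _ e) := by
    intro ξ hξ
    rw [brauerOmega_eq_Om, ← resC_eq_iff (memLocalRing_Om hc hcR ξ) memLocalRing_one, resC_one,
      ← omb_red hc hcR, ← mul_bl_eq_iff he (inv_red hc) hid' hξ, sbl_eq_emb, ← hemb, ← emb_mul]
    exact ⟨fun h => by rw [h], fun h => emb_injective _ h⟩
  constructor
  · intro h
    obtain ⟨ξ, hξ⟩ := isPBlock_nonempty he
    exact (key ξ hξ).1 (h ξ hξ)
  · intro h ξ hξ
    exact (key ξ hξ).2 h

theorem isPair_of_isBrauerPair {Q : Subgroup G}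
    {e : Set (IrrCharacter (Subgroup.centralizer (Q : Set G)))} (h : IsBrauerPair p M Q e) :
    IsPair p ⊤ ((Q, sbl M _ e) : FP M G) where
  le := le_top
  pg := h.1
  blk := by
    show IsBlk M (cen ⊤ Q) _
    rw [cen_top]; exact isBlk_sbl h.2

theorem isPair_bot {B : Set (IrrCharacter G)} (hB : IsPBlock M B) :
    IsPair p ⊤ ((⊥, bl M B) : FP M G) where
  le := le_top
  pg := IsPGroup.of_bot
  blk := by
    show IsBlk M (cen ⊤ ⊥) _
    rw [cen_bot]; exact isBlk_top_bl hB

theorem subgroupBlockCoeff_conj (K : Subgroup G) (e : Set (IrrCharacter K)) {x : G} (hx : x ∈ K)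
    (g : G) : subgroupBlockCoeff K e (x * g * x⁻¹) = subgroupBlockCoeff K e g := by
  by_cases hg : g ∈ K
  · rw [subgroupBlockCoeff_of_mem K e hg,
      subgroupBlockCoeff_of_mem K e (K.mul_mem (K.mul_mem hx hg) (K.inv_mem hx))]
    exact isClassFunction_blockCoeff e ⟨g, hg⟩ ⟨x, hx⟩
  · have : x * g * x⁻¹ ∉ K := by
      intro h
      apply hg
      have := K.mul_mem (K.mul_mem (K.inv_mem hx) h) hx
      simpa [mul_assoc] using this
    rw [subgroupBlockCoeff_of_not_mem K e hg, subgroupBlockCoeff_of_not_mem K e this]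

variable [hp : Fact p.Prime] [CharP (resField M) p]

theorem isBrauerPairOf_iff {B : Set (IrrCharacter G)} (hB : IsPBlock M B) {Q : Subgroup G}
    {e : Set (IrrCharacter (Subgroup.centralizer (Q : Set G)))} (hQe : IsBrauerPair p M Q e) :
    IsBrauerPairOf p M B Q e ↔ NS p ⊤ ((⊥, bl M B) : FP M G) (Q, sbl M _ e) := by
  have hinv : Inv Q (bl M B) := (bl_inv B).mono le_top
  have hom := omega_iff hQe.2 (β := blockCoeff B) (osima hB)
    (fun x _ g => isClassFunction_blockCoeff B g x) (br_idem hQe.1 hinv (bl_idem hB))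
  constructor
  · rintro ⟨_, _, h⟩
    refine ⟨isPair_bot hB, isPair_of_isBrauerPair hQe, bot_le, ?_, hinv, hom.1 h⟩
    intro x _
    rw [← cjS_eq_self_iff]
    exact Subgroup.map_bot _
  · intro h
    exact ⟨hQe, hB, hom.2 h.2.2.2.2.2⟩

theorem isNormalSubpair_iff {Q P : Subgroup G}
    {f : Set (IrrCharacter (Subgroup.centralizer (Q : Set G)))}
    {e : Set (IrrCharacter (Subgroup.centralizer (P : Set G)))}
    (hQf : IsBrauerPair p M Q f) (hPe : IsBrauerPair p M P e) :
    IsNormalSubpair p M Q f P e ↔ NS p ⊤ ((Q, sbl M _ f) : FP M G) (P, sbl M _ e) := by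
  have hom : Q ≤ P → Inv P (sbl M _ f) → ((∀ ξ ∈ e, MemLocalIdeal M (brauerOmega P
      (subgroupBlockCoeff (Subgroup.centralizer (Q : Set G)) f)
      (ξ : Subgroup.centralizer (P : Set G) → ℂ) - 1)) ↔
      br P (sbl M _ f) * sbl M _ e = sbl M _ e) := by
    intro hQP hinv
    exact omega_iff hPe.2 (memLocalRing_subgroupBlockCoeff hQf.2)
      (fun x hx g => subgroupBlockCoeff_conj _ f
        (Subgroup.centralizer_le (by exact_mod_cast hQP) hx) g)
      (br_idem hPe.1 hinv (isBlk_sbl hQf.2).idem)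
  constructor
  · rintro ⟨_, _, h1, h2, h3, h4⟩
    have hinv : Inv P (sbl M _ f) := fun x hx => ((stabilizesBlock_iff hQf.2 x).1 (h3 x hx)).2
    exact ⟨isPair_of_isBrauerPair hQf, isPair_of_isBrauerPair hPe, h1, h2, hinv,
      (hom h1 hinv).1 h4⟩
  · rintro ⟨_, _, h1, h2, h3, h4⟩
    refine ⟨hQf, hPe, h1, h2, ?_, (hom h1 h3).2 h4⟩
    intro x hx
    exact (stabilizesBlock_iff hQf.2 x).2
      ⟨normalizer_le_normalizer_centralizer Q (h2 hx), h3 x hx⟩

/-- the group algebra version of a Brauer pair -/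
def toF (a : BrauerPairIdx G) : FP M G := (a.1, sbl M _ a.2)

theorem le_of_subpairLE {Q P : Subgroup G}
    {f : Set (IrrCharacter (Subgroup.centralizer (Q : Set G)))}
    {e : Set (IrrCharacter (Subgroup.centralizer (P : Set G)))}
    (h : SubpairLE p M Q f P e) : LE p ⊤ ((Q, sbl M _ f) : FP M G) (P, sbl M _ e) := by
  have := Relation.ReflTransGen.lift (r := NormalSubpairRel p M) (p := NS p ⊤) (toF (M := M))
    (fun a b hab => (isNormalSubpair_iff hab.1 hab.2.1).1 hab) _ _ h
  exact this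

theorem subpairLE_of_le {P : Subgroup G}
    {e : Set (IrrCharacter (Subgroup.centralizer (P : Set G)))} {a : FP M G}
    (h : LE p ⊤ a (P, sbl M _ e)) (hPe : IsBrauerPair p M P e) :
    ∀ (Q : Subgroup G) (f : Set (IrrCharacter (Subgroup.centralizer (Q : Set G)))),
      IsBrauerPair p M Q f → a = (Q, sbl M _ f) → SubpairLE p M Q f P e := by
  induction h using Relation.ReflTransGen.head_induction_on with
  | refl =>
    intro Q f hQf heq
    have h1 : P = Q := congrArg Prod.fst heq
    subst h1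
    have h2 : sbl M _ e = sbl M _ f := congrArg Prod.snd heq
    rw [sbl_injective hPe.2 hQf.2 h2]
    exact Relation.ReflTransGen.refl
  | head hac hcb ih =>
    rename_i a c
    intro Q f hQf heq
    obtain ⟨g, hg, hcg⟩ := exists_of_isBlk_cen_top hac.2.1.blk
    have hRg : IsBrauerPair p M c.1 g := ⟨hac.2.1.pg, hg⟩
    have hc : c = (c.1, sbl M _ g) := Prod.ext rfl hcg
    have h1 := ih c.1 g hRg hc
    rw [heq, hc] at hac
    exact Relation.ReflTransGen.head (b := (⟨c.1, g⟩ : BrauerPairIdx G))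
      (show NormalSubpairRel p M ⟨Q, f⟩ ⟨c.1, g⟩ from (isNormalSubpair_iff hQf hRg).2 hac) h1

theorem subpairLE_iff {Q P : Subgroup G}
    {f : Set (IrrCharacter (Subgroup.centralizer (Q : Set G)))}
    {e : Set (IrrCharacter (Subgroup.centralizer (P : Set G)))}
    (hQf : IsBrauerPair p M Q f) (hPe : IsBrauerPair p M P e) :
    SubpairLE p M Q f P e ↔ LE p ⊤ ((Q, sbl M _ f) : FP M G) (P, sbl M _ e) :=
  ⟨le_of_subpairLE, fun h => subpairLE_of_le h hPe Q f hQf rfl⟩

end

end Cfsg.Agent.Lib.Helper26.BP
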