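import Cfsg.Agent.Lib.Helper26.BPTerm
import Cfsg.Agent.Lib.Helper26.BPTrans

/-!
# Defect groups through the Brauer map
-/

set_option autoImplicit false
set_option linter.unusedSectionVars false
set_option linter.unusedVariables false
set_option linter.style.haveILetI false

open Cfsg
open Cfsg.Agent.Lib.Helper7 Cfsg.Agent.Lib.Helper24

namespace Cfsg.Agent.Lib.Helper26.BP

noncomputable section
open Classical

universe u
variable {M : Ideal AlgInt} [M.IsPrime] {p : ℕ} [hp : Fact p.Prime]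

section grp
variable {K : Type u} [Group K] [Fintype K]

theorem bl_apply_ne_zero_iff {e : Set (IrrCharacter K)} (he : IsPBlock M e) (g : K) :
    bl M e g ≠ 0 ↔ ¬ MemLocalIdeal M (blockCoeff e g) := by
  rw [bl, red_apply, Ne, resC_eq_zero_iff (osima he g)]

theorem card_sylow_map (C : Subgroup K) (P : Sylow p C) :
    Nat.card ((P : Subgroup C).map C.subtype) = p ^ (Nat.card C).factorization p := by
  rw [Subgroup.card_map_of_injective C.subtype_injective]
  exact P.card_eq_multiplicity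

theorem defect_aux (hM : IsPModular p M) {e : Set (IrrCharacter K)} (he : IsPBlock M e) {g : K}
    (hg : IsDefectClass M e g) {Q : Subgroup K} (hQ : IsPGroup p Q) (hbr : br Q (bl M e) ≠ 0) :
    ∃ t : K, ∃ P : Sylow p (Subgroup.centralizer ({g} : Set K)),
      cjS t Q ≤ (P : Subgroup _).map (Subgroup.centralizer ({g} : Set K)).subtype := by
  obtain ⟨k, hk, hne⟩ := br_ne_zero_iff.1 hbr
  obtain ⟨χ, hχ⟩ := isPBlock_nonempty he
  have hQk : Q ≤ Subgroup.centralizer ({k} : Set K) := by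
    intro q hq
    rw [Subgroup.mem_centralizer_singleton_iff]
    exact ((Subgroup.mem_centralizer_iff.1 hk) q hq)
  obtain ⟨t, ht⟩ := minmax_le hM he (h := g) (k := k) ⟨χ, hχ, hg.2.2 χ hχ⟩
    ((bl_apply_ne_zero_iff he k).1 hne) Q hQ hQk
  obtain ⟨P, hP⟩ := exists_sylow_map_ge (p := p) _ _ (isPGroup_cjS hQ t) ht
  exact ⟨t, P, hP⟩

theorem br_ne_zero_of_defect {e : Set (IrrCharacter K)} (he : IsPBlock M e) {g : K}
    (hg : IsDefectClass M e g) (P : Subgroup (Subgroup.centralizer ({g} : Set K))) :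
    br (P.map (Subgroup.centralizer ({g} : Set K)).subtype) (bl M e) ≠ 0 := by
  apply br_ne_zero_iff.2
  refine ⟨g, ?_, (bl_apply_ne_zero_iff he g).2 hg.2.1⟩
  rw [Subgroup.mem_centralizer_iff]
  rintro _ ⟨d, _, rfl⟩
  have := d.2
  rw [Subgroup.mem_centralizer_singleton_iff] at this
  exact this

/-- Defect groups are the largest `p`-subgroups at which the block idempotent survives. -/
theorem isDefectGroup_iff (hM : IsPModular p M) {e : Set (IrrCharacter K)} (he : IsPBlock M e)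
    (D : Subgroup K) :
    IsDefectGroup p M e D ↔ IsPGroup p D ∧ br D (bl M e) ≠ 0 ∧
      ∀ Q : Subgroup K, IsPGroup p Q → br Q (bl M e) ≠ 0 → Nat.card Q ≤ Nat.card D := by
  constructor
  · rintro ⟨g, hg, P, rfl⟩
    refine ⟨P.isPGroup'.map _, br_ne_zero_of_defect he hg _, ?_⟩
    intro Q hQ hbr
    obtain ⟨t, P', hP'⟩ := defect_aux hM he hg hQ hbr
    have := Subgroup.card_le_of_le hP'
    rwa [card_cjS, card_sylow_map, ← card_sylow_map _ P] at this
  · rintro ⟨hD, hbr, hmax⟩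
    obtain ⟨g, hg⟩ := exists_defectClass he
    obtain ⟨t, P', hP'⟩ := defect_aux hM he hg hD hbr
    have h1 := hmax _ (P'.isPGroup'.map _) (br_ne_zero_of_defect he hg _)
    have h2 : cjS t D = (P' : Subgroup _).map (Subgroup.centralizer ({g} : Set K)).subtype :=
      Subgroup.eq_of_le_of_card_ge hP' (by rw [card_cjS]; exact h1)
    have h3 : IsDefectGroup p M e (cjS t D) := ⟨g, hg, P', h2⟩
    have := isDefectGroup_conj h3 t⁻¹
    rwa [show Subgroup.map (MulEquiv.toMonoidHom (MulAut.conj t⁻¹)) (cjS t D) = D from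
      cjS_inv_cjS t D] at this

end grp

variable {G : Type u} [Group G] [Fintype G]

/-- group algebra version of "defect group of the block `ε` of the subgroup `K`" -/
def IsDef (p : ℕ) (K : Subgroup G) (ε : KG M G) (D : Subgroup G) : Prop :=
  D ≤ K ∧ IsPGroup p D ∧ br D ε ≠ 0 ∧
    ∀ Q : Subgroup G, Q ≤ K → IsPGroup p Q → br Q ε ≠ 0 → Nat.card Q ≤ Nat.card D

theorem br_bl_ne_zero_iff {K : Subgroup G} (e : Set (IrrCharacter K)) (Q : Subgroup K) :
    br Q (bl M e) ≠ 0 ↔ br (Q.map K.subtype) (sbl M K e) ≠ 0 := by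
  rw [br_ne_zero_iff, br_ne_zero_iff, sbl_eq_emb]
  constructor
  · rintro ⟨y, hy, hne⟩
    refine ⟨y, ?_, by rwa [emb_coe]⟩
    rw [Subgroup.mem_centralizer_iff]
    rintro _ ⟨q, hq, rfl⟩
    have := (Subgroup.mem_centralizer_iff.1 hy) q hq
    exact congrArg Subtype.val this
  · rintro ⟨y, hy, hne⟩
    have hyK : y ∈ K := by
      by_contra h
      exact hne (emb_of_not_mem K _ h)
    refine ⟨⟨y, hyK⟩, ?_, by rwa [emb_of_mem K _ hyK] at hne⟩
    rw [Subgroup.mem_centralizer_iff]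
    intro q hq
    apply Subtype.ext
    exact (Subgroup.mem_centralizer_iff.1 hy) q ⟨q, hq, rfl⟩

theorem isDefectGroup_subgroupOf_iff (hM : IsPModular p M) {K : Subgroup G}
    {e : Set (IrrCharacter K)} (he : IsPBlock M e) {D : Subgroup G} (hD : D ≤ K) :
    IsDefectGroup p M e (D.subgroupOf K) ↔ IsDef p K (sbl M K e) D := by
  have hmap : ∀ Q : Subgroup G, Q ≤ K → (Q.subgroupOf K).map K.subtype = Q :=
    fun Q hQ => Subgroup.map_subgroupOf_eq_of_le hQ
  have hcard : ∀ Q : Subgroup G, Q ≤ K → Nat.card (Q.subgroupOf K) = Nat.card Q :=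
    fun Q hQ => Nat.card_congr (Subgroup.subgroupOfEquivOfLe hQ).toEquiv
  have hpg : ∀ Q : Subgroup G, Q ≤ K → (IsPGroup p (Q.subgroupOf K) ↔ IsPGroup p Q) :=
    fun Q hQ => ⟨fun h => h.of_equiv (Subgroup.subgroupOfEquivOfLe hQ),
      fun h => h.of_equiv (Subgroup.subgroupOfEquivOfLe hQ).symm⟩
  rw [isDefectGroup_iff hM he, br_bl_ne_zero_iff, hmap D hD, hpg D hD, hcard D hD]
  constructor
  · rintro ⟨h1, h2, h3⟩
    refine ⟨hD, h1, h2, ?_⟩
    intro Q hQK hQ hbr
    have := h3 (Q.subgroupOf K) ((hpg Q hQK).2 hQ) (by rw [br_bl_ne_zero_iff, hmap Q hQK]; exact hbr)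
    rwa [hcard Q hQK] at this
  · rintro ⟨_, h1, h2, h3⟩
    refine ⟨h1, h2, ?_⟩
    intro Q hQ hbr
    have hle : Q.map K.subtype ≤ K := by
      rintro _ ⟨q, _, rfl⟩; exact q.2
    have := h3 (Q.map K.subtype) hle (hQ.map _) ((br_bl_ne_zero_iff e Q).1 hbr)
    rwa [Subgroup.card_map_of_injective K.subtype_injective] at this

variable [CharP (resField M) p]

/-- A maximal Brauer pair is terminal. -/
theorem terminal_of_maximal {B : Set (IrrCharacter G)} {P : Subgroup G}
    {e : Set (IrrCharacter (Subgroup.centralizer (P : Set G)))}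
    (hmax : IsMaximalBrauerPair p M B P e) : Terminal p ⊤ ((P, sbl M _ e) : FP M G) := by
  by_contra ht
  have hPe := hmax.1.1
  have hB := hmax.1.2.1
  obtain ⟨⟨R, γ⟩, hab, hlt⟩ := exists_ns_of_not_terminal (isPair_of_isBrauerPair hPe) ht
  obtain ⟨g, hg, rfl⟩ := exists_of_isBlk_cen_top (Q := R) hab.2.1.blk
  have hRg : IsBrauerPair p M R g := ⟨hab.2.1.pg, hg⟩
  have h1 : IsBrauerPairOf p M B R g :=
    (isBrauerPairOf_iff hB hRg).2 (((isBrauerPairOf_iff hB hPe).1 hmax.1).bot_of_le hab.le)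
  have h2 := hmax.2 R g h1 ((subpairLE_iff hPe hRg).2 hab.le)
  exact hlt.ne h2.symm

theorem isDefectGroup_of_maximal (hM : IsPModular p M) {B : Set (IrrCharacter G)} {P : Subgroup G}
    {e : Set (IrrCharacter (Subgroup.centralizer (P : Set G)))}
    (hmax : IsMaximalBrauerPair p M B P e) : IsDefectGroup p M B P := by
  have hPe := hmax.1.1
  have hB := hmax.1.2.1
  have hns := (isBrauerPairOf_iff hB hPe).1 hmax.1
  rw [isDefectGroup_iff hM hB]
  refine ⟨hPe.1, hns.bot_br_ne_zero, ?_⟩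
  intro Q hQ hbr
  obtain ⟨t, _, ht⟩ := (terminal_of_maximal hmax).dominates hns.bot_blk hns.2.1 hns.2.2.2.2.2
    le_top hQ hbr
  have := Subgroup.card_le_of_le ht
  rwa [card_cjS] at this

theorem exists_conj_le_of_maximal {B : Set (IrrCharacter G)} {P Q : Subgroup G}
    {e : Set (IrrCharacter (Subgroup.centralizer (P : Set G)))}
    {f : Set (IrrCharacter (Subgroup.centralizer (Q : Set G)))}
    (hmax : IsMaximalBrauerPair p M B P e) (hQf : IsBrauerPairOf p M B Q f) :
    ∃ x : G, SubpairLE p M (Q.map (MulAut.conj x).toMonoidHom) (conjBlock Q x f) P e := by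
  have hPe := hmax.1.1
  have hB := hmax.1.2.1
  have hns := (isBrauerPairOf_iff hB hPe).1 hmax.1
  obtain ⟨x, _, hx⟩ := (terminal_of_maximal hmax).conj_le hns ((isBrauerPairOf_iff hB hQf.1).1 hQf)
  refine ⟨x, ?_⟩
  rw [subpairLE_iff ⟨isPGroup_cjS hQf.1.1 x, isPBlock_conjBlock Q x hQf.1.2⟩ hPe, sbl_conjBlock]
  exact hx

end

end Cfsg.Agent.Lib.Helper26.BP
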