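import Cfsg.Agent.Lib.Helper26.BPOrb

/-!
# Nilpotent blocks and normal subgroups of `p`-power index
-/

set_option autoImplicit false
set_option linter.unusedSectionVars false
set_option linter.unusedVariables false
set_option linter.style.haveILetI false

open Cfsg Cfsg.FusionSystem
open Cfsg.Agent.Lib.Helper7 Cfsg.Agent.Lib.Helper24

namespace Cfsg.Agent.Lib.Helper26.BP

noncomputable section
open Classical

universe u
variable {M : Ideal AlgInt} [M.IsPrime] {p : ℕ} [hp : Fact p.Prime]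
variable {G : Type u} [Group G] [Fintype G]

theorem IsBlk.down {H K' : Subgroup G} (hK : K' ≤ H) {ε : KG M G} (h : IsBlk M K' ε) :
    IsBlk M (K'.subgroupOf H) (rs H ε) := by
  obtain ⟨e, he, rfl⟩ := h
  let σ : K'.subgroupOf H ≃* K' := Subgroup.subgroupOfEquivOfLe hK
  refine ⟨mapIrr σ.symm ⁻¹' e, isPBlock_preimage σ.symm he, ?_⟩
  ext x
  rw [rs_apply]
  by_cases hx : (x : G) ∈ K'
  · have hx' : x ∈ K'.subgroupOf H := Subgroup.mem_subgroupOf.2 hx
    rw [sbl, sbl, red_apply, red_apply, subgroupBlockCoeff_of_mem _ _ hx,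
      subgroupBlockCoeff_of_mem _ _ hx']
    have := blockCoeff_preimage σ.symm e ⟨x, hx⟩
    have h2 : σ.symm ⟨x, hx⟩ = ⟨x, hx'⟩ := by
      apply σ.injective
      rw [MulEquiv.apply_symm_apply]
      rfl
    rw [h2] at this
    rw [this]
  · have hx' : x ∉ K'.subgroupOf H := fun h => hx (Subgroup.mem_subgroupOf.1 h)
    rw [sbl, sbl, red_apply, red_apply, subgroupBlockCoeff_of_not_mem _ _ hx,
      subgroupBlockCoeff_of_not_mem _ _ hx']

/-- pull a relative pair back to the group `↥H` -/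
def down (H : Subgroup G) (a : FP M G) : FP M H := (a.1.subgroupOf H, rs H a.2)

theorem up_down {H : Subgroup G} {a : FP M G} (h1 : a.1 ≤ H) (h2 : SuppIn H a.2) :
    up H (down H a) = a := by
  apply Prod.ext
  · exact Subgroup.map_subgroupOf_eq_of_le h1
  · exact emb_rs h2

theorem up_injective (H : Subgroup G) : Function.Injective (up (M := M) H) := by
  intro a b h
  apply Prod.ext
  · exact Subgroup.map_injective H.subtype_injective (congrArg Prod.fst h)
  · exact emb_injective H (congrArg Prod.snd h)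

theorem IsPair.down {H : Subgroup G} {a : FP M G} (h : IsPair p H a) :
    IsPair p ⊤ (down H a) where
  le := le_top
  pg := h.pg.of_equiv (Subgroup.subgroupOfEquivOfLe h.le).symm
  blk := by
    have h1 := h.blk.down (cen_le H a.1)
    have h2 : (cen H a.1).subgroupOf H = cen ⊤ (a.1.subgroupOf H) := by
      have h3 := cen_map (a.1.subgroupOf H)
      rw [Subgroup.map_subgroupOf_eq_of_le h.le] at h3
      rw [← h3]
      exact Subgroup.comap_map_eq_self_of_injective H.subtype_injective _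
    rw [h2] at h1
    exact h1

variable [CharP (resField M) p]

theorem relNil_of_isNilpotentBlock {H : Subgroup G} {F : Set (IrrCharacter H)}
    (hF : IsPBlock M F) (h : IsNilpotentBlock p M F) : RelNil p H (sbl M H F) := by
  rw [isNilpotentBlock_iff hF] at h
  intro a ha x hxH hxa hreg
  have hud := up_down ha.2.1.le ha.2.1.suppH
  have hns : NS p ⊤ ((⊥, bl M F) : FP M H) (down H a) := by
    refine ⟨isPair_bot hF, ha.2.1.down, bot_le, le_normalizer_bot _, (bl_inv F).mono le_top, ?_⟩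
    apply emb_injective H
    show emb H (br (a.1.subgroupOf H) (bl M F) * rs H a.2) = emb H (rs H a.2)
    rw [emb_mul, ← br_emb, Subgroup.map_subgroupOf_eq_of_le ha.2.1.le, ← sbl_eq_emb,
      emb_rs ha.2.1.suppH]
    exact ha.2.2.2.2.2
  have hx' : (⟨x, hxH⟩ : H) ∈ stabP (down H a) := by
    rw [mem_stabP]
    apply up_injective H
    rw [← act_up, hud]
    exact hxa
  have hreg' : IsPRegular p (⟨x, hxH⟩ : H) := by
    rw [IsPRegular, Subgroup.orderOf_mk]; exact hreg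
  have h1 := coe_mem_centralizer_map.2 (h _ hns _ hx' hreg')
  have h2 : ((down H a).1.map H.subtype : Subgroup G) = a.1 := congrArg Prod.fst hud
  rw [h2] at h1
  exact h1

theorem isPRegular_pow {x : G} (h : IsPRegular p x) (j : ℕ) : IsPRegular p (x ^ j) :=
  fun hd => h (hd.trans (orderOf_pow_dvd j))

theorem cj_pow_mem {Ω : Finset (KG M G)} {x : G} (hstab : ∀ o ∈ Ω, cj x o ∈ Ω) (j : ℕ) :
    ∀ o ∈ Ω, cj (x ^ j) o ∈ Ω := by
  induction j with
  | zero => intro o ho; simpa using ho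
  | succ j ih =>
    intro o ho
    rw [pow_succ, cj_mul]
    exact ih _ (hstab o ho)

/-- a `p`-regular element permuting a set of `p`-power size, whose powers centralize `R0` as soon
as they fix a point, centralizes `R0` -/
theorem mem_centralizer_of_orbit {R0 : Subgroup G} {x : G}
    (hxN : x ∈ Subgroup.normalizer (R0 : Set G)) (hreg : IsPRegular p x) (Ω : Finset (KG M G))
    (hcard : ∃ k : ℕ, Ω.card = p ^ k) (hstab : ∀ o ∈ Ω, cj x o ∈ Ω)
    (hfix : ∀ j : ℕ, ∀ o ∈ Ω, cj (x ^ j) o = o → x ^ j ∈ Subgroup.centralizer (R0 : Set G)) :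
    x ∈ Subgroup.centralizer (R0 : Set G) := by
  by_contra hx
  set α := R0.normalizerMonoidHom ⟨x, hxN⟩ with hαdef
  have hα : α ≠ 1 := fun h => hx ((normalizerMonoidHom_eq_one_iff _).1 h)
  have hord : orderOf α ≠ 1 := fun h => hα (orderOf_eq_one_iff.1 h)
  have hq : (orderOf α).minFac.Prime := Nat.minFac_prime hord
  have hqα : (orderOf α).minFac ∣ orderOf α := Nat.minFac_dvd _
  set q := (orderOf α).minFac with hqdef
  have hαx : orderOf α ∣ orderOf x := by
    refine (orderOf_map_dvd _ _).trans ?_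
    rw [← Subgroup.orderOf_coe]
  have hqp : q ≠ p := fun h => hreg (h ▸ hqα.trans hαx)
  obtain ⟨a, m, hm, hxm⟩ := Nat.exists_eq_pow_mul_and_not_dvd (orderOf_pos x).ne' q hq.ne_one
  have hm0 : m ≠ 0 := by rintro rfl; simp at hm
  have ho : orderOf (x ^ m) = q ^ a := by
    rw [orderOf_pow_of_dvd hm0 (hxm ▸ dvd_mul_left _ _), hxm,
      Nat.mul_div_cancel _ (Nat.pos_of_ne_zero hm0)]
  have hQ : IsPGroup q (Subgroup.zpowers (x ^ m)) :=
    IsPGroup.of_card (n := a) (by rw [Nat.card_zpowers, ho])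
  have hex : ∃ o ∈ Ω, ∀ z : Subgroup.zpowers (x ^ m), cj (z : G) o = o := by
    by_contra hcon
    push Not at hcon
    have h1 := dvd_card_of_no_fixed' hq hQ
      ((cjPerm (M := M) (G := G)).comp (Subgroup.zpowers (x ^ m)).subtype) Ω
      (by
        rintro ⟨z, hz⟩ o ho
        obtain ⟨j, rfl⟩ := (mem_powers_iff_mem_zpowers).2 hz
        show cj ((x ^ m) ^ j) o ∈ Ω
        rw [← pow_mul]
        exact cj_pow_mem hstab _ o ho)
      (fun o ho => hcon o ho)
    obtain ⟨k, hk⟩ := hcard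
    rw [hk] at h1
    exact hqp ((Nat.prime_dvd_prime_iff_eq hq hp.out).1 (hq.dvd_of_dvd_pow h1))
  obtain ⟨o, hoΩ, hfo⟩ := hex
  have h1 := hfix m o hoΩ (hfo ⟨x ^ m, Subgroup.mem_zpowers _⟩)
  have h2 : α ^ m = 1 := by
    rw [hαdef, ← map_pow, normalizerMonoidHom_eq_one_iff]
    exact h1
  exact hm (hqα.trans (orderOf_dvd_of_pow_eq_one h2))

/-- a `p`-regular element stabilizing the series `1 ≤ R0 ≤ R` of a `p`-group centralizes `R` -/
theorem centralizes_of_stability {R R0 : Subgroup G} (hR : IsPGroup p R) (hR0 : R0 ≤ R) {x : G}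
    (hreg : IsPRegular p x) (hx0 : x ∈ Subgroup.centralizer (R0 : Set G))
    (hcomm : ∀ r ∈ R, x * r * x⁻¹ * r⁻¹ ∈ R0) : x ∈ Subgroup.centralizer (R : Set G) := by
  rw [Subgroup.mem_centralizer_iff]
  intro r hr
  set z := x * r * x⁻¹ * r⁻¹ with hz
  have hzR0 := hcomm r hr
  have hxz : ∀ j : ℕ, x * z ^ j * x⁻¹ = z ^ j := by
    intro j
    have := (Subgroup.mem_centralizer_iff.1 hx0) (z ^ j) (R0.pow_mem hzR0 j)
    rw [← this]; group
  have key : ∀ j : ℕ, x ^ j * r * (x ^ j)⁻¹ = z ^ j * r := by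
    intro j
    induction j with
    | zero => simp
    | succ j ih =>
      calc x ^ (j + 1) * r * (x ^ (j + 1))⁻¹ = x * (x ^ j * r * (x ^ j)⁻¹) * x⁻¹ := by
            rw [pow_succ']; group
        _ = x * (z ^ j * r) * x⁻¹ := by rw [ih]
        _ = (x * z ^ j * x⁻¹) * (x * r * x⁻¹ * r⁻¹) * r := by group
        _ = z ^ j * z * r := by rw [hxz j]
        _ = z ^ (j + 1) * r := by rw [pow_succ]
  have h1 := key (orderOf x)
  rw [pow_orderOf_eq_one] at h1
  have h2 : z ^ orderOf x = 1 := by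
    have : r = z ^ orderOf x * r := by simpa using h1
    exact (mul_eq_right.1 this.symm)
  obtain ⟨k, hk⟩ := (IsPGroup.iff_orderOf.1 hR) ⟨z, hR0 hzR0⟩
  rw [Subgroup.orderOf_mk] at hk
  have h3 : orderOf z ∣ orderOf x := orderOf_dvd_of_pow_eq_one h2
  have hcop : Nat.Coprime (orderOf x) (p ^ k) :=
    Nat.Coprime.pow_right _ ((Nat.Prime.coprime_iff_not_dvd hp.out).2 hreg).symm
  have h4 : orderOf z = 1 := Nat.eq_one_of_dvd_coprimes hcop h3 (hk ▸ dvd_rfl)
  have h5 : z = 1 := orderOf_eq_one_iff.1 h4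
  have h6 : x * r * x⁻¹ * r⁻¹ = 1 := h5
  calc r * x = (x * r * x⁻¹ * r⁻¹)⁻¹ * (x * r) := by group
    _ = x * r := by rw [h6]; simp

theorem card_orbF_pgroup {U : Subgroup G} (hU : IsPGroup p U) (γ : KG M G) :
    ∃ k : ℕ, (orbF U γ).card = p ^ k := by
  letI : MulAction U (KG M G) := MulAction.compHom _ ((cjPerm (M := M) (G := G)).comp U.subtype)
  have horb : (MulAction.orbit U γ) = ((orbF U γ : Finset (KG M G)) : Set (KG M G)) := by
    ext o
    rw [Finset.mem_coe, mem_orbF, MulAction.mem_orbit_iff]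
    constructor
    · rintro ⟨u, rfl⟩
      exact ⟨u, u.2, rfl⟩
    · rintro ⟨t, ht, rfl⟩
      exact ⟨⟨t, ht⟩, rfl⟩
  haveI : Finite (MulAction.orbit U γ) := by rw [horb]; infer_instance
  obtain ⟨k, hk⟩ := hU.card_orbit γ
  refine ⟨k, ?_⟩
  rw [← hk, horb]
  simp

theorem exists_mul_of_sylIn {N X R : Subgroup G} [N.Normal] {k : ℕ} (hidx : N.index = p ^ k)
    (hRX : R ≤ X) (hR : SylIn p R X) : ∀ g ∈ X, ∃ r ∈ R, r⁻¹ * g ∈ N := by
  let f : X →* G ⧸ N := (QuotientGroup.mk' N).comp X.subtype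
  have hpq : IsPGroup p (G ⧸ N) := IsPGroup.of_card (n := k) (by rw [← hidx, Subgroup.index_eq_card])
  have h1 := hR.map f
  have hle : (R.subgroupOf X).map f ≤ f.range := by
    rintro _ ⟨r, _, rfl⟩; exact ⟨r, rfl⟩
  have h2 := (sylIn_iff_card hle).1 h1
  obtain ⟨j, hj⟩ := IsPGroup.iff_card.1 (hpq.to_subgroup f.range)
  rw [hj, Nat.Prime.factorization_pow hp.out, Finsupp.single_eq_same, ← hj] at h2
  have h4 : (R.subgroupOf X).map f = f.range := Subgroup.eq_of_le_of_card_ge hle h2.ge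
  intro g hg
  have h5 : f ⟨g, hg⟩ ∈ (R.subgroupOf X).map f := by rw [h4]; exact ⟨_, rfl⟩
  obtain ⟨r, hr, hrg⟩ := h5
  refine ⟨r, Subgroup.mem_subgroupOf.1 hr, ?_⟩
  have h6 : (QuotientGroup.mk' N) ((r : G)⁻¹ * g) = 1 := by
    have e1 : (QuotientGroup.mk' N) (r : G) = (QuotientGroup.mk' N) g := hrg
    rw [map_mul, map_inv, e1]
    exact inv_mul_cancel _
  exact (QuotientGroup.eq_one_iff _).1 h6

theorem cjS_normal (N : Subgroup G) [N.Normal] (t : G) : cjS t N = N :=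
  cjS_eq_self_iff.2 (Subgroup.normalizer_eq_top (H := N) ▸ Subgroup.mem_top t)

theorem cjS_cen_normal (N : Subgroup G) [N.Normal] {R : Subgroup G} {t : G}
    (ht : t ∈ Subgroup.normalizer (R : Set G)) : cjS t (cen N R) = cen N R := by
  rw [cen, cjS_inf, cjS_normal N, cjS_centralizer, cjS_eq_self_iff.2 ht]

theorem isPair_bot' {H : Subgroup G} {ε : KG M G} (h : IsBlk M H ε) :
    IsPair p H ((⊥, ε) : FP M G) :=
  ⟨bot_le, IsPGroup.of_bot, by show IsBlk M (cen H ⊥) ε; rw [cen_bot]; exact h⟩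

section main
variable {N : Subgroup G} [N.Normal] {ε : KG M G}

theorem relNil_sub_of_top (hM : IsPModular p M) (hreg : ∀ g : G, IsPRegular p g → g ∈ N)
    (hεG : IsBlk M ⊤ ε) (h : RelNil p ⊤ ε) : RelNil p N ε := by
  intro a ha x hxN hxa hreg'
  have hxa' := mem_stabP_iff.1 hxa
  have hKL : cen N a.1 ≤ cen ⊤ a.1 := inf_le_inf_right _ le_top
  have hLN : cen ⊤ a.1 ≤ Subgroup.normalizer ((cen N a.1 : Subgroup G) : Set G) := by
    intro t ht
    exact cjS_eq_self_iff.1 (cjS_cen_normal N (centralizer_le_normalizer' _ ht.2))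
  have hregL : ∀ g ∈ cen ⊤ a.1, IsPRegular p g → g ∈ cen N a.1 :=
    fun g hg hr => ⟨hreg g hr, hg.2⟩
  have hblk := isBlk_osum hM hKL hLN hregL ha.2.1.blk
  have hpa' : IsPair p ⊤ ((a.1, osum (cen ⊤ a.1) a.2) : FP M G) := ⟨le_top, ha.2.1.pg, hblk⟩
  have hns : NS p ⊤ ((⊥, ε) : FP M G) (a.1, osum (cen ⊤ a.1) a.2) := by
    refine ⟨isPair_bot' hεG, hpa', bot_le, le_normalizer_bot _, hεG.inv.mono le_top, ?_⟩
    exact mul_osum (br_inv (hεG.inv.mono le_top)) ha.2.2.2.2.2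
  have hx' : x ∈ stabP ((a.1, osum (cen ⊤ a.1) a.2) : FP M G) := by
    rw [mem_stabP_iff]
    refine ⟨hxa'.1, cj_osum (fun o ho => cj_mem_orbF ?_ ?_ ho)⟩
    · exact cjS_eq_self_iff.1 (cjS_cen_normal ⊤ hxa'.1)
    · rw [hxa'.2]; exact self_mem_orbF _ _
  exact h _ hns x (Subgroup.mem_top x) hx' hreg'

theorem relNil_top_of_sub (hM : IsPModular p M) {k : ℕ} (hidx : N.index = p ^ k)
    (hεN : IsBlk M N ε) (hεG : IsBlk M ⊤ ε) (h : RelNil p N ε) : RelNil p ⊤ ε := by
  have hreg : ∀ g : G, IsPRegular p g → g ∈ N :=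
    fun g hg => mem_of_regular_of_index hp.out N hidx hg
  intro a' ha' x _ hxa' hreg'
  have hxN : x ∈ N := hreg x hreg'
  have hxa := mem_stabP_iff.1 hxa'
  have hcjR0 : ∀ t ∈ Subgroup.normalizer (a'.1 : Set G), cjS t (a'.1 ⊓ N) = a'.1 ⊓ N := by
    intro t ht
    rw [cjS_inf, cjS_normal N, cjS_eq_self_iff.2 ht]
  have hRN0 : a'.1 ≤ Subgroup.normalizer ((a'.1 ⊓ N : Subgroup G) : Set G) :=
    fun r hr => cjS_eq_self_iff.1 (hcjR0 r (Subgroup.le_normalizer hr))
  obtain ⟨γ0', h0⟩ := exists_ns ha'.2.1 (Q := a'.1 ⊓ N) inf_le_left hRN0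
  have hxR0 : x ∈ Subgroup.normalizer ((a'.1 ⊓ N : Subgroup G) : Set G) :=
    cjS_eq_self_iff.1 (hcjR0 x hxa.1)
  have hx0 : x ∈ stabP ((a'.1 ⊓ N, γ0') : FP M G) := by
    have h1 := h0.act (x := x) (Subgroup.mem_top x)
    rw [mem_stabP.1 hxa'] at h1
    exact h1.unique h0 (hcjR0 x hxa.1)
  have hb0 : NS p ⊤ ((⊥, ε) : FP M G) (a'.1 ⊓ N, γ0') := ha'.bot_of_ge h0.le
  set R0 := a'.1 ⊓ N with hR0
  have hKL : cen N R0 ≤ cen ⊤ R0 := inf_le_inf_right _ le_top
  have hLN : cen ⊤ R0 ≤ Subgroup.normalizer ((cen N R0 : Subgroup G) : Set G) := by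
    intro t ht
    exact cjS_eq_self_iff.1 (cjS_cen_normal N (centralizer_le_normalizer' _ ht.2))
  have hregL : ∀ g ∈ cen ⊤ R0, IsPRegular p g → g ∈ cen N R0 :=
    fun g hg hr => ⟨hreg g hr, hg.2⟩
  obtain ⟨γ0, hγ0, hmul, hsum⟩ := exists_osum_eq hM hKL hLN hregL h0.1.blk
  have hsum' : γ0' = osum (cen ⊤ R0) γ0 := hsum
  have hmulo : ∀ o ∈ orbF (cen ⊤ R0) γ0, γ0' * o = o := by
    intro o ho
    rw [hsum']; exact osum_mul_of_mem hLN hγ0 ho
  have hpairs : ∀ o ∈ orbF (cen ⊤ R0) γ0, NS p N ((⊥, ε) : FP M G) (R0, o) := by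
    intro o ho
    have hob := isBlk_of_mem_orbF hLN hγ0 ho
    refine ⟨isPair_bot' hεN, ⟨inf_le_right, h0.1.pg, hob⟩, bot_le, le_normalizer_bot _,
      hεG.inv.mono le_top, ?_⟩
    have h1 := hmulo o ho
    have h2 : br R0 ε * γ0' = γ0' := hb0.2.2.2.2.2
    show br R0 ε * o = o
    calc br R0 ε * o = br R0 ε * (γ0' * o) := by rw [h1]
      _ = (br R0 ε * γ0') * o := (mul_assoc _ _ _).symm
      _ = γ0' * o := by rw [h2]
      _ = o := h1
  have hxΩ : ∀ o ∈ orbF (cen ⊤ R0) γ0, cj x o ∈ orbF (cen ⊤ R0) γ0 := by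
    intro o ho
    by_contra hn
    have hob := (isBlk_of_mem_orbF hLN hγ0 ho).cj' x (cjS_cen_normal N hxR0)
    have h1 := osum_mul_of_not_mem hLN hγ0 hob hn
    rw [← hsum'] at h1
    have h2 : γ0' * cj x o = cj x o := by
      have := congrArg (cj x) (hmulo o ho)
      rwa [map_mul, show cj x γ0' = γ0' from (mem_stabP_iff.1 hx0).2] at this
    rw [h2] at h1
    exact hob.ne_zero h1
  have hfix : ∀ j : ℕ, ∀ o ∈ orbF (cen ⊤ R0) γ0, cj (x ^ j) o = o →
      x ^ j ∈ Subgroup.centralizer (R0 : Set G) := by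
    intro j o ho hj
    exact h _ (hpairs o ho) (x ^ j) (N.pow_mem hxN j)
      (mem_stabP_iff.2 ⟨Subgroup.pow_mem _ hxR0 j, hj⟩) (isPRegular_pow hreg' j)
  have hcard : ∃ k : ℕ, (orbF (cen ⊤ R0) γ0).card = p ^ k := by
    obtain ⟨U, hUL, hU⟩ := exists_sylIn (p := p) (cen ⊤ R0)
    have e : orbF (cen ⊤ R0) γ0 = orbF U γ0 := by
      ext o
      rw [mem_orbF, mem_orbF]
      constructor
      · rintro ⟨t, ht, rfl⟩
        obtain ⟨r, hr, hrt⟩ := exists_mul_of_sylIn hidx hUL hU t ht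
        refine ⟨r, hr, ?_⟩
        have hK : r⁻¹ * t ∈ cen N R0 :=
          ⟨hrt, (Subgroup.mul_mem _ (Subgroup.inv_mem _ (hUL hr)) ht).2⟩
        have : t = r * (r⁻¹ * t) := by group
        conv_rhs => rw [this, cj_mul, hγ0.inv _ hK]
      · rintro ⟨t, ht, rfl⟩
        exact ⟨t, hUL ht, rfl⟩
    rw [e]
    exact card_orbF_pgroup (hU.isPGroup hUL) γ0
  have hxC0 := mem_centralizer_of_orbit hxR0 hreg' _ hcard hxΩ hfix
  refine centralizes_of_stability ha'.2.1.pg inf_le_left hreg' hxC0 (fun r hr => ⟨?_, ?_⟩)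
  · exact a'.1.mul_mem ((Subgroup.mem_normalizer_iff.1 hxa.1 r).1 hr) (a'.1.inv_mem hr)
  · have h1 : r * x⁻¹ * r⁻¹ ∈ N := (inferInstance : N.Normal).conj_mem _ (N.inv_mem hxN) r
    have h2 := N.mul_mem hxN h1
    have e : x * (r * x⁻¹ * r⁻¹) = x * r * x⁻¹ * r⁻¹ := by group
    rwa [e] at h2

end main

theorem s4692 (hM : IsPModular p M) (N : Subgroup G) [N.Normal] (hN : ∃ k : ℕ, N.index = p ^ k)
    (c : Set (IrrCharacter N)) (hc : IsPBlock M c) (B : Set (IrrCharacter G)) (hB : IsPBlock M B)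
    (hBc : ∀ g : G, blockCoeff B g = subgroupBlockCoeff N c g) :
    IsNilpotentBlock p M c ↔ IsNilpotentBlock p M B := by
  obtain ⟨k, hk⟩ := hN
  have e : bl M B = sbl M N c := by
    rw [bl, sbl]; congr 1; funext g; exact hBc g
  have hεG : IsBlk M ⊤ (sbl M N c) := e ▸ isBlk_top_bl hB
  have hεN : IsBlk M N (sbl M N c) := isBlk_sbl hc
  have hBiff : IsNilpotentBlock p M B ↔ RelNil p ⊤ (sbl M N c) := by
    rw [isNilpotentBlock_iff hB, e]
    exact ⟨fun h a ha x _ hx hr => h a ha x hx hr,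
      fun h a ha x hx hr => h a ha x (Subgroup.mem_top x) hx hr⟩
  rw [hBiff]
  constructor
  · intro h
    exact relNil_top_of_sub hM hk hεN hεG (relNil_of_isNilpotentBlock hc h)
  · intro h
    exact isNilpotentBlock_of_relNil hc (relNil_sub_of_top hM
      (fun g hg => mem_of_regular_of_index hp.out N hk hg) hεG h)

end

end Cfsg.Agent.Lib.Helper26.BP
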