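import Cfsg.Agent.Lib.Helper26.BPApp2
import Cfsg.Prelude.Def_BlockFusion

/-!
# The fusion system of a block: fully centralized, fully normalized and centric subgroups
-/

set_option autoImplicit false
set_option linter.unusedSectionVars false
set_option linter.unusedVariables false
set_option linter.style.haveILetI false

open Cfsg
open Cfsg.Agent.Lib.Helper7 Cfsg.Agent.Lib.Helper24

namespace Cfsg.Agent.Lib.Helper26.BP

noncomputable section
open Classical

universe u
variable {M : Ideal AlgInt} [M.IsPrime] {p : ℕ} [hp : Fact p.Prime]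
variable {G : Type u} [Group G] [Fintype G]

theorem isBrauerPair_left_of_subpairLE {Q P : Subgroup G}
    {f : Set (IrrCharacter (Subgroup.centralizer (Q : Set G)))}
    {e : Set (IrrCharacter (Subgroup.centralizer (P : Set G)))}
    (h : SubpairLE p M Q f P e) (hPe : IsBrauerPair p M P e) : IsBrauerPair p M Q f := by
  rcases Relation.ReflTransGen.cases_head h with h1 | ⟨c, hc, _⟩
  · cases h1
    exact hPe
  · exact hc.1

theorem range_conj (Q : Subgroup G) (g : G) {φ : Q →* G} (h : ∀ u : Q, φ u = g * (u : G) * g⁻¹) :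
    φ.range = cjS g Q := by
  ext y
  constructor
  · rintro ⟨u, rfl⟩
    rw [h, mem_cjS]
    simp [mul_assoc]
  · intro hy
    rw [mem_cjS] at hy
    refine ⟨⟨_, hy⟩, ?_⟩
    rw [h]; simp [mul_assoc]

variable [CharP (resField M) p]

theorem isConj_iff {B : Set (IrrCharacter G)} {P : Subgroup G}
    {e : Set (IrrCharacter (Subgroup.centralizer (P : Set G)))} {F : FusionSystem P}
    (hF : IsBlockFusionSystemOn p M B P e F) {Q : Subgroup G}
    {f : Set (IrrCharacter (Subgroup.centralizer (Q : Set G)))}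
    (hle : SubpairLE p M Q f P e) (Q' : Subgroup G) :
    F.IsConj Q Q' ↔ ∃ g : G, Q' = cjS g Q ∧
      LE p ⊤ (act g ((Q, sbl M _ f) : FP M G)) (P, sbl M _ e) := by
  have hPe := hF.1.1.1
  have hQf := isBrauerPair_left_of_subpairLE hle hPe
  constructor
  · rintro ⟨φ, hφ, rfl⟩
    obtain ⟨_, g, hg, _, f', h1, h2⟩ := (hF.2 Q φ).1 hφ
    have hQf' := isBrauerPair_left_of_subpairLE h1 hPe
    have h3 := LE.unique (le_of_subpairLE h1) (le_of_subpairLE hle) rfl
    have h4 : f' = f := sbl_injective hQf'.2 hQf.2 (congrArg Prod.snd h3)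
    subst h4
    refine ⟨g, range_conj Q g hg, ?_⟩
    have := le_of_subpairLE h2
    rwa [sbl_conjBlock] at this
  · rintro ⟨g, rfl, hg⟩
    refine ⟨conjHom Q g, ?_, range_conj Q g (fun _ => rfl)⟩
    rw [hF.2]
    refine ⟨(le_of_subpairLE hle).fst_le, g, fun _ => rfl, hg.fst_le, f, hle, ?_⟩
    rw [subpairLE_iff ⟨isPGroup_cjS hQf.1 g, isPBlock_conjBlock Q g hQf.2⟩ hPe, sbl_conjBlock]
    exact hg

theorem s4678 (hM : IsPModular p M) {B : Set (IrrCharacter G)} {P : Subgroup G}
    {e : Set (IrrCharacter (Subgroup.centralizer (P : Set G)))}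
    (hmax : IsMaximalBrauerPair p M B P e) {F : FusionSystem P}
    (hF : IsBlockFusionSystemOn p M B P e F) {Q : Subgroup G}
    {f : Set (IrrCharacter (Subgroup.centralizer (Q : Set G)))} (hQP : Q ≤ P)
    (hf : IsPBlock M f) (hle : SubpairLE p M Q f P e) :
    F.IsFullyCentralized Q ↔ IsDefectGroup p M f
      ((P ⊓ Subgroup.centralizer (Q : Set G)).subgroupOf (Subgroup.centralizer (Q : Set G))) := by
  have hPe := hmax.1.1
  have hB := hmax.1.2.1
  have hm := (isBrauerPairOf_iff hB hPe).1 hmax.1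
  have htm := terminal_of_maximal hmax
  have ha := le_of_subpairLE hle
  rw [isDefectGroup_subgroupOf_iff hM hf inf_le_right]
  have key := isDef_iff_forall_card_le hm htm ha Kcen Kcen_le_stabP
      (fun _ => le_top) (fun x _ b => Kcen_act x b)
  refine Iff.trans ?_ key.symm
  constructor
  · intro h x _ hx
    exact h.2 _ ((isConj_iff hF hle _).2 ⟨x, rfl, hx⟩)
  · intro h
    refine ⟨hQP, ?_⟩
    intro Q' hQ'
    obtain ⟨g, rfl, hg⟩ := (isConj_iff hF hle _).1 hQ'
    exact h g (Subgroup.mem_top g) hg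

theorem s4679 (hM : IsPModular p M) {B : Set (IrrCharacter G)} {P : Subgroup G}
    {e : Set (IrrCharacter (Subgroup.centralizer (P : Set G)))}
    (hmax : IsMaximalBrauerPair p M B P e) {F : FusionSystem P}
    (hF : IsBlockFusionSystemOn p M B P e F) {Q : Subgroup G}
    {f : Set (IrrCharacter (Subgroup.centralizer (Q : Set G)))} (hQP : Q ≤ P)
    (hf : IsPBlock M f) (hle : SubpairLE p M Q f P e) (T : Subgroup G)
    (hT : ∀ y : G, y ∈ T ↔ y ∈ Subgroup.normalizer (Q : Set G) ∧
      StabilizesBlock (Subgroup.centralizer (Q : Set G)) f y) :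
    F.IsFullyNormalized Q ↔ ∃ F' : Set (IrrCharacter T), IsPBlock M F' ∧
      (∀ t : T, blockCoeff F' t = subgroupBlockCoeff (Subgroup.centralizer (Q : Set G)) f (t : G)) ∧
      IsDefectGroup p M F' ((P ⊓ Subgroup.normalizer (Q : Set G)).subgroupOf T) := by
  have hPe := hmax.1.1
  have hB := hmax.1.2.1
  have hm := (isBrauerPairOf_iff hB hPe).1 hmax.1
  have htm := terminal_of_maximal hmax
  have ha := le_of_subpairLE hle
  have hpa := ha.isPair_left hm.2.1
  have hQf : IsBrauerPair p M Q f := ⟨hpa.pg, hf⟩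
  have hTs := eq_stabP hf hT
  have hleT : P ⊓ Subgroup.normalizer (Q : Set G) ≤ T := by
    rw [hTs]; exact ha.inf_normalizer_le_stabP hm.2.1
  have key := isDef_iff_forall_card_le hm htm ha stabP (fun _ _ => le_refl _)
      (fun _ => le_top) (fun x _ b => stabP_act x b)
  rw [ha.inf_stabP_eq hm.2.1] at key
  have key2 : F.IsFullyNormalized Q ↔
      IsDef p (stabP ((Q, sbl M _ f) : FP M G)) (sbl M _ f)
        (P ⊓ Subgroup.normalizer (Q : Set G)) := by
    refine Iff.trans ?_ key.symm
    constructor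
    · intro h x _ hx
      rw [hx.inf_stabP_eq hm.2.1]
      exact h.2 _ ((isConj_iff hF hle _).2 ⟨x, rfl, hx⟩)
    · intro h
      refine ⟨hQP, ?_⟩
      intro Q' hQ'
      obtain ⟨g, rfl, hg⟩ := (isConj_iff hF hle _).1 hQ'
      have := h g (Subgroup.mem_top g) hg
      rwa [hg.inf_stabP_eq hm.2.1] at this
  rw [key2]
  constructor
  · intro h
    obtain ⟨F', hF', hFc'⟩ := exists_stab_block hM hQf hT
    refine ⟨F', hF', hFc', ?_⟩
    rw [isDefectGroup_subgroupOf_iff hM hF' hleT,
      sbl_eq_of_coeff (centralizer_le_of_stab hQf hT) hFc', hTs]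
    exact h
  · rintro ⟨F', hF', hFc', h⟩
    rw [isDefectGroup_subgroupOf_iff hM hF' hleT,
      sbl_eq_of_coeff (centralizer_le_of_stab hQf hT) hFc', hTs] at h
    exact h

theorem s4680 (hM : IsPModular p M) {B : Set (IrrCharacter G)} {P : Subgroup G}
    {e : Set (IrrCharacter (Subgroup.centralizer (P : Set G)))}
    (hmax : IsMaximalBrauerPair p M B P e) {F : FusionSystem P}
    (hF : IsBlockFusionSystemOn p M B P e F) {Q : Subgroup G}
    {f : Set (IrrCharacter (Subgroup.centralizer (Q : Set G)))} (hQP : Q ≤ P)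
    (hf : IsPBlock M f) (hle : SubpairLE p M Q f P e) :
    F.IsCentric Q ↔ IsDefectGroup p M f
      ((Q ⊓ Subgroup.centralizer (Q : Set G)).subgroupOf (Subgroup.centralizer (Q : Set G))) := by
  have hPe := hmax.1.1
  have hB := hmax.1.2.1
  have hm := (isBrauerPairOf_iff hB hPe).1 hmax.1
  have htm := terminal_of_maximal hmax
  have ha := le_of_subpairLE hle
  have hpa := ha.isPair_left hm.2.1
  rw [isDefectGroup_subgroupOf_iff hM hf inf_le_right]
  constructor
  · intro h
    obtain ⟨x, _, hxle, hdef⟩ := exists_conj_isDef hm htm ha Kcen Kcen_le_stabP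
      (fun _ => le_top) (fun x _ b => Kcen_act x b)
    have h1 := h.2 _ ((isConj_iff hF hle _).2 ⟨x, rfl, hxle⟩)
    have h2 : P ⊓ Kcen (act x ((Q, sbl M _ f) : FP M G)) = cjS x (Q ⊓ Subgroup.centralizer (Q : Set G)) := by
      rw [cjS_inf, cjS_centralizer]
      apply le_antisymm
      · exact le_inf h1 inf_le_right
      · exact inf_le_inf_right _ hxle.fst_le
    rw [show ((P, sbl M _ e) : FP M G).1 = P from rfl, h2] at hdef
    have := hdef.cj x⁻¹
    rwa [cj_inv_cj, cjS_inv_cjS, Kcen_act, cjS_inv_cjS] at this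
  · intro h
    refine ⟨hQP, ?_⟩
    intro Q' hQ'
    obtain ⟨g, rfl, hg⟩ := (isConj_iff hF hle _).1 hQ'
    have h1 := hg.br_inf_ne_zero hm.2.1 (Kcen_le_stabP _ (hpa.act (Subgroup.mem_top g)))
    have h2 := (h.cj g).2.2.2 _ (by
      rw [cjS_centralizer]; exact inf_le_right) (hPe.1.to_le inf_le_left) h1
    have h3 : cjS g (Q ⊓ Subgroup.centralizer (Q : Set G)) ≤
        P ⊓ Kcen (act g ((Q, sbl M _ f) : FP M G)) := by
      rw [cjS_inf, cjS_centralizer]
      exact inf_le_inf_right _ hg.fst_le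
    have h4 := Subgroup.eq_of_le_of_card_ge h3 h2
    show P ⊓ Subgroup.centralizer ((cjS g Q : Subgroup G) : Set G) ≤ cjS g Q
    have h5 : P ⊓ Subgroup.centralizer ((cjS g Q : Subgroup G) : Set G)
        = cjS g (Q ⊓ Subgroup.centralizer (Q : Set G)) := h4.symm
    rw [h5]
    exact cjS_mono inf_le_left

end

end Cfsg.Agent.Lib.Helper26.BP
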