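import Cfsg.Agent.Lib.Helper26.BPNil4
import Cfsg.Agent.Lib.Helper7.BlockCover3

/-!
# Blocks and normal subgroups of `p`-power index
-/

set_option autoImplicit false
set_option linter.unusedSectionVars false
set_option linter.unusedVariables false
set_option linter.style.haveILetI false

open Cfsg Cfsg.FusionSystem
open Cfsg.Agent.Lib.Helper7 Cfsg.Agent.Lib.Helper24

namespace Cfsg.Agent.Lib.Helper26.BP

noncomputable section
open Classical

universe u
variable {M : Ideal AlgInt} [M.IsPrime] {p : ℕ} [hp : Fact p.Prime]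
variable {G : Type u} [Group G] [Fintype G]

theorem exists_block_of_stable' (hM : IsPModular p M) {C T : Subgroup G}
    {f : Set (IrrCharacter C)} (hf : IsPBlock M f) (hCT : C ≤ T)
    (hst : ∀ t ∈ T, StabilizesBlock C f t)
    (hsuppAll : ∀ F : Set (IrrCharacter T), IsPBlock M F → SuppIn C (sbl M T F)) :
    ∃ F : Set (IrrCharacter T), IsPBlock M F ∧
      ∀ t : T, blockCoeff F t = subgroupBlockCoeff C f (t : G) := by
  set φ : G → ℂ := subgroupBlockCoeff C f with hφ
  have hφR : ∀ g, MemLocalRing M (φ g) := memLocalRing_subgroupBlockCoeff hf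
  have hφT : ∀ g, g ∉ T → φ g = 0 := fun g hg =>
    subgroupBlockCoeff_of_not_mem _ f (fun h => hg (hCT h))
  have hac : IsClassFunction T (resH T φ) := by
    intro g t
    have := subgroupBlockCoeff_stable hf (hst _ (T.inv_mem t.2)) (g : G)
    simpa [resH] using this
  have haR : ∀ t, MemLocalRing M (resH T φ t) := fun t => hφR t
  have hext : extendByZero T (resH T φ) = φ := by
    funext g
    by_cases hg : g ∈ T
    · rw [ext_of_mem T _ hg]; rfl
    · rw [ext_of_not_mem T _ hg, hφT g hg]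
  have hconv : conv (resH T φ) (resH T φ) = resH T φ := by
    have h1 : extendByZero T (conv (resH T φ) (resH T φ)) = φ := by
      rw [← conv_ext_ext, hext, hφ, subgroupBlockCoeff_eq_ext, conv_ext_ext, conv_blockCoeff,
        Set.inter_self]
    funext t
    rw [← ext_coe T (conv (resH T φ) (resH T φ)) t, h1]; rfl
  -- the set of characters
  set A : Set (IrrCharacter T) := {χ | Om (resH T φ) χ = 1} with hA
  have hOm : Om (resH T φ) = A.indicator (fun _ => (1 : ℂ)) := by
    funext χ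
    have h1 : Om (resH T φ) χ * Om (resH T φ) χ = Om (resH T φ) χ := by
      have := congrFun (Om_conv hac (resH T φ)) χ
      rw [hconv] at this
      exact this.symm
    by_cases hχ : χ ∈ A
    · rw [Set.indicator_of_mem hχ]; exact hχ
    · rw [Set.indicator_of_notMem hχ]
      have h2 : Om (resH T φ) χ * (Om (resH T φ) χ - 1) = 0 := by rw [mul_sub, h1]; ring
      rcases mul_eq_zero.1 h2 with h | h
      · exact h
      · exact absurd (sub_eq_zero.1 h) hχ
  have haA : resH T φ = blockCoeff A := by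
    apply Om_injective hac (isClassFunction_blockCoeff A)
    rw [hOm, Om_blockCoeff]
  have hAR : ∀ t, MemLocalRing M (blockCoeff A t) := fun t => haA ▸ haR t
  have hsblA : sbl M T A = sbl M _ f := by
    rw [sbl, sbl, subgroupBlockCoeff_eq_ext T A, ← haA, hext]
  have hAne : A.Nonempty := by
    by_contra h
    rw [Set.not_nonempty_iff_eq_empty] at h
    apply (isBlk_sbl hf).ne_zero
    rw [← hsblA, h, sbl_eq_emb, bl, blockCoeff_empty, red_zero, emb_zero]
  obtain ⟨χ, hχ⟩ := hAne
  have hF : IsPBlock M (blockOf M (χ : T → ℂ)) := isPBlock_blockOf χ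
  have hFA : blockOf M (χ : T → ℂ) ⊆ A := union_of_blocks hAR hχ
  set F := blockOf M (χ : T → ℂ) with hFdef
  have hsupp : SuppIn C (sbl M T F) := hsuppAll F hF
  have hmul : sbl M T F * sbl M _ f = sbl M T F := by
    rw [← hsblA, sbl_eq_emb, sbl_eq_emb, ← emb_mul, bl, bl, ← red_conv (osima hF) hAR,
      conv_blockCoeff, Set.inter_eq_left.2 hFA]
  have heq : sbl M T F = sbl M T A := by
    rw [hsblA]
    rcases (isBlk_sbl hf).dichotomy hsupp ((isBlk_sbl hF).inv.mono hCT) (isBlk_sbl hF).idem with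
      h | h
    · rw [← hmul, h]
    · exact absurd (hmul ▸ h) (isBlk_sbl hF).ne_zero
  have hbl : bl M F = bl M A := by
    rw [sbl_eq_emb, sbl_eq_emb] at heq
    exact emb_injective T heq
  have hAF : A ⊆ F := by
    intro ψ hψ
    by_contra hn
    have h1 := omb_bl hF ψ
    rw [if_neg hn, hbl, bl, omb_red (isClassFunction_blockCoeff A) hAR, Om_blockCoeff,
      Set.indicator_of_mem hψ, resC_one] at h1
    exact one_ne_zero h1
  refine ⟨F, hF, fun t => ?_⟩
  rw [Set.Subset.antisymm hFA hAF, ← haA]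
  rfl


theorem exists_stable_defectClass [CharP (resField M) p] {C U : Subgroup G}
    {e : Set (IrrCharacter C)}
    (he : IsPBlock M e) (hU : IsPGroup p U) (hst : ∀ u ∈ U, StabilizesBlock C e u) :
    ∃ y : C, IsDefectClass M e y ∧
      ∀ u ∈ U, ∃ c : C, u * (y : G) * u⁻¹ = c * y * (c : G)⁻¹ := by
  haveI := Fintype.ofFinite (ConjClasses C)
  have hUN : U ≤ Subgroup.normalizer (C : Set G) := fun u hu => (hst u hu).1
  obtain ⟨ξ, hξ⟩ := isPBlock_nonempty he
  have h1 := Om_eq_sum_centralChar (isClassFunction_blockCoeff e) ξ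
  rw [Om_blockCoeff, Set.indicator_of_mem hξ] at h1
  have hR : ∀ K : ConjClasses C,
      MemLocalRing M (blockCoeff e K.out * centralChar (ξ : C → ℂ) K.out) :=
    fun K => memLocalRing_mul (osima he _) (memLocalRing_centralChar ξ _)
  have h2 : ∑ K : ConjClasses C, resC M (blockCoeff e K.out * centralChar (ξ : C → ℂ) K.out) = 1 := by
    rw [← resC_sum _ _ (fun K _ => hR K), ← h1, resC_one]
  have hinv : ∀ (u : U) (K : ConjClasses C),
      resC M (blockCoeff e (clsPerm hUN u K).out * centralChar (ξ : C → ℂ) (clsPerm hUN u K).out)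
        = resC M (blockCoeff e K.out * centralChar (ξ : C → ℂ) K.out) := by
    intro u K
    set α := cjEquiv (u : G) (cjS_eq_self_iff.2 (hUN u.2)) with hα
    have hc : IsConj (clsPerm hUN u K).out (α K.out) := by
      rw [← ConjClasses.mk_eq_mk_iff_isConj]
      have e1 : ConjClasses.mk (clsPerm hUN u K).out = clsPerm hUN u K := Quotient.out_eq _
      have e2 : ConjClasses.mk K.out = K := Quotient.out_eq K
      rw [e1]
      conv_lhs => rw [← e2]
      rfl
    have hstab : mapIrr α ⁻¹' e = e := cjBlk_eq_of_stabilizes he (hst u u.2)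
    have b1 : blockCoeff e (clsPerm hUN u K).out = blockCoeff e K.out := by
      rw [classFunction_eq_of_isConj (isClassFunction_blockCoeff e) hc]
      have := blockCoeff_preimage α e K.out
      rwa [hstab] at this
    have hmem : mapIrr α ξ ∈ e := by
      have : ξ ∈ mapIrr α ⁻¹' e := by rw [hstab]; exact hξ
      exact this
    have b2 : MemLocalIdeal M (centralChar (ξ : C → ℂ) (clsPerm hUN u K).out
        - centralChar (ξ : C → ℂ) K.out) := by
      obtain ⟨c, hc'⟩ := _root_.isConj_iff.1 hc.symm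
      rw [← hc', centralChar_conj (isClassFunction_irr ξ), ← centralChar_comp α]
      exact sameBlock_of_mem he hmem hξ K.out
    rw [b1, resC_mul (osima he _) (memLocalRing_centralChar ξ _),
      resC_mul (osima he _) (memLocalRing_centralChar ξ _),
      (resC_eq_iff (memLocalRing_centralChar ξ _) (memLocalRing_centralChar ξ _)).2 b2]
  rw [sum_fixed hp.out hU (clsPerm hUN) Finset.univ (fun _ _ _ => Finset.mem_univ _)
    (fun K => resC M (blockCoeff e K.out * centralChar (ξ : C → ℂ) K.out)) hinv] at h2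
  obtain ⟨K, hK, hne⟩ := Finset.exists_ne_zero_of_sum_ne_zero (h2 ▸ one_ne_zero)
  rw [Finset.mem_filter] at hK
  refine ⟨K.out, ⟨osima he _, ?_, ?_⟩, ?_⟩
  · intro hm
    apply hne
    rw [resC_eq_zero_iff (hR K)]
    exact memLocalIdeal_mul_right hm (memLocalRing_centralChar ξ _)
  · intro χ hχ hm
    apply hne
    rw [resC_eq_zero_iff (hR K)]
    have h5 : MemLocalIdeal M (centralChar (ξ : C → ℂ) K.out) := by
      have h6 := sameBlock_of_mem he hξ hχ K.out
      have h7 := memLocalIdeal_add h6 hm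
      simpa using h7
    exact memLocalIdeal_mul_left (osima he _) h5
  · intro u hu
    have h3 := hK.2 ⟨u, hu⟩
    have e2 : ConjClasses.mk K.out = K := Quotient.out_eq K
    rw [← e2, clsPerm_mk, ConjClasses.mk_eq_mk_iff_isConj] at h3
    obtain ⟨c, hc⟩ := _root_.isConj_iff.1 h3.symm
    refine ⟨c, ?_⟩
    have := congrArg Subtype.val hc
    exact this.symm


theorem IsBlk.supp_of_regular (hM : IsPModular p M) {K L : Subgroup G}
    (hreg : ∀ g ∈ L, IsPRegular p g → g ∈ K) {η : KG M G} (h : IsBlk M L η) : SuppIn K η := by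
  obtain ⟨F, hF, rfl⟩ := h
  intro g hg
  by_cases hgL : g ∈ L
  · have hs : p ∣ orderOf (⟨g, hgL⟩ : L) := by
      rw [Subgroup.orderOf_mk]
      by_contra hn
      exact hg (hreg g hgL hn)
    rw [sbl, red_apply, subgroupBlockCoeff_of_mem L F hgL,
      Cfsg.Agent.Lib.Helper7.blockCoeff_eq_zero_of_singular hM hF hs, resC_zero]
  · exact (isBlk_sbl hF).supp g hgL

theorem sup_sylIn_eq_top {N X R : Subgroup G} [N.Normal] {k : ℕ} (hidx : N.index = p ^ k)
    (hX : N ⊔ X = ⊤) (hRX : R ≤ X) (hR : SylIn p R X) : N ⊔ R = ⊤ := by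
  let f : X →* G ⧸ N := (QuotientGroup.mk' N).comp X.subtype
  have hsurj : f.range = ⊤ := by
    rw [eq_top_iff]
    intro q _
    obtain ⟨g, rfl⟩ := QuotientGroup.mk'_surjective N q
    have hg : g ∈ ((N ⊔ X : Subgroup G) : Set G) := by rw [hX]; trivial
    rw [Subgroup.normal_mul] at hg
    obtain ⟨n, hn, x, hx, rfl⟩ := hg
    refine ⟨⟨x, hx⟩, ?_⟩
    show (QuotientGroup.mk' N) x = (QuotientGroup.mk' N) (n * x)
    have hn1 : (QuotientGroup.mk' N) n = 1 := (QuotientGroup.eq_one_iff n).2 hn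
    rw [map_mul, hn1, one_mul]
  have h1 := hR.map f
  rw [hsurj] at h1
  have h2 := (sylIn_iff_card le_top).1 h1
  have h3 : Nat.card (⊤ : Subgroup (G ⧸ N)) = p ^ k := by
    rw [Subgroup.card_top, ← hidx, Subgroup.index_eq_card]
  rw [h3, Nat.Prime.factorization_pow hp.out, Finsupp.single_eq_same, ← h3, Subgroup.card_top] at h2
  have h4 := Subgroup.eq_top_of_card_eq _ h2
  rw [eq_top_iff]
  intro g _
  have h5 : (QuotientGroup.mk' N) g ∈ (R.subgroupOf X).map f := by rw [h4]; trivial
  obtain ⟨r, hr, hrg⟩ := h5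
  have h6 : (QuotientGroup.mk' N) ((r : G)⁻¹ * g) = 1 := by
    rw [map_mul, map_inv, ← hrg]
    exact inv_mul_cancel _
  have h7 : (r : G)⁻¹ * g ∈ N := (QuotientGroup.eq_one_iff _).1 h6
  have : g = (r : G) * ((r : G)⁻¹ * g) := by group
  rw [this]
  exact Subgroup.mul_mem _ (Subgroup.mem_sup_right (Subgroup.mem_subgroupOf.1 hr))
    (Subgroup.mem_sup_left h7)

theorem card_eq_inf_mul_relIndex (N X : Subgroup G) :
    Nat.card X = Nat.card (X ⊓ N : Subgroup G) * N.relIndex X := by
  have h := (N.subgroupOf X).card_mul_index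
  rw [← h, ← Subgroup.inf_subgroupOf_left N X, card_subgroupOf_of_le inf_le_left,
    Subgroup.inf_subgroupOf_left]
  rfl

variable [CharP (resField M) p]

theorem card_le_of_defectClass (hM : IsPModular p M) {N : Subgroup G} {c : Set (IrrCharacter N)}
    (hc : IsPBlock M c) {y : N} (hy : IsDefectClass M c y) {Q : Subgroup G} (hQN : Q ≤ N)
    (hQ : IsPGroup p Q) (hbr : br Q (sbl M N c) ≠ 0) :
    Nat.card Q ≤ p ^ (Nat.card (Subgroup.centralizer ({(y : G)} : Set G) ⊓ N :
      Subgroup G)).factorization p := by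
  have hmap : (Q.subgroupOf N).map N.subtype = Q := Subgroup.map_subgroupOf_eq_of_le hQN
  have h1 : br (Q.subgroupOf N) (bl M c) ≠ 0 := by
    rw [br_bl_ne_zero_iff, hmap]; exact hbr
  have hQ' : IsPGroup p (Q.subgroupOf N) := hQ.of_equiv (Subgroup.subgroupOfEquivOfLe hQN).symm
  obtain ⟨t, P', hP'⟩ := defect_aux hM hc hy hQ' h1
  have h2 := Subgroup.card_le_of_le hP'
  rw [card_cjS, card_sylow_map, card_subgroupOf_of_le hQN] at h2
  have h3 : (Subgroup.centralizer ({y} : Set N)).map N.subtype =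
      Subgroup.centralizer ({(y : G)} : Set G) ⊓ N := by
    ext g
    rw [mem_map_subtype, Subgroup.mem_inf, Subgroup.mem_centralizer_singleton_iff]
    constructor
    · rintro ⟨h, hx⟩
      rw [Subgroup.mem_centralizer_singleton_iff] at hx
      exact ⟨congrArg Subtype.val hx, h⟩
    · rintro ⟨hx, h⟩
      refine ⟨h, ?_⟩
      rw [Subgroup.mem_centralizer_singleton_iff]
      exact Subtype.ext hx
  have h4 : Nat.card (Subgroup.centralizer ({y} : Set N)) =
      Nat.card (Subgroup.centralizer ({(y : G)} : Set G) ⊓ N : Subgroup G) := by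
    rw [← h3]
    exact (Subgroup.card_map_of_injective N.subtype_injective).symm
  rwa [h4] at h2

theorem pindex_defect (hM : IsPModular p M) {N : Subgroup G} [N.Normal] {k : ℕ}
    (hidx : N.index = p ^ k) {c : Set (IrrCharacter N)} (hc : IsPBlock M c)
    (hst : ∀ x : G, StabilizesBlock N c x) {P : Subgroup G} (hP : IsDef p ⊤ (sbl M N c) P) :
    N ⊔ P = ⊤ ∧ IsDef p N (sbl M N c) (P ⊓ N) := by
  obtain ⟨S, -, hS⟩ := exists_sylIn (p := p) (⊤ : Subgroup G)
  have hSp := hS.isPGroup le_top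
  have hNS : N ⊔ S = ⊤ := sup_sylIn_eq_top hidx (by simp) le_top hS
  obtain ⟨y, hy, hyS⟩ := exists_stable_defectClass hc hSp (fun u _ => hst u)
  set A := Subgroup.centralizer ({(y : G)} : Set G) with hA
  have hNA : N ⊔ A = ⊤ := by
    rw [eq_top_iff, ← hNS]
    refine sup_le le_sup_left ?_
    intro u hu
    obtain ⟨c', hc'⟩ := hyS u hu
    have h1 : (c' : G)⁻¹ * u ∈ A := by
      rw [hA, Subgroup.mem_centralizer_singleton_iff]
      have h2 : u * (y : G) = c' * y * (c' : G)⁻¹ * u := by rw [← hc']; group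
      symm
      calc (y : G) * ((c' : G)⁻¹ * u) = (c' : G)⁻¹ * (c' * y * (c' : G)⁻¹ * u) := by group
        _ = (c' : G)⁻¹ * (u * y) := by rw [h2]
        _ = (c' : G)⁻¹ * u * y := by group
    have : u = (c' : G) * ((c' : G)⁻¹ * u) := by group
    rw [this]
    exact Subgroup.mul_mem _ (Subgroup.mem_sup_left c'.2) (Subgroup.mem_sup_right h1)
  obtain ⟨R, hRA, hR⟩ := exists_sylIn (p := p) A
  have hRp := hR.isPGroup hRA
  have hNR : N ⊔ R = ⊤ := sup_sylIn_eq_top hidx hNA hRA hR
  have hnorm : A ≤ Subgroup.normalizer ((A ⊓ N : Subgroup G) : Set G) := by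
    intro a ha
    rw [← cjS_eq_self_iff, cjS_inf, cjS_eq_self_of_mem ha,
      cjS_eq_self_iff.2 (Subgroup.normalizer_eq_top (H := N) ▸ Subgroup.mem_top a)]
  have hRN := hR.inf_of_normal hRA inf_le_left hnorm
  have e1 : R ⊓ (A ⊓ N) = R ⊓ N := by
    rw [← inf_assoc, inf_eq_left.2 hRA]
  rw [e1] at hRN
  have hcard : Nat.card (R ⊓ N : Subgroup G) = p ^ (Nat.card (A ⊓ N : Subgroup G)).factorization p :=
    (sylIn_iff_card (le_inf (inf_le_left.trans hRA) inf_le_right)).1 hRN
  have hεy : sbl M N c (y : G) ≠ 0 := by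
    rw [sbl_eq_emb, emb_coe]
    exact (bl_apply_ne_zero_iff hc y).2 hy.2.1
  have hbrR : br R (sbl M N c) ≠ 0 := by
    apply br_ne_zero_iff.2
    refine ⟨y, ?_, hεy⟩
    rw [Subgroup.mem_centralizer_iff]
    intro r hr
    have : r ∈ Subgroup.centralizer ({(y : G)} : Set G) := hRA hr
    rw [Subgroup.mem_centralizer_singleton_iff] at this
    exact this
  have hbound : ∀ Q : Subgroup G, Q ≤ N → IsPGroup p Q → br Q (sbl M N c) ≠ 0 →
      Nat.card Q ≤ Nat.card (R ⊓ N : Subgroup G) := by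
    intro Q hQN hQ hbr
    rw [hcard]
    exact card_le_of_defectClass hM hc hy hQN hQ hbr
  have hbrPN : br (P ⊓ N) (sbl M N c) ≠ 0 := by
    obtain ⟨z, hz, hz0⟩ := br_ne_zero_iff.1 hP.2.2.1
    exact br_ne_zero_iff.2 ⟨z, Subgroup.centralizer_le
      (by exact_mod_cast (inf_le_left : P ⊓ N ≤ P)) hz, hz0⟩
  have h1 : Nat.card R ≤ Nat.card P := hP.2.2.2 R le_top hRp hbrR
  have h2 : Nat.card (P ⊓ N : Subgroup G) ≤ Nat.card (R ⊓ N : Subgroup G) :=
    hbound _ inf_le_right (hP.2.1.to_le inf_le_left) hbrPN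
  have h3 : N.relIndex R = N.index := by
    rw [← Subgroup.relIndex_sup_right, sup_comm, hNR, Subgroup.relIndex_top_right]
  have h4 : N.relIndex P * (P ⊔ N).index = N.index := by
    rw [← Subgroup.relIndex_sup_right]
    exact Subgroup.relIndex_mul_index le_sup_right
  rw [card_eq_inf_mul_relIndex N R, card_eq_inf_mul_relIndex N P, h3, ← h4] at h1
  have hpos1 : 0 < Nat.card (R ⊓ N : Subgroup G) := Nat.card_pos
  have hpos2 : 0 < N.relIndex P := by
    rcases Nat.eq_zero_or_pos (N.relIndex P) with h | h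
    · rw [h, zero_mul] at h4
      rw [hidx] at h4
      exact absurd h4.symm (pow_ne_zero _ hp.out.ne_zero)
    · exact h
  have hpos3 : 0 < (P ⊔ N).index := by
    rcases Nat.eq_zero_or_pos ((P ⊔ N).index) with h | h
    · rw [h, mul_zero] at h4
      rw [hidx] at h4
      exact absurd h4.symm (pow_ne_zero _ hp.out.ne_zero)
    · exact h
  -- a * (b' * i) ≤ a' * b', a' ≤ a
  have h5 : Nat.card (R ⊓ N : Subgroup G) * (N.relIndex P * (P ⊔ N).index) ≤
      Nat.card (R ⊓ N : Subgroup G) * N.relIndex P :=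
    h1.trans (Nat.mul_le_mul_right _ h2)
  have h6 : (P ⊔ N).index ≤ 1 := by
    have h7 : Nat.card (R ⊓ N : Subgroup G) * N.relIndex P * (P ⊔ N).index ≤
        Nat.card (R ⊓ N : Subgroup G) * N.relIndex P * 1 := by
      rw [mul_one, mul_assoc]; exact h5
    exact Nat.le_of_mul_le_mul_left h7 (Nat.mul_pos hpos1 hpos2)
  have h8 : (P ⊔ N).index = 1 := le_antisymm h6 hpos3
  have h9 : Nat.card (R ⊓ N : Subgroup G) ≤ Nat.card (P ⊓ N : Subgroup G) := by
    rw [h8, mul_one] at h1
    exact Nat.le_of_mul_le_mul_right h1 hpos2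
  refine ⟨by rw [sup_comm]; exact Subgroup.index_eq_one.1 h8, inf_le_right,
    hP.2.1.to_le inf_le_left, hbrPN, fun Q hQN hQ hbr => (hbound Q hQN hQ hbr).trans h9⟩

theorem isDefectGroup_iff_isDef_top (hM : IsPModular p M) {B : Set (IrrCharacter G)}
    (hB : IsPBlock M B) (P : Subgroup G) : IsDefectGroup p M B P ↔ IsDef p ⊤ (bl M B) P := by
  rw [isDefectGroup_iff hM hB]
  constructor
  · rintro ⟨h1, h2, h3⟩
    exact ⟨le_top, h1, h2, fun Q _ hQ hbr => h3 Q hQ hbr⟩
  · rintro ⟨_, h1, h2, h3⟩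
    exact ⟨h1, h2, fun Q hQ hbr => h3 Q le_top hQ hbr⟩

theorem s4672 (hM : IsPModular p M) (N : Subgroup G) [N.Normal] (hN : ∃ k : ℕ, N.index = p ^ k)
    (c : Set (IrrCharacter N)) (hc : IsPBlock M c) (hst : ∀ x : G, StabilizesBlock N c x) :
    (∃ B : Set (IrrCharacter G), IsPBlock M B ∧
      ∀ g : G, blockCoeff B g = subgroupBlockCoeff N c g) ∧
    ∀ B : Set (IrrCharacter G), IsPBlock M B →
      (∀ g : G, blockCoeff B g = subgroupBlockCoeff N c g) →
      ∀ P : Subgroup G, IsDefectGroup p M B P →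
        N ⊔ P = ⊤ ∧ IsDefectGroup p M c ((P ⊓ N).subgroupOf N) := by
  obtain ⟨k, hk⟩ := hN
  constructor
  · obtain ⟨F, hF, hFc⟩ := exists_block_of_stable' hM hc (T := ⊤) le_top (fun t _ => hst t)
      (fun F hF => (isBlk_sbl hF).supp_of_regular hM
        (fun g _ hg => mem_of_regular_of_index hp.out N hk hg))
    refine ⟨mapIrr (Subgroup.topEquiv (G := G)) ⁻¹' F, isPBlock_preimage _ hF, fun g => ?_⟩
    have := blockCoeff_preimage (Subgroup.topEquiv (G := G)) F ⟨g, Subgroup.mem_top g⟩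
    rw [hFc] at this
    exact this
  · intro B hB hBc P hP
    have e : bl M B = sbl M N c := by
      rw [bl, sbl]; congr 1; funext g; exact hBc g
    rw [isDefectGroup_iff_isDef_top hM hB, e] at hP
    obtain ⟨h1, h2⟩ := pindex_defect hM hk hc hst hP
    exact ⟨h1, (isDefectGroup_subgroupOf_iff hM hc inf_le_right).2 h2⟩

end

end Cfsg.Agent.Lib.Helper26.BP
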