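import Cfsg.Agent.Lib.Helper26.BPDef

/-!
# Local structure below a maximal Brauer pair
-/

set_option autoImplicit false
set_option linter.unusedSectionVars false
set_option linter.unusedVariables false
set_option linter.style.haveILetI false

open Cfsg
open Cfsg.Agent.Lib.Helper7 Cfsg.Agent.Lib.Helper24

namespace Cfsg.Agent.Lib.Helper26.BP

noncomputable section
open Classical

universe u
variable {M : Ideal AlgInt} [M.IsPrime] {G : Type u} [Group G] [Fintype G] {p : ℕ}
variable {H : Subgroup G}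

/-- the stabilizer of a pair -/
def stabP (a : FP M G) : Subgroup G where
  carrier := {x | act x a = a}
  one_mem' := act_one a
  mul_mem' := by
    intro x y hx hy
    show act (x * y) a = a
    rw [act_mul, show act y a = a from hy, show act x a = a from hx]
  inv_mem' := by
    intro x hx
    show act x⁻¹ a = a
    have : act x⁻¹ (act x a) = a := by rw [← act_mul, inv_mul_cancel, act_one]
    rw [show act x a = a from hx] at this
    exact this

theorem mem_stabP {a : FP M G} {x : G} : x ∈ stabP a ↔ act x a = a := Iff.rfl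

theorem mem_stabP_iff {a : FP M G} {x : G} :
    x ∈ stabP a ↔ x ∈ Subgroup.normalizer (a.1 : Set G) ∧ cj x a.2 = a.2 := by
  rw [mem_stabP, ← cjS_eq_self_iff]
  constructor
  · intro h
    exact ⟨congrArg Prod.fst h, congrArg Prod.snd h⟩
  · rintro ⟨h1, h2⟩
    exact Prod.ext h1 h2

theorem stabP_le_normalizer (a : FP M G) : stabP a ≤ Subgroup.normalizer (a.1 : Set G) :=
  fun _ hx => (mem_stabP_iff.1 hx).1

theorem stabP_inv (a : FP M G) : Inv (stabP a) a.2 := fun _ hx => (mem_stabP_iff.1 hx).2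

theorem stabP_act (x : G) (a : FP M G) : stabP (act x a) = cjS x (stabP a) := by
  ext g
  rw [mem_cjS, mem_stabP, mem_stabP, act_mul, act_mul]
  constructor
  · intro h
    rw [h, ← act_mul, inv_mul_cancel, act_one]
  · intro h
    have := congrArg (act x) h
    rwa [← act_mul, mul_inv_cancel, act_one] at this

theorem IsPair.self_le_stabP {a : FP M G} (ha : IsPair p H a) : a.1 ≤ stabP a :=
  fun x hx => mem_stabP_iff.2 ⟨Subgroup.le_normalizer hx, ha.inv_self x hx⟩

theorem IsPair.cen_le_stabP {a : FP M G} (ha : IsPair p H a) : cen H a.1 ≤ stabP a :=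
  fun x hx => mem_stabP_iff.2
    ⟨Subgroup.centralizer_le_normalizer _ (cen_le_centralizer _ _ hx), ha.blk.inv x hx⟩

theorem IsDef.cj {K D : Subgroup G} {ε : KG M G} (h : IsDef p K ε D) (x : G) :
    IsDef p (cjS x K) (cj x ε) (cjS x D) := by
  obtain ⟨h1, h2, h3, h4⟩ := h
  refine ⟨cjS_mono h1, isPGroup_cjS h2 x, ?_, ?_⟩
  · rw [← cj_br]
    intro h0
    apply h3
    apply cj_injective x
    rw [h0, map_zero]
  · intro Q hQK hQ hbr
    have := h4 (cjS x⁻¹ Q) (by
      have := cjS_mono (x := x⁻¹) hQK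
      rwa [cjS_inv_cjS] at this) (isPGroup_cjS hQ _) (by
      intro h0
      apply hbr
      have := congrArg (BP.cj x) h0
      rwa [cj_br, cjS_cjS_inv, map_zero] at this)
    rwa [card_cjS, ← card_cjS x D] at this

variable [hp : Fact p.Prime] [CharP (resField M) p]

theorem exists_ns_up {a : FP M G} (ha : IsPair p H a) {R : Subgroup G} (hRH : R ≤ H)
    (hR : IsPGroup p R) (haR : a.1 ≤ R) (hRN : R ≤ Subgroup.normalizer (a.1 : Set G))
    (hinv : Inv R a.2) (hbr : br R a.2 ≠ 0) : ∃ η, NS p H a (R, η) := by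
  obtain ⟨η, hη, h1⟩ := exists_isBlk (br_supp (P := R) ha.suppH)
    (br_inv (ha.blk.inv.mono (cen_anti H haR))) (br_idem hR hinv ha.blk.idem) hbr
  exact ⟨η, ha, ⟨hRH, hR, hη⟩, haR, hRN, hinv, h1⟩

theorem LE.exists_ns_mid {a c : FP M G} (h : LE p H a c) (hc : IsPair p H c) {R : Subgroup G}
    (haR : a.1 ≤ R) (hRc : R ≤ c.1) (hRN : R ≤ Subgroup.normalizer (a.1 : Set G)) :
    ∃ γ, NS p H a (R, γ) ∧ LE p H (R, γ) c := by
  obtain ⟨γ, hγ⟩ := exists_le hc hRc
  obtain ⟨ε', hε'⟩ := exists_ns (hγ.isPair_left hc) (Q := a.1) haR hRN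
  have := LE.unique (hε'.le.trans hγ) h rfl
  rw [this] at hε'
  exact ⟨γ, hε', hγ⟩

theorem NS.br_ne_zero {a b : FP M G} (h : NS p H a b) : br b.1 a.2 ≠ 0 := by
  intro h0
  have := h.2.2.2.2.2
  rw [h0, zero_mul] at this
  exact h.2.1.blk.ne_zero this.symm

/-- the idempotent of a pair below `m` survives at `m.1 ⊓ L` for `L` stabilizing the pair -/
theorem LE.br_inf_ne_zero {a m : FP M G} (h : LE p H a m) (hm : IsPair p H m) {L : Subgroup G}
    (hL : L ≤ stabP a) : br (m.1 ⊓ L) a.2 ≠ 0 := by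
  obtain ⟨γ, hγ, _⟩ := h.exists_ns_mid hm (R := a.1 ⊔ (m.1 ⊓ L)) le_sup_left
    (sup_le h.fst_le inf_le_left)
    (sup_le Subgroup.le_normalizer (inf_le_right.trans (hL.trans (stabP_le_normalizer a))))
  have := hγ.br_ne_zero
  rwa [show ((a.1 ⊔ (m.1 ⊓ L), γ) : FP M G).1 = a.1 ⊔ (m.1 ⊓ L) from rfl,
    br_sup (h.isPair_left hm).supp] at this

/-- elements of `m.1` normalizing `a.1` stabilize the pair `a ≤ m` -/
theorem LE.inf_normalizer_le_stabP {a m : FP M G} (h : LE p H a m) (hm : IsPair p H m) :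
    m.1 ⊓ Subgroup.normalizer (a.1 : Set G) ≤ stabP a := by
  obtain ⟨γ, hγ, _⟩ := h.exists_ns_mid hm (R := m.1 ⊓ Subgroup.normalizer (a.1 : Set G))
    (le_inf h.fst_le Subgroup.le_normalizer) inf_le_left inf_le_right
  intro x hx
  exact mem_stabP_iff.2 ⟨hx.2, hγ.2.2.2.2.1 x hx⟩

/-- Some conjugate of a pair below a maximal pair `m` is "fully `K`-normalized". -/
theorem exists_conj_isDef {β : KG M G} {m a : FP M G} (hm : NS p H (⊥, β) m)
    (htm : Terminal p H m) (ha : LE p H a m) (K : FP M G → Subgroup G)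
    (hK1 : ∀ b, IsPair p H b → K b ≤ stabP b) (hK1' : ∀ b, K b ≤ H)
    (hK2 : ∀ x ∈ H, ∀ b, K (act x b) = cjS x (K b)) :
    ∃ x ∈ H, LE p H (act x a) m ∧ IsDef p (K (act x a)) (cj x a.2) (m.1 ⊓ K (act x a)) := by
  have hpa := ha.isPair_left hm.2.1
  obtain ⟨D, ⟨hD1, hD2, hD3⟩, hDmax⟩ := Set.exists_max_image
    {D : Subgroup G | D ≤ K a ∧ IsPGroup p D ∧ br D a.2 ≠ 0} (fun D => Nat.card D)
    (Set.toFinite _) ⟨m.1 ⊓ K a, inf_le_right, hm.2.1.pg.to_le inf_le_left,
      ha.br_inf_ne_zero hm.2.1 (hK1 a hpa)⟩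
  have hDs := hD1.trans (hK1 a hpa)
  have hDN := hDs.trans (stabP_le_normalizer a)
  have hpg : IsPGroup p (a.1 ⊔ D : Subgroup G) := by
    rw [sup_comm]
    exact IsPGroup.to_sup_of_normal_right' hD2 hpa.pg hDN
  obtain ⟨η, hη⟩ := exists_ns_up hpa (R := a.1 ⊔ D) (sup_le hpa.le (hD1.trans (hK1' a))) hpg
    le_sup_left (sup_le Subgroup.le_normalizer hDN) (hpa.inv_self.sup ((stabP_inv a).mono hDs))
    (by rw [br_sup hpa.supp]; exact hD3)
  obtain ⟨x, hx, hxle⟩ := htm.conj_le hm ((hm.bot_of_ge ha).bot_of_le hη.le)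
  have hle : LE p H (act x a) m := (hη.le.act hx).trans hxle
  refine ⟨x, hx, hle, inf_le_right, hm.2.1.pg.to_le inf_le_left, ?_, ?_⟩
  · exact hle.br_inf_ne_zero hm.2.1 (hK1 _ (hpa.act hx))
  · intro Q hQK hQ hbr
    have h1 : Nat.card (cjS x⁻¹ Q) ≤ Nat.card D := by
      apply hDmax
      refine ⟨?_, isPGroup_cjS hQ _, ?_⟩
      · have := cjS_mono (x := x⁻¹) hQK
        rwa [hK2 x hx, cjS_inv_cjS] at this
      · intro h0
        apply hbr
        have := congrArg (cj x) h0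
        rwa [cj_br, cjS_cjS_inv, map_zero] at this
    rw [card_cjS] at h1
    apply h1.trans
    rw [← card_cjS x D]
    apply Subgroup.card_le_of_le
    apply le_inf
    · exact (cjS_mono (le_sup_right : D ≤ a.1 ⊔ D)).trans hxle.fst_le
    · rw [hK2 x hx]; exact cjS_mono hD1

/-- Characterization of "fully `K`-normalized". -/
theorem isDef_iff_forall_card_le {β : KG M G} {m a : FP M G} (hm : NS p H (⊥, β) m)
    (htm : Terminal p H m) (ha : LE p H a m) (K : FP M G → Subgroup G)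
    (hK1 : ∀ b, IsPair p H b → K b ≤ stabP b) (hK1' : ∀ b, K b ≤ H)
    (hK2 : ∀ x ∈ H, ∀ b, K (act x b) = cjS x (K b)) :
    IsDef p (K a) a.2 (m.1 ⊓ K a) ↔
      ∀ x ∈ H, LE p H (act x a) m →
        Nat.card (m.1 ⊓ K (act x a) : Subgroup G) ≤ Nat.card (m.1 ⊓ K a : Subgroup G) := by
  have hpa := ha.isPair_left hm.2.1
  constructor
  · intro h x hx hle
    have h1 := hle.br_inf_ne_zero hm.2.1 (hK1 _ (hpa.act hx))
    have := h.2.2.2 (cjS x⁻¹ (m.1 ⊓ K (act x a))) (by
      have := cjS_mono (x := x⁻¹) (inf_le_right : m.1 ⊓ K (act x a) ≤ K (act x a))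
      refine this.trans ?_
      rw [hK2 x hx, cjS_inv_cjS]) (isPGroup_cjS (hm.2.1.pg.to_le inf_le_left) _) (by
      intro h0
      apply h1
      have := congrArg (cj x) h0
      rwa [cj_br, cjS_cjS_inv, map_zero] at this)
    rwa [card_cjS] at this
  · intro h
    obtain ⟨x, hx, hle, hdef⟩ := exists_conj_isDef hm htm ha K hK1 hK1' hK2
    refine ⟨inf_le_right, hm.2.1.pg.to_le inf_le_left, ha.br_inf_ne_zero hm.2.1 (hK1 a hpa), ?_⟩
    intro Q hQK hQ hbr
    have := hdef.2.2.2 (cjS x Q) (by rw [hK2 x hx]; exact cjS_mono hQK) (isPGroup_cjS hQ _) (by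
      rw [← cj_br]
      intro h0
      apply hbr
      apply cj_injective x
      rw [h0, map_zero])
    rw [card_cjS] at this
    exact this.trans (h x hx hle)

end

end Cfsg.Agent.Lib.Helper26.BP
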