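import Cfsg.Agent.Lib.Helper26.BPExt
import Cfsg.Agent.Lib.Helper7.BlockFirst3

/-!
# Characterization of maximal Brauer pairs
-/

set_option autoImplicit false
set_option linter.unusedSectionVars false
set_option linter.unusedVariables false
set_option linter.style.haveILetI false

open Cfsg Cfsg.FusionSystem
open Cfsg.Agent.Lib.Helper7 Cfsg.Agent.Lib.Helper24

namespace Cfsg.Agent.Lib.Helper26.BP

noncomputable section
open Classical

universe u
variable {M : Ideal AlgInt} [M.IsPrime] {p : ℕ} [hp : Fact p.Prime]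

section grp
variable {X : Type u} [Group X] [Fintype X]

/-- a character trivial on the central `p`-subgroup `Z` and of defect zero modulo `Z` forces the
defect groups of its block to have order at most `|Z|` -/
theorem card_le_of_defect_zero_mod_central (hM : IsPModular p M) {b : Set (IrrCharacter X)}
    (hb : IsPBlock M b) (Z : Subgroup X) [Z.Normal] (hZc : ∀ z ∈ Z, ∀ g : X, g * z = z * g)
    {θ : IrrCharacter X} (hθ : θ ∈ b) (hker : ∀ u ∈ Z, (θ : X → ℂ) u = (θ : X → ℂ) 1)
    (hdeg : (charDegree (θ : X → ℂ)).factorization p + (Nat.card Z).factorization p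
      = (Nat.card X).factorization p)
    {R : Subgroup X} (hR : IsPGroup p R) (hbr : br R (bl M b) ≠ 0) :
    Nat.card R ≤ p ^ (Nat.card Z).factorization p := by
  obtain ⟨ψ, hψ⟩ := exists_quotient_char θ Z hker
  have hdegψ : charDegree (ψ : X ⧸ Z → ℂ) = charDegree (θ : X → ℂ) := by
    simp only [charDegree]
    rw [hψ 1]; rfl
  have hcardX : Nat.card X = Nat.card (X ⧸ Z) * Nat.card Z :=
    Subgroup.card_eq_card_quotient_mul_card_subgroup Z
  have hνX : (Nat.card X).factorization p
      = (Nat.card (X ⧸ Z)).factorization p + (Nat.card Z).factorization p := by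
    rw [hcardX, Nat.factorization_mul Nat.card_pos.ne' Nat.card_pos.ne']; rfl
  have hνψ : (charDegree (ψ : X ⧸ Z → ℂ)).factorization p = (Nat.card (X ⧸ Z)).factorization p := by
    rw [hdegψ]; omega
  have hnd : ¬ p ∣ Nat.card (X ⧸ Z) / charDegree (ψ : X ⧸ Z → ℂ) := by
    obtain ⟨t, ht⟩ := charDegree_dvd_card ψ
    have ht0 : t ≠ 0 := by
      rintro rfl
      simp at ht
    rw [ht, Nat.mul_div_cancel_left _ (charDegree_pos ψ)]
    intro hpt
    have h1 : 1 ≤ t.factorization p := (hp.out.dvd_iff_one_le_factorization ht0).1 hpt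
    have h2 : (Nat.card (X ⧸ Z)).factorization p
        = (charDegree (ψ : X ⧸ Z → ℂ)).factorization p + t.factorization p := by
      rw [ht, Nat.factorization_mul (charDegree_pos ψ).ne' ht0]; rfl
    omega
  have hblock := blockOf_eq_singleton_of_not_dvd hM ψ hnd
  have hB : IsPBlock M ({ψ} : Set (IrrCharacter (X ⧸ Z))) := ⟨ψ, hblock.symm⟩
  obtain ⟨gb, hgb⟩ := exists_defectClass hB
  obtain ⟨P⟩ : Nonempty (Sylow p (Subgroup.centralizer ({gb} : Set (X ⧸ Z)))) := inferInstance
  have hc1 := card_defectGroup_aux hM hB hgb _ rfl P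
  have hdef0 : blockDefect p ({ψ} : Set (IrrCharacter (X ⧸ Z))) = 0 := by
    rw [blockDefect, Set.image_singleton, csInf_singleton, hνψ, Nat.sub_self]
  rw [card_sylow_map, hdef0] at hc1
  have hνC : (Nat.card (Subgroup.centralizer ({gb} : Set (X ⧸ Z)))).factorization p = 0 :=
    Nat.pow_right_injective hp.out.two_le hc1
  obtain ⟨g, rfl⟩ := QuotientGroup.mk_surjective gb
  set Cb := Subgroup.centralizer ({(g : X ⧸ Z)} : Set (X ⧸ Z)) with hCb
  set C := Subgroup.centralizer ({g} : Set X) with hC
  set C' := Cb.comap (QuotientGroup.mk' Z) with hC'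
  have hCC' : C ≤ C' := by
    intro x hx
    rw [hC, Subgroup.mem_centralizer_singleton_iff] at hx
    rw [hC', Subgroup.mem_comap, hCb, Subgroup.mem_centralizer_singleton_iff]
    show (QuotientGroup.mk' Z) x * (QuotientGroup.mk' Z) g
      = (QuotientGroup.mk' Z) g * (QuotientGroup.mk' Z) x
    rw [← map_mul, ← map_mul, hx]
  have hZC : Z ≤ C := by
    intro z hz
    rw [hC, Subgroup.mem_centralizer_singleton_iff]
    exact (hZc z hz g).symm
  have hidx : C'.index = Cb.index :=
    Subgroup.index_comap_of_surjective Cb (QuotientGroup.mk'_surjective Z)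
  have hcardC' : Nat.card C' = Nat.card Cb * Nat.card Z := by
    have h1 := C'.card_mul_index
    have h2 := Cb.card_mul_index
    rw [hidx, hcardX, ← h2] at h1
    have hpos : 0 < Cb.index := Nat.pos_of_ne_zero Subgroup.index_ne_zero_of_finite
    apply Nat.eq_of_mul_eq_mul_right hpos
    rw [h1]; ring
  have hνC' : (Nat.card C').factorization p = (Nat.card Z).factorization p := by
    rw [hcardC', Nat.factorization_mul Nat.card_pos.ne' Nat.card_pos.ne']
    show (Nat.card Cb).factorization p + _ = _
    rw [hνC, zero_add]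
  have hle1 : (Nat.card C).factorization p ≤ (Nat.card C').factorization p :=
    (Nat.factorization_le_iff_dvd Nat.card_pos.ne' Nat.card_pos.ne').2
      (Subgroup.card_dvd_of_le hCC') p
  have hle2 : (Nat.card Z).factorization p ≤ (Nat.card C).factorization p :=
    (Nat.factorization_le_iff_dvd Nat.card_pos.ne' Nat.card_pos.ne').2
      (Subgroup.card_dvd_of_le hZC) p
  have hνCeq : (Nat.card C).factorization p = (Nat.card Z).factorization p := by omega
  -- the relative index is prime to `p`
  have hrel : C.relIndex C' * Nat.card C = Nat.card C' := by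
    rw [mul_comm]
    have := (C.subgroupOf C').card_mul_index
    rwa [card_subgroupOf_of_le hCC'] at this
  have hm0 : C.relIndex C' ≠ 0 := by
    intro h
    rw [h, zero_mul] at hrel
    exact Nat.card_pos.ne' hrel.symm
  have hpm : ¬ p ∣ C.relIndex C' := by
    intro hd
    have h1 : 1 ≤ (C.relIndex C').factorization p :=
      (hp.out.dvd_iff_one_le_factorization hm0).1 hd
    have h2 : (Nat.card C').factorization p
        = (C.relIndex C').factorization p + (Nat.card C).factorization p := by
      rw [← hrel, Nat.factorization_mul hm0 Nat.card_pos.ne']; rfl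
    omega
  have hindex : C.index = C.relIndex C' * Cb.index := by
    rw [← hidx]; exact (Subgroup.relIndex_mul_index hCC').symm
  have hcc : centralChar (θ : X → ℂ) g
      = (C.relIndex C' : ℂ) * centralChar (ψ : X ⧸ Z → ℂ) (g : X ⧸ Z) := by
    rw [centralChar, centralChar, ← hC, ← hCb, hindex, hψ g, hψ 1]
    push_cast
    have : ((1 : X) : X ⧸ Z) = 1 := rfl
    rw [this]
    ring
  have hnot : ¬ MemLocalIdeal M (centralChar (θ : X → ℂ) g) := by
    rw [hcc]
    exact not_memLocalIdeal_mul (memLocalRing_natCast _)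
      (fun h => hpm ((memLocalIdeal_natCast_iff hM _).1 h)) (hgb.2.2 ψ rfl)
  obtain ⟨k, hk, hne⟩ := br_ne_zero_iff.1 hbr
  have hRk : R ≤ Subgroup.centralizer ({k} : Set X) := by
    intro q hq
    rw [Subgroup.mem_centralizer_singleton_iff]
    exact ((Subgroup.mem_centralizer_iff.1 hk) q hq)
  obtain ⟨t, ht⟩ := minmax_le hM hb (h := g) (k := k) ⟨θ, hθ, hnot⟩
    ((bl_apply_ne_zero_iff hb k).1 hne) R hR hRk
  have h1 := card_le_of_isPGroup ht (isPGroup_cjS hR t)
  rwa [card_cjS, hνCeq] at h1

end grp

variable {G : Type u} [Group G] [Fintype G] [CharP (resField M) p]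

theorem Terminal.eq_of_le {H : Subgroup G} {a b : FP M G} (ht : Terminal p H a)
    (h : LE p H a b) : b = a := by
  induction h with
  | refl => rfl
  | tail _ hbc ih =>
    rw [ih] at hbc
    have h1 := ht _ hbc.2.1.le hbc.2.1.pg hbc.2.2.1 hbc.2.2.2.1 hbc.2.2.2.2.1 hbc.br_ne_zero
    exact (hbc.eq_of_fst_eq (le_antisymm hbc.2.2.1 h1)).symm

theorem maximal_of_terminal {B : Set (IrrCharacter G)} {P : Subgroup G}
    {e : Set (IrrCharacter (Subgroup.centralizer (P : Set G)))}
    (hPe : IsBrauerPairOf p M B P e) (ht : Terminal p ⊤ ((P, sbl M _ e) : FP M G)) :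
    IsMaximalBrauerPair p M B P e := by
  refine ⟨hPe, fun R g hRg hle => ?_⟩
  exact congrArg Prod.fst (ht.eq_of_le (le_of_subpairLE hle))

theorem exists_isBrauerPairOf {Q : Subgroup G}
    {e : Set (IrrCharacter (Subgroup.centralizer (Q : Set G)))} (he : IsBrauerPair p M Q e) :
    ∃ B : Set (IrrCharacter G), IsBrauerPairOf p M B Q e := by
  obtain ⟨β, hβ⟩ := exists_ns (isPair_of_isBrauerPair he) (Q := ⊥) bot_le (le_normalizer_bot _)
  obtain ⟨B, hB, rfl⟩ := exists_of_isBlk_top hβ.bot_blk
  exact ⟨B, (isBrauerPairOf_iff hB he).2 hβ⟩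

/-- the centre of `Q` is a defect group of `e` for a maximal pair `(Q, e)` -/
theorem Terminal.isDef_center {β : KG M G} {m : FP M G} (hm : NS p ⊤ (⊥, β) m)
    (htm : Terminal p ⊤ m) :
    IsDef p (Subgroup.centralizer (m.1 : Set G)) m.2 (m.1 ⊓ Subgroup.centralizer (m.1 : Set G)) := by
  refine (isDef_iff_forall_card_le hm htm (LE.refl m) Kcen Kcen_le_stabP
      (fun _ => le_top) (fun x _ b => Kcen_act x b)).2 ?_
  intro x _ hx
  have h1 : cjS x m.1 = m.1 :=
    Subgroup.eq_of_le_of_card_ge hx.fst_le (by rw [card_cjS])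
  have h2 : Kcen (BP.act x m) = Kcen m := by
    show Subgroup.centralizer ((cjS x m.1 : Subgroup G) : Set G) = _
    rw [h1]; rfl
  rw [h2]

theorem s4828 (hM : IsPModular p M) {Q : Subgroup G}
    {e : Set (IrrCharacter (Subgroup.centralizer (Q : Set G)))} (he : IsBrauerPair p M Q e) :
    (∃ B : Set (IrrCharacter G), IsMaximalBrauerPair p M B Q e) ↔
      ∃ θ ∈ e, (∀ z : Subgroup.centralizer (Q : Set G), (z : G) ∈ Q →
          (θ : Subgroup.centralizer (Q : Set G) → ℂ) z
            = (θ : Subgroup.centralizer (Q : Set G) → ℂ) 1) ∧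
        (charDegree (θ : Subgroup.centralizer (Q : Set G) → ℂ)).factorization p
          + (Nat.card ↥(Q ⊓ Subgroup.centralizer (Q : Set G))).factorization p
          = (Nat.card (Subgroup.centralizer (Q : Set G))).factorization p ∧
        (∀ g : G, g ∈ Subgroup.normalizer (Q : Set G) →
          StabilizesBlock (Subgroup.centralizer (Q : Set G)) e g →
          (∃ k : ℕ, orderOf g = p ^ k) → g ∈ Q ⊔ Subgroup.centralizer (Q : Set G)) := by
  set Z : Subgroup (Subgroup.centralizer (Q : Set G)) := (Q ⊓ (Subgroup.centralizer (Q : Set G))).subgroupOf (Subgroup.centralizer (Q : Set G)) with hZ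
  have hmemZ : ∀ z : (Subgroup.centralizer (Q : Set G)), z ∈ Z ↔ (z : G) ∈ Q := by
    intro z
    rw [hZ, Subgroup.mem_subgroupOf, Subgroup.mem_inf]
    exact ⟨fun h => h.1, fun h => ⟨h, z.2⟩⟩
  have hZc : ∀ z ∈ Z, ∀ g : (Subgroup.centralizer (Q : Set G)), g * z = z * g := by
    intro z hz g
    apply Subtype.ext
    exact ((Subgroup.mem_centralizer_iff.1 g.2) z ((hmemZ z).1 hz)).symm
  haveI hZn : Z.Normal := by
    constructor
    intro z hz g
    rw [hZc z hz g, mul_assoc, mul_inv_cancel, mul_one]
    exact hz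
  have hZp : IsPGroup p Z :=
    (he.1.to_le inf_le_left).of_equiv (Subgroup.subgroupOfEquivOfLe inf_le_right).symm
  have hcardZ : Nat.card Z = Nat.card ↥(Q ⊓ (Subgroup.centralizer (Q : Set G))) := card_subgroupOf_of_le inf_le_right
  have hpa := isPair_of_isBrauerPair he
  constructor
  · rintro ⟨B, hmax⟩
    have hB := hmax.1.2.1
    have hm := (isBrauerPairOf_iff hB he).1 hmax.1
    have htm := terminal_of_maximal hmax
    have hdef := htm.isDef_center hm
    have hdef' : IsDefectGroup p M e Z :=
      (isDefectGroup_subgroupOf_iff hM he.2 inf_le_right).2 hdef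
    obtain ⟨ξ, hξ, hker⟩ := exists_mem_block_ker hM he.2 Z hZp
    refine ⟨ξ, hξ, fun z hz => hker z ((hmemZ z).2 hz), ?_, ?_⟩
    · rw [← hcardZ]
      obtain ⟨ψ, hψ⟩ := exists_quotient_char ξ Z hker
      have hdegψ : charDegree (ψ : (Subgroup.centralizer (Q : Set G)) ⧸ Z → ℂ) = charDegree (ξ : (Subgroup.centralizer (Q : Set G)) → ℂ) := by
        simp only [charDegree]
        rw [hψ 1]; rfl
      have hcardX : Nat.card (Subgroup.centralizer (Q : Set G)) = Nat.card ((Subgroup.centralizer (Q : Set G)) ⧸ Z) * Nat.card Z :=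
        Subgroup.card_eq_card_quotient_mul_card_subgroup Z
      have hνX : (Nat.card (Subgroup.centralizer (Q : Set G))).factorization p
          = (Nat.card ((Subgroup.centralizer (Q : Set G)) ⧸ Z)).factorization p + (Nat.card Z).factorization p := by
        rw [hcardX, Nat.factorization_mul Nat.card_pos.ne' Nat.card_pos.ne']; rfl
      have h1 : (charDegree (ξ : (Subgroup.centralizer (Q : Set G)) → ℂ)).factorization p ≤ (Nat.card ((Subgroup.centralizer (Q : Set G)) ⧸ Z)).factorization p := by
        rw [← hdegψ]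
        exact (Nat.factorization_le_iff_dvd (charDegree_pos ψ).ne' Nat.card_pos.ne').2
          (charDegree_dvd_card ψ) p
      have h2 := card_defectGroup hM he.2 hdef'
      have h3 : (Nat.card Z).factorization p = blockDefect p e := by
        rw [h2, Nat.Prime.factorization_pow hp.out, Finsupp.single_eq_same]
      have h4 := sInf_le_of_mem p hξ
      rw [blockDefect] at h3
      omega
    · intro g hgN hst ⟨k, hk⟩
      have hg : g ∈ stabP ((Q, sbl M _ e) : FP M G) :=
        mem_stabP_iff.2 ⟨hgN, ((stabilizesBlock_iff he.2 g).1 hst).2⟩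
      have hU : IsPGroup p (Subgroup.zpowers g) :=
        IsPGroup.of_card (n := k) (by rw [Nat.card_zpowers, hk])
      exact htm.pgroup_le hM hm hU (by rwa [Subgroup.zpowers_le]) (Subgroup.mem_zpowers g)
  · rintro ⟨θ, hθ, hker, hdeg, hpel⟩
    obtain ⟨B, hBe⟩ := exists_isBrauerPairOf he
    refine ⟨B, maximal_of_terminal hBe ?_⟩
    have hcardZ' : p ^ (Nat.card Z).factorization p = Nat.card Z := by
      obtain ⟨j, hj⟩ := IsPGroup.iff_card.1 hZp
      rw [hj, Nat.Prime.factorization_pow hp.out, Finsupp.single_eq_same]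
    have hdef : IsDef p (Subgroup.centralizer (Q : Set G)) (sbl M (Subgroup.centralizer (Q : Set G)) e) (Q ⊓ (Subgroup.centralizer (Q : Set G))) := by
      refine ⟨inf_le_right, he.1.to_le inf_le_left, ?_, ?_⟩
      · rw [br_eq_self ((isBlk_sbl he.2).supp.mono
          (Subgroup.centralizer_le (by exact_mod_cast (inf_le_left : Q ⊓ (Subgroup.centralizer (Q : Set G)) ≤ Q))))]
        exact (isBlk_sbl he.2).ne_zero
      · intro R hRC hR hbr
        have hmap : (R.subgroupOf (Subgroup.centralizer (Q : Set G))).map (Subgroup.centralizer (Q : Set G)).subtype = R := Subgroup.map_subgroupOf_eq_of_le hRC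
        have h1 : br (R.subgroupOf (Subgroup.centralizer (Q : Set G))) (bl M e) ≠ 0 := by
          rw [br_bl_ne_zero_iff, hmap]; exact hbr
        have hR' : IsPGroup p (R.subgroupOf (Subgroup.centralizer (Q : Set G))) :=
          hR.of_equiv (Subgroup.subgroupOfEquivOfLe hRC).symm
        have h2 := card_le_of_defect_zero_mod_central hM he.2 Z hZc hθ
          (fun u hu => hker u ((hmemZ u).1 hu)) (by rw [hcardZ]; exact hdeg) hR' h1
        rwa [hcardZ', hcardZ, card_subgroupOf_of_le hRC] at h2
    have ht := terminal_of_isDef_center (a := ((Q, sbl M (Subgroup.centralizer (Q : Set G)) e) : FP M G)) hdef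
    intro R _ hR hQR hRN hinv hbr
    refine ht R ?_ hR hQR hRN hinv hbr
    intro r hr
    obtain ⟨k, hk⟩ := (IsPGroup.iff_orderOf.1 hR) ⟨r, hr⟩
    rw [Subgroup.orderOf_mk] at hk
    exact hpel r (hRN hr) ((stabilizesBlock_iff he.2 r).2
      ⟨normalizer_le_normalizer_centralizer _ (hRN hr), hinv r hr⟩) ⟨k, hk⟩

end

end Cfsg.Agent.Lib.Helper26.BP
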