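import Cfsg.Agent.Lib.Helper26.BPAb

/-!
# Nilpotent blocks: first properties
-/

set_option autoImplicit false
set_option linter.unusedSectionVars false
set_option linter.unusedVariables false
set_option linter.style.haveILetI false

open Cfsg Cfsg.FusionSystem
open Cfsg.Agent.Lib.Helper7 Cfsg.Agent.Lib.Helper24

namespace Cfsg.Agent.Lib.Helper26.BP

noncomputable section
open Classical

universe u
variable {M : Ideal AlgInt} [M.IsPrime] {p : ℕ} [hp : Fact p.Prime]
variable {G : Type u} [Group G] [Fintype G]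
variable [CharP (resField M) p]

/-- a maximal pair is fully normalized -/
theorem FN.self {β : KG M G} {m : FP M G} (hm : NS p ⊤ (⊥, β) m) (htm : Terminal p ⊤ m) :
    FN p β m m where
  hm := hm
  htm := htm
  ha := LE.refl m
  hdef := by
    refine (isDef_iff_forall_card_le hm htm (LE.refl m) stabP (fun b _ => le_rfl)
      (fun b => le_top) (fun x _ b => stabP_act x b)).2 ?_
    intro x _ _
    rw [inf_eq_left.2 hm.2.1.self_le_stabP]
    exact Subgroup.card_le_of_le inf_le_left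

/-- `p`-subgroups of the stabilizer of a maximal pair `(P, e)` lie in `P C(P)` -/
theorem Terminal.pgroup_le (hM : IsPModular p M) {β : KG M G} {m : FP M G}
    (hm : NS p ⊤ (⊥, β) m) (htm : Terminal p ⊤ m) {U : Subgroup G} (hU : IsPGroup p U)
    (hUT : U ≤ stabP m) : U ≤ m.1 ⊔ Subgroup.centralizer (m.1 : Set G) := by
  have hsyl := (FN.self hm htm).sylIn_aut hM
  have hPT := hm.2.1.self_le_stabP
  have hUP : IsPGroup p (U ⊔ m.1 : Subgroup G) :=
    hU.to_sup_of_normal_right' hm.2.1.pg (hUT.trans (stabP_le_normalizer m))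
  have h1 : autInducedBy m.1 m.1 ≤ autInducedBy (U ⊔ m.1) m.1 := autInducedBy_mono le_sup_right _
  have h2 : autInducedBy (U ⊔ m.1) m.1 ≤ autInducedBy (stabP m) m.1 :=
    autInducedBy_mono (sup_le hUT hPT) _
  have h3 := card_le_of_isPGroup h2 (isPGroup_autInducedBy hUP m.1)
  rw [← (sylIn_iff_card (h1.trans h2)).1 hsyl] at h3
  have h4 : autInducedBy m.1 m.1 = autInducedBy (U ⊔ m.1) m.1 := Subgroup.eq_of_le_of_card_ge h1 h3
  intro u hu
  have hα : m.1.normalizerMonoidHom ⟨u, stabP_le_normalizer m (hUT hu)⟩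
      ∈ autInducedBy (U ⊔ m.1) m.1 :=
    mem_autInducedBy_iff.2 ⟨u, Subgroup.mem_sup_left hu, fun x => rfl⟩
  rw [← h4] at hα
  obtain ⟨y, hy, hyx⟩ := mem_autInducedBy_iff.1 hα
  have hc : y⁻¹ * u ∈ Subgroup.centralizer (m.1 : Set G) := by
    rw [Subgroup.mem_centralizer_iff]
    intro z hz
    have h5 : u * z * u⁻¹ = y * z * y⁻¹ := hyx ⟨z, hz⟩
    have h6 : u * z = y * z * y⁻¹ * u := by rw [← h5]; group
    calc z * (y⁻¹ * u) = y⁻¹ * (y * z * y⁻¹ * u) := by group
      _ = y⁻¹ * (u * z) := by rw [h6]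
      _ = y⁻¹ * u * z := by group
  have : u = y * (y⁻¹ * u) := by group
  rw [this]
  exact Subgroup.mul_mem _ (Subgroup.mem_sup_left hy) (Subgroup.mem_sup_right hc)

/-- nilpotency in terms of the ring-theoretic pairs -/
theorem isNilpotentBlock_iff {B : Set (IrrCharacter G)} (hB : IsPBlock M B) :
    IsNilpotentBlock p M B ↔ ∀ a : FP M G, NS p ⊤ (⊥, bl M B) a → ∀ x ∈ stabP a,
      IsPRegular p x → x ∈ Subgroup.centralizer (a.1 : Set G) := by
  constructor
  · rintro ⟨-, h⟩ a ha x hx hreg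
    obtain ⟨f, hf, hfa⟩ := exists_of_isBlk_cen_top ha.2.1.blk
    have hQf : IsBrauerPair p M a.1 f := ⟨ha.2.1.pg, hf⟩
    have ea : a = (a.1, sbl M _ f) := Prod.ext rfl hfa
    have h1 : IsBrauerPairOf p M B a.1 f := (isBrauerPairOf_iff hB hQf).2 (ea ▸ ha)
    have h2 := mem_stabP_iff.1 hx
    exact h a.1 f h1 x h2.1 ((stabilizesBlock_iff hf x).2
      ⟨normalizer_le_normalizer_centralizer _ h2.1, by rw [← hfa]; exact h2.2⟩) hreg
  · intro h
    refine ⟨hB, fun Q e hQe x hxN hst hreg => ?_⟩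
    have h1 := (isBrauerPairOf_iff hB hQe.1).1 hQe
    exact h _ h1 x (mem_stabP_iff.2 ⟨hxN, ((stabilizesBlock_iff hQe.1.2 x).1 hst).2⟩) hreg

/-- an element whose `p`-part and `p'`-part lie in `K` lies in `K` -/
theorem mem_of_parts {K : Subgroup G} {x : G}
    (h1 : ∀ y ∈ Subgroup.zpowers x, IsPRegular p y → y ∈ K)
    (h2 : ∀ U : Subgroup G, U ≤ Subgroup.zpowers x → IsPGroup p U → U ≤ K) : x ∈ K := by
  have hn : orderOf x ≠ 0 := (orderOf_pos x).ne'
  obtain ⟨k, r, hr, hkr⟩ := Nat.exists_eq_pow_mul_and_not_dvd hn p hp.out.ne_one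
  have hr0 : r ≠ 0 := by rintro rfl; simp at hr
  have hpk0 : p ^ k ≠ 0 := pow_ne_zero _ hp.out.ne_zero
  have ho1 : orderOf (x ^ (p ^ k)) = r := by
    rw [orderOf_pow_of_dvd hpk0 (hkr ▸ dvd_mul_right _ _), hkr,
      Nat.mul_div_cancel_left _ (Nat.pos_of_ne_zero hpk0)]
  have ho2 : orderOf (x ^ r) = p ^ k := by
    rw [orderOf_pow_of_dvd hr0 (hkr ▸ dvd_mul_left _ _), hkr,
      Nat.mul_div_cancel _ (Nat.pos_of_ne_zero hr0)]
  have m1 : x ^ (p ^ k) ∈ K :=
    h1 _ (Subgroup.pow_mem _ (Subgroup.mem_zpowers x) _) (by rw [IsPRegular, ho1]; exact hr)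
  have m2 : x ^ r ∈ K := by
    refine h2 (Subgroup.zpowers (x ^ r)) ?_ ?_ (Subgroup.mem_zpowers _)
    · rw [Subgroup.zpowers_le]; exact Subgroup.pow_mem _ (Subgroup.mem_zpowers x) _
    · exact IsPGroup.of_card (n := k) (by rw [Nat.card_zpowers, ho2])
  have hcop : IsCoprime ((p ^ k : ℕ) : ℤ) (r : ℤ) :=
    Nat.isCoprime_iff_coprime.2 (Nat.Coprime.pow_left _ ((Nat.Prime.coprime_iff_not_dvd hp.out).2 hr))
  obtain ⟨a, b, hab⟩ := hcop
  have : x = (x ^ (p ^ k)) ^ a * (x ^ r) ^ b := by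
    rw [← zpow_natCast x (p ^ k), ← zpow_natCast x r, ← zpow_mul, ← zpow_mul, ← zpow_add,
      mul_comm _ a, mul_comm _ b, hab, zpow_one]
  rw [this]
  exact K.mul_mem (K.zpow_mem m1 _) (K.zpow_mem m2 _)

theorem s4687 (hM : IsPModular p M) {B : Set (IrrCharacter G)} {P : Subgroup G}
    {e : Set (IrrCharacter (Subgroup.centralizer (P : Set G)))}
    (hmax : IsMaximalBrauerPair p M B P e) (hab : ∀ x ∈ P, ∀ y ∈ P, x * y = y * x) :
    IsNilpotentBlock p M B ↔ ∀ x : G, x ∈ Subgroup.normalizer (P : Set G) →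
      StabilizesBlock (Subgroup.centralizer (P : Set G)) e x →
        x ∈ Subgroup.centralizer (P : Set G) := by
  have hPe := hmax.1.1
  have hB := hmax.1.2.1
  have hm := (isBrauerPairOf_iff hB hPe).1 hmax.1
  have htm := terminal_of_maximal hmax
  rw [isNilpotentBlock_iff hB]
  constructor
  · intro h x hxN hst
    have hx : x ∈ stabP ((P, sbl M _ e) : FP M G) :=
      mem_stabP_iff.2 ⟨hxN, ((stabilizesBlock_iff hPe.2 x).1 hst).2⟩
    have hz : Subgroup.zpowers x ≤ stabP ((P, sbl M _ e) : FP M G) := by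
      rwa [Subgroup.zpowers_le]
    refine mem_of_parts (p := p) (fun y hy hreg => h _ hm y (hz hy) hreg) (fun U hU hUp => ?_)
    refine (htm.pgroup_le hM hm hUp (hU.trans hz)).trans (sup_le ?_ le_rfl)
    exact le_centralizer_of_ab hab le_rfl
  · intro h a ha x hx _
    obtain ⟨g, -, hg⟩ := htm.conj_le hm ha
    have hx' : g * x * g⁻¹ ∈ stabP (act g a) := by
      rw [stabP_act, mem_cjS]
      simpa [mul_assoc] using hx
    obtain ⟨c, hc, hcx⟩ := ab_factor hM hg hm.2.1 htm hab hx'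
    have h1 := mem_stabP_iff.1 hcx
    have h2 := h _ h1.1 ((stabilizesBlock_iff hPe.2 _).2
      ⟨normalizer_le_normalizer_centralizer _ h1.1, h1.2⟩)
    have h3 : c * (g * x * g⁻¹) ∈ Subgroup.centralizer ((act g a).1 : Set G) :=
      Subgroup.centralizer_le (by exact_mod_cast hg.fst_le) h2
    have h4 : g * x * g⁻¹ ∈ Subgroup.centralizer ((act g a).1 : Set G) := by
      have := Subgroup.mul_mem _ (Subgroup.inv_mem _ hc) h3
      simpa using this
    rw [act_fst, ← cjS_centralizer, mem_cjS] at h4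
    simpa [mul_assoc] using h4

end

end Cfsg.Agent.Lib.Helper26.BP
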