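import Cfsg.Agent.Lib.Helper26.BPNil
import Cfsg.Agent.Lib.Helper26.AlperinTools

/-!
# Nilpotent blocks and the inner fusion system
-/

set_option autoImplicit false
set_option linter.unusedSectionVars false
set_option linter.unusedVariables false
set_option linter.style.haveILetI false

open Cfsg Cfsg.FusionSystem
open Cfsg.Agent.Lib.Helper7 Cfsg.Agent.Lib.Helper24

namespace Cfsg.Agent.Lib.Helper26.BP

noncomputable section
open Classical

universe u
variable {M : Ideal AlgInt} [M.IsPrime] {p : ℕ} [hp : Fact p.Prime]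
variable {G : Type u} [Group G] [Fintype G]

theorem normalizerMonoidHom_eq_one_iff {Q : Subgroup G} (g : Subgroup.normalizer (Q : Set G)) :
    Q.normalizerMonoidHom g = 1 ↔ (g : G) ∈ Subgroup.centralizer (Q : Set G) := by
  rw [Subgroup.mem_centralizer_iff]
  constructor
  · intro h z hz
    have h1 : ((Q.normalizerMonoidHom g ⟨z, hz⟩ : Q) : G) = z := by rw [h]; rfl
    have h2 : (g : G) * z * (g : G)⁻¹ = z := h1
    calc z * g = (g : G) * z * (g : G)⁻¹ * g := by rw [h2]
      _ = g * z := by group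
  · intro h
    ext z
    show (g : G) * z * (g : G)⁻¹ = z
    rw [← h z z.2]; group

/-- if the `p`-regular elements of `T ≤ N(Q)` centralize `Q` then `p'`-automorphisms induced by
`T` are trivial -/
theorem aut_eq_one_of_coprime {Q T : Subgroup G}
    (h : ∀ x ∈ T, x ∈ Subgroup.normalizer (Q : Set G) → IsPRegular p x →
      x ∈ Subgroup.centralizer (Q : Set G))
    {α : MulAut Q} (hα : α ∈ autInducedBy T Q) (hc : Nat.Coprime (orderOf α) p) : α = 1 := by
  obtain ⟨g, hg, hgα⟩ := mem_autInducedBy_iff.1 hα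
  have hgN := mem_normalizer_of_aut hgα
  have e : α = Q.normalizerMonoidHom ⟨g, hgN⟩ := by
    ext x; rw [hgα x]; rfl
  have hn : orderOf g ≠ 0 := (orderOf_pos g).ne'
  obtain ⟨k, r, hr, hkr⟩ := Nat.exists_eq_pow_mul_and_not_dvd hn p hp.out.ne_one
  have hpk0 : p ^ k ≠ 0 := pow_ne_zero _ hp.out.ne_zero
  have ho1 : orderOf (g ^ (p ^ k)) = r := by
    rw [orderOf_pow_of_dvd hpk0 (hkr ▸ dvd_mul_right _ _), hkr,
      Nat.mul_div_cancel_left _ (Nat.pos_of_ne_zero hpk0)]
  have h1 : g ^ (p ^ k) ∈ Subgroup.centralizer (Q : Set G) :=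
    h _ (T.pow_mem hg _) (Subgroup.pow_mem _ hgN _) (by rw [IsPRegular, ho1]; exact hr)
  have h2 : α ^ (p ^ k) = 1 := by
    rw [e, ← map_pow, normalizerMonoidHom_eq_one_iff]
    exact h1
  have h3 : orderOf α ∣ p ^ k := orderOf_dvd_of_pow_eq_one h2
  have h4 : orderOf α = 1 := (hc.pow_right k).eq_one_of_dvd h3
  exact orderOf_eq_one_iff.1 h4

variable [CharP (resField M) p]

theorem s4686 (hM : IsPModular p M) {B : Set (IrrCharacter G)} {P : Subgroup G}
    {e : Set (IrrCharacter (Subgroup.centralizer (P : Set G)))}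
    (hmax : IsMaximalBrauerPair p M B P e) {F : FusionSystem P}
    (hF : IsBlockFusionSystemOn p M B P e F) :
    IsNilpotentBlock p M B ↔ ∀ Q : Subgroup G, F.Hom Q = (innerFusionSystem P).Hom Q := by
  have hPe := hmax.1.1
  have hB := hmax.1.2.1
  have hm := (isBrauerPairOf_iff hB hPe).1 hmax.1
  have htm := terminal_of_maximal hmax
  have hFm := mem_hom_iff hF
  have hsat := saturated_of_isBlockFusionSystemOn hM hF
  rw [isNilpotentBlock_iff hB]
  constructor
  · intro h
    have hle : F ≤ innerFusionSystem P := by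
      apply le_of_pResidual_le hPe.1 hsat
      intro R hR
      have hRP : R ≤ P := (fullyNormalized_of_eq_or_essential hR).1
      obtain ⟨ε, hε⟩ := exists_le hm.2.1 (Q := R) hRP
      have hA := autGroup_eq hFm hε
      have hbot : pResidual p (F.autGroup R) = ⊥ := by
        rw [pResidual, Subgroup.closure_eq_bot_iff]
        intro α hα
        have hα' : Nat.Coprime (orderOf (α : MulAut R)) p := by
          rw [Subgroup.orderOf_coe]; exact hα
        have hmem : (α : MulAut R) ∈ autInducedBy (stabP ((R, ε) : FP M G)) R :=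
          (show F.autGroup R ≤ autInducedBy (stabP ((R, ε) : FP M G)) R from hA.le) α.2
        have := aut_eq_one_of_coprime (p := p) (T := stabP ((R, ε) : FP M G)) (Q := R)
          (fun x hx _ hreg => h _ (hm.bot_of_ge hε) x hx hreg) hmem hα'
        exact Subtype.ext this
      rw [hbot, Subgroup.map_bot]
      exact bot_le
    intro Q
    apply Set.Subset.antisymm (hle Q)
    rintro φ ⟨hQ, g, hg, hφ⟩
    have : φ = conjHom Q g := by
      ext x; rw [hφ]; rfl
    rw [this]
    exact F.conj_mem hQ hg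
  · intro h a ha x hx hreg
    obtain ⟨g, -, hg⟩ := htm.conj_le hm ha
    have hx' : g * x * g⁻¹ ∈ stabP (act g a) := by
      rw [stabP_act, mem_cjS]
      simpa [mul_assoc] using hx
    have hxN := stabP_le_normalizer _ hx'
    have hφ : conjHom (act g a).1 (g * x * g⁻¹) ∈ F.Hom (act g a).1 := by
      rw [hFm]
      refine ⟨g * x * g⁻¹, (act g a).2, fun _ => rfl, hg, ?_⟩
      rw [show act (g * x * g⁻¹) (((act g a).1, (act g a).2) : FP M G) = act g a from hx']
      exact hg
    rw [h] at hφ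
    obtain ⟨_, s, hs, hsφ⟩ := hφ
    have hsφ' : ∀ z : (act g a).1, (g * x * g⁻¹) * (z : G) * (g * x * g⁻¹)⁻¹ = s * z * s⁻¹ := hsφ
    have hsN : s ∈ Subgroup.normalizer ((act g a).1 : Set G) :=
      mem_normalizer_of_aut (α := (act g a).1.normalizerMonoidHom ⟨_, hxN⟩) (fun z => hsφ' z)
    have e1 : (act g a).1.normalizerMonoidHom ⟨_, hxN⟩ = (act g a).1.normalizerMonoidHom ⟨s, hsN⟩ := by
      ext z; exact hsφ' z
    have o1 : orderOf ((act g a).1.normalizerMonoidHom ⟨_, hxN⟩) ∣ orderOf x := by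
      refine (orderOf_map_dvd _ _).trans ?_
      rw [← Subgroup.orderOf_coe]
      show orderOf (g * x * g⁻¹) ∣ orderOf x
      have : g * x * g⁻¹ = MulAut.conj g x := rfl
      rw [this, MulEquiv.orderOf_eq]
    have o2 : orderOf ((act g a).1.normalizerMonoidHom ⟨_, hxN⟩) ∣ orderOf s := by
      rw [e1]
      refine (orderOf_map_dvd _ _).trans ?_
      rw [← Subgroup.orderOf_coe]
    obtain ⟨k, hk⟩ := (IsPGroup.iff_orderOf.1 hPe.1) ⟨s, hs⟩
    rw [Subgroup.orderOf_mk] at hk
    rw [hk] at o2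
    have hcop : Nat.Coprime (orderOf x) (p ^ k) :=
      Nat.Coprime.pow_right _ ((Nat.Prime.coprime_iff_not_dvd hp.out).2 hreg).symm
    have o3 : orderOf ((act g a).1.normalizerMonoidHom ⟨_, hxN⟩) = 1 :=
      Nat.eq_one_of_dvd_coprimes hcop o1 o2
    have h4 := (normalizerMonoidHom_eq_one_iff _).1 (orderOf_eq_one_iff.1 o3)
    have h5 : g * x * g⁻¹ ∈ Subgroup.centralizer ((act g a).1 : Set G) := h4
    rw [act_fst, ← cjS_centralizer, mem_cjS] at h5
    simpa [mul_assoc] using h5

end

end Cfsg.Agent.Lib.Helper26.BP
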