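import Cfsg.Agent.Lib.Helper26.BPSub

/-!
# Nilpotent blocks: local blocks are nilpotent
-/

set_option autoImplicit false
set_option linter.unusedSectionVars false
set_option linter.unusedVariables false
set_option linter.style.haveILetI false

open Cfsg Cfsg.FusionSystem
open Cfsg.Agent.Lib.Helper7 Cfsg.Agent.Lib.Helper24

namespace Cfsg.Agent.Lib.Helper26.BP

noncomputable section
open Classical

universe u
variable {M : Ideal AlgInt} [M.IsPrime] {p : ℕ} [hp : Fact p.Prime]
variable {G : Type u} [Group G] [Fintype G]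

theorem centralizer_sup' (Q R : Subgroup G) :
    Subgroup.centralizer ((Q ⊔ R : Subgroup G) : Set G) =
      Subgroup.centralizer (Q : Set G) ⊓ Subgroup.centralizer (R : Set G) := by
  apply le_antisymm
  · exact le_inf (Subgroup.centralizer_le (by exact_mod_cast (le_sup_left : Q ≤ Q ⊔ R)))
      (Subgroup.centralizer_le (by exact_mod_cast (le_sup_right : R ≤ Q ⊔ R)))
  · intro x hx
    have h1 : Q ≤ Subgroup.centralizer ((Subgroup.zpowers x : Subgroup G) : Set G) := by
      rw [Subgroup.le_centralizer_iff, Subgroup.zpowers_le]; exact hx.1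
    have h2 : R ≤ Subgroup.centralizer ((Subgroup.zpowers x : Subgroup G) : Set G) := by
      rw [Subgroup.le_centralizer_iff, Subgroup.zpowers_le]; exact hx.2
    have h3 := sup_le h1 h2
    rw [Subgroup.le_centralizer_iff, Subgroup.zpowers_le] at h3
    exact h3

variable [CharP (resField M) p]

/-- a pair of the block `a.2` of `C(Q)` gives a pair of `G` above `a = (Q, a.2)` -/
theorem NS.sup_of_cen {a b : FP M G} (ha : IsPair p ⊤ a)
    (hb : NS p (Subgroup.centralizer (a.1 : Set G)) (⊥, a.2) b) :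
    NS p ⊤ a (a.1 ⊔ b.1, b.2) := by
  have hRC : b.1 ≤ Subgroup.centralizer (a.1 : Set G) := hb.2.1.le
  have hRN : b.1 ≤ Subgroup.normalizer (a.1 : Set G) := hRC.trans (centralizer_le_normalizer' _)
  refine ⟨ha, ⟨le_top, ha.pg.to_sup_of_normal_left' hb.2.1.pg hRN, ?_⟩, le_sup_left,
    sup_le Subgroup.le_normalizer hRN, ha.inv_self.sup (ha.blk.inv.mono ?_), ?_⟩
  · show IsBlk M (cen ⊤ (a.1 ⊔ b.1)) b.2
    rw [cen_top, centralizer_sup']
    exact hb.2.1.blk
  · rw [cen_top]; exact hRC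
  · show br (a.1 ⊔ b.1) a.2 * b.2 = b.2
    rw [br_sup ha.supp]
    exact hb.2.2.2.2.2

theorem relNil_centralizer {β : KG M G}
    (hnil : ∀ a : FP M G, NS p ⊤ (⊥, β) a → ∀ x ∈ stabP a, IsPRegular p x →
      x ∈ Subgroup.centralizer (a.1 : Set G))
    {a : FP M G} (ha : NS p ⊤ (⊥, β) a) : RelNil p (Subgroup.centralizer (a.1 : Set G)) a.2 := by
  intro b hb x hxC hxb hreg
  have h1 := NS.sup_of_cen ha.2.1 hb
  have h2 := ha.bot_of_le h1.le
  have hxb' := mem_stabP_iff.1 hxb
  have h3 : x ∈ stabP ((a.1 ⊔ b.1, b.2) : FP M G) := by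
    rw [mem_stabP_iff]
    refine ⟨?_, hxb'.2⟩
    rw [← cjS_eq_self_iff]
    show (a.1 ⊔ b.1).map _ = a.1 ⊔ b.1
    rw [Subgroup.map_sup]
    have e1 : cjS x a.1 = a.1 := cjS_eq_self_iff.2 (centralizer_le_normalizer' _ hxC)
    have e2 : cjS x b.1 = b.1 := cjS_eq_self_iff.2 hxb'.1
    exact congrArg₂ (· ⊔ ·) e1 e2
  have h4 := hnil _ h2 x h3 hreg
  exact Subgroup.centralizer_le (by exact_mod_cast (le_sup_right : b.1 ≤ a.1 ⊔ b.1)) h4

theorem s4688 (hM : IsPModular p M) {B : Set (IrrCharacter G)} {P Q : Subgroup G}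
    {e : Set (IrrCharacter (Subgroup.centralizer (P : Set G)))}
    {f : Set (IrrCharacter (Subgroup.centralizer (Q : Set G)))}
    (hmax : IsMaximalBrauerPair p M B P e) (hnil : IsNilpotentBlock p M B)
    (hQf : IsBrauerPairOf p M B Q f) :
    IsNilpotentBlock p M f ∧ (SubpairLE p M Q f P e → IsDefectGroup p M f
      ((P ⊓ Subgroup.centralizer (Q : Set G)).subgroupOf (Subgroup.centralizer (Q : Set G)))) := by
  have hPe := hmax.1.1
  have hB := hmax.1.2.1
  have hm := (isBrauerPairOf_iff hB hPe).1 hmax.1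
  have htm := terminal_of_maximal hmax
  have ha := (isBrauerPairOf_iff hB hQf.1).1 hQf
  have hnil' := (isNilpotentBlock_iff hB).1 hnil
  refine ⟨isNilpotentBlock_of_relNil hQf.1.2 (relNil_centralizer hnil' ha), fun hle => ?_⟩
  have hle' := le_of_subpairLE hle
  rw [isDefectGroup_subgroupOf_iff hM hQf.1.2 inf_le_right]
  refine (isDef_iff_forall_card_le hm htm hle' Kcen Kcen_le_stabP
      (fun _ => le_top) (fun x _ b => Kcen_act x b)).2 ?_
  intro x _ hx
  have hF := isBlockFusionSystemOn_blockFS hmax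
  have hin := (s4686 hM hmax hF).1 hnil Q
  have hφ : conjHom Q x ∈ (blockFS P (sbl M _ e) (isPair_of_isBrauerPair hmax.1.1)).Hom Q :=
    (mem_hom_iff hF _ _).2 ⟨x, sbl M _ f, fun _ => rfl, hle', hx⟩
  rw [hin] at hφ
  obtain ⟨_, s, hs, hsφ⟩ := hφ
  have e1 : cjS x Q = cjS s Q := by
    rw [← range_conj Q x (φ := conjHom Q x) (fun _ => rfl), range_conj Q s hsφ]
  have e2 : Kcen (act x ((Q, sbl M _ f) : FP M G)) = cjS s (Subgroup.centralizer (Q : Set G)) := by
    show Subgroup.centralizer ((cjS x Q : Subgroup G) : Set G) = _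
    rw [e1, cjS_centralizer]
  rw [e2]
  have e3 : P ⊓ cjS s (Subgroup.centralizer (Q : Set G)) =
      cjS s (P ⊓ Subgroup.centralizer (Q : Set G)) := by
    rw [cjS_inf, cjS_eq_self_of_mem hs]
  show Nat.card (P ⊓ cjS s (Subgroup.centralizer (Q : Set G)) : Subgroup G) ≤ _
  rw [e3, card_cjS]
  exact le_rfl

end

end Cfsg.Agent.Lib.Helper26.BP
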