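import Cfsg.Agent.Lib.Helper26.BPNil3

/-!
# Centric pairs with `G = N_G(Q, f)`
-/

set_option autoImplicit false
set_option linter.unusedSectionVars false
set_option linter.unusedVariables false
set_option linter.style.haveILetI false

open Cfsg Cfsg.FusionSystem
open Cfsg.Agent.Lib.Helper7 Cfsg.Agent.Lib.Helper24

namespace Cfsg.Agent.Lib.Helper26.BP

noncomputable section
open Classical

universe u
variable {M : Ideal AlgInt} [M.IsPrime] {p : ℕ} [hp : Fact p.Prime]
variable {G : Type u} [Group G] [Fintype G]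

/-- a `p`-regular element acting on `R` like a `p`-element centralizes `R` -/
theorem centralizes_of_regular {R : Subgroup G} {x s : G}
    (hxN : x ∈ Subgroup.normalizer (R : Set G)) (hreg : IsPRegular p x)
    (hs : ∃ k : ℕ, orderOf s = p ^ k) (h : ∀ z ∈ R, x * z * x⁻¹ = s * z * s⁻¹) :
    x ∈ Subgroup.centralizer (R : Set G) := by
  have hsN : s ∈ Subgroup.normalizer (R : Set G) :=
    mem_normalizer_of_aut (α := R.normalizerMonoidHom ⟨_, hxN⟩) (fun z => h z z.2)
  have e1 : R.normalizerMonoidHom ⟨_, hxN⟩ = R.normalizerMonoidHom ⟨s, hsN⟩ := by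
    ext z; exact h z z.2
  have o1 : orderOf (R.normalizerMonoidHom ⟨_, hxN⟩) ∣ orderOf x := by
    refine (orderOf_map_dvd _ _).trans ?_
    rw [← Subgroup.orderOf_coe]
  have o2 : orderOf (R.normalizerMonoidHom ⟨_, hxN⟩) ∣ orderOf s := by
    rw [e1]
    refine (orderOf_map_dvd _ _).trans ?_
    rw [← Subgroup.orderOf_coe]
  obtain ⟨k, hk⟩ := hs
  rw [hk] at o2
  have hcop : Nat.Coprime (orderOf x) (p ^ k) :=
    Nat.Coprime.pow_right _ ((Nat.Prime.coprime_iff_not_dvd hp.out).2 hreg).symm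
  have o3 : orderOf (R.normalizerMonoidHom ⟨_, hxN⟩) = 1 :=
    Nat.eq_one_of_dvd_coprimes hcop o1 o2
  exact (normalizerMonoidHom_eq_one_iff _).1 (orderOf_eq_one_iff.1 o3)

theorem isPRegular_conj {x : G} (h : IsPRegular p x) (g : G) : IsPRegular p (g * x * g⁻¹) := by
  have : g * x * g⁻¹ = MulAut.conj g x := rfl
  rw [IsPRegular, this, MulEquiv.orderOf_eq]
  exact h

theorem exists_mul_of_mem_sup_centralizer {Q : Subgroup G} {x : G}
    (hx : x ∈ Q ⊔ Subgroup.centralizer (Q : Set G)) :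
    ∃ q ∈ Q, ∃ c ∈ Subgroup.centralizer (Q : Set G), x = q * c := by
  have h1 : Q ≤ Subgroup.normalizer ((Subgroup.centralizer (Q : Set G) : Subgroup G) : Set G) :=
    Subgroup.le_normalizer.trans (normalizer_le_normalizer_centralizer Q)
  have h2 := Subgroup.coe_mul_of_left_le_normalizer_right Q (Subgroup.centralizer (Q : Set G)) h1
  have h3 : x ∈ ((Q ⊔ Subgroup.centralizer (Q : Set G) : Subgroup G) : Set G) := hx
  rw [h2] at h3
  obtain ⟨q, hq, c, hc, rfl⟩ := h3
  exact ⟨q, hq, c, hc, rfl⟩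

variable [CharP (resField M) p]

theorem NS.refl' {H : Subgroup G} {a : FP M G} (ha : IsPair p H a) : NS p H a a :=
  ⟨ha, ha, le_rfl, Subgroup.le_normalizer, ha.inv_self, by
    rw [br_eq_self ha.supp]; exact ha.blk.idem⟩

/-- if `Z(Q)` is a defect group of `a.2` in `C(Q)` then `a` is terminal in `Q C(Q)` -/
theorem terminal_of_isDef_center {a : FP M G}
    (hdef : IsDef p (Subgroup.centralizer (a.1 : Set G)) a.2
      (a.1 ⊓ Subgroup.centralizer (a.1 : Set G))) :
    Terminal p (a.1 ⊔ Subgroup.centralizer (a.1 : Set G)) a := by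
  intro R hRL hR hQR hRN hinv hbr
  have h1 : br (R ⊓ Subgroup.centralizer (a.1 : Set G)) a.2 ≠ 0 := by
    obtain ⟨y, hy, hy0⟩ := br_ne_zero_iff.1 hbr
    exact br_ne_zero_iff.2 ⟨y, Subgroup.centralizer_le
      (by exact_mod_cast (inf_le_left : R ⊓ Subgroup.centralizer (a.1 : Set G) ≤ R)) hy, hy0⟩
  have h2 := hdef.2.2.2 _ inf_le_right (hR.to_le inf_le_left) h1
  have h3 : a.1 ⊓ Subgroup.centralizer (a.1 : Set G) = R ⊓ Subgroup.centralizer (a.1 : Set G) :=
    Subgroup.eq_of_le_of_card_ge (inf_le_inf_right _ hQR) h2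
  intro r hr
  obtain ⟨q, hq, c, hc, rfl⟩ := exists_mul_of_mem_sup_centralizer (hRL hr)
  have hcR : c ∈ R := by
    have := R.mul_mem (R.inv_mem (hQR hq)) hr
    simpa using this
  have hcQ : c ∈ a.1 ⊓ Subgroup.centralizer (a.1 : Set G) := by
    rw [h3]; exact ⟨hcR, hc⟩
  exact a.1.mul_mem hq hcQ.1

/-- the block `a.2` of `Q C(Q)` is nilpotent when `Z(Q)` is a defect group of `a.2` in `C(Q)` -/
theorem relNil_of_isDef_center (hM : IsPModular p M) {a : FP M G} (ha : IsPair p ⊤ a)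
    (hdef : IsDef p (Subgroup.centralizer (a.1 : Set G)) a.2
      (a.1 ⊓ Subgroup.centralizer (a.1 : Set G))) :
    RelNil p (a.1 ⊔ Subgroup.centralizer (a.1 : Set G)) a.2 := by
  have hC : Subgroup.centralizer (a.1 : Set G) ≤ stabP a := by
    have := ha.cen_le_stabP
    rwa [cen_top] at this
  have hns := (NS.refl' ha).bot_sub hM (L := a.1 ⊔ Subgroup.centralizer (a.1 : Set G)) le_sup_right
    (sup_le ha.self_le_stabP hC) le_sup_left
  have htm := terminal_of_isDef_center hdef
  intro b hb x hxL hxb hreg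
  obtain ⟨t, htL, hle⟩ := htm.conj_le hns hb
  have hx' : t * x * t⁻¹ ∈ stabP (act t b) := by
    rw [stabP_act, mem_cjS]
    simpa [mul_assoc] using hxb
  have hx'L : t * x * t⁻¹ ∈ a.1 ⊔ Subgroup.centralizer (a.1 : Set G) :=
    Subgroup.mul_mem _ (Subgroup.mul_mem _ htL hxL) (Subgroup.inv_mem _ htL)
  obtain ⟨q, hq, c, hc, hqc⟩ := exists_mul_of_mem_sup_centralizer hx'L
  have hk : ∃ k : ℕ, orderOf q = p ^ k := by
    obtain ⟨k, hk⟩ := (IsPGroup.iff_orderOf.1 ha.pg) ⟨q, hq⟩
    rw [Subgroup.orderOf_mk] at hk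
    exact ⟨k, hk⟩
  have h5 := centralizes_of_regular (p := p) (stabP_le_normalizer _ hx') (isPRegular_conj hreg t) hk
    (fun z hz => by
      have hzc := (Subgroup.mem_centralizer_iff.1 hc) z (hle.fst_le hz)
      rw [hqc]
      calc q * c * z * (q * c)⁻¹ = q * (c * z) * c⁻¹ * q⁻¹ := by group
        _ = q * (z * c) * c⁻¹ * q⁻¹ := by rw [hzc]
        _ = q * z * q⁻¹ := by group)
  rw [act_fst, ← cjS_centralizer, mem_cjS] at h5
  simpa [mul_assoc] using h5

theorem s4693 (hM : IsPModular p M) {B : Set (IrrCharacter G)} {P : Subgroup G}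
    {e : Set (IrrCharacter (Subgroup.centralizer (P : Set G)))}
    (hmax : IsMaximalBrauerPair p M B P e) {F : FusionSystem P}
    (hF : IsBlockFusionSystemOn p M B P e F) {Q : Subgroup G}
    {f : Set (IrrCharacter (Subgroup.centralizer (Q : Set G)))} (hQP : Q ≤ P)
    (hf : IsPBlock M f) (hle : SubpairLE p M Q f P e) (hcen : F.IsCentric Q)
    (hG : ∀ x : G, x ∈ Subgroup.normalizer (Q : Set G) ∧
      StabilizesBlock (Subgroup.centralizer (Q : Set G)) f x) :
    (∀ g : G, MemLocalIdeal M (blockCoeff B g -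
      subgroupBlockCoeff (Subgroup.centralizer (Q : Set G)) f g)) ∧
    ∃ F' : Set (IrrCharacter ↥(Q ⊔ Subgroup.centralizer (Q : Set G))), IsPBlock M F' ∧
      (∀ t : ↥(Q ⊔ Subgroup.centralizer (Q : Set G)), blockCoeff F' t =
        subgroupBlockCoeff (Subgroup.centralizer (Q : Set G)) f (t : G)) ∧
      IsNilpotentBlock p M F' := by
  have hPe := hmax.1.1
  have hB := hmax.1.2.1
  have hm := (isBrauerPairOf_iff hB hPe).1 hmax.1
  have ha := le_of_subpairLE hle
  have hpa := ha.isPair_left hm.2.1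
  have hns := hm.bot_of_ge ha
  have hstab : stabP ((Q, sbl M _ f) : FP M G) = ⊤ := by
    rw [eq_top_iff]
    intro x _
    exact mem_stabP_iff.2 ⟨(hG x).1, ((stabilizesBlock_iff hf x).1 (hG x).2).2⟩
  constructor
  · have h1 : IsBlk M ⊤ (sbl M _ f) :=
      isBlk_of_stable hM hpa (L := ⊤) le_top le_top (by rw [hstab])
    have h2 := isBlk_top_bl (M := M) hB
    have h3 : bl M B = sbl M _ f := by
      by_contra hne
      have h4 := h2.orth h1 hne
      have h5 := congrArg (br Q) h4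
      rw [br_mul hp.out hpa.pg (h2.inv.mono le_top) (h1.inv.mono le_top), br_zero,
        br_eq_self (a := sbl M _ f) hpa.supp] at h5
      have h6 : br Q (bl M B) * sbl M _ f = sbl M _ f := hns.2.2.2.2.2
      rw [h5] at h6
      exact h1.ne_zero h6.symm
    exact (red_eq_iff (osima hB) (memLocalRing_subgroupBlockCoeff hf)).1 h3
  · obtain ⟨F', hF', hF'c⟩ := exists_block_of_stable hM hpa.pg hf
      (T := Q ⊔ Subgroup.centralizer (Q : Set G)) le_sup_left le_sup_right
      (fun x _ => (hG x).1) (fun t _ => (hG t).2)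
    refine ⟨F', hF', hF'c, isNilpotentBlock_of_relNil hF' ?_⟩
    rw [sbl_eq_of_coeff le_sup_right hF'c]
    have hdef := (s4680 hM hmax hF hQP hf hle).1 hcen
    rw [isDefectGroup_subgroupOf_iff hM hf inf_le_right] at hdef
    exact relNil_of_isDef_center hM (a := ((Q, sbl M _ f) : FP M G)) hpa hdef

end

end Cfsg.Agent.Lib.Helper26.BP
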