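import Cfsg.Agent.Lib.Helper26.BPIdx

/-!
# Orbit sums of blocks of a normal subgroup of `p`-power index
-/

set_option autoImplicit false
set_option linter.unusedSectionVars false
set_option linter.unusedVariables false
set_option linter.style.haveILetI false

open Cfsg Cfsg.FusionSystem
open Cfsg.Agent.Lib.Helper7 Cfsg.Agent.Lib.Helper24

namespace Cfsg.Agent.Lib.Helper26.BP

noncomputable section
open Classical

universe u
variable {M : Ideal AlgInt} [M.IsPrime] {p : ℕ} [hp : Fact p.Prime]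
variable {G : Type u} [Group G] [Fintype G]

/-- the orbit of `γ` under `L` -/
def orbF (L : Subgroup G) (γ : KG M G) : Finset (KG M G) :=
  (Finset.univ.filter (· ∈ L)).image (fun t => cj t γ)

theorem mem_orbF {L : Subgroup G} {γ o : KG M G} : o ∈ orbF L γ ↔ ∃ t ∈ L, cj t γ = o := by
  simp [orbF]

theorem self_mem_orbF (L : Subgroup G) (γ : KG M G) : γ ∈ orbF L γ :=
  mem_orbF.2 ⟨1, L.one_mem, cj_one γ⟩

/-- the orbit sum -/
def osum (L : Subgroup G) (γ : KG M G) : KG M G := ∑ o ∈ orbF L γ, o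

theorem cj_mem_orbF {L : Subgroup G} {γ o : KG M G} {x : G}
    (hx : x ∈ Subgroup.normalizer (L : Set G)) (hxγ : cj x γ ∈ orbF L γ) (ho : o ∈ orbF L γ) :
    cj x o ∈ orbF L γ := by
  obtain ⟨t, ht, rfl⟩ := mem_orbF.1 ho
  obtain ⟨s, hs, hsγ⟩ := mem_orbF.1 hxγ
  refine mem_orbF.2 ⟨x * t * x⁻¹ * s, L.mul_mem ((Subgroup.mem_normalizer_iff.1 hx t).1 ht) hs, ?_⟩
  rw [cj_mul, hsγ, ← cj_mul, ← cj_mul]
  congr 2
  group

theorem cj_osum {L : Subgroup G} {γ : KG M G} {x : G}
    (h : ∀ o ∈ orbF L γ, cj x o ∈ orbF L γ) : cj x (osum L γ) = osum L γ := by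
  rw [osum, map_sum]
  have himg : (orbF L γ).image (cj x) = orbF L γ := by
    apply Finset.eq_of_subset_of_card_le
    · intro o ho
      obtain ⟨o', ho', rfl⟩ := Finset.mem_image.1 ho
      exact h o' ho'
    · rw [Finset.card_image_of_injective _ (cj_injective x)]
  conv_rhs => rw [← himg]
  rw [Finset.sum_image (fun a _ b _ hab => cj_injective x hab)]

theorem osum_inv (L : Subgroup G) (γ : KG M G) : Inv L (osum L γ) := by
  intro x hx
  apply cj_osum
  intro o ho
  exact cj_mem_orbF (Subgroup.le_normalizer hx) (mem_orbF.2 ⟨x, hx, rfl⟩) ho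

section blk
variable {K L : Subgroup G} {γ : KG M G}

theorem isBlk_of_mem_orbF (hLN : L ≤ Subgroup.normalizer (K : Set G)) (hγ : IsBlk M K γ)
    {o : KG M G} (ho : o ∈ orbF L γ) : IsBlk M K o := by
  obtain ⟨t, ht, rfl⟩ := mem_orbF.1 ho
  exact hγ.cj' t (cjS_eq_self_iff.2 (hLN ht))

theorem osum_mul_of_mem (hLN : L ≤ Subgroup.normalizer (K : Set G)) (hγ : IsBlk M K γ)
    {o : KG M G} (ho : o ∈ orbF L γ) : osum L γ * o = o := by
  rw [osum, Finset.sum_mul, Finset.sum_eq_single o]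
  · exact (isBlk_of_mem_orbF hLN hγ ho).idem
  · intro o' ho' hne
    exact (isBlk_of_mem_orbF hLN hγ ho').orth (isBlk_of_mem_orbF hLN hγ ho) hne
  · intro h; exact (h ho).elim

theorem osum_mul_of_not_mem (hLN : L ≤ Subgroup.normalizer (K : Set G)) (hγ : IsBlk M K γ)
    {η : KG M G} (hη : IsBlk M K η) (ho : η ∉ orbF L γ) : osum L γ * η = 0 := by
  rw [osum, Finset.sum_mul]
  apply Finset.sum_eq_zero
  intro o' ho'
  exact (isBlk_of_mem_orbF hLN hγ ho').orth hη (fun h => ho (h ▸ ho'))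

theorem osum_idem (hLN : L ≤ Subgroup.normalizer (K : Set G)) (hγ : IsBlk M K γ) :
    osum L γ * osum L γ = osum L γ := by
  have h : osum L γ * ∑ o ∈ orbF L γ, o = ∑ o ∈ orbF L γ, o := by
    rw [Finset.mul_sum]
    exact Finset.sum_congr rfl (fun o ho => osum_mul_of_mem hLN hγ ho)
  exact h

theorem osum_supp (hLN : L ≤ Subgroup.normalizer (K : Set G)) (hγ : IsBlk M K γ) :
    SuppIn K (osum L γ) :=
  SuppIn.sum (fun o ho => (isBlk_of_mem_orbF hLN hγ ho).supp)

theorem osum_ne_zero (hLN : L ≤ Subgroup.normalizer (K : Set G)) (hγ : IsBlk M K γ) :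
    osum L γ ≠ 0 := by
  intro h
  have := osum_mul_of_mem hLN hγ (self_mem_orbF L γ)
  rw [h, zero_mul] at this
  exact hγ.ne_zero this.symm

/-- an `L`-invariant element multiplying `γ` to `γ` does so for the whole orbit -/
theorem mul_of_mem_orbF {η : KG M G} (hη : Inv L η) (h : η * γ = γ) {o : KG M G}
    (ho : o ∈ orbF L γ) : η * o = o := by
  obtain ⟨t, ht, rfl⟩ := mem_orbF.1 ho
  have := congrArg (cj t) h
  rwa [map_mul, hη t ht] at this

theorem mul_osum {η : KG M G} (hη : Inv L η) (h : η * γ = γ) : η * osum L γ = osum L γ := by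
  rw [osum, Finset.mul_sum]
  exact Finset.sum_congr rfl (fun o ho => mul_of_mem_orbF hη h ho)

/-- the orbit sum of a block of `K` is a block of `L` when `L / K` is a `p`-group -/
theorem isBlk_osum (hM : IsPModular p M) (hKL : K ≤ L)
    (hLN : L ≤ Subgroup.normalizer (K : Set G))
    (hreg : ∀ g ∈ L, IsPRegular p g → g ∈ K) (hγ : IsBlk M K γ) : IsBlk M L (osum L γ) := by
  obtain ⟨η, hη, h1⟩ := exists_isBlk (M := M) (K := L) ((osum_supp hLN hγ).mono hKL)
    (osum_inv L γ) (osum_idem hLN hγ) (osum_ne_zero hLN hγ)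
  have hs := hη.supp_of_regular hM hreg
  have hcomm : osum L γ * η = η * osum L γ := (hη.comm ((osum_supp hLN hγ).mono hKL)).symm
  rcases hγ.dichotomy hs (hη.inv.mono hKL) hη.idem with h | h
  · have := mul_osum hη.inv h
    rw [← hcomm, h1] at this
    rw [← this]; exact hη
  · exfalso
    apply hη.ne_zero
    rw [← h1, hcomm, osum, Finset.mul_sum]
    apply Finset.sum_eq_zero
    intro o ho
    obtain ⟨t, ht, rfl⟩ := mem_orbF.1 ho
    have := congrArg (cj t) h
    rwa [map_mul, hη.inv t ht, map_zero] at this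

/-- every block of `L` is such an orbit sum -/
theorem exists_osum_eq (hM : IsPModular p M) (hKL : K ≤ L)
    (hLN : L ≤ Subgroup.normalizer (K : Set G))
    (hreg : ∀ g ∈ L, IsPRegular p g → g ∈ K) {η : KG M G} (hη : IsBlk M L η) :
    ∃ γ, IsBlk M K γ ∧ η * γ = γ ∧ η = osum L γ := by
  have hs := hη.supp_of_regular hM hreg
  obtain ⟨γ, hγ, h1⟩ := exists_isBlk (M := M) (K := K) hs (hη.inv.mono hKL) hη.idem hη.ne_zero
  refine ⟨γ, hγ, h1, ?_⟩
  by_contra hne
  have h2 := hη.orth (isBlk_osum hM hKL hLN hreg hγ) hne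
  rw [mul_osum hη.inv h1] at h2
  exact osum_ne_zero hLN hγ h2

end blk

end

end Cfsg.Agent.Lib.Helper26.BP
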