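import Cfsg.Agent.Lib.Helper26.BPBlk
import Cfsg.Agent.Lib.Helper9.PGrp

/-!
# Brauer pairs inside the modular group algebra (relative to a subgroup `H`)
-/

set_option autoImplicit false
set_option linter.unusedSectionVars false
set_option linter.unusedVariables false
set_option linter.style.haveILetI false

open Cfsg
open Cfsg.Agent.Lib.Helper7 Cfsg.Agent.Lib.Helper24

namespace Cfsg.Agent.Lib.Helper26.BP

noncomputable section
open Classical

universe u
variable {M : Ideal AlgInt} [M.IsPrime] {G : Type u} [Group G] [Fintype G] {p : ℕ}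

/-- `C_H(Q)` -/
def cen (H Q : Subgroup G) : Subgroup G := H ⊓ Subgroup.centralizer (Q : Set G)

theorem cen_le (H Q : Subgroup G) : cen H Q ≤ H := inf_le_left
theorem cen_le_centralizer (H Q : Subgroup G) : cen H Q ≤ Subgroup.centralizer (Q : Set G) :=
  inf_le_right
theorem cen_anti (H : Subgroup G) {Q P : Subgroup G} (h : Q ≤ P) : cen H P ≤ cen H Q :=
  inf_le_inf_left _ (Subgroup.centralizer_le (by exact_mod_cast h))
theorem cjS_cen {H : Subgroup G} {x : G} (hx : x ∈ H) (Q : Subgroup G) :
    cjS x (cen H Q) = cen H (cjS x Q) := by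
  rw [cen, cjS_inf, cjS_eq_self_of_mem hx, cjS_centralizer]; rfl
theorem cen_bot (H : Subgroup G) : cen H ⊥ = H := by
  rw [cen]
  apply inf_eq_left.2
  intro x _
  rw [Subgroup.mem_centralizer_iff]
  intro y hy
  have : y = 1 := by simpa using hy
  rw [this]; simp
theorem cen_top (Q : Subgroup G) : cen ⊤ Q = Subgroup.centralizer (Q : Set G) := top_inf_eq _

theorem normalizer_le_normalizer_centralizer (Q : Subgroup G) :
    Subgroup.normalizer (Q : Set G) ≤
      Subgroup.normalizer ((Subgroup.centralizer (Q : Set G) : Subgroup G) : Set G) := by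
  intro x hx
  rw [← cjS_eq_self_iff, cjS_centralizer, cjS_eq_self_iff.2 hx]

theorem card_lt_of_lt {A B : Subgroup G} (h : A < B) : Nat.card A < Nat.card B := by
  by_contra hcon
  exact h.ne (Subgroup.eq_of_le_of_card_ge h.le (not_lt.mp hcon))

/-- a subgroup fixes everything supported on its centralizer -/
theorem inv_self_of_supp {P : Subgroup G} {a : KG M G}
    (h : SuppIn (Subgroup.centralizer (P : Set G)) a) : Inv P a := by
  intro x hx
  ext g
  rw [cj_apply]
  by_cases hg : g ∈ Subgroup.centralizer (P : Set G)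
  · have := (Subgroup.mem_centralizer_iff.1 hg) x hx
    rw [mul_assoc, ← this, ← mul_assoc, inv_mul_cancel, one_mul]
  · rw [h g hg]
    apply h
    intro h'
    apply hg
    have hxN : x ∈ Subgroup.normalizer ((Subgroup.centralizer (P : Set G) : Subgroup G) : Set G) :=
      normalizer_le_normalizer_centralizer P (Subgroup.le_normalizer hx)
    have := (Subgroup.mem_normalizer_iff.1 hxN (x⁻¹ * g * x)).1 h'
    simpa [mul_assoc] using this

/-- the stabilizer of an element of the group algebra -/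
def stab (a : KG M G) : Subgroup G where
  carrier := {x | cj x a = a}
  one_mem' := cj_one a
  mul_mem' := by
    intro x y hx hy
    show cj (x * y) a = a
    rw [cj_mul, show cj y a = a from hy, show cj x a = a from hx]
  inv_mem' := by
    intro x hx
    show cj x⁻¹ a = a
    have : cj x⁻¹ (cj x a) = a := cj_inv_cj x a
    rw [show cj x a = a from hx] at this
    exact this

theorem inv_iff_le_stab {K : Subgroup G} {a : KG M G} : Inv K a ↔ K ≤ stab a := Iff.rfl

theorem Inv.sup {A B : Subgroup G} {a : KG M G} (hA : Inv A a) (hB : Inv B a) : Inv (A ⊔ B) a :=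
  inv_iff_le_stab.2 (sup_le hA hB)

/-- pairs (subgroup, element of the group algebra) -/
abbrev FP (M : Ideal AlgInt) [M.IsPrime] (G : Type u) [Group G] := Subgroup G × KG M G

/-- `a` is a Brauer pair of the subgroup `H` -/
structure IsPair (p : ℕ) (H : Subgroup G) (a : FP M G) : Prop where
  le : a.1 ≤ H
  pg : IsPGroup p a.1
  blk : IsBlk M (cen H a.1) a.2

/-- normal inclusion -/
def NS (p : ℕ) (H : Subgroup G) (a b : FP M G) : Prop :=
  IsPair p H a ∧ IsPair p H b ∧ a.1 ≤ b.1 ∧ b.1 ≤ Subgroup.normalizer (a.1 : Set G) ∧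
    Inv b.1 a.2 ∧ br b.1 a.2 * b.2 = b.2

/-- inclusion -/
def LE (p : ℕ) (H : Subgroup G) : FP M G → FP M G → Prop := Relation.ReflTransGen (NS p H)

/-- conjugation of pairs -/
def act (x : G) (a : FP M G) : FP M G := (cjS x a.1, cj x a.2)

@[simp] theorem act_fst (x : G) (a : FP M G) : (act x a).1 = cjS x a.1 := rfl
@[simp] theorem act_snd (x : G) (a : FP M G) : (act x a).2 = cj x a.2 := rfl
theorem act_one (a : FP M G) : act 1 a = a := by
  apply Prod.ext
  · exact cjS_one _
  · exact cj_one _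
theorem act_mul (x y : G) (a : FP M G) : act (x * y) a = act x (act y a) := by
  apply Prod.ext
  · exact cjS_mul _ _ _
  · exact cj_mul _ _ _

/-- the action as a homomorphism into permutations -/
def actPerm : G →* Equiv.Perm (FP M G) where
  toFun x :=
    { toFun := act x
      invFun := act x⁻¹
      left_inv := fun a => by rw [← act_mul, inv_mul_cancel, act_one]
      right_inv := fun a => by rw [← act_mul, mul_inv_cancel, act_one] }
  map_one' := by ext1 a; exact act_one a
  map_mul' x y := by ext1 a; exact act_mul x y a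

theorem actPerm_apply (x : G) (a : FP M G) : actPerm x a = act x a := rfl

/-- conjugation on the group algebra as a homomorphism into permutations -/
def cjPerm : G →* Equiv.Perm (KG M G) where
  toFun x :=
    { toFun := cj x
      invFun := cj x⁻¹
      left_inv := fun a => cj_inv_cj x a
      right_inv := fun a => cj_cj_inv x a }
  map_one' := by ext1 a; exact cj_one a
  map_mul' x y := by ext1 a; exact cj_mul x y a

theorem cjPerm_apply (x : G) (a : KG M G) : cjPerm x a = cj x a := rfl

variable {H : Subgroup G}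

theorem IsPair.act {a : FP M G} (h : IsPair p H a) {x : G} (hx : x ∈ H) :
    IsPair p H (act x a) where
  le := by
    have := cjS_mono (x := x) h.le
    rwa [cjS_eq_self_of_mem hx] at this
  pg := isPGroup_cjS h.pg x
  blk := h.blk.cj' x (cjS_cen hx _)

theorem IsPair.supp {a : FP M G} (h : IsPair p H a) :
    SuppIn (Subgroup.centralizer (a.1 : Set G)) a.2 := h.blk.supp.mono (cen_le_centralizer _ _)

theorem IsPair.suppH {a : FP M G} (h : IsPair p H a) : SuppIn H a.2 := h.blk.supp.mono (cen_le _ _)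

theorem IsPair.inv_self {a : FP M G} (h : IsPair p H a) : Inv a.1 a.2 := inv_self_of_supp h.supp

theorem NS.act {a b : FP M G} (h : NS p H a b) {x : G} (hx : x ∈ H) :
    NS p H (act x a) (act x b) := by
  obtain ⟨h1, h2, h3, h4, h5, h6⟩ := h
  refine ⟨h1.act hx, h2.act hx, cjS_mono h3, ?_, h5.cj x, ?_⟩
  · rw [act_fst, act_fst, ← cjS_normalizer]; exact cjS_mono h4
  · rw [act_fst, act_snd, act_snd, ← cj_br, ← map_mul, h6]

theorem LE.act {a b : FP M G} (h : LE p H a b) {x : G} (hx : x ∈ H) :
    LE p H (act x a) (act x b) :=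
  Relation.ReflTransGen.lift (BP.act x) (fun _ _ h => NS.act h hx) _ _ h

theorem LE.fst_le {a b : FP M G} (h : LE p H a b) : a.1 ≤ b.1 := by
  induction h with
  | refl => exact le_refl _
  | tail _ h2 ih => exact ih.trans h2.2.2.1

theorem LE.isPair_left {a b : FP M G} (h : LE p H a b) (hb : IsPair p H b) : IsPair p H a := by
  rcases Relation.ReflTransGen.cases_head h with rfl | ⟨c, hc, _⟩
  · exact hb
  · exact hc.1

theorem LE.isPair_right {a b : FP M G} (h : LE p H a b) (ha : IsPair p H a) : IsPair p H b := by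
  rcases Relation.ReflTransGen.cases_tail h with rfl | ⟨c, _, hc⟩
  · exact ha
  · exact hc.2.1

theorem LE.trans {a b c : FP M G} (h : LE p H a b) (h' : LE p H b c) : LE p H a c :=
  Relation.ReflTransGen.trans h h'

theorem NS.le {a b : FP M G} (h : NS p H a b) : LE p H a b := Relation.ReflTransGen.single h

theorem LE.refl (a : FP M G) : LE p H a a := Relation.ReflTransGen.refl

/-- the truncation to `C(P)` of something central in `k C_H(Q)`, `Q ≤ P`, is central in
`k C_H(P)` -/
theorem br_supp {P : Subgroup G} {a : KG M G} (hs : SuppIn H a) : SuppIn (cen H P) (br P a) :=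
  hs.tr_inf _

theorem br_inv {P : Subgroup G} {a : KG M G} (hi : Inv (cen H P) a) : Inv (cen H P) (br P a) :=
  hi.tr ((cen_le_centralizer H P).trans Subgroup.le_normalizer)

theorem br_br {P R : Subgroup G} (h : R ≤ P) (a : KG M G) : br P (br R a) = br P a := by
  rw [br, br, tr_tr, inf_eq_left.2 (Subgroup.centralizer_le (by exact_mod_cast h))]; rfl

variable [hp : Fact p.Prime] [CharP (resField M) p]

theorem br_idem {P : Subgroup G} (hP : IsPGroup p P) {a : KG M G} (hi : Inv P a)
    (hid : a * a = a) : br P a * br P a = br P a := by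
  rw [← br_mul hp.out hP hi hi, hid]

/-- Uniqueness of the normal subpair. -/
theorem NS.unique {a a' b : FP M G} (h : NS p H a b) (h' : NS p H a' b) (h1 : a.1 = a'.1) :
    a = a' := by
  apply Prod.ext h1
  by_contra hne
  have hb' : IsBlk M (cen H a.1) a'.2 := h1 ▸ h'.1.blk
  have h0 := h.1.blk.orth hb' hne
  have h2 : b.2 = 0 := by
    rw [← h.2.2.2.2.2, ← h'.2.2.2.2.2, ← mul_assoc, ← br_mul hp.out h.2.1.pg h.2.2.2.2.1
      h'.2.2.2.2.1, h0, br_zero, zero_mul]
  exact h.2.1.blk.ne_zero h2

theorem NS.eq_of_fst_eq {a b : FP M G} (h : NS p H a b) (h1 : a.1 = b.1) : a = b := by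
  apply Prod.ext h1
  by_contra hne
  have hb' : IsBlk M (cen H a.1) b.2 := h1 ▸ h.2.1.blk
  have h0 := h.1.blk.orth hb' hne
  have h2 := h.2.2.2.2.2
  rw [← h1, br_eq_self h.1.supp, h0] at h2
  exact h.2.1.blk.ne_zero h2.symm

/-- Existence of the normal subpair. -/
theorem exists_ns {b : FP M G} (hb : IsPair p H b) {Q : Subgroup G} (hQ : Q ≤ b.1)
    (hN : b.1 ≤ Subgroup.normalizer (Q : Set G)) : ∃ ε, NS p H (Q, ε) b := by
  obtain ⟨P, η⟩ := b
  simp only at hQ hN
  have hPH : P ≤ H := hb.le
  have hPg : IsPGroup p P := hb.pg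
  have hstab : ∀ q : P, ∀ ε ∈ blks M (cen H Q), (cjPerm.comp P.subtype) q ε ∈ blks M (cen H Q) := by
    intro q ε hε
    rw [mem_blks] at hε ⊢
    have h1 : cjS (q : G) (cen H Q) = cen H Q := by
      rw [cjS_cen (hPH q.2), cjS_eq_self_iff.2 (hN q.2)]
    exact hε.cj' _ h1
  have h1 : br P (1 : KG M G)
      = ∑ ε ∈ (blks M (cen H Q)).filter (fun ε => ∀ q : P, (cjPerm.comp P.subtype) q ε = ε),
          br P ε := by
    ext y
    rw [GA.sum_apply]
    by_cases hy : y ∈ Subgroup.centralizer (P : Set G)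
    · rw [br, tr_of_mem _ hy, ← sum_blks M (cen H Q), GA.sum_apply,
        sum_fixed hp.out hPg (cjPerm.comp P.subtype) _ hstab (fun ε => ε y)]
      · apply Finset.sum_congr rfl
        intro ε _
        rw [br, tr_of_mem _ hy]
      · intro q ε
        show cj (q : G) ε y = ε y
        rw [cj_apply]
        have := (Subgroup.mem_centralizer_iff.1 hy) q q.2
        rw [mul_assoc, ← this, ← mul_assoc, inv_mul_cancel, one_mul]
    · rw [br, tr_of_not_mem _ hy]
      symm
      apply Finset.sum_eq_zero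
      intro ε _
      rw [br, tr_of_not_mem _ hy]
  have h2 : η = ∑ ε ∈ (blks M (cen H Q)).filter
      (fun ε => ∀ q : P, (cjPerm.comp P.subtype) q ε = ε), br P ε * η := by
    rw [← Finset.sum_mul, ← h1, br_one, one_mul]
  have h3 : ∃ ε ∈ (blks M (cen H Q)).filter
      (fun ε => ∀ q : P, (cjPerm.comp P.subtype) q ε = ε), br P ε * η ≠ 0 := by
    by_contra hcon
    push Not at hcon
    apply hb.blk.ne_zero
    show η = 0
    rw [h2]
    exact Finset.sum_eq_zero hcon
  obtain ⟨ε, hε, hne⟩ := h3
  rw [Finset.mem_filter, mem_blks] at hε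
  have hinv : Inv P ε := fun x hx => hε.2 ⟨x, hx⟩
  refine ⟨ε, ⟨hQ.trans hPH, hb.pg.to_le hQ, hε.1⟩, hb, hQ, hN, hinv, ?_⟩
  rcases hb.blk.dichotomy (br_supp (hε.1.supp.mono (cen_le _ _)))
    (br_inv (hε.1.inv.mono (cen_anti H hQ))) (br_idem hb.pg hinv hε.1.idem) with h | h
  · exact h
  · exact absurd h hne

/-- Transitivity of normal inclusion when the bottom group is normal in the top group. -/
theorem NS.trans' {a b c : FP M G} (h : NS p H a b) (h' : NS p H b c)
    (hN : c.1 ≤ Subgroup.normalizer (a.1 : Set G)) : NS p H a c := by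
  have hinv : Inv c.1 a.2 := by
    intro x hx
    have hxH : x ∈ H := h'.2.1.le hx
    have h1 := h.act hxH
    have h2 : BP.act x b = b := by
      apply Prod.ext
      · exact cjS_eq_self_iff.2 (h'.2.2.2.1 hx)
      · exact h'.2.2.2.2.1 x hx
    rw [h2] at h1
    have h3 := NS.unique h1 h (cjS_eq_self_iff.2 (hN hx))
    exact congrArg Prod.snd h3
  refine ⟨h.1, h'.2.1, h.2.2.1.trans h'.2.2.1, hN, hinv, ?_⟩
  have h1 : Inv c.1 (br b.1 a.2) :=
    hinv.tr (h'.2.2.2.1.trans (normalizer_le_normalizer_centralizer _))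
  have h2 := congrArg (br c.1) h.2.2.2.2.2
  rw [br_mul hp.out h'.2.1.pg h1 h'.2.2.2.2.1, br_br h'.2.2.1] at h2
  rw [← h'.2.2.2.2.2, ← mul_assoc, h2]

/-- Existence of subpairs. -/
theorem exists_le {b : FP M G} (hb : IsPair p H b) {Q : Subgroup G} (hQ : Q ≤ b.1) :
    ∃ ε, LE p H (Q, ε) b := by
  induction hn : Nat.card b.1 - Nat.card Q using Nat.strong_induction_on generalizing Q with
  | _ n ih =>
    by_cases hne : Q = b.1
    · exact ⟨b.2, by rw [hne]; exact LE.refl _⟩
    · obtain ⟨x, hxP, hxN, hxQ⟩ := Cfsg.Agent.Lib.Helper9.normalizer_growth hb.pg hQ hne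
      set Q1 : Subgroup G := b.1 ⊓ Subgroup.normalizer (Q : Set G) with hQ1
      have hQQ1 : Q ≤ Q1 := le_inf hQ Subgroup.le_normalizer
      have hlt : Nat.card Q < Nat.card Q1 := by
        apply card_lt_of_lt
        exact lt_of_le_of_ne hQQ1 (fun h => hxQ (h ▸ ⟨hxP, hxN⟩))
      have hle : Nat.card Q1 ≤ Nat.card b.1 := Subgroup.card_le_of_le inf_le_left
      obtain ⟨ε1, h1⟩ := ih (Nat.card b.1 - Nat.card Q1) (by omega) inf_le_left rfl
      obtain ⟨ε, h2⟩ := exists_ns (h1.isPair_left hb) (Q := Q) hQQ1 inf_le_right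
      exact ⟨ε, h2.le.trans h1⟩

theorem LE.eq_of_fst_eq {a b : FP M G} (h : LE p H a b) (h1 : a.1 = b.1) : a = b := by
  induction h with
  | refl => rfl
  | tail hab hbc ih =>
    rename_i b c
    have hab : LE p H a b := hab
    have h2 : b.1 = c.1 := le_antisymm hbc.2.2.1 (h1 ▸ hab.fst_le)
    rw [ih (h1.trans h2.symm)]
    exact hbc.eq_of_fst_eq h2

/-- the last step can be taken proper -/
theorem LE.cases_proper {a c : FP M G} (h : LE p H a c) :
    a = c ∨ ∃ b, LE p H a b ∧ NS p H b c ∧ b.1 ≠ c.1 := by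
  induction h with
  | refl => exact Or.inl rfl
  | tail hab hbc ih =>
    rename_i b c
    by_cases h2 : b.1 = c.1
    · have := hbc.eq_of_fst_eq h2
      rw [← this]; exact ih
    · exact Or.inr ⟨b, hab, hbc, h2⟩

/-- Uniqueness of subpairs (Alperin–Broué). -/
theorem LE.unique {a a' b : FP M G} (h : LE p H a b) (h' : LE p H a' b) (h1 : a.1 = a'.1) :
    a = a' := by
  induction hn : Nat.card b.1 using Nat.strong_induction_on generalizing a a' b with
  | _ n ih =>
    rcases h.cases_proper with rfl | ⟨c, hac, hcb, hne⟩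
    · exact (h'.eq_of_fst_eq h1.symm).symm
    rcases h'.cases_proper with rfl | ⟨c', hac', hcb', hne'⟩
    · exact h.eq_of_fst_eq h1
    have hb : IsPair p H b := hcb.2.1
    -- the intersection
    set I : Subgroup G := c.1 ⊓ c'.1 with hI
    have hIN : b.1 ≤ Subgroup.normalizer (I : Set G) :=
      Cfsg.Agent.Lib.Helper9.le_normalizer_inf hcb.2.2.2.1 hcb'.2.2.2.1
    obtain ⟨ι1, hι1⟩ := exists_ns hcb.1 (Q := I) inf_le_left (hcb.2.2.1.trans hIN)
    obtain ⟨ι2, hι2⟩ := exists_ns hcb'.1 (Q := I) inf_le_right (hcb'.2.2.1.trans hIN)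
    have e1 := hι1.trans' hcb hIN
    have e2 := hι2.trans' hcb' hIN
    have e3 : ((I, ι1) : FP M G) = (I, ι2) := NS.unique e1 e2 rfl
    have haI : a.1 ≤ I := le_inf hac.fst_le (h1 ▸ hac'.fst_le)
    obtain ⟨ε, hε⟩ := exists_le hι1.1 (Q := a.1) haI
    have hc1 : Nat.card c.1 < n := by
      rw [← hn]
      exact card_lt_of_lt (lt_of_le_of_ne hcb.2.2.1 hne)
    have hc2 : Nat.card c'.1 < n := by
      rw [← hn]
      exact card_lt_of_lt (lt_of_le_of_ne hcb'.2.2.1 hne')
    have r1 : a = (a.1, ε) := ih _ hc1 hac (hε.trans hι1.le) rfl rfl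
    have r2 : a' = (a.1, ε) := ih _ hc2 hac' (hε.trans (e3 ▸ hι2.le)) h1.symm rfl
    rw [r1, ← r2]

end

end Cfsg.Agent.Lib.Helper26.BP
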