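import Cfsg.Agent.Lib.Helper26.BPAlg
import Cfsg.Agent.Lib.Helper7.BlockFactor
import Cfsg.Agent.Lib.Helper24.BlockBrSurj
import Cfsg.Prelude.Def_BrauerPairs

/-!
# Reduction modulo the local ideal: from complex coefficient functions to the modular group algebra
-/

set_option autoImplicit false
set_option linter.unusedSectionVars false
set_option linter.unusedVariables false
set_option linter.style.haveILetI false

open Cfsg
open Cfsg.Agent.Lib.Helper7 Cfsg.Agent.Lib.Helper24

namespace Cfsg.Agent.Lib.Helper26.BP

noncomputable section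
open Classical

universe u
variable {M : Ideal AlgInt} [M.IsPrime]

/-- residue of a complex number (junk value `0` outside the local ring) -/
def resC (M : Ideal AlgInt) [M.IsPrime] (z : ℂ) : resField M :=
  if h : MemLocalRing M z then res M ⟨z, h⟩ else 0

theorem resC_of_mem {z : ℂ} (h : MemLocalRing M z) : resC M z = res M ⟨z, h⟩ := dif_pos h

theorem resC_add {x y : ℂ} (hx : MemLocalRing M x) (hy : MemLocalRing M y) :
    resC M (x + y) = resC M x + resC M y := by
  rw [resC_of_mem hx, resC_of_mem hy, resC_of_mem (memLocalRing_add hx hy), ← map_add]; rfl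

theorem resC_mul {x y : ℂ} (hx : MemLocalRing M x) (hy : MemLocalRing M y) :
    resC M (x * y) = resC M x * resC M y := by
  rw [resC_of_mem hx, resC_of_mem hy, resC_of_mem (memLocalRing_mul hx hy), ← map_mul]; rfl

theorem resC_zero : resC M 0 = 0 := by
  rw [resC_of_mem memLocalRing_zero]; exact map_zero _

theorem resC_one : resC M 1 = 1 := by
  rw [resC_of_mem memLocalRing_one]; exact map_one _

theorem resC_eq_iff {x y : ℂ} (hx : MemLocalRing M x) (hy : MemLocalRing M y) :
    resC M x = resC M y ↔ MemLocalIdeal M (x - y) := by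
  rw [resC_of_mem hx, resC_of_mem hy, res_eq_iff]

theorem resC_eq_zero_iff {x : ℂ} (hx : MemLocalRing M x) :
    resC M x = 0 ↔ MemLocalIdeal M x := by
  rw [resC_of_mem hx, res_eq_zero_iff]

theorem resC_sub {x y : ℂ} (hx : MemLocalRing M x) (hy : MemLocalRing M y) :
    resC M (x - y) = resC M x - resC M y := by
  rw [resC_of_mem hx, resC_of_mem hy, resC_of_mem (memLocalRing_sub hx hy), ← map_sub]; rfl

theorem resC_sum {ι : Type*} (s : Finset ι) (f : ι → ℂ) (h : ∀ i ∈ s, MemLocalRing M (f i)) :
    resC M (∑ i ∈ s, f i) = ∑ i ∈ s, resC M (f i) := by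
  induction s using Finset.induction_on with
  | empty => simp [resC_zero]
  | insert a s ha ih =>
    rw [Finset.sum_insert ha, Finset.sum_insert ha,
      resC_add (h a (Finset.mem_insert_self _ _))
        (memLocalRing_sum _ _ (fun i hi => h i (Finset.mem_insert_of_mem hi))),
      ih (fun i hi => h i (Finset.mem_insert_of_mem hi))]

/-- a lift of a residue to the local ring -/
def liftC (c : resField M) : ℂ := ((Function.surjInv (res_surjective (M := M)) c : localRing M) : ℂ)

theorem memLocalRing_liftC (c : resField M) : MemLocalRing M (liftC c) :=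
  (Function.surjInv (res_surjective (M := M)) c).2

theorem resC_liftC (c : resField M) : resC M (liftC c) = c := by
  rw [resC_of_mem (memLocalRing_liftC c)]
  exact Function.surjInv_eq (res_surjective (M := M)) c

/-- The modular group algebra. -/
abbrev KG (M : Ideal AlgInt) [M.IsPrime] (G : Type u) := GA (resField M) G

variable {G : Type u}

/-- reduction of a coefficient function -/
def red (M : Ideal AlgInt) [M.IsPrime] (a : G → ℂ) : KG M G := fun g => resC M (a g)

/-- lift of an element of the modular group algebra -/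
def lft (a : KG M G) : G → ℂ := fun g => liftC (a g)

theorem red_apply (a : G → ℂ) (g : G) : red M a g = resC M (a g) := rfl
theorem lft_apply (a : KG M G) (g : G) : lft a g = liftC (a g) := rfl
theorem memLocalRing_lft (a : KG M G) (g : G) : MemLocalRing M (lft a g) := memLocalRing_liftC _
@[simp] theorem red_lft (a : KG M G) : red M (lft a) = a := by
  ext g; exact resC_liftC _

theorem red_eq_iff {a b : G → ℂ} (ha : ∀ g, MemLocalRing M (a g)) (hb : ∀ g, MemLocalRing M (b g)) :
    red M a = red M b ↔ ∀ g, MemLocalIdeal M (a g - b g) := by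
  constructor
  · intro h g
    exact (resC_eq_iff (ha g) (hb g)).1 (congrFun h g)
  · intro h
    ext g
    exact (resC_eq_iff (ha g) (hb g)).2 (h g)

theorem red_eq_zero_iff {a : G → ℂ} (ha : ∀ g, MemLocalRing M (a g)) :
    red M a = 0 ↔ ∀ g, MemLocalIdeal M (a g) := by
  constructor
  · intro h g
    exact (resC_eq_zero_iff (ha g)).1 (congrFun h g)
  · intro h
    ext g
    exact (resC_eq_zero_iff (ha g)).2 (h g)

theorem red_add {a b : G → ℂ} (ha : ∀ g, MemLocalRing M (a g)) (hb : ∀ g, MemLocalRing M (b g)) :
    red M (a + b) = red M a + red M b := by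
  ext g; exact resC_add (ha g) (hb g)

theorem red_sub {a b : G → ℂ} (ha : ∀ g, MemLocalRing M (a g)) (hb : ∀ g, MemLocalRing M (b g)) :
    red M (a - b) = red M a - red M b := by
  ext g; exact resC_sub (ha g) (hb g)

theorem red_zero : red M (0 : G → ℂ) = 0 := by
  ext g; exact resC_zero

variable [Group G] [Fintype G]

theorem memLocalRing_conv {a b : G → ℂ} (ha : ∀ g, MemLocalRing M (a g))
    (hb : ∀ g, MemLocalRing M (b g)) (g : G) : MemLocalRing M (conv a b g) :=
  memLocalRing_sum _ _ (fun x _ => memLocalRing_mul (ha _) (hb _))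

theorem red_conv {a b : G → ℂ} (ha : ∀ g, MemLocalRing M (a g)) (hb : ∀ g, MemLocalRing M (b g)) :
    red M (conv a b) = red M a * red M b := by
  ext x
  rw [red_apply, conv, GA.mul_apply, resC_sum _ _ (fun g _ => memLocalRing_mul (ha _) (hb _))]
  exact Finset.sum_congr rfl (fun g _ => resC_mul (ha _) (hb _))

theorem red_delta : red M (fun g : G => if g = 1 then (1 : ℂ) else 0) = 1 := by
  ext g
  rw [red_apply, GA.one_apply]
  by_cases h : g = 1
  · simp [h, resC_one]
  · simp [h, resC_zero]

theorem memLocalRing_convPow {a : G → ℂ} (ha : ∀ g, MemLocalRing M (a g)) (n : ℕ) (g : G) :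
    MemLocalRing M (convPow a n g) := by
  induction n generalizing g with
  | zero =>
    simp only [convPow]
    split_ifs
    · exact memLocalRing_one
    · exact memLocalRing_zero
  | succ n ih => exact memLocalRing_conv ih ha g

theorem red_convPow {a : G → ℂ} (ha : ∀ g, MemLocalRing M (a g)) (n : ℕ) :
    red M (convPow a n) = (red M a) ^ n := by
  induction n with
  | zero =>
    rw [pow_zero]
    exact red_delta (M := M) (G := G)
  | succ n ih =>
    rw [pow_succ, ← ih]
    exact red_conv (memLocalRing_convPow ha n) ha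

theorem inv_top_iff {a : KG M G} : Inv ⊤ a ↔ ∀ g h : G, a (h * g * h⁻¹) = a g := by
  constructor
  · intro h g x
    exact h.apply (Subgroup.mem_top x) g
  · intro h x _
    ext g
    rw [cj_apply]
    have := h g x⁻¹
    simpa using this

theorem isClassFunction_lft {a : KG M G} (ha : Inv ⊤ a) : IsClassFunction G (lft a) := by
  intro g h
  rw [lft_apply, lft_apply, inv_top_iff.1 ha]

theorem inv_red {c : G → ℂ} (hc : IsClassFunction G c) : Inv ⊤ (red M c) := by
  rw [inv_top_iff]
  intro g h
  rw [red_apply, red_apply, hc]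

theorem memLocalRing_Om {c : G → ℂ} (hc : IsClassFunction G c) (hcR : ∀ g, MemLocalRing M (c g))
    (χ : IrrCharacter G) : MemLocalRing M (Om c χ) :=
  centralSubring_apply_mem (M := M) ⟨c, hc, hcR, rfl⟩ χ

/-- the modular central character -/
def omb (χ : IrrCharacter G) (a : KG M G) : resField M := resC M (Om (lft a) χ)

theorem Om_sub' (c d : G → ℂ) : Om (c - d) = Om c - Om d := by
  rw [sub_eq_add_neg, Om_add, Om_neg, sub_eq_add_neg]

theorem isClassFunction_sub {c d : G → ℂ} (hc : IsClassFunction G c) (hd : IsClassFunction G d) :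
    IsClassFunction G (c - d) := by
  intro g h
  simp only [Pi.sub_apply, hc g h, hd g h]

theorem resC_Om_congr {c d : G → ℂ} (hc : IsClassFunction G c) (hcR : ∀ g, MemLocalRing M (c g))
    (hd : IsClassFunction G d) (hdR : ∀ g, MemLocalRing M (d g)) (h : red M c = red M d)
    (χ : IrrCharacter G) : resC M (Om c χ) = resC M (Om d χ) := by
  rw [resC_eq_iff (memLocalRing_Om hc hcR χ) (memLocalRing_Om hd hdR χ)]
  have h1 := Om_memLocalIdeal (M := M) (isClassFunction_sub hc hd)
    (fun g => (red_eq_iff hcR hdR).1 h g) χ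
  rw [Om_sub'] at h1
  exact h1

theorem omb_red {c : G → ℂ} (hc : IsClassFunction G c) (hcR : ∀ g, MemLocalRing M (c g))
    (χ : IrrCharacter G) : omb χ (red M c) = resC M (Om c χ) :=
  resC_Om_congr (isClassFunction_lft (inv_red hc)) (memLocalRing_lft _) hc hcR (red_lft _) χ

theorem omb_mul {a b : KG M G} (ha : Inv ⊤ a) (hb : Inv ⊤ b) (χ : IrrCharacter G) :
    omb χ (a * b) = omb χ a * omb χ b := by
  have h1 : a * b = red M (conv (lft a) (lft b)) := by
    rw [red_conv (memLocalRing_lft a) (memLocalRing_lft b), red_lft, red_lft]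
  rw [h1, omb_red (isClassFunction_conv (isClassFunction_lft ha) (isClassFunction_lft hb))
    (memLocalRing_conv (memLocalRing_lft a) (memLocalRing_lft b)), Om_conv (isClassFunction_lft ha)]
  exact resC_mul (memLocalRing_Om (isClassFunction_lft ha) (memLocalRing_lft a) χ)
    (memLocalRing_Om (isClassFunction_lft hb) (memLocalRing_lft b) χ)

theorem isClassFunction_add {c d : G → ℂ} (hc : IsClassFunction G c) (hd : IsClassFunction G d) :
    IsClassFunction G (c + d) := by
  intro g h
  simp only [Pi.add_apply, hc g h, hd g h]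

theorem omb_add {a b : KG M G} (ha : Inv ⊤ a) (hb : Inv ⊤ b) (χ : IrrCharacter G) :
    omb χ (a + b) = omb χ a + omb χ b := by
  have h1 : a + b = red M (lft a + lft b) := by
    rw [red_add (memLocalRing_lft a) (memLocalRing_lft b), red_lft, red_lft]
  rw [h1, omb_red (isClassFunction_add (isClassFunction_lft ha) (isClassFunction_lft hb))
    (fun g => memLocalRing_add (memLocalRing_lft a g) (memLocalRing_lft b g)), Om_add]
  exact resC_add (memLocalRing_Om (isClassFunction_lft ha) (memLocalRing_lft a) χ)
    (memLocalRing_Om (isClassFunction_lft hb) (memLocalRing_lft b) χ)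

theorem omb_zero (χ : IrrCharacter G) : omb χ (0 : KG M G) = 0 := by
  have h1 : (0 : KG M G) = red M (0 : G → ℂ) := red_zero.symm
  rw [h1, omb_red (c := (0 : G → ℂ)) (fun _ _ => rfl) (fun _ => memLocalRing_zero), Om_zero]
  exact resC_zero

theorem omb_sum {ι : Type*} (s : Finset ι) (f : ι → KG M G) (h : ∀ i ∈ s, Inv ⊤ (f i))
    (χ : IrrCharacter G) : omb χ (∑ i ∈ s, f i) = ∑ i ∈ s, omb χ (f i) := by
  induction s using Finset.induction_on with
  | empty => simp [omb_zero]
  | insert a s ha ih =>
    rw [Finset.sum_insert ha, Finset.sum_insert ha,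
      omb_add (h a (Finset.mem_insert_self _ _))
        (Inv.sum (fun i hi => h i (Finset.mem_insert_of_mem hi))),
      ih (fun i hi => h i (Finset.mem_insert_of_mem hi))]

theorem omb_congr {a : KG M G} (ha : Inv ⊤ a) {χ ψ : IrrCharacter G}
    (h : SameBlock M (χ : G → ℂ) (ψ : G → ℂ)) : omb χ a = omb ψ a := by
  rw [omb, omb, resC_eq_iff (memLocalRing_Om (isClassFunction_lft ha) (memLocalRing_lft a) χ)
    (memLocalRing_Om (isClassFunction_lft ha) (memLocalRing_lft a) ψ)]
  exact centralSubring_congr (M := M) ⟨lft a, isClassFunction_lft ha, memLocalRing_lft a, rfl⟩ h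

/-- the block idempotent in the modular group algebra -/
def bl (M : Ideal AlgInt) [M.IsPrime] (e : Set (IrrCharacter G)) : KG M G := red M (blockCoeff e)

theorem bl_inv (e : Set (IrrCharacter G)) : Inv ⊤ (bl M e) := inv_red (isClassFunction_blockCoeff e)

theorem conv_blockCoeff (e e' : Set (IrrCharacter G)) :
    conv (blockCoeff e) (blockCoeff e') = blockCoeff (e ∩ e') := by
  apply Om_injective (isClassFunction_conv (isClassFunction_blockCoeff e)
    (isClassFunction_blockCoeff e')) (isClassFunction_blockCoeff _)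
  rw [Om_conv (isClassFunction_blockCoeff e), Om_blockCoeff, Om_blockCoeff, Om_blockCoeff]
  ext χ
  by_cases h : χ ∈ e <;> by_cases h' : χ ∈ e' <;> simp [Set.indicator, h, h']

theorem blockCoeff_empty : blockCoeff (∅ : Set (IrrCharacter G)) = 0 := by
  apply Om_injective (isClassFunction_blockCoeff _) (fun _ _ => rfl)
  rw [Om_blockCoeff, Om_zero]
  ext χ; simp

theorem bl_idem {e : Set (IrrCharacter G)} (he : IsPBlock M e) : bl M e * bl M e = bl M e := by
  rw [bl, ← red_conv (osima he) (osima he), conv_blockCoeff, Set.inter_self]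

theorem block_disjoint {e e' : Set (IrrCharacter G)} (he : IsPBlock M e) (he' : IsPBlock M e')
    (hne : e ≠ e') : e ∩ e' = ∅ := by
  by_contra h
  obtain ⟨χ, h1, h2⟩ := Set.nonempty_iff_ne_empty.2 h
  exact hne ((isPBlock_eq_blockOf he h1).trans (isPBlock_eq_blockOf he' h2).symm)

theorem bl_orth {e e' : Set (IrrCharacter G)} (he : IsPBlock M e) (he' : IsPBlock M e')
    (hne : e ≠ e') : bl M e * bl M e' = 0 := by
  rw [bl, bl, ← red_conv (osima he) (osima he'), conv_blockCoeff, block_disjoint he he' hne,
    blockCoeff_empty, red_zero]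

theorem omb_bl {e : Set (IrrCharacter G)} (he : IsPBlock M e) (χ : IrrCharacter G) :
    omb χ (bl M e) = if χ ∈ e then 1 else 0 := by
  rw [bl, omb_red (isClassFunction_blockCoeff e) (osima he), Om_blockCoeff]
  by_cases h : χ ∈ e
  · simp [h, resC_one]
  · simp [h, resC_zero]

theorem bl_ne_zero {e : Set (IrrCharacter G)} (he : IsPBlock M e) : bl M e ≠ 0 := by
  intro h
  obtain ⟨χ, hχ⟩ := isPBlock_nonempty he
  have := omb_bl he χ
  rw [h, omb_zero, if_pos hχ] at this
  exact zero_ne_one this

theorem bl_injective {e e' : Set (IrrCharacter G)} (he : IsPBlock M e) (he' : IsPBlock M e')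
    (h : bl M e = bl M e') : e = e' := by
  by_contra hne
  have := bl_orth he he' hne
  rw [← h, bl_idem he] at this
  exact bl_ne_zero he this

theorem comm_of_inv_top {a : KG M G} (ha : Inv ⊤ a) (b : KG M G) : a * b = b * a :=
  comm_of_inv ha (fun g hg => absurd (Subgroup.mem_top g) hg)

/-- `Z(kG) e` is local. -/
theorem bl_local {e : Set (IrrCharacter G)} (he : IsPBlock M e) {z : KG M G} (hz : Inv ⊤ z) :
    (∃ n, (z * bl M e) ^ n = 0) ∨ ∃ w, Inv ⊤ w ∧ z * w = bl M e := by
  haveI := Fintype.ofFinite (IrrCharacter G)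
  obtain ⟨ψ, hψ⟩ := isPBlock_nonempty he
  have hzc := isClassFunction_lft hz
  have hzR := memLocalRing_lft z
  by_cases h : MemLocalIdeal M (Om (lft z) ψ)
  · left
    refine ⟨Fintype.card (IrrCharacter G), ?_⟩
    have h1 : z * bl M e = red M (conv (lft z) (blockCoeff e)) := by
      rw [red_conv hzR (osima he), red_lft]; rfl
    have hR := memLocalRing_conv hzR (osima he)
    rw [h1, ← red_convPow hR, red_eq_zero_iff (memLocalRing_convPow hR _)]
    apply convPow_mem (isClassFunction_conv hzc (isClassFunction_blockCoeff e)) hR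
    intro χ
    rw [Om_conv hzc, Om_blockCoeff, Pi.mul_apply]
    by_cases hχ : χ ∈ e
    · rw [Set.indicator_of_mem hχ, mul_one]
      have h2 := centralSubring_congr (M := M) ⟨lft z, hzc, hzR, rfl⟩ (sameBlock_of_mem he hχ hψ)
      have := memLocalIdeal_add h2 h
      simpa using this
    · rw [Set.indicator_of_notMem hχ, mul_zero]
      exact memLocalIdeal_zero
  · right
    have hunit : ∀ χ ∈ e, ¬ MemLocalIdeal M (Om (lft z) χ) := by
      intro χ hχ
      exact not_memLocalIdeal_of_sub
        (centralSubring_congr (M := M) ⟨lft z, hzc, hzR, rfl⟩ (sameBlock_of_mem he hχ hψ)) h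
    obtain ⟨w, ⟨c, hc, hcR, rfl⟩, hw⟩ := exists_mul_eq_indicator he
      (v := Om (lft z)) ⟨lft z, hzc, hzR, rfl⟩ hunit
    refine ⟨red M c, inv_red hc, ?_⟩
    have h1 : conv (lft z) c = blockCoeff e := by
      apply Om_injective (isClassFunction_conv hzc hc) (isClassFunction_blockCoeff e)
      rw [Om_conv hzc, hw, Om_blockCoeff]
    rw [bl, ← h1, red_conv hzR hcR, red_lft]

theorem mul_bl_dichotomy {e : Set (IrrCharacter G)} (he : IsPBlock M e) {a : KG M G}
    (ha : Inv ⊤ a) (hidem : a * a = a) : a * bl M e = bl M e ∨ a * bl M e = 0 := by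
  rcases bl_local he ha with ⟨n, hn⟩ | ⟨w, _, hw⟩
  · right
    have hid : (a * bl M e) * (a * bl M e) = a * bl M e := by
      rw [mul_assoc, ← mul_assoc (bl M e), ← comm_of_inv_top ha (bl M e), mul_assoc a, bl_idem he,
        ← mul_assoc, hidem]
    have : ∀ n : ℕ, (a * bl M e) ^ (n + 1) = a * bl M e := by
      intro n
      induction n with
      | zero => simp
      | succ n ih => rw [pow_succ, ih, hid]
    cases n with
    | zero =>
      rw [pow_zero] at hn
      rw [← mul_one (a * bl M e), hn, mul_zero]
    | succ n => rw [← this n, hn]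
  · left
    rw [← hw, ← mul_assoc, hidem]

theorem mul_bl_eq_iff {e : Set (IrrCharacter G)} (he : IsPBlock M e) {a : KG M G}
    (ha : Inv ⊤ a) (hidem : a * a = a) {ξ : IrrCharacter G} (hξ : ξ ∈ e) :
    a * bl M e = bl M e ↔ omb ξ a = 1 := by
  constructor
  · intro h
    have := congrArg (omb ξ) h
    rw [omb_mul ha (bl_inv e), omb_bl he, if_pos hξ, mul_one] at this
    exact this
  · intro h
    rcases mul_bl_dichotomy he ha hidem with h1 | h1
    · exact h1
    · have := congrArg (omb ξ) h1
      rw [omb_mul ha (bl_inv e), omb_bl he, if_pos hξ, mul_one, omb_zero, h] at this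
      exact absurd this one_ne_zero

theorem isPBlock_blockOf (χ : IrrCharacter G) : IsPBlock M (blockOf M (χ : G → ℂ)) := ⟨χ, rfl⟩

theorem exists_bl {a : KG M G} (ha : Inv ⊤ a) (hidem : a * a = a) (hne : a ≠ 0) :
    ∃ e : Set (IrrCharacter G), IsPBlock M e ∧ a * bl M e = bl M e := by
  have hac := isClassFunction_lft ha
  have haR := memLocalRing_lft a
  by_contra hcon
  push Not at hcon
  apply hne
  rw [← red_lft a, red_eq_zero_iff haR]
  apply mem_ideal_of_idem_mod hac haR
  · rw [← red_eq_iff haR (memLocalRing_conv haR haR), red_conv haR haR, red_lft, hidem]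
  · intro ψ
    have he := isPBlock_blockOf (M := M) ψ
    have h1 := hcon _ he
    have h2 : a * bl M (blockOf M (ψ : G → ℂ)) = 0 := by
      rcases mul_bl_dichotomy he ha hidem with h | h
      · exact absurd h h1
      · exact h
    have := congrArg (omb ψ) h2
    rw [omb_mul ha (bl_inv _), omb_bl he, if_pos (self_mem_blockOf ψ), mul_one, omb_zero] at this
    exact (resC_eq_zero_iff (memLocalRing_Om hac haR ψ)).1 this

end

end Cfsg.Agent.Lib.Helper26.BP
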