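import Cfsg.Agent.Lib.Helper26.BPCls
import Cfsg.Agent.Lib.Helper26.BPFus
import Cfsg.Agent.Lib.Helper26.GroupFusion

/-!
# Towards saturation of block fusion systems: the Sylow axiom
-/

set_option autoImplicit false
set_option linter.unusedSectionVars false
set_option linter.unusedVariables false
set_option linter.style.haveILetI false

open Cfsg Cfsg.FusionSystem
open Cfsg.Agent.Lib.Helper7 Cfsg.Agent.Lib.Helper24

namespace Cfsg.Agent.Lib.Helper26.BP

noncomputable section
open Classical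

universe u
variable {M : Ideal AlgInt} [M.IsPrime] {p : ℕ} [hp : Fact p.Prime]
variable {G : Type u} [Group G] [Fintype G]

theorem exists_sylIn (H : Subgroup G) : ∃ K : Subgroup G, K ≤ H ∧ SylIn p K H := by
  obtain ⟨R⟩ : Nonempty (Sylow p H) := inferInstance
  refine ⟨(R : Subgroup H).map H.subtype, ?_, R, ?_⟩
  · rintro _ ⟨x, _, rfl⟩; exact x.2
  · ext x
    rw [Subgroup.mem_subgroupOf]
    constructor
    · intro hx; exact ⟨x, hx, rfl⟩
    · rintro ⟨y, hy, hxy⟩
      have : y = x := Subtype.ext hxy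
      rw [← this]; exact hy

theorem autInducedBy_mono {K L : Subgroup G} (h : K ≤ L) (Q : Subgroup G) :
    autInducedBy K Q ≤ autInducedBy L Q := by
  intro α hα
  rw [mem_autInducedBy_iff] at hα ⊢
  obtain ⟨g, hg, h1⟩ := hα
  exact ⟨g, h hg, h1⟩

theorem isPGroup_autInducedBy {K : Subgroup G} (hK : IsPGroup p K) (Q : Subgroup G) :
    IsPGroup p (autInducedBy K Q) := by
  rw [autInducedBy_eq_map]
  apply IsPGroup.map
  exact hK.comap_of_injective _ (Subgroup.subtype_injective _)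

theorem sylIn_aut {K H Q : Subgroup G} (hHN : H ≤ Subgroup.normalizer (Q : Set G))
    (h : SylIn p K H) (hKH : K ≤ H) : SylIn p (autInducedBy K Q) (autInducedBy H Q) := by
  have h1 := h.map (Q.normalizerMonoidHom.comp (Subgroup.inclusion hHN))
  have e1 : (K.subgroupOf H).map (Q.normalizerMonoidHom.comp (Subgroup.inclusion hHN))
      = autInducedBy K Q := by
    ext α
    rw [mem_autInducedBy_iff, Subgroup.mem_map]
    constructor
    · rintro ⟨g, hg, rfl⟩
      exact ⟨g, Subgroup.mem_subgroupOf.mp hg, fun x => rfl⟩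
    · rintro ⟨g, hg, h2⟩
      refine ⟨⟨g, hKH hg⟩, Subgroup.mem_subgroupOf.mpr hg, ?_⟩
      ext x
      rw [h2 x]
      rfl
  have e2 : (Q.normalizerMonoidHom.comp (Subgroup.inclusion hHN)).range = autInducedBy H Q := by
    ext α
    rw [mem_autInducedBy_iff, MonoidHom.mem_range]
    constructor
    · rintro ⟨g, rfl⟩
      exact ⟨g, g.2, fun x => rfl⟩
    · rintro ⟨g, hg, h2⟩
      refine ⟨⟨g, hg⟩, ?_⟩
      ext x
      rw [h2 x]
      rfl
  rwa [e1, e2] at h1

theorem card_autInducedBy_cjS {t : G} {Q : Subgroup G}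
    (ht : t ∈ Subgroup.normalizer (Q : Set G)) (K : Subgroup G) :
    Nat.card (autInducedBy (cjS t K) Q) = Nat.card (autInducedBy K Q) := by
  set τ : MulAut Q := Q.normalizerMonoidHom ⟨t, ht⟩ with hτ
  have hτa : ∀ x : Q, ((τ x : Q) : G) = t * x * t⁻¹ := fun x => rfl
  have hτi : ∀ x : Q, ((τ⁻¹ x : Q) : G) = t⁻¹ * x * t := by
    intro x
    have := hτa (τ⁻¹ x)
    rw [MulAut.apply_inv_self] at this
    rw [this]; group
  have : autInducedBy (cjS t K) Q = (autInducedBy K Q).map (MulAut.conj τ).toMonoidHom := by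
    ext α
    rw [mem_autInducedBy_iff, Subgroup.mem_map]
    constructor
    · rintro ⟨g, hg, h⟩
      refine ⟨τ⁻¹ * α * τ, ?_, ?_⟩
      · rw [mem_autInducedBy_iff]
        refine ⟨t⁻¹ * g * t, mem_cjS.1 hg, fun x => ?_⟩
        rw [MulAut.mul_apply, MulAut.mul_apply, hτi, h, hτa]
        group
      · show τ * (τ⁻¹ * α * τ) * τ⁻¹ = α
        group
    · rintro ⟨α0, h0, rfl⟩
      rw [mem_autInducedBy_iff] at h0
      obtain ⟨g, hg, h⟩ := h0
      refine ⟨t * g * t⁻¹, by rw [mem_cjS]; simpa [mul_assoc] using hg, fun x => ?_⟩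
      show (((τ * α0 * τ⁻¹) x : Q) : G) = _
      rw [MulAut.mul_apply, MulAut.mul_apply, hτa, h, hτi]
      group
  rw [this]
  exact Subgroup.card_map_of_injective (MulAut.conj τ).injective

variable [CharP (resField M) p]

theorem exists_stable_elt {C U : Subgroup G} {ε : KG M G} (hε : IsBlk M C ε) (hU : IsPGroup p U)
    (hUN : U ≤ Subgroup.normalizer (C : Set G)) (hinv : Inv U ε) :
    ∃ y ∈ C, ε y ≠ 0 ∧ ∀ u ∈ U, ∃ c ∈ C, u * y * u⁻¹ = c * y * c⁻¹ := by
  obtain ⟨e, he, rfl⟩ := hε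
  obtain ⟨y, hy, h⟩ := exists_stable_class he hU
    (fun u hu => (stabilizesBlock_iff he u).2 ⟨hUN hu, hinv u hu⟩)
  refine ⟨y, y.2, ?_, ?_⟩
  · rw [sbl_eq_emb, emb_coe]
    exact (bl_apply_ne_zero_iff he y).2 hy
  · intro u hu
    obtain ⟨c, hc⟩ := h u hu
    exact ⟨c, c.2, hc⟩

/-- The Sylow axiom, abstractly. -/
theorem sylIn_aut_of_dominates {a : FP M G} (ha : IsPair p ⊤ a) {N' : Subgroup G}
    (hN'T : N' ≤ stabP a) (hN'p : IsPGroup p N')
    (hdom : ∀ R : Subgroup G, R ≤ stabP a → IsPGroup p R → br R a.2 ≠ 0 →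
      ∃ t ∈ stabP a, R ≤ cjS t N') :
    SylIn p (autInducedBy N' a.1) (autInducedBy (stabP a) a.1) := by
  have hTN := stabP_le_normalizer a
  have hblk : IsBlk M (Subgroup.centralizer (a.1 : Set G)) a.2 := by
    have := ha.blk
    rwa [cen_top] at this
  obtain ⟨U, hUT, hU⟩ := exists_sylIn (p := p) (stabP a)
  have hUp := hU.isPGroup hUT
  obtain ⟨y, hyC, hy0, hy⟩ := exists_stable_elt hblk hUp
    (hUT.trans (hTN.trans (normalizer_le_normalizer_centralizer a.1)))
    ((stabP_inv a).mono hUT)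
  obtain ⟨R, hRA, hR⟩ := exists_sylIn (p := p) (stabP a ⊓ Subgroup.centralizer ({y} : Set G))
  have hRp := hR.isPGroup hRA
  have hbr : br R a.2 ≠ 0 := by
    apply br_ne_zero_iff.2
    refine ⟨y, ?_, hy0⟩
    rw [Subgroup.mem_centralizer_iff]
    intro r hr
    have : r ∈ Subgroup.centralizer ({y} : Set G) := (hRA hr).2
    rw [Subgroup.mem_centralizer_singleton_iff] at this
    exact this
  obtain ⟨t, ht, hRt⟩ := hdom R (hRA.trans inf_le_left) hRp hbr
  have hAN : stabP a ⊓ Subgroup.centralizer ({y} : Set G) ≤ Subgroup.normalizer (a.1 : Set G) :=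
    inf_le_left.trans hTN
  have c1 := (sylIn_iff_card (autInducedBy_mono hUT a.1)).1 (sylIn_aut hTN hU hUT)
  have hUA : autInducedBy U a.1 ≤
      autInducedBy (stabP a ⊓ Subgroup.centralizer ({y} : Set G)) a.1 := by
    intro α hα
    rw [mem_autInducedBy_iff] at hα ⊢
    obtain ⟨u, hu, h1⟩ := hα
    obtain ⟨c, hc, h2⟩ := hy u hu
    have hcT : c ∈ stabP a := by
      have := ha.cen_le_stabP
      rw [cen_top] at this
      exact this hc
    refine ⟨c⁻¹ * u, ⟨(stabP a).mul_mem ((stabP a).inv_mem hcT) (hUT hu), ?_⟩, fun x => ?_⟩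
    · show c⁻¹ * u ∈ Subgroup.centralizer ({y} : Set G)
      rw [Subgroup.mem_centralizer_singleton_iff]
      have : u * y = c * y * c⁻¹ * u := by rw [← h2]; group
      calc c⁻¹ * u * y = c⁻¹ * (u * y) := by group
        _ = c⁻¹ * (c * y * c⁻¹ * u) := by rw [this]
        _ = y * (c⁻¹ * u) := by group
    · rw [h1 x]
      have h3 : u * (x : G) * u⁻¹ ∈ a.1 := by rw [← h1 x]; exact (α x).2
      have h4 := (Subgroup.mem_centralizer_iff.1 hc) _ h3
      calc u * (x : G) * u⁻¹ = c⁻¹ * (c * (u * (x : G) * u⁻¹)) := by group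
        _ = c⁻¹ * (u * (x : G) * u⁻¹ * c) := by rw [h4]
        _ = c⁻¹ * u * x * (c⁻¹ * u)⁻¹ := by group
  have c2 := card_le_of_isPGroup hUA (isPGroup_autInducedBy hUp a.1)
  have c3 := (sylIn_iff_card (autInducedBy_mono hRA a.1)).1 (sylIn_aut hAN hR hRA)
  have c4 : Nat.card (autInducedBy R a.1) ≤ Nat.card (autInducedBy N' a.1) := by
    rw [← card_autInducedBy_cjS (hTN ht) N']
    exact Subgroup.card_le_of_le (autInducedBy_mono hRt a.1)
  apply sylIn_of_le_card (autInducedBy_mono hN'T a.1) (isPGroup_autInducedBy hN'p a.1)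
  rw [← c1]
  exact (c2.trans c3.ge).trans c4

end

end Cfsg.Agent.Lib.Helper26.BP
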