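import Cfsg.Agent.Lib.Helper26.BPSat1

/-!
# Towards saturation of block fusion systems: passing to local subgroups
-/

set_option autoImplicit false
set_option linter.unusedSectionVars false
set_option linter.unusedVariables false
set_option linter.style.haveILetI false

open Cfsg Cfsg.FusionSystem
open Cfsg.Agent.Lib.Helper7 Cfsg.Agent.Lib.Helper24

namespace Cfsg.Agent.Lib.Helper26.BP

noncomputable section
open Classical

universe u
variable {M : Ideal AlgInt} [M.IsPrime] {p : ℕ} [hp : Fact p.Prime]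
variable {G : Type u} [Group G] [Fintype G]

theorem Terminal.mono {H L : Subgroup G} {a : FP M G} (h : Terminal p H a) (hL : L ≤ H) :
    Terminal p L a := fun R hR => h R (hR.trans hL)

/-- a stable block of `C(Q)` is a block of every `L` between `Q C(Q)` and the stabilizer -/
theorem isBlk_of_stable (hM : IsPModular p M) {a : FP M G} (ha : IsPair p ⊤ a) {L : Subgroup G}
    (hQL : a.1 ≤ L) (hCL : Subgroup.centralizer (a.1 : Set G) ≤ L) (hL : L ≤ stabP a) :
    IsBlk M L a.2 := by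
  obtain ⟨f, hf, hfa⟩ := exists_of_isBlk_cen_top ha.blk
  obtain ⟨F, hF, hFc⟩ := exists_block_of_stable hM ha.pg hf hQL hCL
    (hL.trans (stabP_le_normalizer a)) (fun t ht => (stabilizesBlock_iff hf t).2
      ⟨normalizer_le_normalizer_centralizer _ (stabP_le_normalizer a (hL ht)),
        by rw [← hfa]; exact stabP_inv a t (hL ht)⟩)
  exact ⟨F, hF, by rw [sbl_eq_of_coeff hCL hFc, hfa]⟩

theorem cen_eq_centralizer {L Q R : Subgroup G} (hCL : Subgroup.centralizer (Q : Set G) ≤ L)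
    (hQR : Q ≤ R) : cen L R = Subgroup.centralizer (R : Set G) :=
  inf_eq_right.2 ((Subgroup.centralizer_le (by exact_mod_cast hQR)).trans hCL)

theorem IsPair.to_sub {L Q : Subgroup G} {b : FP M G} (hb : IsPair p ⊤ b)
    (hCL : Subgroup.centralizer (Q : Set G) ≤ L) (hQb : Q ≤ b.1) (hbL : b.1 ≤ L) :
    IsPair p L b where
  le := hbL
  pg := hb.pg
  blk := by
    have := hb.blk
    rwa [cen_top, ← cen_eq_centralizer hCL hQb] at this

theorem IsPair.of_sub {L Q : Subgroup G} {b : FP M G} (hb : IsPair p L b)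
    (hCL : Subgroup.centralizer (Q : Set G) ≤ L) (hQb : Q ≤ b.1) : IsPair p ⊤ b where
  le := le_top
  pg := hb.pg
  blk := by
    have := hb.blk
    rwa [cen_eq_centralizer hCL hQb, ← cen_top] at this

theorem NS.of_sub {L Q : Subgroup G} {u v : FP M G} (h : NS p L u v)
    (hCL : Subgroup.centralizer (Q : Set G) ≤ L) (hQu : Q ≤ u.1) : NS p ⊤ u v :=
  ⟨h.1.of_sub hCL hQu, h.2.1.of_sub hCL (hQu.trans h.2.2.1), h.2.2.1, h.2.2.2.1, h.2.2.2.2.1,
    h.2.2.2.2.2⟩

theorem LE.of_sub {L Q : Subgroup G} {u v : FP M G} (h : LE p L u v)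
    (hCL : Subgroup.centralizer (Q : Set G) ≤ L) (hQu : Q ≤ u.1) : LE p ⊤ u v := by
  induction h with
  | refl => exact LE.refl _
  | tail huw hwv ih =>
    have huw' : LE p L u _ := huw
    exact ih.trans (hwv.of_sub hCL (hQu.trans huw'.fst_le)).le

variable [CharP (resField M) p]

/-- a pair normally above `a` is a pair of the block `a.2` of `L` -/
theorem NS.bot_sub (hM : IsPModular p M) {a b : FP M G} (h : NS p ⊤ a b) {L : Subgroup G}
    (hCL : Subgroup.centralizer (a.1 : Set G) ≤ L) (hL : L ≤ stabP a) (hbL : b.1 ≤ L) :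
    NS p L (⊥, a.2) b := by
  refine ⟨⟨bot_le, IsPGroup.of_bot, ?_⟩, h.2.1.to_sub hCL h.2.2.1 hbL, bot_le,
    le_normalizer_bot _, h.2.2.2.2.1, h.2.2.2.2.2⟩
  show IsBlk M (cen L ⊥) a.2
  rw [cen_bot]
  exact isBlk_of_stable hM h.1 (h.2.2.1.trans hbL) hCL hL

/-- data of a fully normalized pair below a maximal pair -/
structure FN (p : ℕ) (β : KG M G) (m a : FP M G) : Prop where
  hm : NS p ⊤ (⊥, β) m
  htm : Terminal p ⊤ m
  ha : LE p ⊤ a m
  hdef : IsDef p (stabP a) a.2 (m.1 ⊓ stabP a)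

theorem FN.exists_top {β : KG M G} {m a : FP M G} (h : FN p β m a) :
    ∃ γ, NS p ⊤ a (m.1 ⊓ stabP a, γ) ∧ LE p ⊤ (m.1 ⊓ stabP a, γ) m ∧
      Terminal p (stabP a) (m.1 ⊓ stabP a, γ) := by
  have hpa := h.ha.isPair_left h.hm.2.1
  obtain ⟨γ, h1, h2⟩ := h.ha.exists_ns_mid h.hm.2.1 (R := m.1 ⊓ stabP a)
    (le_inf h.ha.fst_le hpa.self_le_stabP) inf_le_left (inf_le_right.trans (stabP_le_normalizer a))
  refine ⟨γ, h1, h2, ?_⟩
  intro R hRT hR hNR hRN hinv hbr
  obtain ⟨η, hη⟩ := exists_ns_up h1.2.1 le_top hR hNR hRN hinv hbr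
  have hle : LE p ⊤ a (R, η) := h1.le.trans hη.le
  have h3 := hle.br_inf_ne_zero hη.2.1 (le_refl (stabP a))
  rw [show ((R, η) : FP M G).1 ⊓ stabP a = R from inf_eq_left.2 hRT] at h3
  have h4 := h.hdef.2.2.2 R hRT hR h3
  have h5 : m.1 ⊓ stabP a = R := Subgroup.eq_of_le_of_card_ge hNR h4
  exact h5.ge

/-- the Sylow axiom for fully normalized pairs -/
theorem FN.sylIn_aut (hM : IsPModular p M) {β : KG M G} {m a : FP M G} (h : FN p β m a) :
    SylIn p (autInducedBy m.1 a.1) (autInducedBy (stabP a) a.1) := by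
  have hpa := h.ha.isPair_left h.hm.2.1
  obtain ⟨γ, h1, h2, h3⟩ := h.exists_top
  have hC : Subgroup.centralizer (a.1 : Set G) ≤ stabP a := by
    have := hpa.cen_le_stabP
    rwa [cen_top] at this
  have hns := h1.bot_sub hM hC (le_refl _) inf_le_right
  have key := sylIn_aut_of_dominates hpa (N' := m.1 ⊓ stabP a) inf_le_right
    (h.hm.2.1.pg.to_le inf_le_left) (fun R hRT hR hbr =>
      h3.dominates hns.bot_blk hns.2.1 hns.2.2.2.2.2 hRT hR hbr)
  have e : autInducedBy (m.1 ⊓ stabP a) a.1 = autInducedBy m.1 a.1 := by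
    rw [h.ha.inf_stabP_eq h.hm.2.1]
    exact autInducedBy_inf_normalizer m.1 a.1
  rwa [e] at key

/-- the extension axiom for fully normalized pairs -/
theorem FN.extend (hM : IsPModular p M) {β : KG M G} {m a : FP M G} (h : FN p β m a)
    {b : FP M G} (hb : LE p ⊤ b m) {g : G} (hg : act g b = a) {E : Subgroup G} (hbE : b.1 ≤ E)
    (hEm : E ≤ m.1) (hEN : E ≤ Subgroup.normalizer (b.1 : Set G))
    (hEL : cjS g E ≤ (m.1 ⊓ stabP a) ⊔ Subgroup.centralizer (a.1 : Set G)) :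
    ∃ c ∈ Subgroup.centralizer (a.1 : Set G), ∃ δ, LE p ⊤ (E, δ) m ∧
      LE p ⊤ (act (c * g) (E, δ)) m := by
  have hpa := h.ha.isPair_left h.hm.2.1
  obtain ⟨γ, h1, h2, h3⟩ := h.exists_top
  have hC : Subgroup.centralizer (a.1 : Set G) ≤ stabP a := by
    have := hpa.cen_le_stabP
    rwa [cen_top] at this
  set N' := m.1 ⊓ stabP a with hN'
  set L := N' ⊔ Subgroup.centralizer (a.1 : Set G) with hL
  have hCL : Subgroup.centralizer (a.1 : Set G) ≤ L := le_sup_right
  have hLT : L ≤ stabP a := sup_le inf_le_right hC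
  obtain ⟨δ, hδ1, hδ2⟩ := hb.exists_ns_mid h.hm.2.1 hbE hEm hEN
  have hδ3 : NS p ⊤ a (act g (E, δ)) := hg ▸ hδ1.act (Subgroup.mem_top g)
  have n1 := hδ3.bot_sub hM hCL hLT hEL
  have n2 := h1.bot_sub hM hCL hLT le_sup_left
  obtain ⟨x, hx, hxle⟩ := (h3.mono hLT).conj_le n2 n1
  have hnorm : N' ≤
      Subgroup.normalizer ((Subgroup.centralizer (a.1 : Set G) : Subgroup G) : Set G) :=
    (inf_le_right.trans (stabP_le_normalizer a)).trans (normalizer_le_normalizer_centralizer a.1)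
  have hx' : x ∈ ((N' ⊔ Subgroup.centralizer (a.1 : Set G) : Subgroup G) : Set G) := hx
  rw [Subgroup.coe_mul_of_left_le_normalizer_right _ _ hnorm] at hx'
  obtain ⟨n, hn, c, hc, rfl⟩ := hx'
  refine ⟨c, hc, δ, hδ2, ?_⟩
  have hnL : n ∈ L := (le_sup_left : N' ≤ L) hn
  have h4 := hxle.act (L.inv_mem hnL)
  have h5 : act n⁻¹ ((N', γ) : FP M G) = (N', γ) := by
    have : n⁻¹ ∈ stabP ((N', γ) : FP M G) := h1.2.1.self_le_stabP (N'.inv_mem hn)
    exact this
  rw [h5, ← act_mul, ← mul_assoc, inv_mul_cancel, one_mul, ← act_mul] at h4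
  have hQ : a.1 ≤ (act (c * g) ((E, δ) : FP M G)).1 := by
    have e1 : (act c a).1 = a.1 := by
      have : c ∈ stabP a := hC hc
      rw [show act c a = a from this]
    rw [act_mul, ← e1]
    exact cjS_mono hδ3.2.2.1
  exact (h4.of_sub hCL hQ).trans h2

end

end Cfsg.Agent.Lib.Helper26.BP
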