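import Cfsg.Agent.Lib.Helper26.BPSat2

/-!
# The fusion system of a block exists and is saturated
-/

set_option autoImplicit false
set_option linter.unusedSectionVars false
set_option linter.unusedVariables false
set_option linter.style.haveILetI false

open Cfsg Cfsg.FusionSystem
open Cfsg.Agent.Lib.Helper7 Cfsg.Agent.Lib.Helper24

namespace Cfsg.Agent.Lib.Helper26.BP

noncomputable section
open Classical

universe u

section ext
variable {G : Type u} [Group G]

theorem extender_le (S P : Subgroup G) (φ : P →* G) :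
    extender S P φ ≤ S ⊓ Subgroup.normalizer (P : Set G) := by
  apply (Subgroup.closure_le _).mpr
  rintro x ⟨hxS, hxN, -⟩
  exact ⟨hxS, hxN⟩

theorem le_extender {S P : Subgroup G} {φ : P →* G} (hPS : P ≤ S) (hφS : ∀ x, φ x ∈ S) :
    P ≤ extender S P φ := by
  intro x hx
  apply Subgroup.subset_closure
  refine ⟨hPS hx, Subgroup.le_normalizer hx, φ ⟨x, hx⟩, hφS _, ?_⟩
  intro y hy
  have : (⟨x * (y : G) * x⁻¹, hy⟩ : P) = ⟨x, hx⟩ * y * ⟨x, hx⟩⁻¹ := rfl
  rw [this, map_mul, map_mul, map_inv]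

theorem cjS_extender_le {S P Q : Subgroup G} {φ : P →* G} {g : G}
    (hg : ∀ x : P, φ x = g * (x : G) * g⁻¹) (hrange : φ.range = Q) :
    (extender S P φ).map (MulAut.conj g).toMonoidHom ≤
      (S ⊓ Subgroup.normalizer (Q : Set G)) ⊔ Subgroup.centralizer (Q : Set G) := by
  have hmemQ : ∀ y : G, y ∈ Q ↔ ∃ x : P, g * (x : G) * g⁻¹ = y := by
    intro y
    rw [← hrange]
    constructor
    · rintro ⟨x, rfl⟩; exact ⟨x, (hg x).symm⟩
    · rintro ⟨x, rfl⟩; exact ⟨x, hg x⟩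
  apply Subgroup.map_le_iff_le_comap.mpr
  apply (Subgroup.closure_le _).mpr
  rintro x ⟨hxS, hxN, h, hhS, hh⟩
  show g * x * g⁻¹ ∈ (S ⊓ Subgroup.normalizer (Q : Set G)) ⊔ Subgroup.centralizer (Q : Set G)
  have key : ∀ y : P, g * (x * (y : G) * x⁻¹) * g⁻¹ = h * (g * (y : G) * g⁻¹) * h⁻¹ := by
    intro y
    have hy : x * (y : G) * x⁻¹ ∈ P := (Subgroup.mem_normalizer_iff.mp hxN y).mp y.2
    have := hh y hy
    rw [hg, hg] at this
    exact this
  have hhN : h ∈ Subgroup.normalizer (Q : Set G) := by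
    rw [Subgroup.mem_normalizer_iff]
    intro q
    constructor
    · intro hq
      obtain ⟨y, rfl⟩ := (hmemQ q).mp hq
      rw [← key y]
      exact (hmemQ _).mpr ⟨⟨x * (y : G) * x⁻¹, (Subgroup.mem_normalizer_iff.mp hxN y).mp y.2⟩, rfl⟩
    · intro hq
      obtain ⟨y', hy'⟩ := (hmemQ _).mp hq
      have hy : x⁻¹ * (y' : G) * x ∈ P := by
        have := (Subgroup.mem_normalizer_iff.mp (Subgroup.inv_mem _ hxN) y').mp y'.2
        simpa using this
      have h1 := key ⟨x⁻¹ * (y' : G) * x, hy⟩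
      have e : g * (x * (x⁻¹ * (y' : G) * x) * x⁻¹) * g⁻¹ = g * (y' : G) * g⁻¹ := by group
      simp only at h1
      rw [e, hy'] at h1
      have h2 : q = g * (x⁻¹ * (y' : G) * x) * g⁻¹ := mul_left_cancel (mul_right_cancel h1)
      rw [h2]
      exact (hmemQ _).mpr ⟨⟨_, hy⟩, rfl⟩
  have hcen : h⁻¹ * (g * x * g⁻¹) ∈ Subgroup.centralizer (Q : Set G) := by
    rw [Subgroup.mem_centralizer_iff]
    intro q hq
    obtain ⟨y, rfl⟩ := (hmemQ q).mp hq
    have h1 := key y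
    calc g * (y : G) * g⁻¹ * (h⁻¹ * (g * x * g⁻¹))
        = h⁻¹ * (h * (g * (y : G) * g⁻¹) * h⁻¹) * (g * x * g⁻¹) := by group
      _ = h⁻¹ * (g * (x * (y : G) * x⁻¹) * g⁻¹) * (g * x * g⁻¹) := by rw [h1]
      _ = h⁻¹ * (g * x * g⁻¹) * (g * (y : G) * g⁻¹) := by group
  have e : g * x * g⁻¹ = h * (h⁻¹ * (g * x * g⁻¹)) := by group
  rw [e]
  exact Subgroup.mul_mem _ (Subgroup.mem_sup_left ⟨hhS, hhN⟩) (Subgroup.mem_sup_right hcen)

end ext

variable {M : Ideal AlgInt} [M.IsPrime] {p : ℕ} [hp : Fact p.Prime]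
variable {G : Type u} [Group G] [Fintype G] [CharP (resField M) p]

/-- the maps of the fusion system attached to a pair `m` -/
def FHom (p : ℕ) (m : FP M G) (Q : Subgroup G) (φ : Q →* G) : Prop :=
  ∃ (g : G) (ε : KG M G), (∀ u : Q, φ u = g * (u : G) * g⁻¹) ∧ LE p ⊤ (Q, ε) m ∧
    LE p ⊤ (act g (Q, ε)) m

theorem mem_hom_iff {B : Set (IrrCharacter G)} {P : Subgroup G}
    {e : Set (IrrCharacter (Subgroup.centralizer (P : Set G)))} {F : FusionSystem P}
    (hF : IsBlockFusionSystemOn p M B P e F) (Q : Subgroup G) (φ : Q →* G) :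
    φ ∈ F.Hom Q ↔ FHom p ((P, sbl M _ e) : FP M G) Q φ := by
  have hPe := hF.1.1.1
  rw [hF.2]
  constructor
  · rintro ⟨_, g, hg, _, f, h1, h2⟩
    refine ⟨g, sbl M _ f, hg, le_of_subpairLE h1, ?_⟩
    have := le_of_subpairLE h2
    rwa [sbl_conjBlock] at this
  · rintro ⟨g, ε, hg, h1, h2⟩
    have hpa := h1.isPair_left (isPair_of_isBrauerPair hPe)
    obtain ⟨f, hf, rfl⟩ := exists_of_isBlk_cen_top (Q := Q) hpa.blk
    have hQf : IsBrauerPair p M Q f := ⟨hpa.pg, hf⟩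
    refine ⟨h1.fst_le, g, hg, h2.fst_le, f, (subpairLE_iff hQf hPe).2 h1, ?_⟩
    rw [subpairLE_iff ⟨isPGroup_cjS hQf.1 g, isPBlock_conjBlock Q g hQf.2⟩ hPe, sbl_conjBlock]
    exact h2

/-- the fusion system attached to a pair -/
def blockFS (P : Subgroup G) (η : KG M G) (hm : IsPair p ⊤ ((P, η) : FP M G)) :
    FusionSystem P where
  Hom Q := {φ | FHom p ((P, η) : FP M G) Q φ}
  le_of_mem := by
    rintro Q φ ⟨g, ε, hg, h1, h2⟩
    refine ⟨h1.fst_le, fun x => ?_⟩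
    rw [hg]
    apply h2.fst_le
    show g * (x : G) * g⁻¹ ∈ cjS g Q
    rw [mem_cjS]; simp [mul_assoc]
  injective_of_mem := by
    rintro Q φ ⟨g, ε, hg, -, -⟩ a b hab
    have h : g * (a : G) * g⁻¹ = g * (b : G) * g⁻¹ := ((hg a).symm.trans hab).trans (hg b)
    exact Subtype.ext (mul_left_cancel (mul_right_cancel h))
  conj_mem := by
    intro Q g hQ hg
    obtain ⟨ε, hε⟩ := exists_le hm (Q := Q) hQ
    refine ⟨g, ε, fun _ => rfl, hε, ?_⟩
    have h1 := hε.act (Subgroup.mem_top g)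
    have h2 : act g ((P, η) : FP M G) = (P, η) := hm.self_le_stabP hg
    rwa [h2] at h1
  comp_mem := by
    rintro Q R φ ψ ⟨g, ε, hg, h1, h2⟩ ⟨k, ε', hk, h3, h4⟩ h
    refine ⟨k * g, ε, fun x => ?_, h1, ?_⟩
    · show ψ (φ.codRestrict R h x) = k * g * (x : G) * (k * g)⁻¹
      rw [hk]
      show k * φ x * k⁻¹ = _
      rw [hg, mul_inv_rev]
      simp only [mul_assoc]
    · have hle : cjS g Q ≤ R := by
        intro y hy
        rw [mem_cjS] at hy
        have := h ⟨_, hy⟩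
        rw [hg] at this
        simpa [mul_assoc] using this
      obtain ⟨ε'', h5⟩ := exists_le (h3.isPair_left hm) (Q := cjS g Q) hle
      have h6 : ((cjS g Q, ε'') : FP M G) = act g (Q, ε) := LE.unique (h5.trans h3) h2 rfl
      rw [h6] at h5
      rw [act_mul]
      exact (h5.act (Subgroup.mem_top k)).trans h4
  inv_mem := by
    rintro Q φ ⟨g, ε, hg, h1, h2⟩
    have hr := range_conj Q g hg
    refine ⟨conjHom φ.range g⁻¹, ⟨g⁻¹, cj g ε, fun _ => rfl, ?_, ?_⟩, ?_⟩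
    · rw [hr]; exact h2
    · rw [hr]
      have : act g⁻¹ ((cjS g Q, cj g ε) : FP M G) = (Q, ε) := by
        show act g⁻¹ (act g ((Q, ε) : FP M G)) = (Q, ε)
        rw [← act_mul, inv_mul_cancel, act_one]
      rw [this]; exact h1
    · intro x
      show g⁻¹ * φ x * g⁻¹⁻¹ = x
      rw [hg, inv_inv]
      simp only [mul_assoc, inv_mul_cancel, mul_one, inv_mul_cancel_left]

theorem isBlockFusionSystemOn_blockFS {B : Set (IrrCharacter G)} {P : Subgroup G}
    {e : Set (IrrCharacter (Subgroup.centralizer (P : Set G)))}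
    (hmax : IsMaximalBrauerPair p M B P e) :
    IsBlockFusionSystemOn p M B P e
      (blockFS P (sbl M _ e) (isPair_of_isBrauerPair hmax.1.1)) := by
  have hPe := hmax.1.1
  refine ⟨hmax, fun Q φ => ?_⟩
  show FHom p ((P, sbl M _ e) : FP M G) Q φ ↔ _
  constructor
  · rintro ⟨g, ε, hg, h1, h2⟩
    have hpa := h1.isPair_left (isPair_of_isBrauerPair hPe)
    obtain ⟨f, hf, rfl⟩ := exists_of_isBlk_cen_top (Q := Q) hpa.blk
    have hQf : IsBrauerPair p M Q f := ⟨hpa.pg, hf⟩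
    refine ⟨h1.fst_le, g, hg, h2.fst_le, f, (subpairLE_iff hQf hPe).2 h1, ?_⟩
    rw [subpairLE_iff ⟨isPGroup_cjS hQf.1 g, isPBlock_conjBlock Q g hQf.2⟩ hPe, sbl_conjBlock]
    exact h2
  · rintro ⟨_, g, hg, _, f, h1, h2⟩
    refine ⟨g, sbl M _ f, hg, le_of_subpairLE h1, ?_⟩
    have := le_of_subpairLE h2
    rwa [sbl_conjBlock] at this

theorem autGroup_eq {P : Subgroup G} {F : FusionSystem P} {m : FP M G}
    (hFm : ∀ (Q : Subgroup G) (φ : Q →* G), φ ∈ F.Hom Q ↔ FHom p m Q φ) {a : FP M G}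
    (ha : LE p ⊤ a m) : F.autGroup a.1 = autInducedBy (stabP a) a.1 := by
  unfold FusionSystem.autGroup autInducedBy
  congr 1
  ext α
  simp only [Set.mem_setOf_eq]
  rw [hFm]
  constructor
  · rintro ⟨g, ε, hg, h1, h2⟩
    have hg' : ∀ x : a.1, ((α x : a.1) : G) = g * (x : G) * g⁻¹ := hg
    have e1 : ((a.1, ε) : FP M G) = a := LE.unique h1 ha rfl
    rw [e1] at h2
    have e2 : act g a = a :=
      LE.unique h2 ha (cjS_eq_self_iff.2 (mem_normalizer_of_aut hg'))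
    exact ⟨g, e2, hg'⟩
  · rintro ⟨g, hgT, hg⟩
    refine ⟨g, a.2, hg, ha, ?_⟩
    rw [show act g ((a.1, a.2) : FP M G) = a from hgT]
    exact ha

/-- The fusion system of a block is saturated. -/
theorem saturated_of_isBlockFusionSystemOn (hM : IsPModular p M) {B : Set (IrrCharacter G)}
    {P : Subgroup G} {e : Set (IrrCharacter (Subgroup.centralizer (P : Set G)))}
    {F : FusionSystem P} (hF : IsBlockFusionSystemOn p M B P e F) : F.IsSaturated p := by
  have hmax := hF.1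
  have hPe := hmax.1.1
  have hB := hmax.1.2.1
  have hm := (isBrauerPairOf_iff hB hPe).1 hmax.1
  have htm := terminal_of_maximal hmax
  have hFm := mem_hom_iff hF
  intro Q hQ
  obtain ⟨ε, hε⟩ := exists_le hm.2.1 (Q := Q) hQ
  obtain ⟨x, _, hxle, hdef⟩ := exists_conj_isDef hm htm hε stabP (fun _ _ => le_refl _)
      (fun _ => le_top) (fun x _ b => stabP_act x b)
  have hfn : FN p (bl M B) ((P, sbl M _ e) : FP M G) (act x (Q, ε)) := ⟨hm, htm, hxle, hdef⟩
  refine ⟨cjS x Q, ⟨conjHom Q x, (hFm _ _).2 ⟨x, ε, fun _ => rfl, hε, hxle⟩,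
    range_conj Q x (fun _ => rfl)⟩, ⟨hxle.fst_le, ?_⟩, hxle.fst_le, ?_⟩
  · have h1 := hfn.sylIn_aut hM
    rw [← autGroup_eq hFm hxle] at h1
    exact h1
  · intro R φ hφ hrange
    obtain ⟨g, ρ, hg, h1, h2⟩ := (hFm _ _).1 hφ
    have hr := range_conj R g hg
    have e1 : act g ((R, ρ) : FP M G) = act x (Q, ε) :=
      LE.unique h2 hxle (by rw [act_fst, act_fst, ← hr, hrange])
    have hφS : ∀ y, φ y ∈ P := fun y => (F.le_of_mem hφ).2 y
    have hEL := cjS_extender_le (S := P) hg hrange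
    obtain ⟨c, hc, δ, hδ1, hδ2⟩ := hfn.extend hM h1 e1 (E := extender P R φ)
      (le_extender h1.fst_le hφS) ((extender_le P R φ).trans inf_le_left)
      ((extender_le P R φ).trans inf_le_right)
      (by rw [hxle.inf_stabP_eq hm.2.1]; exact hEL)
    refine ⟨conjHom (extender P R φ) (c * g), (hFm _ _).2 ⟨c * g, δ, fun _ => rfl, hδ1, hδ2⟩, ?_⟩
    intro y hyR hyN
    show c * g * y * (c * g)⁻¹ = φ ⟨y, hyR⟩
    rw [hg]
    have hq : g * y * g⁻¹ ∈ cjS x Q := by
      rw [← hrange, hr, mem_cjS]; simpa [mul_assoc] using hyR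
    have := (Subgroup.mem_centralizer_iff.mp hc) _ hq
    calc c * g * y * (c * g)⁻¹ = c * (g * y * g⁻¹) * c⁻¹ := by group
      _ = (g * y * g⁻¹) * c * c⁻¹ := by rw [this]
      _ = g * y * g⁻¹ := by group

end

end Cfsg.Agent.Lib.Helper26.BP
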