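import Cfsg.Agent.Lib.Helper26.BPApp
import Cfsg.Agent.Lib.Helper24.BlockSupp
import Cfsg.Agent.Lib.Helper24.BlockExt

/-!
# A stable block of `C_G(Q)` is a block of every group between `Q C_G(Q)` and its stabilizer
-/

set_option autoImplicit false
set_option linter.unusedSectionVars false
set_option linter.unusedVariables false
set_option linter.style.haveILetI false

open Cfsg
open Cfsg.Agent.Lib.Helper7 Cfsg.Agent.Lib.Helper24

namespace Cfsg.Agent.Lib.Helper26.BP

noncomputable section
open Classical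

universe u
variable {M : Ideal AlgInt} [M.IsPrime] {p : ℕ} [hp : Fact p.Prime]
variable {G : Type u} [Group G] [Fintype G]

theorem subgroupBlockCoeff_cjBlk (x : G) {K K' : Subgroup G} (h : cjS x K = K')
    (e : Set (IrrCharacter K)) (g : G) :
    subgroupBlockCoeff K' (cjBlk x h e) g = subgroupBlockCoeff K e (x⁻¹ * g * x) := by
  by_cases hg : g ∈ K'
  · have hg' : x⁻¹ * g * x ∈ K := by rw [← h, mem_cjS] at hg; exact hg
    rw [subgroupBlockCoeff_of_mem K' _ hg, subgroupBlockCoeff_of_mem K _ hg']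
    have := blockCoeff_preimage (cjEquiv x h) e ⟨x⁻¹ * g * x, hg'⟩
    have h2 : cjEquiv x h ⟨x⁻¹ * g * x, hg'⟩ = ⟨g, hg⟩ := by
      ext; rw [cjEquiv_coe]; simp [mul_assoc]
    rw [h2] at this
    rw [← this]; rfl
  · have hg' : x⁻¹ * g * x ∉ K := by rw [← h, mem_cjS] at hg; exact hg
    rw [subgroupBlockCoeff_of_not_mem K' _ hg, subgroupBlockCoeff_of_not_mem K _ hg']

theorem cjBlk_eq_of_stabilizes {K : Subgroup G} {e : Set (IrrCharacter K)} (he : IsPBlock M e)
    {x : G} (h : StabilizesBlock K e x) : cjBlk x (cjS_eq_self_iff.2 h.1) e = e :=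
  sbl_injective (isPBlock_cjBlk x _ he) he
    (by rw [sbl_cjBlk]; exact ((stabilizesBlock_iff he x).1 h).2)

theorem subgroupBlockCoeff_stable {K : Subgroup G} {e : Set (IrrCharacter K)} (he : IsPBlock M e)
    {x : G} (h : StabilizesBlock K e x) (g : G) :
    subgroupBlockCoeff K e (x⁻¹ * g * x) = subgroupBlockCoeff K e g := by
  rw [← subgroupBlockCoeff_cjBlk x (cjS_eq_self_iff.2 h.1), cjBlk_eq_of_stabilizes he h]

theorem subgroupBlockCoeff_eq_ext (K : Subgroup G) (e : Set (IrrCharacter K)) :
    subgroupBlockCoeff K e = extendByZero K (blockCoeff e) := by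
  funext g
  by_cases hg : g ∈ K
  · rw [subgroupBlockCoeff_of_mem K e hg, ext_of_mem K _ hg]
  · rw [subgroupBlockCoeff_of_not_mem K e hg, ext_of_not_mem K _ hg]

theorem exists_block_of_stable (hM : IsPModular p M) {Q T : Subgroup G} (hQ : IsPGroup p Q)
    {f : Set (IrrCharacter (Subgroup.centralizer (Q : Set G)))} (hf : IsPBlock M f)
    (hQT : Q ≤ T) (hCT : Subgroup.centralizer (Q : Set G) ≤ T)
    (hTN : T ≤ Subgroup.normalizer (Q : Set G))
    (hst : ∀ t ∈ T, StabilizesBlock (Subgroup.centralizer (Q : Set G)) f t) :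
    ∃ F : Set (IrrCharacter T), IsPBlock M F ∧
      ∀ t : T, blockCoeff F t = subgroupBlockCoeff (Subgroup.centralizer (Q : Set G)) f (t : G) := by
  set φ : G → ℂ := subgroupBlockCoeff (Subgroup.centralizer (Q : Set G)) f with hφ
  have hφR : ∀ g, MemLocalRing M (φ g) := memLocalRing_subgroupBlockCoeff hf
  have hφT : ∀ g, g ∉ T → φ g = 0 := fun g hg =>
    subgroupBlockCoeff_of_not_mem _ f (fun h => hg (hCT h))
  have hac : IsClassFunction T (resH T φ) := by
    intro g t
    have := subgroupBlockCoeff_stable hf (hst _ (T.inv_mem t.2)) (g : G)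
    simpa [resH] using this
  have haR : ∀ t, MemLocalRing M (resH T φ t) := fun t => hφR t
  have hext : extendByZero T (resH T φ) = φ := by
    funext g
    by_cases hg : g ∈ T
    · rw [ext_of_mem T _ hg]; rfl
    · rw [ext_of_not_mem T _ hg, hφT g hg]
  have hconv : conv (resH T φ) (resH T φ) = resH T φ := by
    have h1 : extendByZero T (conv (resH T φ) (resH T φ)) = φ := by
      rw [← conv_ext_ext, hext, hφ, subgroupBlockCoeff_eq_ext, conv_ext_ext, conv_blockCoeff,
        Set.inter_self]
    funext t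
    rw [← ext_coe T (conv (resH T φ) (resH T φ)) t, h1]; rfl
  -- the set of characters
  set A : Set (IrrCharacter T) := {χ | Om (resH T φ) χ = 1} with hA
  have hOm : Om (resH T φ) = A.indicator (fun _ => (1 : ℂ)) := by
    funext χ
    have h1 : Om (resH T φ) χ * Om (resH T φ) χ = Om (resH T φ) χ := by
      have := congrFun (Om_conv hac (resH T φ)) χ
      rw [hconv] at this
      exact this.symm
    by_cases hχ : χ ∈ A
    · rw [Set.indicator_of_mem hχ]; exact hχ
    · rw [Set.indicator_of_notMem hχ]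
      have h2 : Om (resH T φ) χ * (Om (resH T φ) χ - 1) = 0 := by rw [mul_sub, h1]; ring
      rcases mul_eq_zero.1 h2 with h | h
      · exact h
      · exact absurd (sub_eq_zero.1 h) hχ
  have haA : resH T φ = blockCoeff A := by
    apply Om_injective hac (isClassFunction_blockCoeff A)
    rw [hOm, Om_blockCoeff]
  have hAR : ∀ t, MemLocalRing M (blockCoeff A t) := fun t => haA ▸ haR t
  have hsblA : sbl M T A = sbl M _ f := by
    rw [sbl, sbl, subgroupBlockCoeff_eq_ext T A, ← haA, hext]
  have hAne : A.Nonempty := by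
    by_contra h
    rw [Set.not_nonempty_iff_eq_empty] at h
    apply (isBlk_sbl hf).ne_zero
    rw [← hsblA, h, sbl_eq_emb, bl, blockCoeff_empty, red_zero, emb_zero]
  obtain ⟨χ, hχ⟩ := hAne
  have hF : IsPBlock M (blockOf M (χ : T → ℂ)) := isPBlock_blockOf χ
  have hFA : blockOf M (χ : T → ℂ) ⊆ A := union_of_blocks hAR hχ
  set F := blockOf M (χ : T → ℂ) with hFdef
  have hsupp : SuppIn (Subgroup.centralizer (Q : Set G)) (sbl M T F) := by
    intro g hg
    by_cases hgT : g ∈ T
    · rw [sbl, red_apply, subgroupBlockCoeff_of_mem T F hgT]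
      haveI := normal_subgroupOf_of_le_normalizer hTN
      rw [blockCoeff_eq_zero_of_not_mem_centralizer hM hF (Q.subgroupOf T)
        (hQ.of_equiv (Subgroup.subgroupOfEquivOfLe hQT).symm) (g := ⟨g, hgT⟩)
        (fun h => hg ((mem_centralizer_subgroupOf_iff _ hQT).1 h)), resC_zero]
    · exact (isBlk_sbl hF).supp g hgT
  have hmul : sbl M T F * sbl M _ f = sbl M T F := by
    rw [← hsblA, sbl_eq_emb, sbl_eq_emb, ← emb_mul, bl, bl, ← red_conv (osima hF) hAR,
      conv_blockCoeff, Set.inter_eq_left.2 hFA]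
  have heq : sbl M T F = sbl M T A := by
    rw [hsblA]
    rcases (isBlk_sbl hf).dichotomy hsupp ((isBlk_sbl hF).inv.mono hCT) (isBlk_sbl hF).idem with
      h | h
    · rw [← hmul, h]
    · exact absurd (hmul ▸ h) (isBlk_sbl hF).ne_zero
  have hbl : bl M F = bl M A := by
    rw [sbl_eq_emb, sbl_eq_emb] at heq
    exact emb_injective T heq
  have hAF : A ⊆ F := by
    intro ψ hψ
    by_contra hn
    have h1 := omb_bl hF ψ
    rw [if_neg hn, hbl, bl, omb_red (isClassFunction_blockCoeff A) hAR, Om_blockCoeff,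
      Set.indicator_of_mem hψ, resC_one] at h1
    exact one_ne_zero h1
  refine ⟨F, hF, fun t => ?_⟩
  rw [Set.Subset.antisymm hFA hAF, ← haA]
  rfl

end

end Cfsg.Agent.Lib.Helper26.BP
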