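import Cfsg.Agent.Lib.Helper26.BPNil2

/-!
# Transport of Brauer pairs of the group `↥H` to relative Brauer pairs of `H ≤ G`
-/

set_option autoImplicit false
set_option linter.unusedSectionVars false
set_option linter.unusedVariables false
set_option linter.style.haveILetI false

open Cfsg Cfsg.FusionSystem
open Cfsg.Agent.Lib.Helper7 Cfsg.Agent.Lib.Helper24

namespace Cfsg.Agent.Lib.Helper26.BP

noncomputable section
open Classical

universe u
variable {M : Ideal AlgInt} [M.IsPrime] {p : ℕ} [hp : Fact p.Prime]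
variable {G : Type u} [Group G] [Fintype G]

/-- push a pair of the group `↥H` to `G` -/
def up (H : Subgroup G) (a : FP M H) : FP M G := (a.1.map H.subtype, emb H a.2)

@[simp] theorem up_fst (H : Subgroup G) (a : FP M H) : (up H a).1 = a.1.map H.subtype := rfl
@[simp] theorem up_snd (H : Subgroup G) (a : FP M H) : (up H a).2 = emb H a.2 := rfl

theorem mem_map_subtype {H : Subgroup G} {K : Subgroup H} {g : G} :
    g ∈ K.map H.subtype ↔ ∃ h : g ∈ H, (⟨g, h⟩ : H) ∈ K := by
  constructor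
  · rintro ⟨x, hx, rfl⟩
    exact ⟨x.2, hx⟩
  · rintro ⟨h, hx⟩
    exact ⟨⟨g, h⟩, hx, rfl⟩

theorem coe_mem_map_subtype {H : Subgroup G} {K : Subgroup H} {x : H} :
    (x : G) ∈ K.map H.subtype ↔ x ∈ K := by
  rw [mem_map_subtype]
  exact ⟨fun ⟨_, h⟩ => h, fun h => ⟨x.2, h⟩⟩

theorem map_subtype_le' {H : Subgroup G} (K : Subgroup H) : K.map H.subtype ≤ H := by
  rintro _ ⟨x, _, rfl⟩
  exact x.2

theorem IsBlk.up {H : Subgroup G} {K : Subgroup H} {ε : KG M H} (h : IsBlk M K ε) :
    IsBlk M (K.map H.subtype) (emb H ε) := by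
  obtain ⟨e, he, rfl⟩ := h
  let σ : K ≃* K.map H.subtype := K.equivMapOfInjective H.subtype H.subtype_injective
  refine ⟨mapIrr σ ⁻¹' e, isPBlock_preimage σ he, ?_⟩
  ext g
  by_cases hg : g ∈ K.map H.subtype
  · obtain ⟨hgH, hgK⟩ := mem_map_subtype.1 hg
    rw [emb_of_mem _ _ hgH, sbl, sbl, red_apply, red_apply, subgroupBlockCoeff_of_mem _ _ hgK,
      subgroupBlockCoeff_of_mem _ _ hg]
    have := blockCoeff_preimage σ e ⟨⟨g, hgH⟩, hgK⟩
    have h2 : σ ⟨⟨g, hgH⟩, hgK⟩ = ⟨g, hg⟩ := rfl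
    rw [h2] at this
    rw [this]
  · have e1 : sbl M (K.map H.subtype) (mapIrr σ ⁻¹' e) g = 0 := by
      rw [sbl, red_apply, subgroupBlockCoeff_of_not_mem _ _ hg, resC_zero]
    rw [e1]
    by_cases hgH : g ∈ H
    · have hgK : (⟨g, hgH⟩ : H) ∉ K := fun h => hg (mem_map_subtype.2 ⟨hgH, h⟩)
      rw [emb_of_mem _ _ hgH, sbl, red_apply, subgroupBlockCoeff_of_not_mem _ _ hgK, resC_zero]
    · rw [emb_of_not_mem _ _ hgH]

theorem coe_mem_centralizer_map {H : Subgroup G} {R : Subgroup H} {x : H} :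
    (x : G) ∈ Subgroup.centralizer ((R.map H.subtype : Subgroup G) : Set G) ↔
      x ∈ Subgroup.centralizer (R : Set H) := by
  rw [Subgroup.mem_centralizer_iff, Subgroup.mem_centralizer_iff]
  constructor
  · intro h y hy
    apply Subtype.ext
    exact h y (coe_mem_map_subtype.2 hy)
  · rintro h _ ⟨y, hy, rfl⟩
    exact congrArg Subtype.val (h y hy)

theorem coe_mem_normalizer_map {H : Subgroup G} {R : Subgroup H} {x : H} :
    (x : G) ∈ Subgroup.normalizer ((R.map H.subtype : Subgroup G) : Set G) ↔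
      x ∈ Subgroup.normalizer (R : Set H) := by
  rw [Subgroup.mem_normalizer_iff, Subgroup.mem_normalizer_iff]
  constructor
  · intro h y
    have := h (y : G)
    rw [coe_mem_map_subtype] at this
    rw [this]
    exact coe_mem_map_subtype (x := x * y * x⁻¹)
  · intro h g
    by_cases hg : g ∈ H
    · have := h ⟨g, hg⟩
      rw [← coe_mem_map_subtype (K := R), ← coe_mem_map_subtype (K := R)] at this
      exact this
    · constructor
      · intro h'; exact absurd (map_subtype_le' R h') hg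
      · intro h'
        exfalso; apply hg
        have := H.mul_mem (H.mul_mem (H.inv_mem x.2) (map_subtype_le' R h')) x.2
        simpa [mul_assoc] using this

theorem cen_map {H : Subgroup G} (R : Subgroup H) :
    (cen ⊤ R).map H.subtype = cen H (R.map H.subtype) := by
  ext g
  rw [mem_map_subtype, cen, cen, Subgroup.mem_inf]
  constructor
  · rintro ⟨h, hx⟩
    exact ⟨h, coe_mem_centralizer_map.2 hx.2⟩
  · rintro ⟨h, hx⟩
    exact ⟨h, Subgroup.mem_top _, coe_mem_centralizer_map.1 hx⟩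

theorem br_emb {H : Subgroup G} (R : Subgroup H) (γ : KG M H) :
    br (R.map H.subtype) (emb H γ) = emb H (br R γ) := by
  ext g
  by_cases hg : g ∈ H
  · rw [emb_of_mem _ _ hg, br, br, tr_apply, tr_apply, emb_of_mem _ _ hg]
    have := coe_mem_centralizer_map (R := R) (x := ⟨g, hg⟩)
    by_cases hc : g ∈ Subgroup.centralizer ((R.map H.subtype : Subgroup G) : Set G)
    · rw [if_pos hc, if_pos (this.1 hc)]
    · rw [if_neg hc, if_neg (fun h => hc (this.2 h))]
  · rw [emb_of_not_mem _ _ hg, br, tr_apply, emb_of_not_mem _ _ hg, ite_self]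

theorem inv_emb_map {H : Subgroup G} {R : Subgroup H} {γ : KG M H} (h : Inv R γ) :
    Inv (R.map H.subtype) (emb H γ) := by
  rintro _ ⟨x, hx, rfl⟩
  show cj (x : G) (emb H γ) = emb H γ
  rw [cj_emb, h x hx]

theorem isPGroup_map_subtype {H : Subgroup G} {R : Subgroup H} (h : IsPGroup p R) :
    IsPGroup p (R.map H.subtype) := h.map _

theorem IsPair.up {H : Subgroup G} {a : FP M H} (h : IsPair p ⊤ a) : IsPair p H (up H a) where
  le := map_subtype_le' _
  pg := isPGroup_map_subtype h.pg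
  blk := by
    have := h.blk.up
    rwa [cen_map] at this

theorem NS.up {H : Subgroup G} {a b : FP M H} (h : NS p ⊤ a b) : NS p H (up H a) (up H b) := by
  refine ⟨h.1.up, h.2.1.up, Subgroup.map_mono h.2.2.1, ?_, inv_emb_map h.2.2.2.2.1, ?_⟩
  · rintro _ ⟨x, hx, rfl⟩
    exact coe_mem_normalizer_map.2 (h.2.2.2.1 hx)
  · show br (b.1.map H.subtype) (emb H a.2) * emb H b.2 = emb H b.2
    rw [br_emb, ← emb_mul, h.2.2.2.2.2]

theorem up_bot {H : Subgroup G} (F : Set (IrrCharacter H)) :
    up H ((⊥, bl M F) : FP M H) = (⊥, sbl M H F) := by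
  apply Prod.ext
  · exact Subgroup.map_bot _
  · exact (sbl_eq_emb H F).symm

theorem cjS_map_subtype {H : Subgroup G} (x : H) (R : Subgroup H) :
    cjS (x : G) (R.map H.subtype) = (cjS x R).map H.subtype := by
  ext g
  rw [mem_cjS, mem_map_subtype, mem_map_subtype]
  constructor
  · rintro ⟨h, hx⟩
    have hg : g ∈ H := by
      have := H.mul_mem (H.mul_mem x.2 h) (H.inv_mem x.2)
      simpa [mul_assoc] using this
    exact ⟨hg, mem_cjS.2 hx⟩
  · rintro ⟨h, hx⟩
    exact ⟨H.mul_mem (H.mul_mem (H.inv_mem x.2) h) x.2, mem_cjS.1 hx⟩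

theorem act_up {H : Subgroup G} (x : H) (a : FP M H) : act (x : G) (up H a) = up H (act x a) := by
  apply Prod.ext
  · exact cjS_map_subtype x a.1
  · exact cj_emb H x a.2

/-- relative nilpotency -/
def RelNil (p : ℕ) (H : Subgroup G) (β : KG M G) : Prop :=
  ∀ a : FP M G, NS p H (⊥, β) a → ∀ x ∈ H, x ∈ stabP a → IsPRegular p x →
    x ∈ Subgroup.centralizer (a.1 : Set G)

variable [CharP (resField M) p]

theorem isNilpotentBlock_of_relNil {H : Subgroup G} {F : Set (IrrCharacter H)}
    (hF : IsPBlock M F) (h : RelNil p H (sbl M H F)) : IsNilpotentBlock p M F := by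
  rw [isNilpotentBlock_iff hF]
  intro a ha x hx hreg
  have h1 := ha.up
  rw [up_bot] at h1
  have h2 : (x : G) ∈ stabP (up H a) := by
    rw [mem_stabP, act_up, mem_stabP.1 hx]
  have h3 : IsPRegular p (x : G) := by
    rw [IsPRegular, Subgroup.orderOf_coe]; exact hreg
  exact coe_mem_centralizer_map.1 (h _ h1 x x.2 h2 h3)

end

end Cfsg.Agent.Lib.Helper26.BP
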