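import Cfsg.Agent.Lib.Helper26.BPPair

/-!
# Maximal Brauer pairs: extension, domination and conjugacy
-/

set_option autoImplicit false
set_option linter.unusedSectionVars false
set_option linter.unusedVariables false
set_option linter.style.haveILetI false

open Cfsg
open Cfsg.Agent.Lib.Helper7 Cfsg.Agent.Lib.Helper24

namespace Cfsg.Agent.Lib.Helper26.BP

noncomputable section
open Classical

universe u
variable {M : Ideal AlgInt} [M.IsPrime] {G : Type u} [Group G] [Fintype G] {p : ℕ}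
variable {H : Subgroup G}

theorem cjS_inv_cjS (x : G) (K : Subgroup G) : cjS x⁻¹ (cjS x K) = K := by
  rw [← cjS_mul, inv_mul_cancel, cjS_one]

theorem cjS_cjS_inv (x : G) (K : Subgroup G) : cjS x (cjS x⁻¹ K) = K := by
  rw [← cjS_mul, mul_inv_cancel, cjS_one]

theorem cj_apply_of_mem_centralizer {P : Subgroup G} {y : G}
    (hy : y ∈ Subgroup.centralizer (P : Set G)) {q : G} (hq : q ∈ P) (a : KG M G) :
    cj q a y = a y := by
  rw [cj_apply]
  have := (Subgroup.mem_centralizer_iff.1 hy) q hq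
  rw [mul_assoc, ← this, ← mul_assoc, inv_mul_cancel, one_mul]

theorem exists_apply_ne_zero {a : KG M G} (h : a ≠ 0) : ∃ y, a y ≠ 0 := by
  by_contra hcon
  push Not at hcon
  exact h (GA.ext' hcon)

theorem br_ne_zero_iff {D : Subgroup G} {a : KG M G} :
    br D a ≠ 0 ↔ ∃ y ∈ Subgroup.centralizer (D : Set G), a y ≠ 0 := by
  constructor
  · intro h
    obtain ⟨y, hy⟩ := exists_apply_ne_zero h
    by_cases hyc : y ∈ Subgroup.centralizer (D : Set G)
    · rw [br, tr_of_mem _ hyc] at hy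
      exact ⟨y, hyc, hy⟩
    · rw [br, tr_of_not_mem _ hyc] at hy
      exact absurd rfl hy
  · rintro ⟨y, hyc, hy⟩ h
    apply hy
    have := congrFun h y
    rw [br, tr_of_mem _ hyc] at this
    exact this

/-- a pair that cannot be properly extended -/
def Terminal (p : ℕ) (H : Subgroup G) (a : FP M G) : Prop :=
  ∀ R : Subgroup G, R ≤ H → IsPGroup p R → a.1 ≤ R → R ≤ Subgroup.normalizer (a.1 : Set G) →
    Inv R a.2 → br R a.2 ≠ 0 → R ≤ a.1

theorem Terminal.act {a : FP M G} (h : Terminal p H a) {x : G} (hx : x ∈ H) :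
    Terminal p H (act x a) := by
  intro R hRH hR haR hRN hinv hbr
  have h1 : cjS x⁻¹ R ≤ a.1 := by
    apply h
    · have := cjS_mono (x := x⁻¹) hRH
      rwa [cjS_eq_self_of_mem (H.inv_mem hx)] at this
    · exact isPGroup_cjS hR _
    · have := cjS_mono (x := x⁻¹) haR
      rwa [act_fst, cjS_inv_cjS] at this
    · have := cjS_mono (x := x⁻¹) hRN
      rwa [cjS_normalizer, act_fst, cjS_inv_cjS] at this
    · have := hinv.cj x⁻¹
      rwa [act_snd, cj_inv_cj] at this
    · intro h0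
      apply hbr
      have := congrArg (cj x) h0
      rwa [cj_br, cjS_cjS_inv, map_zero] at this
  have := cjS_mono (x := x) h1
  rwa [cjS_cjS_inv] at this

/-- the orbit of a pair under `H` -/
def Orb (H : Subgroup G) (a : FP M G) : Finset (FP M G) :=
  (Finset.univ.filter (· ∈ H)).image (fun t => act t a)

theorem mem_Orb {a o : FP M G} : o ∈ Orb H a ↔ ∃ t ∈ H, act t a = o := by
  simp [Orb]

theorem self_mem_Orb (a : FP M G) : a ∈ Orb H a := mem_Orb.2 ⟨1, H.one_mem, act_one a⟩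

theorem act_mem_Orb {a o : FP M G} {x : G} (hx : x ∈ H) (ho : o ∈ Orb H a) :
    act x o ∈ Orb H a := by
  obtain ⟨t, ht, rfl⟩ := mem_Orb.1 ho
  exact mem_Orb.2 ⟨x * t, H.mul_mem hx ht, act_mul x t a⟩

/-- the orbit sum -/
def zz (H : Subgroup G) (a : FP M G) : KG M G := ∑ o ∈ Orb H a, o.2

theorem zz_supp {a : FP M G} (ha : IsPair p H a) : SuppIn H (zz H a) := by
  apply SuppIn.sum
  intro o ho
  obtain ⟨t, ht, rfl⟩ := mem_Orb.1 ho
  exact (ha.act ht).suppH

theorem zz_inv (a : FP M G) : Inv H (zz H a) := by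
  intro x hx
  rw [zz, map_sum]
  apply Finset.sum_equiv (actPerm x)
  · intro o
    constructor
    · exact act_mem_Orb hx
    · intro h
      have := act_mem_Orb (H.inv_mem hx) h
      rwa [actPerm_apply, ← act_mul, inv_mul_cancel, act_one] at this
  · intro o _
    rfl

variable [hp : Fact p.Prime] [CharP (resField M) p]

theorem exists_ns_of_not_terminal {a : FP M G} (ha : IsPair p H a) (ht : ¬ Terminal p H a) :
    ∃ b, NS p H a b ∧ a.1 < b.1 := by
  unfold Terminal at ht
  push Not at ht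
  obtain ⟨R, hRH, hR, haR, hRN, hinv, hbr, hnot⟩ := ht
  obtain ⟨η, hη, h1⟩ := exists_isBlk (br_supp (P := R) ha.suppH)
    (br_inv (ha.blk.inv.mono (cen_anti H haR))) (br_idem hR hinv ha.blk.idem) hbr
  exact ⟨(R, η), ⟨ha, ⟨hRH, hR, hη⟩, haR, hRN, hinv, h1⟩, lt_of_le_not_ge haR hnot⟩

theorem Terminal.le_of_fixed {o : FP M G} (ho : IsPair p H o) (ht : Terminal p H o)
    {D : Subgroup G} (hDH : D ≤ H) (hD : IsPGroup p D) (hfix : ∀ d ∈ D, BP.act d o = o)
    (hbr : br D o.2 ≠ 0) : D ≤ o.1 := by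
  have hDN : D ≤ Subgroup.normalizer (o.1 : Set G) := by
    intro d hd
    rw [← cjS_eq_self_iff]
    exact congrArg Prod.fst (hfix d hd)
  have hDinv : Inv D o.2 := fun d hd => congrArg Prod.snd (hfix d hd)
  have hpg : IsPGroup p (o.1 ⊔ D : Subgroup G) := by
    rw [sup_comm]
    exact IsPGroup.to_sup_of_normal_right' hD ho.pg hDN
  have := ht (o.1 ⊔ D) (sup_le ho.le hDH) hpg le_sup_left (sup_le Subgroup.le_normalizer hDN)
    (ho.inv_self.sup hDinv) (by rw [br_sup ho.supp]; exact hbr)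
  exact le_sup_right.trans this

theorem br_zz {a : FP M G} (ha : IsPair p H a) (ht : Terminal p H a) :
    br a.1 (zz H a) = ∑ o ∈ (Orb H a).filter (fun o => o.1 = a.1), o.2 := by
  ext y
  rw [GA.sum_apply]
  by_cases hy : y ∈ Subgroup.centralizer (a.1 : Set G)
  · rw [br, tr_of_mem _ hy, zz, GA.sum_apply,
      sum_fixed hp.out ha.pg (actPerm.comp a.1.subtype) (Orb H a)
        (fun q o ho => act_mem_Orb (ha.le q.2) ho) (fun o => o.2 y)
        (fun q o => cj_apply_of_mem_centralizer hy q.2 o.2),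
      Finset.sum_filter, Finset.sum_filter]
    apply Finset.sum_congr rfl
    intro o ho
    obtain ⟨t, htH, rfl⟩ := mem_Orb.1 ho
    have hpo := ha.act htH
    have hto := ht.act htH
    by_cases h1 : (act t a).1 = a.1
    · have hfix : ∀ q : a.1, (actPerm.comp a.1.subtype) q (act t a) = act t a := by
        intro q
        apply Prod.ext
        · show cjS (q : G) (act t a).1 = (act t a).1
          rw [h1]; exact cjS_eq_self_of_mem q.2
        · exact hpo.inv_self q (by rw [h1]; exact q.2)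
      rw [if_pos h1, if_pos hfix]
    · rw [if_neg h1]
      by_cases hfix : ∀ q : a.1, (actPerm.comp a.1.subtype) q (act t a) = act t a
      · rw [if_pos hfix]
        by_contra hne
        apply h1
        have hle : a.1 ≤ (act t a).1 :=
          hto.le_of_fixed hpo ha.le ha.pg (fun d hd => hfix ⟨d, hd⟩)
            (br_ne_zero_iff.2 ⟨y, hy, hne⟩)
        exact (Subgroup.eq_of_le_of_card_ge hle (by rw [act_fst, card_cjS])).symm
      · rw [if_neg hfix]
  · rw [br, tr_of_not_mem _ hy]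
    symm
    apply Finset.sum_eq_zero
    intro o ho
    rw [Finset.mem_filter] at ho
    obtain ⟨t, htH, rfl⟩ := mem_Orb.1 ho.1
    exact (ha.act htH).supp y (by rw [ho.2]; exact hy)

theorem sum_orb_mul_self {a : FP M G} (ha : IsPair p H a) :
    (∑ o ∈ (Orb H a).filter (fun o => o.1 = a.1), o.2) * a.2 = a.2 := by
  rw [Finset.sum_mul, Finset.sum_eq_single a]
  · exact ha.blk.idem
  · intro o ho hne
    rw [Finset.mem_filter] at ho
    obtain ⟨t, htH, rfl⟩ := mem_Orb.1 ho.1
    have hb := (ha.act htH).blk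
    rw [ho.2] at hb
    exact hb.orth ha.blk (fun h => hne (Prod.ext ho.2 h))
  · intro h
    exact (h (Finset.mem_filter.2 ⟨self_mem_Orb a, rfl⟩)).elim

theorem sum_orb_mul_other {a : FP M G} (ha : IsPair p H a) {ε2 : KG M G}
    (h2 : IsBlk M (cen H a.1) ε2) (hn : (a.1, ε2) ∉ Orb H a) :
    (∑ o ∈ (Orb H a).filter (fun o => o.1 = a.1), o.2) * ε2 = 0 := by
  rw [Finset.sum_mul]
  apply Finset.sum_eq_zero
  intro o ho
  rw [Finset.mem_filter] at ho
  obtain ⟨t, htH, rfl⟩ := mem_Orb.1 ho.1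
  have hb := (ha.act htH).blk
  rw [ho.2] at hb
  apply hb.orth h2
  intro h
  apply hn
  have : (a.1, ε2) = act t a := Prod.ext ho.2.symm h.symm
  rw [this]; exact ho.1

theorem exists_w {β : KG M G} (hβ : IsBlk M H β) {a : FP M G} (ha : IsPair p H a)
    (ht : Terminal p H a) (hβa : br a.1 β * a.2 = a.2) :
    ∃ w, SuppIn H w ∧ Inv H w ∧ zz H a * w = β := by
  rcases hβ.local (zz_supp ha) (zz_inv a) with ⟨n, hn⟩ | h
  · exfalso
    have i1 : Inv a.1 (zz H a) := (zz_inv a).mono ha.le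
    have i2 : Inv a.1 β := hβ.inv.mono ha.le
    have e1 : br a.1 ((zz H a * β) ^ n) = (br a.1 (zz H a) * br a.1 β) ^ n := by
      rw [br_pow hp.out ha.pg (i1.mul i2), br_mul hp.out ha.pg i1 i2]
    have e2 : ∀ n : ℕ, (br a.1 (zz H a) * br a.1 β) ^ n * a.2 = a.2 := by
      intro n
      induction n with
      | zero => simp
      | succ n ih =>
        rw [pow_succ, mul_assoc, mul_assoc, hβa, br_zz ha ht, sum_orb_mul_self ha, ← br_zz ha ht, ih]
    rw [hn, br_zero] at e1
    have := e2 n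
    rw [← e1, zero_mul] at this
    exact ha.blk.ne_zero this.symm
  · exact h

/-- A terminal pair of a block dominates every `p`-subgroup at which the block survives. -/
theorem Terminal.dominates {β : KG M G} (hβ : IsBlk M H β) {a : FP M G} (ha : IsPair p H a)
    (ht : Terminal p H a) (hβa : br a.1 β * a.2 = a.2) {D : Subgroup G} (hDH : D ≤ H)
    (hD : IsPGroup p D) (hbr : br D β ≠ 0) : ∃ t ∈ H, D ≤ cjS t a.1 := by
  obtain ⟨w, hw1, hw2, hw3⟩ := exists_w hβ ha ht hβa
  obtain ⟨y, hy, hne⟩ := br_ne_zero_iff.1 hbr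
  rw [← hw3, zz, Finset.sum_mul, GA.sum_apply,
    sum_fixed hp.out hD (actPerm.comp D.subtype) (Orb H a)
      (fun q o ho => act_mem_Orb (hDH q.2) ho) (fun o => (o.2 * w) y)
      (fun q o => by
        show (cj (q : G) o.2 * w) y = (o.2 * w) y
        rw [← hw2 q (hDH q.2), ← map_mul, hw2 q (hDH q.2)]
        exact cj_apply_of_mem_centralizer hy q.2 _)] at hne
  obtain ⟨o, ho, hne2⟩ := Finset.exists_ne_zero_of_sum_ne_zero hne
  rw [Finset.mem_filter] at ho
  obtain ⟨t, htH, rfl⟩ := mem_Orb.1 ho.1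
  refine ⟨t, htH, ?_⟩
  have hfix : ∀ d ∈ D, BP.act d (BP.act t a) = BP.act t a :=
    fun d hd => ho.2 ⟨d, hd⟩
  apply (ht.act htH).le_of_fixed (ha.act htH) hDH hD hfix
  intro h0
  have h1 : br D ((BP.act t a).2 * w) ≠ 0 := br_ne_zero_iff.2 ⟨y, hy, hne2⟩
  apply h1
  rw [br_mul hp.out hD (fun d hd => congrArg Prod.snd (hfix d hd)) (hw2.mono hDH), h0, zero_mul]

/-- Two pairs of the same block on the same subgroup, one of them terminal, are conjugate. -/
theorem Terminal.conj_of_same {β : KG M G} (hβ : IsBlk M H β) {a : FP M G} (ha : IsPair p H a)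
    (ht : Terminal p H a) (hβa : br a.1 β * a.2 = a.2) {ε2 : KG M G}
    (h2 : IsBlk M (cen H a.1) ε2) (hβ2 : br a.1 β * ε2 = ε2) :
    ∃ t ∈ H, BP.act t a = (a.1, ε2) := by
  obtain ⟨w, hw1, hw2, hw3⟩ := exists_w hβ ha ht hβa
  by_contra hcon
  have hn : (a.1, ε2) ∉ Orb H a := fun h => hcon (mem_Orb.1 h)
  apply h2.ne_zero
  rw [← hβ2, ← hw3, br_mul hp.out ha.pg ((zz_inv a).mono ha.le) (hw2.mono ha.le), br_zz ha ht,
    mul_assoc, ← h2.comm (br_supp hw1), ← mul_assoc, sum_orb_mul_other ha h2 hn, zero_mul]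

theorem exists_terminal_ge {a : FP M G} (ha : IsPair p H a) :
    ∃ b, LE p H a b ∧ Terminal p H b := by
  induction hn : Nat.card H - Nat.card a.1 using Nat.strong_induction_on generalizing a with
  | _ n ih =>
    by_cases ht : Terminal p H a
    · exact ⟨a, LE.refl a, ht⟩
    · obtain ⟨b, hab, hlt⟩ := exists_ns_of_not_terminal ha ht
      have h1 := card_lt_of_lt hlt
      have h2 : Nat.card b.1 ≤ Nat.card H := Subgroup.card_le_of_le hab.2.1.le
      obtain ⟨c, hbc, hc⟩ := ih (Nat.card H - Nat.card b.1) (by omega) hab.2.1 rfl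
      exact ⟨c, hab.le.trans hbc, hc⟩

theorem le_normalizer_bot (R : Subgroup G) :
    R ≤ Subgroup.normalizer ((⊥ : Subgroup G) : Set G) := by
  intro x _
  rw [← cjS_eq_self_iff]
  exact Subgroup.map_bot _

/-- being a pair of the block `β` passes up -/
theorem NS.bot_of_le {β : KG M G} {b c : FP M G} (hb : NS p H (⊥, β) b) (hbc : LE p H b c) :
    NS p H (⊥, β) c := by
  obtain ⟨β', hβ'⟩ := exists_ns (hbc.isPair_right hb.2.1) (Q := ⊥) bot_le (le_normalizer_bot _)
  have := LE.unique hβ'.le (hb.le.trans hbc) rfl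
  rw [← this]; exact hβ'

/-- being a pair of the block `β` passes down -/
theorem NS.bot_of_ge {β : KG M G} {b c : FP M G} (hc : NS p H (⊥, β) c) (hbc : LE p H b c) :
    NS p H (⊥, β) b := by
  obtain ⟨β', hβ'⟩ := exists_ns (hbc.isPair_left hc.2.1) (Q := ⊥) bot_le (le_normalizer_bot _)
  have := LE.unique (hβ'.le.trans hbc) hc.le rfl
  rw [← this]; exact hβ'

theorem NS.bot_blk {β : KG M G} {b : FP M G} (hb : NS p H (⊥, β) b) : IsBlk M H β := by
  have := hb.1.blk
  rwa [show cen H ((⊥, β) : FP M G).1 = H from cen_bot H] at this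

theorem NS.bot_act {β : KG M G} {b : FP M G} (hb : NS p H (⊥, β) b) {x : G} (hx : x ∈ H) :
    NS p H (⊥, β) (BP.act x b) := by
  have h1 := hb.act hx
  have h2 : BP.act x ((⊥, β) : FP M G) = (⊥, β) :=
    Prod.ext (Subgroup.map_bot _) (hb.bot_blk.inv x hx)
  rwa [h2] at h1

theorem NS.bot_br_ne_zero {β : KG M G} {b : FP M G} (hb : NS p H (⊥, β) b) : br b.1 β ≠ 0 := by
  intro h
  have := hb.2.2.2.2.2
  rw [show ((⊥, β) : FP M G).2 = β from rfl, h, zero_mul] at this
  exact hb.2.1.blk.ne_zero this.symm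

/-- Terminal pairs of a block are conjugate. -/
theorem Terminal.conj {β : KG M G} {a c : FP M G} (ha : NS p H (⊥, β) a) (hta : Terminal p H a)
    (hc : NS p H (⊥, β) c) (htc : Terminal p H c) : ∃ x ∈ H, BP.act x c = a := by
  have hβ := ha.bot_blk
  obtain ⟨t, htH, h1⟩ := hta.dominates hβ ha.2.1 ha.2.2.2.2.2 hc.2.1.le hc.2.1.pg hc.bot_br_ne_zero
  obtain ⟨s, hsH, h2⟩ := htc.dominates hβ hc.2.1 hc.2.2.2.2.2 ha.2.1.le ha.2.1.pg ha.bot_br_ne_zero
  have c1 : Nat.card a.1 ≤ Nat.card c.1 := by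
    have := Subgroup.card_le_of_le h2
    rwa [card_cjS] at this
  have e1 : c.1 = cjS t a.1 := Subgroup.eq_of_le_of_card_ge h1 (by rw [card_cjS]; exact c1)
  have htH' := H.inv_mem htH
  have e2 : (BP.act t⁻¹ c).1 = a.1 := by rw [act_fst, e1, cjS_inv_cjS]
  have hc' := hc.bot_act htH'
  have hb2 := hc'.2.1.blk
  rw [e2] at hb2
  have hβ2 := hc'.2.2.2.2.2
  rw [e2] at hβ2
  obtain ⟨n, hnH, hn⟩ := hta.conj_of_same hβ ha.2.1 ha.2.2.2.2.2 hb2 hβ2
  refine ⟨n⁻¹ * t⁻¹, H.mul_mem (H.inv_mem hnH) htH', ?_⟩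
  have e3 : BP.act t⁻¹ c = BP.act n a := by
    rw [hn]; exact Prod.ext e2 rfl
  rw [act_mul, e3, ← act_mul, inv_mul_cancel, act_one]

/-- Every pair of a block is conjugate to a pair below a given terminal pair. -/
theorem Terminal.conj_le {β : KG M G} {a b : FP M G} (ha : NS p H (⊥, β) a)
    (hta : Terminal p H a) (hb : NS p H (⊥, β) b) : ∃ x ∈ H, LE p H (BP.act x b) a := by
  obtain ⟨c, hbc, htc⟩ := exists_terminal_ge hb.2.1
  obtain ⟨x, hx, hxc⟩ := hta.conj ha (hb.bot_of_le hbc) htc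
  exact ⟨x, hx, hxc ▸ hbc.act hx⟩

end

end Cfsg.Agent.Lib.Helper26.BP
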