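import Cfsg.Agent.Lib.Helper26.ProjExt3
import Cfsg.Agent.Lib.Helper25.GalSum

set_option autoImplicit false

namespace Cfsg.Agent.Lib.Helper26

open Cfsg
open scoped ComplexConjugate

universe u

variable {G : Type u} [Group G]

/-- Burnside: a nonlinear irreducible character has a zero. -/
theorem exists_zero_of_nonlinear [Finite G] {β : G → ℂ} (hβ : IsIrrCharacter G β)
    (h1 : β 1 ≠ 1) : ∃ γ, β γ = 0 := by
  classical
  cases nonempty_fintype G
  by_contra hcon
  push Not at hcon
  have hc := Helper7.isCharacter_of_irr hβ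
  have h2 := Helper25.card_le_sum_norm_sq hc (Finset.univ.erase 1) (by
    intro g hg m hm
    rw [Finset.mem_erase] at hg ⊢
    refine ⟨fun h => hg.1 ?_, Finset.mem_univ _⟩
    have h3 : orderOf g ∣ m := orderOf_dvd_of_pow_eq_one h
    have h4 : orderOf g ∣ Nat.card G := orderOf_dvd_natCard g
    have h5 : orderOf g ∣ 1 := by
      have := Nat.dvd_gcd h3 h4
      rwa [hm] at this
    exact orderOf_eq_one_iff.mp (Nat.dvd_one.mp h5)) (fun g _ => hcon g)
  have h3 := Helper25.sum_norm_sq_eq_card hβ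
  rw [← Finset.add_sum_erase _ _ (Finset.mem_univ (1 : G))] at h3
  rw [Finset.card_erase_of_mem (Finset.mem_univ _), Finset.card_univ,
    ← Nat.card_eq_fintype_card] at h2
  obtain ⟨m, hm, hm1⟩ := Helper2.IsIrrCharacter.apply_one_pos hβ
  have h4 : ((Nat.card G - 1 : ℕ) : ℝ) = (Nat.card G : ℝ) - 1 := by
    rw [Nat.cast_sub Nat.card_pos]; simp
  rw [h4] at h2
  have h5 : ‖β 1‖ ^ 2 ≤ 1 := by linarith
  rw [hm1] at h5 h1
  have h6 : ((m : ℝ)) ^ 2 ≤ 1 := by simpa using h5
  have h7 : m ^ 2 ≤ 1 := by exact_mod_cast h6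
  have h8 : m = 1 := by nlinarith
  exact h1 (by rw [h8]; simp)

/-- a finite group is not the union of the conjugates of a proper subgroup -/
theorem exists_not_mem_conj [Finite G] {T : Subgroup G} (hT : T ≠ ⊤) :
    ∃ x : G, ∀ g : G, g⁻¹ * x * g ∉ T := by
  classical
  cases nonempty_fintype G
  by_contra hcon
  push Not at hcon
  have hB := MulAction.sum_card_fixedBy_eq_card_orbits_mul_card_group G (G ⧸ T)
  have hsub : Subsingleton (Quotient (MulAction.orbitRel G (G ⧸ T))) :=
    (MulAction.pretransitive_iff_subsingleton_quotient G (G ⧸ T)).mp inferInstance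
  have hone : Fintype.card (Quotient (MulAction.orbitRel G (G ⧸ T))) ≤ 1 :=
    Fintype.card_le_one_iff_subsingleton.mpr hsub
  have hpos : ∀ a : G, 1 ≤ Fintype.card (MulAction.fixedBy (G ⧸ T) a) := by
    intro a
    obtain ⟨g, hg⟩ := hcon a
    refine Fintype.card_pos_iff.mpr ⟨⟨(g : G ⧸ T), ?_⟩⟩
    rw [MulAction.mem_fixedBy]
    show ((a * g : G) : G ⧸ T) = g
    rw [QuotientGroup.eq]
    have : (a * g)⁻¹ * g = (g⁻¹ * a * g)⁻¹ := by group
    rw [this]
    exact T.inv_mem hg
  have hidx : 2 ≤ Fintype.card (MulAction.fixedBy (G ⧸ T) (1 : G)) := by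
    have h1 : Fintype.card (MulAction.fixedBy (G ⧸ T) (1 : G)) = Fintype.card (G ⧸ T) := by
      apply Fintype.card_of_subtype
      intro x
      simp
    rw [h1, ← Nat.card_eq_fintype_card]
    have h2 : T.index ≠ 1 := fun h => hT (Subgroup.index_eq_one.mp h)
    have h3 : T.index ≠ 0 := T.index_ne_zero_of_finite
    show 2 ≤ T.index
    omega
  rw [← Finset.add_sum_erase _ _ (Finset.mem_univ (1 : G))] at hB
  have h4 : (Finset.univ.erase (1 : G)).card ≤
      ∑ a ∈ Finset.univ.erase (1 : G), Fintype.card (MulAction.fixedBy (G ⧸ T) a) := by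
    rw [Finset.card_eq_sum_ones]
    exact Finset.sum_le_sum (fun a _ => hpos a)
  rw [Finset.card_erase_of_mem (Finset.mem_univ _), Finset.card_univ] at h4
  have h5 : 0 < Fintype.card G := Fintype.card_pos
  have h6 : Fintype.card (Quotient (MulAction.orbitRel G (G ⧸ T))) * Fintype.card G
      ≤ 1 * Fintype.card G := Nat.mul_le_mul_right _ hone
  omega

end Cfsg.Agent.Lib.Helper26
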