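import Mathlib

set_option autoImplicit false
open scoped ComplexConjugate
open Finset

namespace Cfsg.Agent.Lib.Helper26.Ctr

theorem geom1 {n : ℕ} {u : ℂ} (hu : u ^ n = 1) :
    ∑ j ∈ range n, u ^ j = if u = 1 then (n : ℂ) else 0 := by
  split_ifs with h
  · simp [h]
  · rw [geom_sum_eq h, hu, sub_self, zero_div]

theorem geom2 {p c : ℕ} (hp : 0 < p) {u : ℂ} (hu : u ^ (p * c) = 1) :
    ∑ j ∈ (range (p * c)).filter (fun j => p ∣ j), u ^ j = if u ^ p = 1 then (c : ℂ) else 0 := by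
  have h1 : (range (p * c)).filter (fun j => p ∣ j) = (range c).image (fun i => p * i) := by
    ext j
    simp only [mem_filter, mem_range, mem_image]
    constructor
    · rintro ⟨h1, i, rfl⟩
      exact ⟨i, Nat.lt_of_mul_lt_mul_left h1, rfl⟩
    · rintro ⟨i, hi, rfl⟩
      exact ⟨Nat.mul_lt_mul_of_pos_left hi hp, dvd_mul_right _ _⟩
  rw [h1, sum_image (by intro a _ b _ h; exact Nat.eq_of_mul_eq_mul_left hp h)]
  simp_rw [pow_mul]
  exact geom1 (by rw [← pow_mul]; exact hu)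

theorem geom3 {p c : ℕ} (hp : 0 < p) {u : ℂ} (hu : u ^ (p * c) = 1) :
    ∑ j ∈ (range (p * c)).filter (fun j => ¬ p ∣ j), u ^ j
      = (if u = 1 then ((p * c : ℕ) : ℂ) else 0) - (if u ^ p = 1 then (c : ℂ) else 0) := by
  rw [← geom1 hu, ← geom2 hp hu, ← sum_filter_add_sum_filter_not (range (p * c)) (fun j => p ∣ j)]
  ring

section main

variable {p c : ℕ} (hp : p.Prime) (hc : 0 < c) (μ : Finset ℂ)
  (hμ : ∀ w : ℂ, w ∈ μ ↔ w ^ (p * c) = 1) (η : ℂ) (hη : IsPrimitiveRoot η p)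

include hp hc hμ in
theorem sum_shift {β : Type*} [AddCommMonoid β] (F : ℂ → β) {u : ℂ} (hu : u ^ (p * c) = 1) :
    ∑ w ∈ μ, F (u * w) = ∑ w ∈ μ, F w := by
  have hn : 0 < p * c := Nat.mul_pos hp.pos hc
  have hu0 : u ≠ 0 := by
    rintro rfl
    rw [zero_pow hn.ne'] at hu; exact zero_ne_one hu
  refine sum_nbij' (fun w => u * w) (fun w => u⁻¹ * w) ?_ ?_ ?_ ?_ ?_
  · intro w hw
    rw [hμ] at hw ⊢
    rw [mul_pow, hu, hw, one_mul]
  · intro w hw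
    rw [hμ] at hw ⊢
    rw [mul_pow, inv_pow, hu, hw, inv_one, one_mul]
  · intro w _
    simp [hu0]
  · intro w _
    simp [hu0]
  · intro w _
    rfl

include hη in
theorem eta_pow (t : ℕ) : (η ^ t) ^ (p * c) = 1 := by
  rw [← pow_mul, mul_comm t, mul_assoc, pow_mul, hη.pow_eq_one, one_pow]

include hp hc hμ hη in
theorem sum_fib (F : ℂ → ℂ) {w' : ℂ} (hw' : w' ∈ μ) :
    ∑ w ∈ μ, (if (w * w'⁻¹) ^ p = 1 then F w else 0) = ∑ t ∈ range p, F (η ^ t * w') := by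
  have : NeZero p := ⟨hp.ne_zero⟩
  have hn : 0 < p * c := Nat.mul_pos hp.pos hc
  have hw1 := (hμ w').1 hw'
  have hw0 : w' ≠ 0 := by
    rintro rfl
    rw [zero_pow hn.ne'] at hw1; exact zero_ne_one hw1
  rw [← sum_filter]
  have h1 : μ.filter (fun w => (w * w'⁻¹) ^ p = 1) = (range p).image (fun t => η ^ t * w') := by
    ext w
    simp only [mem_filter, mem_image, mem_range]
    constructor
    · rintro ⟨_, h2⟩
      obtain ⟨t, ht, h3⟩ := hη.eq_pow_of_pow_eq_one h2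
      exact ⟨t, ht, by rw [h3]; field_simp⟩
    · rintro ⟨t, _, rfl⟩
      refine ⟨?_, ?_⟩
      · rw [hμ, mul_pow, eta_pow η hη, hw1, one_mul]
      · rw [mul_assoc, mul_inv_cancel₀ hw0, mul_one, ← pow_mul, mul_comm, pow_mul, hη.pow_eq_one,
          one_pow]
  rw [h1, sum_image]
  intro s hs t ht h
  exact hη.pow_inj (mem_range.1 hs) (mem_range.1 ht) (mul_right_cancel₀ hw0 h)

/-- the integers `E_t`. -/
noncomputable def EE (μ : Finset ℂ) (η : ℂ) (a : ℂ → ℤ) (t : ℕ) : ℤ :=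
  ∑ w ∈ μ, ((a w) ^ 2 - a (η ^ t * w) * a w)

include hp hc hμ hη in
theorem two_EE (a : ℂ → ℤ) (t : ℕ) :
    2 * EE μ η a t = ∑ w ∈ μ, (a (η ^ t * w) - a w) ^ 2 := by
  have h1 := sum_shift hp hc μ hμ (fun w => (a w) ^ 2) (eta_pow (c := c) η hη t)
  have h2 : ∑ w ∈ μ, (a (η ^ t * w) - a w) ^ 2
      = ∑ w ∈ μ, (a (η ^ t * w)) ^ 2 + ∑ w ∈ μ, (a w) ^ 2 - 2 * ∑ w ∈ μ, a (η ^ t * w) * a w := by
    rw [mul_sum, ← sum_add_distrib, ← sum_sub_distrib]
    apply sum_congr rfl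
    intro w _
    ring
  rw [h2, h1, EE, sum_sub_distrib]
  ring

include hp hc hμ hη in
theorem EE_pos (a : ℂ → ℤ) (hne : ∑ w ∈ μ, (a w : ℂ) * w ≠ 0) {t : ℕ} (ht0 : 0 < t) (ht : t < p) :
    1 ≤ EE μ η a t := by
  have h2 := two_EE hp hc μ hμ η hη a t
  have hnn : 0 ≤ ∑ w ∈ μ, (a (η ^ t * w) - a w) ^ 2 := sum_nonneg (fun w _ => sq_nonneg _)
  by_contra hlt
  have h0 : ∑ w ∈ μ, (a (η ^ t * w) - a w) ^ 2 = 0 := by omega
  rw [sum_eq_zero_iff_of_nonneg (fun w _ => sq_nonneg _)] at h0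
  have h3 : ∀ w ∈ μ, a (η ^ t * w) = a w := by
    intro w hw
    have := h0 w hw
    have h4 := pow_eq_zero_iff (two_ne_zero) |>.1 this
    omega
  have h4 := sum_shift hp hc μ hμ (fun w => (a w : ℂ) * w) (eta_pow (c := c) η hη t)
  have h5 : ∑ w ∈ μ, (a (η ^ t * w) : ℂ) * (η ^ t * w) = η ^ t * ∑ w ∈ μ, (a w : ℂ) * w := by
    rw [mul_sum]
    apply sum_congr rfl
    intro w hw
    rw [h3 w hw]
    ring
  rw [h5] at h4
  have h6 : (η ^ t - 1) * ∑ w ∈ μ, (a w : ℂ) * w = 0 := by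
    rw [sub_mul, h4, one_mul, sub_self]
  rcases mul_eq_zero.1 h6 with h | h
  · have h7 : η ^ t = η ^ 0 := by rw [pow_zero]; exact sub_eq_zero.1 h
    have := hη.pow_inj ht hp.pos h7
    omega
  · exact hne h

include hp hc hμ hη in
theorem sum_normsq (a : ℂ → ℤ) :
    ∑ j ∈ (range (p * c)).filter (fun j => ¬ p ∣ j),
        (∑ w ∈ μ, (a w : ℂ) * w ^ j) * conj (∑ w ∈ μ, (a w : ℂ) * w ^ j)
      = (((c : ℤ) * ∑ t ∈ range p, EE μ η a t : ℤ) : ℂ) := by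
  have hn : 0 < p * c := Nat.mul_pos hp.pos hc
  have hconj : ∀ w ∈ μ, conj w = w⁻¹ := by
    intro w hw
    rw [Complex.inv_eq_conj (Complex.norm_eq_one_of_pow_eq_one ((hμ w).1 hw) hn.ne')]
  have h1 : ∀ j : ℕ, (∑ w ∈ μ, (a w : ℂ) * w ^ j) * conj (∑ w ∈ μ, (a w : ℂ) * w ^ j)
      = ∑ w' ∈ μ, ∑ w ∈ μ, (a w : ℂ) * (a w' : ℂ) * (w * w'⁻¹) ^ j := by
    intro j
    rw [map_sum, mul_sum]
    apply sum_congr rfl
    intro w' hw'
    rw [sum_mul]
    apply sum_congr rfl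
    intro w _
    rw [map_mul, map_pow, hconj w' hw', map_intCast, mul_pow]
    ring
  simp_rw [h1]
  rw [sum_comm]
  have h2 : ∀ w' ∈ μ, ∑ j ∈ (range (p * c)).filter (fun j => ¬ p ∣ j),
      ∑ w ∈ μ, (a w : ℂ) * (a w' : ℂ) * (w * w'⁻¹) ^ j
      = (c : ℂ) * ∑ t ∈ range p, (((a w') ^ 2 - a (η ^ t * w') * a w' : ℤ) : ℂ) := by
    intro w' hw'
    have hw1 := (hμ w').1 hw'
    have hw0 : w' ≠ 0 := by
      rintro rfl
      rw [zero_pow hn.ne'] at hw1; exact zero_ne_one hw1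
    rw [sum_comm]
    have h3 : ∀ w ∈ μ, ∑ j ∈ (range (p * c)).filter (fun j => ¬ p ∣ j),
        (a w : ℂ) * (a w' : ℂ) * (w * w'⁻¹) ^ j
        = (if w = w' then ((p * c : ℕ) : ℂ) * ((a w : ℂ) * (a w' : ℂ)) else 0)
          - (if (w * w'⁻¹) ^ p = 1 then (c : ℂ) * ((a w : ℂ) * (a w' : ℂ)) else 0) := by
      intro w hw
      rw [← mul_sum, geom3 hp.pos (by rw [mul_pow, inv_pow, (hμ w).1 hw, hw1, inv_one, one_mul])]
      have h4 : w * w'⁻¹ = 1 ↔ w = w' := by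
        rw [mul_inv_eq_one₀ hw0]
      simp only [h4]
      split_ifs <;> ring
    rw [sum_congr rfl h3, sum_sub_distrib, sum_ite_eq' μ w', if_pos hw',
      sum_fib hp hc μ hμ η hη (fun w => (c : ℂ) * ((a w : ℂ) * (a w' : ℂ))) hw', mul_sum]
    have h5 : ((p * c : ℕ) : ℂ) * ((a w' : ℂ) * (a w' : ℂ))
        = ∑ t ∈ range p, (c : ℂ) * ((a w' : ℂ) * (a w' : ℂ)) := by
      rw [sum_const, card_range, nsmul_eq_mul]
      push_cast
      ring
    rw [h5, ← sum_sub_distrib]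
    apply sum_congr rfl
    intro t _
    push_cast
    ring
  rw [sum_congr rfl h2, ← mul_sum, sum_comm]
  push_cast
  congr 1
  apply sum_congr rfl
  intro t _
  rw [EE]
  push_cast
  rfl

include hp hc hμ hη in
theorem sum_ge_aux (a : ℂ → ℤ) (hne : ∑ w ∈ μ, (a w : ℂ) * w ≠ 0) :
    ((c * (p - 1) : ℕ) : ℝ) ≤ ∑ j ∈ (range (p * c)).filter (fun j => ¬ p ∣ j),
        ‖∑ w ∈ μ, (a w : ℂ) * w ^ j‖ ^ 2 := by
  have h1 := sum_normsq hp hc μ hμ η hη a
  have h2 : ((p - 1 : ℕ) : ℤ) ≤ ∑ t ∈ range p, EE μ η a t := by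
    have h3 : ∑ t ∈ range p, (if t = 0 then (0 : ℤ) else 1) ≤ ∑ t ∈ range p, EE μ η a t := by
      apply sum_le_sum
      intro t ht
      split_ifs with h0
      · subst h0
        simp [EE, pow_two]
      · exact EE_pos hp hc μ hμ η hη a hne (Nat.pos_of_ne_zero h0) (mem_range.1 ht)
    refine le_trans (le_of_eq ?_) h3
    obtain ⟨q, rfl⟩ : ∃ q, p = q + 1 := ⟨p - 1, by have := hp.pos; omega⟩
    rw [sum_range_succ']
    simp
  have h4 : (∑ j ∈ (range (p * c)).filter (fun j => ¬ p ∣ j),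
        ‖∑ w ∈ μ, (a w : ℂ) * w ^ j‖ ^ 2 : ℝ) = (((c : ℤ) * ∑ t ∈ range p, EE μ η a t : ℤ) : ℝ) := by
    have h5 : ((∑ j ∈ (range (p * c)).filter (fun j => ¬ p ∣ j),
        ‖∑ w ∈ μ, (a w : ℂ) * w ^ j‖ ^ 2 : ℝ) : ℂ)
        = (((c : ℤ) * ∑ t ∈ range p, EE μ η a t : ℤ) : ℂ) := by
      rw [← h1]
      push_cast
      apply sum_congr rfl
      intro j _
      rw [Complex.mul_conj']
    exact_mod_cast h5
  rw [h4]
  have h6 : ((c * (p - 1) : ℕ) : ℤ) ≤ (c : ℤ) * ∑ t ∈ range p, EE μ η a t := by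
    push_cast
    exact mul_le_mul_of_nonneg_left h2 (by positivity)
  exact_mod_cast h6

end main

theorem coprime_filter {p k : ℕ} (hp : p.Prime) :
    (range (p ^ (k + 1))).filter (fun j => j.Coprime (p ^ (k + 1)))
      = (range (p * p ^ k)).filter (fun j => ¬ p ∣ j) := by
  rw [pow_succ, mul_comm]
  apply filter_congr
  intro j _
  rw [mul_comm, ← pow_succ, Nat.coprime_pow_right_iff (Nat.succ_pos k), Nat.coprime_comm,
    hp.coprime_iff_not_dvd]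

/-- Galois-free averaging: a nonzero element `∑ A_i z_i` of `ℤ[ζ_{p^k}]` has
`∑_j |∑ A_i z_i^j|² ≥ φ(p^k)`, the sum over `j` prime to `p`. -/
theorem sum_coprime_ge {p k : ℕ} (hp : p.Prime) {ι : Type*} (s : Finset ι) (A : ι → ℤ)
    (z : ι → ℂ) (hz : ∀ i ∈ s, z i ^ (p ^ k) = 1) (hne : ∑ i ∈ s, (A i : ℂ) * z i ≠ 0) :
    ((p ^ k).totient : ℝ) ≤ ∑ j ∈ (range (p ^ k)).filter (fun j => j.Coprime (p ^ k)),
      ‖∑ i ∈ s, (A i : ℂ) * z i ^ j‖ ^ 2 := by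
  classical
  rcases Nat.eq_zero_or_pos k with rfl | hk
  · have h1 : (range (p ^ 0)).filter (fun j => j.Coprime (p ^ 0)) = {0} := by
      ext j
      simp
    rw [h1, sum_singleton]
    simp only [pow_zero, Nat.totient_one, Nat.cast_one, mul_one]
    have h2 : ∑ i ∈ s, (A i : ℂ) * z i = ((∑ i ∈ s, A i : ℤ) : ℂ) := by
      push_cast
      apply sum_congr rfl
      intro i hi
      have := hz i hi
      rw [pow_zero, pow_one] at this
      rw [this, mul_one]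
    rw [h2] at hne
    have h3 : (∑ i ∈ s, A i : ℤ) ≠ 0 := by
      intro h
      rw [h] at hne
      exact hne (by simp)
    have h4 : ∑ i ∈ s, (A i : ℂ) = ((∑ i ∈ s, A i : ℤ) : ℂ) := by push_cast; rfl
    rw [h4, Complex.norm_intCast]
    have h5 : (1 : ℤ) ≤ |∑ i ∈ s, A i| := Int.one_le_abs h3
    have h6 : (1 : ℝ) ≤ |((∑ i ∈ s, A i : ℤ) : ℝ)| := by exact_mod_cast h5
    nlinarith
  · obtain ⟨k, rfl⟩ : ∃ k', k = k' + 1 := ⟨k - 1, by omega⟩
    have hc : 0 < p ^ k := pow_pos hp.pos k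
    have hn : 0 < p * p ^ k := Nat.mul_pos hp.pos hc
    have hpk : p ^ (k + 1) = p * p ^ k := by rw [pow_succ, mul_comm]
    set μ : Finset ℂ := Polynomial.nthRootsFinset (p * p ^ k) (1 : ℂ) with hμdef
    have hμ : ∀ w : ℂ, w ∈ μ ↔ w ^ (p * p ^ k) = 1 := fun w =>
      Polynomial.mem_nthRootsFinset hn 1
    set a : ℂ → ℤ := fun w => ∑ i ∈ s.filter (fun i => z i = w), A i with ha
    have hfib : ∀ j : ℕ, ∑ w ∈ μ, (a w : ℂ) * w ^ j = ∑ i ∈ s, (A i : ℂ) * z i ^ j := by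
      intro j
      rw [← sum_fiberwise_of_maps_to (s := s) (t := μ) (g := z)
        (fun i hi => (hμ _).2 (by rw [← hpk]; exact hz i hi))]
      apply sum_congr rfl
      intro w _
      rw [ha]
      push_cast
      rw [sum_mul]
      apply sum_congr rfl
      intro i hi
      rw [(mem_filter.1 hi).2]
    have hne' : ∑ w ∈ μ, (a w : ℂ) * w ≠ 0 := by
      have := hfib 1
      simp only [pow_one] at this
      rw [this]
      exact hne
    have := sum_ge_aux hp hc μ hμ _ (Complex.isPrimitiveRoot_exp p hp.ne_zero) a hne'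
    rw [coprime_filter hp, Nat.totient_prime_pow hp (Nat.succ_pos k), Nat.succ_sub_one]
    simp_rw [hfib] at this
    exact this

end Cfsg.Agent.Lib.Helper26.Ctr
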