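import Cfsg.Agent.Lib.Helper24.BlockSubsec
import Cfsg.Agent.Lib.Helper24.BrauerFeit
import Cfsg.Agent.Lib.Helper26.CtrL

set_option autoImplicit false
set_option linter.style.haveILetI false
set_option linter.unusedSectionVars false
open Cfsg
open Cfsg.Agent.Lib.Helper7 Cfsg.Agent.Lib.Helper24
open scoped ComplexConjugate

namespace Cfsg.Agent.Lib.Helper26.Ctr

universe u
variable {G : Type u} [Group G] {M : Ideal AlgInt} {p : ℕ}

/-- the `e`-part of `c ↦ χ (x c)` on the subgroup `H`. -/
noncomputable def fp [Finite G] (H : Subgroup G) (e : Set (IrrCharacter H)) (x : G) (χ : G → ℂ) :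
    H → ℂ :=
  blockPart e (fun c : H => χ (x * (c : G)))

/-- the contribution `m^{(x,e)}_{χψ}`. -/
noncomputable def mm [Finite G] (p : ℕ) (H : Subgroup G) [Fintype H] (e : Set (IrrCharacter H))
    (x : G) (χ ψ : G → ℂ) : ℂ :=
  classInner (pRegularPart p (fp H e x χ)) (fp H e x ψ)

theorem pol [Fintype G] [Fintype (IrrCharacter G)] (hM : IsPModular p M) {x : G}
    [Fintype (IrrCharacter (Subgroup.centralizer ({x} : Set G)))]
    (hx : ∃ k : ℕ, orderOf x = p ^ k)
    {e : Set (IrrCharacter (Subgroup.centralizer ({x} : Set G)))} (he : IsBlockUnion M e)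
    (s t : Subgroup.centralizer ({x} : Set G)) (hs : ¬ p ∣ orderOf s) (ht : ¬ p ∣ orderOf t) :
    ∑ χ : IrrCharacter G, conj (fp _ e x (χ : G → ℂ) s) * fp _ e x (χ : G → ℂ) t
      = ∑ ξ : IrrCharacter (Subgroup.centralizer ({x} : Set G)), e.indicator
          (fun ξ => conj ((ξ : Subgroup.centralizer ({x} : Set G) → ℂ) s)
            * (ξ : Subgroup.centralizer ({x} : Set G) → ℂ) t) ξ := by
  classical
  haveI := Fintype.ofFinite (Subgroup.centralizer ({x} : Set G))
  have step1 : ∀ y' : Subgroup.centralizer ({x} : Set G), ¬ p ∣ orderOf y' →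
      ∑ χ : IrrCharacter G, conj ((χ : G → ℂ) (x * (y' : G))) * blockPart e
          (fun c : Subgroup.centralizer ({x} : Set G) => (χ : G → ℂ) (x * (c : G))) s
        = ∑ ψ : IrrCharacter (Subgroup.centralizer ({x} : Set G)),
          conj ((ψ : Subgroup.centralizer ({x} : Set G) → ℂ) y')
            * blockPart e (ψ : Subgroup.centralizer ({x} : Set G) → ℂ) s := by
    intro y' hy'
    exact blockPart_transfer hM he (fun χ : IrrCharacter G => conj ((χ : G → ℂ) (x * (y' : G))))
      (fun χ : IrrCharacter G =>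
        fun c : Subgroup.centralizer ({x} : Set G) => (χ : G → ℂ) (x * (c : G)))
      (fun ψ : IrrCharacter (Subgroup.centralizer ({x} : Set G)) =>
        conj ((ψ : Subgroup.centralizer ({x} : Set G) → ℂ) y'))
      (fun ψ => (ψ : Subgroup.centralizer ({x} : Set G) → ℂ))
      (fun c hc => section_column hM.1 hx c y' hc hy') s hs
  have step2 : ∀ y' : Subgroup.centralizer ({x} : Set G), ¬ p ∣ orderOf y' →
      ∑ χ : IrrCharacter G, conj (blockPart e
          (fun c : Subgroup.centralizer ({x} : Set G) => (χ : G → ℂ) (x * (c : G))) s)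
          * (χ : G → ℂ) (x * (y' : G))
        = ∑ ψ : IrrCharacter (Subgroup.centralizer ({x} : Set G)),
          conj (blockPart e (ψ : Subgroup.centralizer ({x} : Set G) → ℂ) s)
            * (ψ : Subgroup.centralizer ({x} : Set G) → ℂ) y' := by
    intro y' hy'
    have := congrArg conj (step1 y' hy')
    rw [map_sum, map_sum] at this
    simp only [map_mul, Complex.conj_conj] at this
    rw [Finset.sum_congr rfl (fun χ _ => mul_comm _ _), this]
    exact Finset.sum_congr rfl (fun ψ _ => mul_comm _ _)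
  have step3 := blockPart_transfer hM he
    (fun χ : IrrCharacter G => conj (blockPart e
          (fun c : Subgroup.centralizer ({x} : Set G) => (χ : G → ℂ) (x * (c : G))) s))
    (fun χ : IrrCharacter G =>
        fun c : Subgroup.centralizer ({x} : Set G) => (χ : G → ℂ) (x * (c : G)))
    (fun ψ : IrrCharacter (Subgroup.centralizer ({x} : Set G)) =>
        conj (blockPart e (ψ : Subgroup.centralizer ({x} : Set G) → ℂ) s))
    (fun ψ => (ψ : Subgroup.centralizer ({x} : Set G) → ℂ))
    (fun c hc => step2 c hc) t ht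
  simp only [fp]
  rw [step3]
  apply Finset.sum_congr rfl
  intro ψ _
  rw [blockPart_irr, blockPart_irr]
  by_cases hψ : ψ ∈ e
  · rw [Set.indicator_of_mem hψ, Set.indicator_of_mem hψ, Set.indicator_of_mem hψ]
  · rw [Set.indicator_of_notMem hψ, Set.indicator_of_notMem hψ, Set.indicator_of_notMem hψ,
      mul_zero]

theorem isClassFunction_blockPart {K : Type u} [Group K] [Finite K] (e : Set (IrrCharacter K))
    (ϑ : K → ℂ) : IsClassFunction K (blockPart e ϑ) := by
  classical
  haveI := Fintype.ofFinite K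
  haveI := Fintype.ofFinite (IrrCharacter K)
  intro g h
  rw [blockPart_apply, blockPart_apply]
  apply Finset.sum_congr rfl
  intro χ _
  by_cases hχ : χ ∈ e
  · rw [Set.indicator_of_mem hχ, Set.indicator_of_mem hχ, isClassFunction_irr χ g h]
  · rw [Set.indicator_of_notMem hχ, Set.indicator_of_notMem hχ]

theorem pReg_apply_of_reg {K : Type u} [Group K] (f : K → ℂ) {s : K} (hs : ¬ p ∣ orderOf s) :
    pRegularPart p f s = f s := by
  rw [pRegularPart_eq_indicator, Set.indicator_of_mem (s := {x : K | ¬ p ∣ orderOf x}) hs]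

theorem pReg_apply_of_sing {K : Type u} [Group K] (f : K → ℂ) {s : K} (hs : p ∣ orderOf s) :
    pRegularPart p f s = 0 := by
  rw [pRegularPart_eq_indicator,
    Set.indicator_of_notMem (s := {x : K | ¬ p ∣ orderOf x}) (fun h => h hs)]

theorem isClassFunction_pReg {K : Type u} [Group K] {f : K → ℂ} (hf : IsClassFunction K f) :
    IsClassFunction K (pRegularPart p f) := by
  intro g h
  have h1 : orderOf (h * g * h⁻¹) = orderOf g := orderOf_conj' g h
  by_cases hg : p ∣ orderOf g
  · rw [pReg_apply_of_sing f hg, pReg_apply_of_sing f (by rw [h1]; exact hg)]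
  · rw [pReg_apply_of_reg f hg, pReg_apply_of_reg f (by rw [h1]; exact hg), hf g h]

theorem reg_blockPart {K : Type u} [Group K] [Finite K] (hM : IsPModular p M)
    {e : Set (IrrCharacter K)} (he : IsBlockUnion M e) (ϑ : K → ℂ) :
    pRegularPart p (blockPart e ϑ) = blockPart e (pRegularPart p ϑ) := by
  rw [pRegularPart_eq_indicator, pRegularPart_eq_indicator,
    blockPart_indicator_union hM he (isSectionClosed_regular hM.1)]

theorem classInner_pReg_left {K : Type u} [Group K] [Fintype K] (f g : K → ℂ) :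
    classInner (pRegularPart p f) g = classInner (pRegularPart p f) (pRegularPart p g) := by
  rw [classInner, classInner]
  congr 1
  apply Finset.sum_congr rfl
  intro s _
  by_cases hs : p ∣ orderOf s
  · rw [pReg_apply_of_sing f hs, zero_mul, zero_mul]
  · rw [pReg_apply_of_reg g hs]

theorem classInner_pReg_swap {K : Type u} [Group K] [Fintype K] (f g : K → ℂ) :
    classInner (pRegularPart p f) g = classInner f (pRegularPart p g) := by
  rw [classInner, classInner]
  congr 1
  apply Finset.sum_congr rfl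
  intro s _
  by_cases hs : p ∣ orderOf s
  · rw [pReg_apply_of_sing f hs, pReg_apply_of_sing g hs, zero_mul, map_zero, mul_zero]
  · rw [pReg_apply_of_reg g hs, pReg_apply_of_reg f hs]

theorem mm_parseval [Fintype G] [Fintype (IrrCharacter G)] (hM : IsPModular p M) {x : G}
    [Fintype (Subgroup.centralizer ({x} : Set G))]
    [Fintype (IrrCharacter (Subgroup.centralizer ({x} : Set G)))]
    (hx : ∃ k : ℕ, orderOf x = p ^ k)
    {e : Set (IrrCharacter (Subgroup.centralizer ({x} : Set G)))} (he : IsBlockUnion M e)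
    (χ : G → ℂ) :
    ∑ ψ : IrrCharacter G, mm p _ e x χ (ψ : G → ℂ) * conj (mm p _ e x χ (ψ : G → ℂ))
      = mm p _ e x χ χ := by
  classical
  set r := pRegularPart p (fp _ e x χ) with hr
  have hrc : IsClassFunction _ r := isClassFunction_pReg (isClassFunction_blockPart _ _)
  have hR : mm p _ e x χ χ = ∑ ξ : IrrCharacter (Subgroup.centralizer ({x} : Set G)),
      e.indicator (fun ξ => classInner r (ξ : _ → ℂ) * conj (classInner r (ξ : _ → ℂ))) ξ := by
    rw [mm, classInner_pReg_left, ← hr, Cfsg.Agent.Lib.Helper2.classInner_eq_sum_irr r hrc]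
    apply Finset.sum_congr rfl
    intro ξ _
    by_cases hξ : ξ ∈ e
    · rw [Set.indicator_of_mem hξ, classInner_conj_symm]
    · rw [Set.indicator_of_notMem hξ, hr, fp, reg_blockPart hM he, classInner_blockPart _ hξ,
        zero_mul]
  rw [hR]
  have h1 : ∀ ψ : IrrCharacter G, mm p _ e x χ (ψ : G → ℂ) * conj (mm p _ e x χ (ψ : G → ℂ))
      = ((Nat.card (Subgroup.centralizer ({x} : Set G)) : ℂ)⁻¹) ^ 2 * ∑ s, ∑ t,
        r s * conj (r t) * (conj (fp _ e x (ψ : G → ℂ) s) * fp _ e x (ψ : G → ℂ) t) := by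
    intro ψ
    rw [mm, ← hr, classInner, map_mul, map_sum, map_inv₀, Complex.conj_natCast]
    simp only [map_mul, Complex.conj_conj]
    rw [mul_mul_mul_comm, Finset.sum_mul_sum, pow_two]
    congr 1
    apply Finset.sum_congr rfl
    intro s _
    apply Finset.sum_congr rfl
    intro t _
    ring
  rw [Finset.sum_congr rfl (fun ψ _ => h1 ψ), ← Finset.mul_sum, Finset.sum_comm]
  have h2 : ∀ s : Subgroup.centralizer ({x} : Set G), ∑ ψ : IrrCharacter G, ∑ t,
        r s * conj (r t) * (conj (fp _ e x (ψ : G → ℂ) s) * fp _ e x (ψ : G → ℂ) t)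
      = ∑ t, r s * conj (r t) * ∑ ξ : IrrCharacter (Subgroup.centralizer ({x} : Set G)),
        e.indicator (fun ξ => conj ((ξ : Subgroup.centralizer ({x} : Set G) → ℂ) s)
            * (ξ : Subgroup.centralizer ({x} : Set G) → ℂ) t) ξ := by
    intro s
    rw [Finset.sum_comm]
    apply Finset.sum_congr rfl
    intro t _
    rw [← Finset.mul_sum]
    by_cases hs : p ∣ orderOf s
    · rw [hr, pReg_apply_of_sing _ hs, zero_mul, zero_mul, zero_mul]
    · by_cases ht : p ∣ orderOf t
      · rw [hr, pReg_apply_of_sing _ ht, map_zero, mul_zero, zero_mul, zero_mul]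
      · rw [pol hM hx he s t hs ht]
  rw [Finset.sum_congr rfl (fun s _ => h2 s)]
  have h3 : ∀ ξ : IrrCharacter (Subgroup.centralizer ({x} : Set G)),
      e.indicator (fun ξ => classInner r (ξ : _ → ℂ) * conj (classInner r (ξ : _ → ℂ))) ξ
      = ((Nat.card (Subgroup.centralizer ({x} : Set G)) : ℂ)⁻¹) ^ 2 * ∑ s, ∑ t,
        r s * conj (r t) * e.indicator
          (fun ξ => conj ((ξ : Subgroup.centralizer ({x} : Set G) → ℂ) s)
            * (ξ : Subgroup.centralizer ({x} : Set G) → ℂ) t) ξ := by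
    intro ξ
    by_cases hξ : ξ ∈ e
    · simp only [Set.indicator_of_mem hξ]
      rw [classInner, map_mul, map_sum, map_inv₀, Complex.conj_natCast]
      simp only [map_mul, Complex.conj_conj]
      rw [mul_mul_mul_comm, Finset.sum_mul_sum, pow_two]
      congr 1
      apply Finset.sum_congr rfl
      intro s _
      apply Finset.sum_congr rfl
      intro t _
      ring
    · simp only [Set.indicator_of_notMem hξ, mul_zero, Finset.sum_const_zero]
  rw [Finset.sum_congr rfl (fun ξ _ => h3 ξ), ← Finset.mul_sum]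
  congr 1
  symm
  rw [Finset.sum_comm]
  apply Finset.sum_congr rfl
  intro s _
  rw [Finset.sum_comm]
  apply Finset.sum_congr rfl
  intro t _
  rw [Finset.mul_sum]

theorem fp_eq_zero_of_not_mem [Fintype G] (hM : IsPModular p M) {x : G}
    (hx : ∃ k : ℕ, orderOf x = p ^ k) {B : Set (IrrCharacter G)}
    {e : Set (IrrCharacter (Subgroup.centralizer ({x} : Set G)))}
    (hind : IsInducedBlock M (Subgroup.centralizer ({x} : Set G)) e B)
    {χ : IrrCharacter G} (hχ : χ ∉ B) (s : Subgroup.centralizer ({x} : Set G))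
    (hs : ¬ p ∣ orderOf s) : fp _ e x (χ : G → ℂ) s = 0 := by
  haveI := hM.2.1.isPrime
  haveI : Fact p.Prime := ⟨hM.1⟩
  apply Cfsg.Agent.S0923.result p M hM x hx (blockOf M (χ : G → ℂ)) ⟨χ, rfl⟩ χ
    (self_mem_blockOf χ) e hind.1 _ s hs
  intro hind'
  apply hχ
  rw [induced_unique hind hind']
  exact self_mem_blockOf χ

theorem mm_eq_zero_of_not_mem [Fintype G] (hM : IsPModular p M) {x : G}
    [Fintype (Subgroup.centralizer ({x} : Set G))]
    (hx : ∃ k : ℕ, orderOf x = p ^ k) {B : Set (IrrCharacter G)}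
    {e : Set (IrrCharacter (Subgroup.centralizer ({x} : Set G)))}
    (hind : IsInducedBlock M (Subgroup.centralizer ({x} : Set G)) e B)
    (χ : G → ℂ) {ψ : IrrCharacter G} (hψ : ψ ∉ B) : mm p _ e x χ (ψ : G → ℂ) = 0 := by
  rw [mm, classInner, Finset.sum_eq_zero, mul_zero]
  intro s _
  by_cases hs : p ∣ orderOf s
  · rw [pReg_apply_of_sing _ hs, zero_mul]
  · rw [fp_eq_zero_of_not_mem hM hx hind hψ s hs, map_zero, mul_zero]

/-- `∑_{χ,ψ ∈ B} |m_{χψ}|² = l(e)`. -/
theorem sum_mm_sq [Fintype G] [Fintype (IrrCharacter G)] (hM : IsPModular p M) {x : G}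
    [Fintype (Subgroup.centralizer ({x} : Set G))]
    (hx : ∃ k : ℕ, orderOf x = p ^ k) {B : Set (IrrCharacter G)} [DecidablePred (· ∈ B)]
    {e : Set (IrrCharacter (Subgroup.centralizer ({x} : Set G)))}
    (hind : IsInducedBlock M (Subgroup.centralizer ({x} : Set G)) e B) :
    ∑ χ ∈ Finset.univ.filter (· ∈ B), ∑ ψ ∈ Finset.univ.filter (· ∈ B),
      mm p _ e x (χ : G → ℂ) (ψ : G → ℂ) * conj (mm p _ e x (χ : G → ℂ) (ψ : G → ℂ))
      = (blockRank p e : ℂ) := by
  classical
  haveI := hM.2.1.isPrime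
  haveI := Fintype.ofFinite (IrrCharacter (Subgroup.centralizer ({x} : Set G)))
  have he : IsBlockUnion M e := isBlockUnion_of_isPBlock hind.1
  have hcard : (Nat.card (Subgroup.centralizer ({x} : Set G)) : ℂ) ≠ 0 := by
    exact_mod_cast Nat.card_pos.ne'
  have h1 : ∀ χ : IrrCharacter G, ∑ ψ ∈ Finset.univ.filter (· ∈ B),
      mm p _ e x (χ : G → ℂ) (ψ : G → ℂ) * conj (mm p _ e x (χ : G → ℂ) (ψ : G → ℂ))
      = mm p _ e x (χ : G → ℂ) (χ : G → ℂ) := by
    intro χ
    rw [← mm_parseval hM hx he (χ : G → ℂ), Finset.sum_filter]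
    apply Finset.sum_congr rfl
    intro ψ _
    split_ifs with hψ
    · rfl
    · rw [mm_eq_zero_of_not_mem hM hx hind _ hψ, zero_mul]
  rw [Finset.sum_congr rfl (fun χ _ => h1 χ)]
  have h2 := subsection_sum hM hx hind
  have h3 : (Nat.card (Subgroup.centralizer ({x} : Set G)) : ℂ) *
      ∑ χ ∈ Finset.univ.filter (· ∈ B), mm p _ e x (χ : G → ℂ) (χ : G → ℂ)
      = (Nat.card (Subgroup.centralizer ({x} : Set G)) : ℂ) * (blockRank p e : ℂ) := by
    rw [← h2, Finset.sum_filter, Finset.mul_sum]
    apply Finset.sum_congr rfl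
    intro χ _
    by_cases hχ : χ ∈ B
    · rw [if_pos hχ, Set.indicator_of_mem hχ, mm, classInner, ← mul_assoc, mul_inv_cancel₀ hcard,
        one_mul]
      rfl
    · rw [if_neg hχ, Set.indicator_of_notMem hχ, mul_zero]
  exact mul_left_cancel₀ hcard h3

end Cfsg.Agent.Lib.Helper26.Ctr
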