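import Cfsg.Agent.Lib.Helper26.CtrA
import Cfsg.Agent.Lib.Helper24.CanonB
import Cfsg.Agent.S4666

set_option autoImplicit false
set_option linter.style.haveILetI false
set_option linter.unusedSectionVars false
open Cfsg
open Cfsg.Agent.Lib.Helper7 Cfsg.Agent.Lib.Helper24
open scoped ComplexConjugate

namespace Cfsg.Agent.Lib.Helper26.Ctr

universe u
variable {K : Type u} [Group K] {M : Ideal AlgInt} {p : ℕ}

/-- the scalar by which a central element acts. -/
noncomputable def lam (z : K) (ξ : K → ℂ) : ℂ := ξ z / ξ 1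

theorem irr_central_mul [Finite K] {z : K} (hz : z ∈ Subgroup.center K) (ξ : IrrCharacter K)
    (c : K) : (ξ : K → ℂ) (z * c) = lam z (ξ : K → ℂ) * (ξ : K → ℂ) c := by
  have hZ : Subgroup.zpowers z ≤ Subgroup.center K := by
    rw [Subgroup.zpowers_le]; exact hz
  have hG := sup_centralizer_of_le_center hZ
  have hc : c ∈ Subgroup.centralizer (Subgroup.zpowers z : Set K) := by
    rw [Subgroup.mem_centralizer_iff]
    intro w hw
    exact (Subgroup.mem_center_iff.1 (hZ hw) c).symm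
  have h1 := char_mul_of_sup_centralizer hG ξ (Subgroup.mem_zpowers z) hc
  have h0 := irr_apply_one_ne_zero ξ.2
  rw [lam]
  field_simp
  exact h1

theorem irr_central_pow_mul [Finite K] {z : K} (hz : z ∈ Subgroup.center K) (ξ : IrrCharacter K)
    (j : ℕ) (c : K) : (ξ : K → ℂ) (z ^ j * c) = lam z (ξ : K → ℂ) ^ j * (ξ : K → ℂ) c := by
  induction j with
  | zero => simp
  | succ j ih => rw [pow_succ', mul_assoc, irr_central_mul hz, ih, pow_succ']; ring

theorem lam_pow_orderOf [Finite K] {z : K} (hz : z ∈ Subgroup.center K) (ξ : IrrCharacter K) :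
    lam z (ξ : K → ℂ) ^ orderOf z = 1 := by
  have h1 := irr_central_pow_mul hz ξ (orderOf z) 1
  rw [pow_orderOf_eq_one, one_mul] at h1
  have h0 := irr_apply_one_ne_zero ξ.2
  exact (mul_right_cancel₀ h0 (by rw [one_mul]; exact h1)).symm

theorem shift_eq_sum [Fintype K] [Fintype (IrrCharacter K)] {z : K}
    (hz : z ∈ Subgroup.center K) {Φ : K → ℂ} (hΦ : IsClassFunction K Φ) (j : ℕ) :
    (fun c => Φ (z ^ j * c)) = ∑ ξ : IrrCharacter K,
      (classInner Φ (ξ : K → ℂ) * lam z (ξ : K → ℂ) ^ j) • (ξ : K → ℂ) := by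
  ext c
  conv_lhs => rw [classFunction_eq_sum hΦ]
  simp only [Finset.sum_apply, Pi.smul_apply, smul_eq_mul]
  apply Finset.sum_congr rfl
  intro ξ _
  rw [irr_central_pow_mul hz]
  ring

theorem classInner_sum_irr [Fintype K] [Fintype (IrrCharacter K)] (a : IrrCharacter K → ℂ)
    (ξ : IrrCharacter K) :
    classInner (∑ ξ' : IrrCharacter K, a ξ' • (ξ' : K → ℂ)) (ξ : K → ℂ) = a ξ := by
  classical
  rw [classInner_sum_left, Finset.sum_eq_single ξ]
  · rw [classInner_smul_left, classInner_irr_self ξ.2, mul_one]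
  · intro ξ' _ h
    rw [classInner_smul_left, classInner_irr_ne ξ'.2 ξ.2 (fun h' => h (Subtype.ext h')), mul_zero]
  · intro h; exact absurd (Finset.mem_univ _) h

theorem blockPart_shift [Fintype K] [Fintype (IrrCharacter K)] {z : K}
    (hz : z ∈ Subgroup.center K) {Φ : K → ℂ} (hΦ : IsClassFunction K Φ) (j : ℕ)
    (e : Set (IrrCharacter K)) [DecidablePred (· ∈ e)] :
    blockPart e (fun c => Φ (z ^ j * c)) = ∑ ξ ∈ Finset.univ.filter (· ∈ e),
      (classInner Φ (ξ : K → ℂ) * lam z (ξ : K → ℂ) ^ j) • (ξ : K → ℂ) := by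
  ext c
  rw [blockPart_apply, Finset.sum_filter, Finset.sum_apply]
  apply Finset.sum_congr rfl
  intro ξ _
  by_cases hξ : ξ ∈ e
  · rw [Set.indicator_of_mem hξ, if_pos hξ, shift_eq_sum hz hΦ, classInner_sum_irr]
    rfl
  · rw [Set.indicator_of_notMem hξ, if_neg hξ]
    rfl

theorem pReg_sum_smul {ι : Type*} (s : Finset ι) (a : ι → ℂ) (f : ι → K → ℂ) :
    pRegularPart p (∑ i ∈ s, a i • f i) = ∑ i ∈ s, a i • pRegularPart p (f i) := by
  ext c
  by_cases hc : p ∣ orderOf c
  · rw [pReg_apply_of_sing _ hc, Finset.sum_apply]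
    symm
    apply Finset.sum_eq_zero
    intro i _
    rw [Pi.smul_apply, pReg_apply_of_sing _ hc, smul_zero]
  · rw [pReg_apply_of_reg _ hc, Finset.sum_apply, Finset.sum_apply]
    apply Finset.sum_congr rfl
    intro i _
    rw [Pi.smul_apply, Pi.smul_apply, pReg_apply_of_reg _ hc]

theorem pReg_eq_regPart (f : K → ℂ) : pRegularPart p f = regPart p f := by
  ext c
  by_cases hc : p ∣ orderOf c
  · rw [pReg_apply_of_sing _ hc]; simp [regPart, hc]
  · rw [pReg_apply_of_reg _ hc]; simp [regPart, hc]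

/-- expansion of the contributions for the powers of a central element. -/
theorem mmK_expand [Fintype K] [Fintype (IrrCharacter K)] {z : K}
    (hz : z ∈ Subgroup.center K) {Φ Ψ : K → ℂ} (hΦ : IsClassFunction K Φ)
    (hΨ : IsClassFunction K Ψ) (j : ℕ) (e : Set (IrrCharacter K)) [DecidablePred (· ∈ e)] :
    classInner (pRegularPart p (blockPart e (fun c => Φ (z ^ j * c))))
        (blockPart e (fun c => Ψ (z ^ j * c)))
      = ∑ i ∈ (Finset.univ.filter (· ∈ e)) ×ˢ (Finset.univ.filter (· ∈ e)),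
        (classInner Φ (i.1 : K → ℂ) * conj (classInner Ψ (i.2 : K → ℂ))
          * classInner (regPart p (i.1 : K → ℂ)) (i.2 : K → ℂ))
          * (lam z (i.1 : K → ℂ) * conj (lam z (i.2 : K → ℂ))) ^ j := by
  rw [blockPart_shift hz hΦ, blockPart_shift hz hΨ, pReg_sum_smul, classInner_sum_left,
    Finset.sum_product]
  apply Finset.sum_congr rfl
  intro ξ _
  rw [classInner_smul_left, classInner_sum_right, Finset.mul_sum]
  apply Finset.sum_congr rfl
  intro ξ' _
  rw [classInner_smul_right, pReg_eq_regPart, map_mul, map_pow, mul_pow]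
  ring

/-- integral coefficient form of `p^q m_j`. -/
theorem mmK_coeff [Fintype K] [Fintype (IrrCharacter K)] (hM : IsPModular p M) {z : K}
    (hz : z ∈ Subgroup.center K) {Φ Ψ : K → ℂ} (hΦ : IsCharacter K Φ)
    (hΨ : IsCharacter K Ψ) {e : Set (IrrCharacter K)} [DecidablePred (· ∈ e)]
    (he : IsPBlock M e) :
    ∃ A : IrrCharacter K × IrrCharacter K → ℤ, ∀ j : ℕ,
      (p : ℂ) ^ blockDefect p e *
        classInner (pRegularPart p (blockPart e (fun c => Φ (z ^ j * c))))
          (blockPart e (fun c => Ψ (z ^ j * c)))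
      = ∑ i ∈ (Finset.univ.filter (· ∈ e)) ×ˢ (Finset.univ.filter (· ∈ e)),
        (A i : ℂ) * (lam z (i.1 : K → ℂ) * conj (lam z (i.2 : K → ℂ))) ^ j := by
  classical
  haveI : Fact p.Prime := ⟨hM.1⟩
  have hn := fun ξ : IrrCharacter K =>
    Cfsg.Agent.Lib.Helper2.IsCharacter.classInner_nat hΦ (isCharacter_of_irr ξ.2)
  have hn' := fun ξ : IrrCharacter K =>
    Cfsg.Agent.Lib.Helper2.IsCharacter.classInner_nat hΨ (isCharacter_of_irr ξ.2)
  choose n hn using hn
  choose n' hn' using hn'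
  have hk : ∀ i : IrrCharacter K × IrrCharacter K, ∃ k : ℤ, i.2 ∈ e →
      (p : ℂ) ^ blockDefect p e * classInner (regPart p (i.1 : K → ℂ)) (i.2 : K → ℂ) = k := by
    intro i
    by_cases hi : i.2 ∈ e
    · obtain ⟨k, hk⟩ := Cfsg.Agent.S4666.exists_int_defect hM he i.1 i.2 hi
      exact ⟨k, fun _ => hk⟩
    · exact ⟨0, fun h => absurd h hi⟩
  choose k hk using hk
  refine ⟨fun i => (n i.1 : ℤ) * (n' i.2 : ℤ) * k i, fun j => ?_⟩
  rw [mmK_expand hz (isClassFunction_of_isCharacter hΦ) (isClassFunction_of_isCharacter hΨ),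
    Finset.mul_sum]
  apply Finset.sum_congr rfl
  intro i hi
  have hi2 : i.2 ∈ e := (Finset.mem_filter.1 (Finset.mem_product.1 hi).2).2
  push_cast
  rw [← hk i hi2, hn, hn', Complex.conj_natCast]
  ring

theorem lam_mul_conj_pow [Finite K] {z : K} (hz : z ∈ Subgroup.center K)
    (ξ ξ' : IrrCharacter K) :
    (lam z (ξ : K → ℂ) * conj (lam z (ξ' : K → ℂ))) ^ orderOf z = 1 := by
  rw [mul_pow, ← map_pow, lam_pow_orderOf hz, lam_pow_orderOf hz, map_one, one_mul]

/-- Galois-free averaging of the contributions over the generators of `⟨z⟩`. -/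
theorem mmK_avg [Fintype K] (hM : IsPModular p M) {z : K}
    (hz : z ∈ Subgroup.center K) {k : ℕ} (hk : orderOf z = p ^ k) {Φ Ψ : K → ℂ}
    (hΦ : IsCharacter K Φ) (hΨ : IsCharacter K Ψ) {e : Set (IrrCharacter K)} (he : IsPBlock M e)
    (hne : classInner (pRegularPart p (blockPart e (fun c => Φ (z * c))))
          (blockPart e (fun c => Ψ (z * c))) ≠ 0) :
    ((p ^ k).totient : ℝ) ≤ ∑ j ∈ (Finset.range (p ^ k)).filter (fun j => j.Coprime (p ^ k)),
      ‖(p : ℂ) ^ blockDefect p e *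
        classInner (pRegularPart p (blockPart e (fun c => Φ (z ^ j * c))))
          (blockPart e (fun c => Ψ (z ^ j * c)))‖ ^ 2 := by
  classical
  haveI := Fintype.ofFinite (IrrCharacter K)
  obtain ⟨A, hA⟩ := mmK_coeff hM hz hΦ hΨ he
  have h1 := sum_coprime_ge (k := k) hM.1
    ((Finset.univ.filter (· ∈ e)) ×ˢ (Finset.univ.filter (· ∈ e))) A
    (fun i => lam z (i.1 : K → ℂ) * conj (lam z (i.2 : K → ℂ)))
    (fun i _ => by rw [← hk]; exact lam_mul_conj_pow hz i.1 i.2) (by
      have h2 := hA 1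
      simp only [pow_one] at h2
      rw [← h2]
      apply mul_ne_zero _ hne
      apply pow_ne_zero
      exact_mod_cast hM.1.ne_zero)
  refine le_trans h1 (le_of_eq ?_)
  apply Finset.sum_congr rfl
  intro j _
  rw [hA j]

end Cfsg.Agent.Lib.Helper26.Ctr
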