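import Cfsg.Agent.Lib.Helper26.CtrB
import Cfsg.Agent.Lib.Helper24.BlockBrDecomp
import Cfsg.Agent.S4428

set_option autoImplicit false
set_option linter.style.haveILetI false
set_option linter.unusedSectionVars false
open Cfsg
open Cfsg.Agent.Lib.Helper7 Cfsg.Agent.Lib.Helper24
open scoped ComplexConjugate

namespace Cfsg.Agent.Lib.Helper26.Ctr

universe u

section K
variable {K : Type u} [Group K] {M : Ideal AlgInt} {p : ℕ}

theorem sum_mul_irr [Fintype K] (g : K → ℂ) (ξ : IrrCharacter K) :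
    ∑ c, (ξ : K → ℂ) c * g c = (ξ : K → ℂ) 1 * Om g ξ := by
  have h0 := irr_apply_one_ne_zero ξ.2
  rw [Om, mul_div_cancel₀ _ h0]
  exact Finset.sum_congr rfl (fun c _ => mul_comm _ _)

theorem lemG_aux [Fintype K] [Fintype (IrrCharacter K)] {e : Set (IrrCharacter K)}
    [DecidablePred (· ∈ e)] (a : IrrCharacter K → ℂ) (g : K → ℂ) (ξ₀ : IrrCharacter K) {P : ℕ}
    (hP0 : P ≠ 0) :
    (∑ c, (∑ ξ ∈ Finset.univ.filter (· ∈ e), a ξ • (ξ : K → ℂ)) c * g c) / P
      - ((∑ ξ ∈ Finset.univ.filter (· ∈ e), a ξ • (ξ : K → ℂ)) 1 / P) * Om g ξ₀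
    = ∑ ξ ∈ Finset.univ.filter (· ∈ e), a ξ * ((ξ : K → ℂ) 1 / P) * (Om g ξ - Om g ξ₀) := by
  have hP : (P : ℂ) ≠ 0 := by exact_mod_cast hP0
  have h1 : ∑ c, (∑ ξ ∈ Finset.univ.filter (· ∈ e), a ξ • (ξ : K → ℂ)) c * g c
      = ∑ ξ ∈ Finset.univ.filter (· ∈ e), a ξ * ((ξ : K → ℂ) 1 * Om g ξ) := by
    simp only [Finset.sum_apply, Pi.smul_apply, smul_eq_mul, Finset.sum_mul]
    rw [Finset.sum_comm]
    apply Finset.sum_congr rfl
    intro ξ _
    rw [← sum_mul_irr, Finset.mul_sum]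
    apply Finset.sum_congr rfl
    intro c _
    ring
  rw [h1]
  simp only [Finset.sum_apply, Pi.smul_apply, smul_eq_mul]
  rw [Finset.sum_div, Finset.sum_div, Finset.sum_mul, ← Finset.sum_sub_distrib]
  apply Finset.sum_congr rfl
  intro ξ _
  field_simp

theorem deg_div_mem [M.IsPrime] (ξ : IrrCharacter K) {P : ℕ} (hP0 : P ≠ 0)
    (hP : P ∣ charDegree (ξ : K → ℂ)) : MemLocalRing M ((ξ : K → ℂ) 1 / P) := by
  obtain ⟨t, ht⟩ := hP
  have hPc : (P : ℂ) ≠ 0 := by exact_mod_cast hP0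
  rw [← charDegree_cast (isCharacter_of_irr ξ.2), ht]
  push_cast
  rw [mul_div_cancel_left₀ _ hPc]
  exact memLocalRing_natCast t

theorem lemG [Fintype K] [Fintype (IrrCharacter K)] [M.IsPrime] {e : Set (IrrCharacter K)}
    [DecidablePred (· ∈ e)] (he : IsPBlock M e) (a : IrrCharacter K → ℂ)
    (ha : ∀ ξ ∈ e, MemLocalRing M (a ξ)) {g : K → ℂ} (hg : IsClassFunction K g)
    (hgR : ∀ c, MemLocalRing M (g c)) {ξ₀ : IrrCharacter K} (hξ₀ : ξ₀ ∈ e) {P : ℕ} (hP0 : P ≠ 0)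
    (hP : ∀ ξ ∈ e, P ∣ charDegree (ξ : K → ℂ)) :
    MemLocalIdeal M ((∑ c, (∑ ξ ∈ Finset.univ.filter (· ∈ e), a ξ • (ξ : K → ℂ)) c * g c) / P
      - ((∑ ξ ∈ Finset.univ.filter (· ∈ e), a ξ • (ξ : K → ℂ)) 1 / P) * Om g ξ₀) := by
  rw [lemG_aux a g ξ₀ hP0]
  apply memLocalIdeal_sum
  intro ξ hξ
  have hξe : ξ ∈ e := (Finset.mem_filter.1 hξ).2
  apply memLocalIdeal_mul_left (memLocalRing_mul (ha ξ hξe) (deg_div_mem ξ hP0 (hP ξ hξe)))
  exact centralSubring_congr ⟨_, hg, hgR, rfl⟩ (sameBlock_of_mem he hξe hξ₀)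

theorem lemG_ring [Fintype K] [Fintype (IrrCharacter K)] [M.IsPrime] {e : Set (IrrCharacter K)}
    [DecidablePred (· ∈ e)] (a : IrrCharacter K → ℂ)
    (ha : ∀ ξ ∈ e, MemLocalRing M (a ξ)) {P : ℕ} (hP0 : P ≠ 0)
    (hP : ∀ ξ ∈ e, P ∣ charDegree (ξ : K → ℂ)) :
    MemLocalRing M ((∑ ξ ∈ Finset.univ.filter (· ∈ e), a ξ • (ξ : K → ℂ)) 1 / P) := by
  simp only [Finset.sum_apply, Pi.smul_apply, smul_eq_mul]
  rw [Finset.sum_div]
  apply memLocalRing_sum
  intro ξ hξ
  have hξe : ξ ∈ e := (Finset.mem_filter.1 hξ).2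
  rw [mul_div_assoc]
  exact memLocalRing_mul (ha ξ hξe) (deg_div_mem ξ hP0 (hP ξ hξe))

theorem classInner_blockPart_right [Fintype K] (e : Set (IrrCharacter K)) (f g : K → ℂ) :
    classInner (blockPart e f) (blockPart e g) = classInner (blockPart e f) g := by
  classical
  haveI := Fintype.ofFinite (IrrCharacter K)
  have h1 : blockPart e f = ∑ χ : IrrCharacter K,
      (e.indicator (fun χ => classInner f (χ : K → ℂ)) χ) • (χ : K → ℂ) := by
    ext c
    rw [blockPart_apply, Finset.sum_apply]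
    apply Finset.sum_congr rfl
    intro χ _
    by_cases h : χ ∈ e
    · simp [Set.indicator_of_mem h]
    · simp [Set.indicator_of_notMem h]
  rw [h1, classInner_sum_left, classInner_sum_left]
  apply Finset.sum_congr rfl
  intro χ _
  rw [classInner_smul_left, classInner_smul_left]
  by_cases h : χ ∈ e
  · rw [← classInner_conj_symm, classInner_blockPart_of_mem g h, classInner_conj_symm]
  · rw [Set.indicator_of_notMem h, zero_mul, zero_mul]

end K

section G
variable {G : Type u} [Group G] {M : Ideal AlgInt} {p : ℕ}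

open Classical in
/-- coefficient function `c ↦ 1_reg(c) χ(v c⁻¹)` on `H`. -/
noncomputable def shC (p : ℕ) (H : Subgroup G) (v : G) (χ : G → ℂ) : H → ℂ :=
  fun c => if p ∣ orderOf c then 0 else χ (v * ((c⁻¹ : H) : G))

theorem isClassFunction_shC {H : Subgroup G} {v : G} (hvc : ∀ c : H, Commute v (c : G))
    {χ : G → ℂ} (hχ : IsClassFunction G χ) : IsClassFunction H (shC p H v χ) := by
  intro c k
  have h1 : orderOf (k * c * k⁻¹) = orderOf c := orderOf_conj' c k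
  simp only [shC, h1]
  by_cases hc : p ∣ orderOf c
  · simp [hc]
  · simp only [if_neg hc]
    have h2 : v * (((k * c * k⁻¹)⁻¹ : H) : G) = (k : G) * (v * ((c⁻¹ : H) : G)) * (k : G)⁻¹ := by
      have := (hvc k).eq
      push_cast
      rw [mul_inv_rev, mul_inv_rev, inv_inv, ← mul_assoc, ← mul_assoc, this]
      group
    rw [h2, hχ]

theorem memLocalRing_shC [Finite G] [M.IsPrime] (H : Subgroup G) (v : G) {χ : G → ℂ}
    (hχ : IsCharacter G χ) (c : H) : MemLocalRing M (shC p H v χ c) := by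
  simp only [shC]
  split_ifs
  · exact memLocalRing_zero
  · exact memLocalRing_of_isIntegral (char_isIntegral hχ _)

theorem lemU [Fintype G] (hM : IsPModular p M) {H : Subgroup G} [Fintype H]
    {e : Set (IrrCharacter H)} {B : Set (IrrCharacter G)} (hind : IsInducedBlock M H e B) {v : G}
    (hv : ∃ k : ℕ, orderOf v = p ^ k) (hvc : ∀ c : H, Commute v (c : G))
    {χ : IrrCharacter G} (hχ : χ ∈ B) {ξ₀ : IrrCharacter H} (hξ₀ : ξ₀ ∈ e) :
    MemLocalIdeal M (Om (shC p H v (χ : G → ℂ)) ξ₀ - Om (regCoeff p (χ : G → ℂ)) χ) := by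
  classical
  haveI := hM.2.1.isPrime
  have hFc := isClassFunction_shC (p := p) hvc (isClassFunction_irr χ)
  have hRc : IsClassFunction _ (resH H (regCoeff p (χ : G → ℂ))) :=
    isClassFunction_resH _ (isClassFunction_regCoeff (isClassFunction_irr χ))
  have hδ : ∀ c, MemLocalIdeal M ((shC p H v (χ : G → ℂ) - resH H (regCoeff p (χ : G → ℂ))) c) := by
    intro c
    simp only [Pi.sub_apply, shC, resH, regCoeff, Subgroup.orderOf_coe]
    by_cases hc : p ∣ orderOf c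
    · simp only [if_pos hc, sub_self]; exact memLocalIdeal_zero
    · simp only [if_neg hc]
      have := char_congr_mul hM (isCharacter_of_irr χ.2) (hvc c⁻¹) hv
        (by rw [Subgroup.orderOf_coe, orderOf_inv]; exact hc)
      simpa using this
  have h1 : MemLocalIdeal M (Om (shC p H v (χ : G → ℂ)) ξ₀
      - Om (resH H (regCoeff p (χ : G → ℂ))) ξ₀) := by
    have := Om_memLocalIdeal (isClassFunction_sub' hFc hRc) hδ ξ₀
    rwa [Om_sub'] at this
  have h2 := induced_congr hind hξ₀ hχ (isClassFunction_regCoeff (p := p) (isClassFunction_irr χ))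
    (memLocalRing_regCoeff (isCharacter_of_irr χ.2))
  have := memLocalIdeal_add h1 h2
  rwa [sub_add_sub_cancel] at this

/-- the central element of `H` attached to `y`. -/
theorem mk_mem_center {H : Subgroup G} {y : G} (hyH : y ∈ H) (hyc : ∀ c : H, Commute y (c : G)) :
    (⟨y, hyH⟩ : H) ∈ Subgroup.center H := by
  rw [Subgroup.mem_center_iff]
  intro c
  apply Subtype.ext
  exact (hyc c).eq.symm

theorem fp_pow_eq [Finite G] {H : Subgroup G} (e : Set (IrrCharacter H)) {y : G} (hyH : y ∈ H)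
    (χ : G → ℂ) (j : ℕ) :
    fp H e (y ^ j) χ = blockPart e (fun c : H => (fun h : H => χ (h : G)) ((⟨y, hyH⟩ : H) ^ j * c)) := by
  rw [fp]
  congr 1

/-- the coefficients of `fp`. -/
noncomputable def co [Fintype G] (H : Subgroup G) [Fintype H] (y : H) (χ : G → ℂ)
    (ξ : IrrCharacter H) : ℂ :=
  classInner (fun h : H => χ (h : G)) (ξ : H → ℂ) * lam y (ξ : H → ℂ)

theorem fp_eq_sum [Fintype G] {H : Subgroup G} [Fintype H] [Fintype (IrrCharacter H)]
    (e : Set (IrrCharacter H)) [DecidablePred (· ∈ e)] {y : G} (hyH : y ∈ H)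
    (hyc : ∀ c : H, Commute y (c : G)) {χ : G → ℂ} (hχ : IsClassFunction G χ) :
    fp H e y χ = ∑ ξ ∈ Finset.univ.filter (· ∈ e), co H ⟨y, hyH⟩ χ ξ • (ξ : H → ℂ) := by
  have h1 := fp_pow_eq e hyH χ 1
  rw [pow_one] at h1
  rw [h1]
  refine (blockPart_shift (Φ := fun h : H => χ (h : G)) (mk_mem_center hyH hyc)
    (fun g h => hχ g h) 1 e).trans ?_
  simp only [pow_one, co]

theorem memLocalRing_co [Fintype G] [M.IsPrime] {H : Subgroup G} [Fintype H] {y : G}
    (hyH : y ∈ H) (hyc : ∀ c : H, Commute y (c : G)) {χ : G → ℂ} (hχ : IsCharacter G χ)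
    (ξ : IrrCharacter H) : MemLocalRing M (co H ⟨y, hyH⟩ χ ξ) := by
  obtain ⟨n, hn⟩ := Cfsg.Agent.Lib.Helper2.IsCharacter.classInner_nat
    (isCharacter_restrict hχ H) (isCharacter_of_irr ξ.2)
  rw [co, hn]
  apply memLocalRing_mul (memLocalRing_natCast n)
  apply memLocalRing_of_isIntegral
  apply IsIntegral.of_pow (orderOf_pos (⟨y, hyH⟩ : H))
  rw [lam_pow_orderOf (mk_mem_center hyH hyc)]
  exact isIntegral_one

theorem pow_sInf_dvd {K : Type u} [Group K] (hp : p.Prime) {e : Set (IrrCharacter K)}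
    {ξ : IrrCharacter K} (hξ : ξ ∈ e) :
    p ^ sInf ((fun χ : IrrCharacter K => (charDegree (χ : K → ℂ)).factorization p) '' e)
      ∣ charDegree (ξ : K → ℂ) :=
  (Nat.Prime.pow_dvd_iff_le_factorization hp (charDegree_pos ξ).ne').2 (sInf_le_of_mem p hξ)

/-- `|H| m_{χψ}` as a pairing of `fp χ` with a coefficient function. -/
theorem card_mul_mm [Fintype G] (hM : IsPModular p M) {H : Subgroup G} [Fintype H]
    {e : Set (IrrCharacter H)} (he : IsBlockUnion M e) {y : G}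
    (hyc : ∀ c : H, Commute y (c : G)) (χ : G → ℂ) {ψ : G → ℂ} (hψ : IsCharacter G ψ) :
    (Nat.card H : ℂ) * mm p H e y χ ψ = ∑ c, fp H e y χ c * shC p H y⁻¹ ψ c := by
  have hcard : (Nat.card H : ℂ) ≠ 0 := by exact_mod_cast Nat.card_pos.ne'
  rw [mm, classInner_pReg_swap]
  conv_lhs => rw [fp, fp, reg_blockPart hM he, classInner_blockPart_right]
  rw [classInner, ← mul_assoc, mul_inv_cancel₀ hcard, one_mul]
  apply Finset.sum_congr rfl
  intro c _
  rw [fp]
  congr 1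
  by_cases hc : p ∣ orderOf c
  · rw [pReg_apply_of_sing _ hc, map_zero]; simp [shC, hc]
  · rw [pReg_apply_of_reg _ hc, ← char_inv_eq_conj hψ]
    simp only [shC, if_neg hc]
    congr 1
    rw [mul_inv_rev]
    have := (hyc c).inv_inv.eq
    push_cast
    exact this.symm

theorem fp_one_unit [Fintype G] (hM : IsPModular p M) {H : Subgroup G} [Fintype H]
    {e : Set (IrrCharacter H)} {B : Set (IrrCharacter G)} (hind : IsInducedBlock M H e B) {y : G}
    (hy : ∃ k : ℕ, orderOf y = p ^ k) (hyH : y ∈ H) (hyc : ∀ c : H, Commute y (c : G))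
    {χ : IrrCharacter G} (hχ : χ ∈ B) (h0 : blockHeight p B (χ : G → ℂ) = 0) :
    ¬ MemLocalIdeal M (fp H e y (χ : G → ℂ) 1 /
      (p ^ sInf ((fun χ : IrrCharacter H => (charDegree (χ : H → ℂ)).factorization p) '' e) : ℕ)) := by
  classical
  haveI := hM.2.1.isPrime
  haveI := Fintype.ofFinite (IrrCharacter H)
  set s0 := sInf ((fun χ : IrrCharacter H => (charDegree (χ : H → ℂ)).factorization p) '' e)
    with hs0
  have hP0 : p ^ s0 ≠ 0 := pow_ne_zero _ hM.1.ne_zero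
  have hPc : ((p ^ s0 : ℕ) : ℂ) ≠ 0 := by exact_mod_cast hP0
  obtain ⟨ξ₀, hξ₀, hξs⟩ := exists_height_zero hind.1 p
  have hF := fp_eq_sum e hyH hyc (isClassFunction_irr χ)
  have hG := lemG hind.1 (co H ⟨y, hyH⟩ (χ : G → ℂ))
    (fun ξ _ => memLocalRing_co hyH hyc (isCharacter_of_irr χ.2) ξ)
    (isClassFunction_regCoeff (p := p) (isClassFunction_irr ξ₀))
    (memLocalRing_regCoeff (isCharacter_of_irr ξ₀.2)) hξ₀ hP0
    (fun ξ hξ => pow_sInf_dvd hM.1 hξ)
  rw [← hF] at hG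
  have hcard : (Nat.card H : ℂ) ≠ 0 := by exact_mod_cast Nat.card_pos.ne'
  have h1 : ∑ c, fp H e y (χ : G → ℂ) c * regCoeff p (ξ₀ : H → ℂ) c
      = (ξ₀ : H → ℂ) 1 * Om (shC p H y (χ : G → ℂ)) ξ₀ := by
    have hA := Cfsg.Agent.S4428.classInner_blockPart_regPart hM hind.1 hξ₀
      (fun c : H => (χ : G → ℂ) (y * (c : G)))
    rw [classInner, classInner] at hA
    have hA' := mul_left_cancel₀ (inv_ne_zero hcard) hA
    have e1 : ∑ c, fp H e y (χ : G → ℂ) c * regCoeff p (ξ₀ : H → ℂ) c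
        = ∑ c, blockPart e (fun c : H => (χ : G → ℂ) (y * (c : G))) c
          * conj (regPart p (ξ₀ : H → ℂ) c) := by
      apply Finset.sum_congr rfl
      intro c _
      rw [fp]
      congr 1
      by_cases hc : p ∣ orderOf c
      · simp [regCoeff, regPart, hc]
      · simp only [regCoeff, regPart, if_neg hc]
        rw [char_inv_eq_conj (isCharacter_of_irr ξ₀.2)]
    rw [e1, hA', ← sum_mul_irr]
    apply Fintype.sum_equiv (Equiv.inv _)
    intro c
    simp only [Equiv.inv_apply, shC, regPart, orderOf_inv, inv_inv]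
    by_cases hc : p ∣ orderOf c
    · simp [hc]
    · simp only [if_neg hc]
      rw [char_inv_eq_conj (isCharacter_of_irr ξ₀.2), mul_comm]
  rw [h1] at hG
  have hU := lemU hM hind hy hyc hχ hξ₀
  have hW := not_memLocalIdeal_Om_regCoeff hM hind.2.1 hχ h0
  have hU' := not_memLocalIdeal_of_sub hU hW
  have ht : (ξ₀ : H → ℂ) 1 / ((p ^ s0 : ℕ) : ℂ)
      = ((charDegree (ξ₀ : H → ℂ) / p ^ (charDegree (ξ₀ : H → ℂ)).factorization p : ℕ) : ℂ) := by
    rw [div_eq_iff hPc, ← charDegree_cast (isCharacter_of_irr ξ₀.2)]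
    conv_lhs => rw [← Nat.ordProj_mul_ordCompl_eq_self (charDegree (ξ₀ : H → ℂ)) p]
    rw [hξs]
    push_cast
    ring
  have ht' : ¬ MemLocalIdeal M ((ξ₀ : H → ℂ) 1 / ((p ^ s0 : ℕ) : ℂ)) := by
    rw [ht, memLocalIdeal_natCast_iff hM]
    exact Nat.not_dvd_ordCompl hM.1 (charDegree_pos ξ₀).ne'
  have ht'' : MemLocalRing M ((ξ₀ : H → ℂ) 1 / ((p ^ s0 : ℕ) : ℂ)) := by
    rw [ht]; exact memLocalRing_natCast _
  have h2 : ¬ MemLocalIdeal M ((ξ₀ : H → ℂ) 1 * Om (shC p H y (χ : G → ℂ)) ξ₀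
      / ((p ^ s0 : ℕ) : ℂ)) := by
    rw [mul_div_right_comm]
    exact not_memLocalIdeal_mul ht'' ht' hU'
  have h3 := not_memLocalIdeal_of_sub (memLocalIdeal_sub_comm hG) h2
  intro hcon
  apply h3
  apply memLocalIdeal_mul_right hcon
  exact centralSubring_apply_mem ⟨_, isClassFunction_regCoeff (isClassFunction_irr ξ₀),
    memLocalRing_regCoeff (isCharacter_of_irr ξ₀.2), rfl⟩ ξ₀

/-- the contributions of height zero characters do not vanish (any subsection). -/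
theorem mm_unit [Fintype G] (hM : IsPModular p M) {H : Subgroup G} [Fintype H]
    {e : Set (IrrCharacter H)} {B : Set (IrrCharacter G)} (hind : IsInducedBlock M H e B) {y : G}
    (hy : ∃ k : ℕ, orderOf y = p ^ k) (hyH : y ∈ H) (hyc : ∀ c : H, Commute y (c : G))
    {χ ψ : IrrCharacter G} (hχ : χ ∈ B) (h0 : blockHeight p B (χ : G → ℂ) = 0)
    (hψ : ψ ∈ B) (h0' : blockHeight p B (ψ : G → ℂ) = 0) :
    ¬ MemLocalIdeal M ((Nat.card H : ℂ) * mm p H e y (χ : G → ℂ) (ψ : G → ℂ) /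
      (p ^ sInf ((fun χ : IrrCharacter H => (charDegree (χ : H → ℂ)).factorization p) '' e) : ℕ)) := by
  classical
  haveI := hM.2.1.isPrime
  haveI := Fintype.ofFinite (IrrCharacter H)
  set s0 := sInf ((fun χ : IrrCharacter H => (charDegree (χ : H → ℂ)).factorization p) '' e)
    with hs0
  have hP0 : p ^ s0 ≠ 0 := pow_ne_zero _ hM.1.ne_zero
  obtain ⟨ξ₀, hξ₀⟩ := isPBlock_nonempty hind.1
  have hyi : ∃ k : ℕ, orderOf y⁻¹ = p ^ k := by rw [orderOf_inv]; exact hy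
  have hyci : ∀ c : H, Commute y⁻¹ (c : G) := fun c => (hyc c).inv_left
  have hF := fp_eq_sum e hyH hyc (isClassFunction_irr χ)
  have hG := lemG hind.1 (co H ⟨y, hyH⟩ (χ : G → ℂ))
    (fun ξ _ => memLocalRing_co hyH hyc (isCharacter_of_irr χ.2) ξ)
    (isClassFunction_shC (p := p) hyci (isClassFunction_irr ψ))
    (memLocalRing_shC H y⁻¹ (isCharacter_of_irr ψ.2)) hξ₀ hP0
    (fun ξ hξ => pow_sInf_dvd hM.1 hξ)
  have hR := lemG_ring (M := M) (e := e) (co H ⟨y, hyH⟩ (χ : G → ℂ))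
    (fun ξ _ => memLocalRing_co hyH hyc (isCharacter_of_irr χ.2) ξ) hP0
    (fun ξ hξ => pow_sInf_dvd hM.1 hξ)
  rw [← hF] at hG hR
  rw [← card_mul_mm hM (isBlockUnion_of_isPBlock hind.1) hyc _ (isCharacter_of_irr ψ.2)] at hG
  have hU := lemU hM hind hyi hyci hψ hξ₀
  have hW := not_memLocalIdeal_Om_regCoeff hM hind.2.1 hψ h0'
  have hU' := not_memLocalIdeal_of_sub hU hW
  exact not_memLocalIdeal_of_sub hG
    (not_memLocalIdeal_mul hR (fp_one_unit hM hind hy hyH hyc hχ h0) hU')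

theorem mm_ne_zero [Fintype G] (hM : IsPModular p M) {H : Subgroup G} [Fintype H]
    {e : Set (IrrCharacter H)} {B : Set (IrrCharacter G)} (hind : IsInducedBlock M H e B) {y : G}
    (hy : ∃ k : ℕ, orderOf y = p ^ k) (hyH : y ∈ H) (hyc : ∀ c : H, Commute y (c : G))
    {χ ψ : IrrCharacter G} (hχ : χ ∈ B) (h0 : blockHeight p B (χ : G → ℂ) = 0)
    (hψ : ψ ∈ B) (h0' : blockHeight p B (ψ : G → ℂ) = 0) :
    mm p H e y (χ : G → ℂ) (ψ : G → ℂ) ≠ 0 := by
  haveI := hM.2.1.isPrime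
  intro h
  apply mm_unit hM hind hy hyH hyc hχ h0 hψ h0'
  rw [h, mul_zero, zero_div]
  exact memLocalIdeal_zero

end G

end Cfsg.Agent.Lib.Helper26.Ctr
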