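import Cfsg.Agent.Lib.Helper26.CtrC

set_option autoImplicit false
set_option linter.style.haveILetI false
set_option linter.unusedSectionVars false
open Cfsg
open Cfsg.Agent.Lib.Helper7 Cfsg.Agent.Lib.Helper24
open scoped ComplexConjugate

namespace Cfsg.Agent.Lib.Helper26.Ctr

universe u
variable {G : Type u} [Group G] {M : Ideal AlgInt} {p : ℕ}

theorem sum_mm_sq' [Fintype G] [Fintype (IrrCharacter G)] (hM : IsPModular p M)
    {H : Subgroup G} [Fintype H] {x : G} (hH : H = Subgroup.centralizer ({x} : Set G))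
    (hx : ∃ k : ℕ, orderOf x = p ^ k) {B : Set (IrrCharacter G)} [DecidablePred (· ∈ B)]
    {e : Set (IrrCharacter H)} (hind : IsInducedBlock M H e B) :
    ∑ χ ∈ Finset.univ.filter (· ∈ B), ∑ ψ ∈ Finset.univ.filter (· ∈ B),
      mm p H e x (χ : G → ℂ) (ψ : G → ℂ) * conj (mm p H e x (χ : G → ℂ) (ψ : G → ℂ))
      = (blockRank p e : ℂ) := by
  subst hH
  exact sum_mm_sq hM hx hind

theorem sum_mm_normsq [Fintype G] [Fintype (IrrCharacter G)] (hM : IsPModular p M)
    {H : Subgroup G} [Fintype H] {x : G} (hH : H = Subgroup.centralizer ({x} : Set G))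
    (hx : ∃ k : ℕ, orderOf x = p ^ k) {B : Set (IrrCharacter G)} [DecidablePred (· ∈ B)]
    {e : Set (IrrCharacter H)} (hind : IsInducedBlock M H e B) :
    ∑ χ ∈ Finset.univ.filter (· ∈ B), ∑ ψ ∈ Finset.univ.filter (· ∈ B),
      ‖mm p H e x (χ : G → ℂ) (ψ : G → ℂ)‖ ^ 2 = (blockRank p e : ℝ) := by
  have h1 := sum_mm_sq' hM hH hx hind
  have h2 : ((∑ χ ∈ Finset.univ.filter (· ∈ B), ∑ ψ ∈ Finset.univ.filter (· ∈ B),
      ‖mm p H e x (χ : G → ℂ) (ψ : G → ℂ)‖ ^ 2 : ℝ) : ℂ) = ((blockRank p e : ℝ) : ℂ) := by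
    push_cast
    rw [← h1]
    apply Finset.sum_congr rfl
    intro χ _
    apply Finset.sum_congr rfl
    intro ψ _
    rw [Complex.mul_conj']
  exact_mod_cast h2

theorem centralizer_pow_eq {y : G} {j : ℕ} (hj : j.Coprime (orderOf y)) :
    Subgroup.centralizer ({y} : Set G) = Subgroup.centralizer ({y ^ j} : Set G) := by
  obtain ⟨m, hm⟩ := exists_pow_eq_self_of_coprime hj
  ext g
  rw [Subgroup.mem_centralizer_singleton_iff, Subgroup.mem_centralizer_singleton_iff]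
  constructor
  · intro h
    exact ((Commute.pow_right (show Commute g y from h) j)).eq
  · intro h
    have := (Commute.pow_right (show Commute g (y ^ j) from h) m).eq
    rwa [hm] at this

theorem mm_pow_eq [Fintype G] {H : Subgroup G} [Fintype H] (e : Set (IrrCharacter H)) {y : G}
    (hyH : y ∈ H) (χ ψ : G → ℂ) (j : ℕ) :
    mm p H e (y ^ j) χ ψ = classInner (pRegularPart p (blockPart e
        (fun c : H => (fun h : H => χ (h : G)) ((⟨y, hyH⟩ : H) ^ j * c))))
      (blockPart e (fun c : H => (fun h : H => ψ (h : G)) ((⟨y, hyH⟩ : H) ^ j * c))) := by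
  rw [mm, fp_pow_eq e hyH, fp_pow_eq e hyH]

/-- averaging over the generators of `⟨y⟩`. -/
theorem mm_avg [Fintype G] (hM : IsPModular p M) {H : Subgroup G} [Fintype H]
    {e : Set (IrrCharacter H)} (he : IsPBlock M e) {y : G} {k : ℕ} (hy : orderOf y = p ^ k)
    (hyH : y ∈ H) (hyc : ∀ c : H, Commute y (c : G)) {χ ψ : G → ℂ} (hχ : IsCharacter G χ)
    (hψ : IsCharacter G ψ) (hne : mm p H e y χ ψ ≠ 0) :
    ((p ^ k).totient : ℝ) ≤ ∑ j ∈ (Finset.range (p ^ k)).filter (fun j => j.Coprime (p ^ k)),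
      ‖(p : ℂ) ^ blockDefect p e * mm p H e (y ^ j) χ ψ‖ ^ 2 := by
  have hz : orderOf (⟨y, hyH⟩ : H) = p ^ k := by
    rw [← hy, ← Subgroup.orderOf_coe]
  have h1 := mmK_avg hM (mk_mem_center hyH hyc) hz (isCharacter_restrict hχ H)
    (isCharacter_restrict hψ H) he (by
      have := mm_pow_eq (p := p) e hyH χ ψ 1
      simp only [pow_one] at this
      rw [← this]
      exact hne)
  refine le_trans h1 (le_of_eq ?_)
  apply Finset.sum_congr rfl
  intro j _
  rw [mm_pow_eq e hyH]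

theorem card_coprime_filter (n : ℕ) :
    ((Finset.range n).filter (fun j => j.Coprime n)).card = n.totient := by
  rw [Nat.totient_eq_card_coprime]
  congr 1
  apply Finset.filter_congr
  intro j _
  exact Nat.coprime_comm

/-- `k₀(B)² ≤ p^{2q} l(b)` for every subsection `(y, b)`, `q` the defect of `b`. -/
theorem k0_sq_le_aux [Fintype G] [Fintype (IrrCharacter G)] (hM : IsPModular p M)
    {B : Set (IrrCharacter G)} {y : G} {k : ℕ} (hk : orderOf y = p ^ k)
    {H : Subgroup G} [Fintype H] (hH : H = Subgroup.centralizer ({y} : Set G))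
    {e : Set (IrrCharacter H)} (hind : IsInducedBlock M H e B) :
    Nat.card {χ : IrrCharacter G // χ ∈ B ∧ blockHeight p B (χ : G → ℂ) = 0} ^ 2
      ≤ p ^ (2 * blockDefect p e) * blockRank p e := by
  classical
  have hyH : y ∈ H := by rw [hH]; exact Subgroup.mem_centralizer_singleton_iff.2 rfl
  have hyc : ∀ c : H, Commute y (c : G) := fun c =>
    (Subgroup.mem_centralizer_singleton_iff.1 (hH ▸ c.2)).symm
  set J := (Finset.range (p ^ k)).filter (fun j => j.Coprime (p ^ k)) with hJ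
  set FB := Finset.univ.filter (fun χ : IrrCharacter G => χ ∈ B) with hFB
  set F0 := Finset.univ.filter
    (fun χ : IrrCharacter G => χ ∈ B ∧ blockHeight p B (χ : G → ℂ) = 0) with hF0
  set q := blockDefect p e with hq
  have hsub : F0 ⊆ FB := by
    intro χ hχ
    rw [hF0, Finset.mem_filter] at hχ
    rw [hFB, Finset.mem_filter]
    exact ⟨Finset.mem_univ _, hχ.2.1⟩
  have hcard : Nat.card {χ : IrrCharacter G // χ ∈ B ∧ blockHeight p B (χ : G → ℂ) = 0}
      = F0.card := by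
    rw [Nat.card_eq_fintype_card, Fintype.card_subtype]
  have hup : ∑ j ∈ J, ∑ χ ∈ FB, ∑ ψ ∈ FB,
      ‖(p : ℂ) ^ q * mm p H e (y ^ j) (χ : G → ℂ) (ψ : G → ℂ)‖ ^ 2
      = ((p ^ k).totient : ℝ) * ((p : ℝ) ^ (2 * q) * (blockRank p e : ℝ)) := by
    have h1 : ∀ j ∈ J, ∑ χ ∈ FB, ∑ ψ ∈ FB,
        ‖(p : ℂ) ^ q * mm p H e (y ^ j) (χ : G → ℂ) (ψ : G → ℂ)‖ ^ 2
        = (p : ℝ) ^ (2 * q) * (blockRank p e : ℝ) := by
      intro j hj
      have hjc : j.Coprime (orderOf y) := by rw [hk]; exact (Finset.mem_filter.1 hj).2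
      rw [← sum_mm_normsq hM (hH.trans (centralizer_pow_eq hjc))
        ⟨k, by rw [Nat.Coprime.orderOf_pow hjc.symm, hk]⟩ hind, Finset.mul_sum]
      apply Finset.sum_congr rfl
      intro χ _
      rw [Finset.mul_sum]
      apply Finset.sum_congr rfl
      intro ψ _
      rw [norm_mul, mul_pow, norm_pow, Complex.norm_natCast, ← pow_mul, mul_comm q 2]
    rw [Finset.sum_congr rfl h1, Finset.sum_const, card_coprime_filter, nsmul_eq_mul]
  have hlow : (F0.card : ℝ) ^ 2 * ((p ^ k).totient : ℝ) ≤ ∑ j ∈ J, ∑ χ ∈ FB, ∑ ψ ∈ FB,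
      ‖(p : ℂ) ^ q * mm p H e (y ^ j) (χ : G → ℂ) (ψ : G → ℂ)‖ ^ 2 := by
    rw [Finset.sum_comm]
    have h2 : ∀ χ ∈ F0, (F0.card : ℝ) * ((p ^ k).totient : ℝ) ≤ ∑ j ∈ J, ∑ ψ ∈ FB,
        ‖(p : ℂ) ^ q * mm p H e (y ^ j) (χ : G → ℂ) (ψ : G → ℂ)‖ ^ 2 := by
      intro χ hχ
      rw [Finset.sum_comm]
      have h3 : ∀ ψ ∈ F0, ((p ^ k).totient : ℝ) ≤ ∑ j ∈ J,
          ‖(p : ℂ) ^ q * mm p H e (y ^ j) (χ : G → ℂ) (ψ : G → ℂ)‖ ^ 2 := by
        intro ψ hψ
        have hχ' := (Finset.mem_filter.1 hχ).2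
        have hψ' := (Finset.mem_filter.1 hψ).2
        exact mm_avg hM hind.1 hk hyH hyc (isCharacter_of_irr χ.2) (isCharacter_of_irr ψ.2)
          (mm_ne_zero hM hind ⟨k, hk⟩ hyH hyc hχ'.1 hχ'.2 hψ'.1 hψ'.2)
      have h4 := Finset.card_nsmul_le_sum F0 _ _ h3
      rw [nsmul_eq_mul] at h4
      refine le_trans h4 (Finset.sum_le_sum_of_subset_of_nonneg hsub ?_)
      intro ψ _ _
      exact Finset.sum_nonneg (fun j _ => by positivity)
    have h5 := Finset.card_nsmul_le_sum F0 _ _ h2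
    rw [nsmul_eq_mul] at h5
    have h6 : (F0.card : ℝ) ^ 2 * ((p ^ k).totient : ℝ)
        = (F0.card : ℝ) * ((F0.card : ℝ) * ((p ^ k).totient : ℝ)) := by ring
    rw [h6]
    refine le_trans h5 (Finset.sum_le_sum_of_subset_of_nonneg hsub ?_)
    intro χ _ _
    exact Finset.sum_nonneg (fun j _ => Finset.sum_nonneg (fun ψ _ => by positivity))
  rw [hup] at hlow
  have hpos : (0 : ℝ) < ((p ^ k).totient : ℝ) := by
    exact_mod_cast Nat.totient_pos.2 (pow_pos hM.1.pos k)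
  have h7 : (F0.card : ℝ) ^ 2 ≤ (p : ℝ) ^ (2 * q) * (blockRank p e : ℝ) := by
    have : ((p ^ k).totient : ℝ) * (F0.card : ℝ) ^ 2
        ≤ ((p ^ k).totient : ℝ) * ((p : ℝ) ^ (2 * q) * (blockRank p e : ℝ)) := by
      rw [mul_comm]; exact hlow
    exact le_of_mul_le_mul_left this hpos
  rw [hcard]
  exact_mod_cast h7

theorem k0_sq_le [Finite G] (hM : IsPModular p M) {B : Set (IrrCharacter G)} {y : G}
    (hy : ∃ k : ℕ, orderOf y = p ^ k)
    {e : Set (IrrCharacter (Subgroup.centralizer ({y} : Set G)))}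
    (hind : IsInducedBlock M (Subgroup.centralizer ({y} : Set G)) e B) :
    Nat.card {χ : IrrCharacter G // χ ∈ B ∧ blockHeight p B (χ : G → ℂ) = 0} ^ 2
      ≤ p ^ (2 * blockDefect p e) * blockRank p e := by
  classical
  haveI := Fintype.ofFinite G
  haveI := Fintype.ofFinite (IrrCharacter G)
  haveI := Fintype.ofFinite (Subgroup.centralizer ({y} : Set G))
  obtain ⟨k, hk⟩ := hy
  exact k0_sq_le_aux hM hk rfl hind

end Cfsg.Agent.Lib.Helper26.Ctr
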