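import Cfsg.Agent.Lib.Helper26.CtrD

set_option autoImplicit false
set_option linter.style.haveILetI false
set_option linter.unusedSectionVars false
open Cfsg
open Cfsg.Agent.Lib.Helper7 Cfsg.Agent.Lib.Helper24
open scoped ComplexConjugate

namespace Cfsg.Agent.Lib.Helper26.Ctr

universe u

/-- for `p = 2`: the average of a "real" element of `ℤ[ζ_{2^k}]` over the Galois group is an
integer of the same parity as the sum of the coefficients. -/
theorem sum_coprime_two {k : ℕ} {ι : Type*} (s : Finset ι) (A : ι → ℤ)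
    (z : ι → ℂ) (hz : ∀ i ∈ s, z i ^ (2 ^ k) = 1) (σ : ι → ι) (hσs : ∀ i ∈ s, σ i ∈ s)
    (hσσ : ∀ i ∈ s, σ (σ i) = i) (hAσ : ∀ i ∈ s, A (σ i) = A i)
    (hzσ : ∀ i ∈ s, z (σ i) = (z i)⁻¹) :
    ∃ m : ℤ, ∑ j ∈ (Finset.range (2 ^ k)).filter (fun j => j.Coprime (2 ^ k)),
        ∑ i ∈ s, (A i : ℂ) * z i ^ j = ((2 ^ k).totient : ℂ) * (m : ℂ)
      ∧ (2 : ℤ) ∣ m - ∑ i ∈ s, A i := by
  classical
  rcases Nat.eq_zero_or_pos k with rfl | hk
  · refine ⟨∑ i ∈ s, A i, ?_, by simp⟩
    have h1 : (Finset.range (2 ^ 0)).filter (fun j => j.Coprime (2 ^ 0)) = {0} := by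
      ext j
      simp
    rw [h1, Finset.sum_singleton]
    simp
  · obtain ⟨k, rfl⟩ : ∃ k', k = k' + 1 := ⟨k - 1, by omega⟩
    have hpk : 2 ^ (k + 1) = 2 * 2 ^ k := by rw [pow_succ, mul_comm]
    refine ⟨∑ i ∈ s, A i * ((if z i = 1 then 2 else 0) - (if z i ^ 2 = 1 then 1 else 0)), ?_, ?_⟩
    · rw [coprime_filter Nat.prime_two, Nat.totient_prime_pow Nat.prime_two (Nat.succ_pos k),
        Nat.succ_sub_one, Finset.sum_comm]
      push_cast
      rw [Finset.mul_sum]
      apply Finset.sum_congr rfl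
      intro i hi
      rw [← Finset.mul_sum, geom3 (by norm_num) (by rw [← hpk]; exact hz i hi)]
      push_cast
      split_ifs <;> ring
    · have hev : (2 : ℤ) ∣ ∑ i ∈ s.filter (fun i => z i ^ 2 ≠ 1), A i := by
        have h0 : ((∑ i ∈ s.filter (fun i => z i ^ 2 ≠ 1), A i : ℤ) : ZMod 2) = 0 := by
          push_cast
          refine Finset.sum_involution (fun i _ => σ i) ?_ ?_ ?_ ?_
          · intro i hi
            rw [hAσ i (Finset.mem_filter.1 hi).1]
            exact CharTwo.add_self_eq_zero _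
          · intro i hi _ hfix
            have h1 := hzσ i (Finset.mem_filter.1 hi).1
            rw [hfix] at h1
            apply (Finset.mem_filter.1 hi).2
            have hz0 : z i ≠ 0 := by
              intro h0
              have := hz i (Finset.mem_filter.1 hi).1
              rw [h0, zero_pow (by positivity)] at this
              exact zero_ne_one this
            rw [pow_two]
            nth_rewrite 1 [h1]
            exact inv_mul_cancel₀ hz0
          · intro i hi
            rw [Finset.mem_filter] at hi ⊢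
            refine ⟨hσs i hi.1, ?_⟩
            rw [hzσ i hi.1, inv_pow]
            intro h
            exact hi.2 (inv_eq_one.1 h)
          · intro i hi
            exact hσσ i (Finset.mem_filter.1 hi).1
        have := (ZMod.intCast_zmod_eq_zero_iff_dvd _ 2).1 h0
        exact_mod_cast this
      have h2 : ∑ i ∈ s, A i * ((if z i = 1 then 2 else 0) - (if z i ^ 2 = 1 then 1 else 0))
          - ∑ i ∈ s, A i
          = 2 * ∑ i ∈ s, (if z i ^ 2 = 1 then A i * ((if z i = 1 then 1 else 0) - 1) else 0)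
            - ∑ i ∈ s.filter (fun i => z i ^ 2 ≠ 1), A i := by
        rw [Finset.sum_filter, Finset.mul_sum, ← Finset.sum_sub_distrib, ← Finset.sum_sub_distrib]
        apply Finset.sum_congr rfl
        intro i _
        by_cases h1 : z i = 1
        · simp [h1]
        · by_cases h3 : z i ^ 2 = 1
          · simp [h1, h3]
            ring
          · simp [h1, h3]
      rw [h2]
      exact dvd_sub (Dvd.intro _ rfl) hev

section K
variable {K : Type u} [Group K] {M : Ideal AlgInt} {p : ℕ}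

theorem lam_norm [Finite K] {z : K} (hz : z ∈ Subgroup.center K) (ξ : IrrCharacter K) :
    ‖lam z (ξ : K → ℂ)‖ = 1 :=
  Complex.norm_eq_one_of_pow_eq_one (lam_pow_orderOf hz ξ) (orderOf_pos z).ne'

theorem zz_swap [Finite K] {z : K} (hz : z ∈ Subgroup.center K) (ξ ξ' : IrrCharacter K) :
    lam z (ξ' : K → ℂ) * conj (lam z (ξ : K → ℂ))
      = (lam z (ξ : K → ℂ) * conj (lam z (ξ' : K → ℂ)))⁻¹ := by
  rw [Complex.inv_eq_conj (by rw [norm_mul, RCLike.norm_conj, lam_norm hz, lam_norm hz, one_mul]),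
    map_mul, Complex.conj_conj, mul_comm]

/-- symmetric integral coefficient form of `p^q m_j(Φ,Φ)`. -/
theorem mmK_coeff_symm [Fintype K] [Fintype (IrrCharacter K)] (hM : IsPModular p M) {z : K}
    (hz : z ∈ Subgroup.center K) {Φ : K → ℂ} (hΦ : IsCharacter K Φ)
    {e : Set (IrrCharacter K)} [DecidablePred (· ∈ e)] (he : IsPBlock M e) :
    ∃ A : IrrCharacter K × IrrCharacter K → ℤ, (∀ j : ℕ,
      (p : ℂ) ^ blockDefect p e *
        classInner (pRegularPart p (blockPart e (fun c => Φ (z ^ j * c))))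
          (blockPart e (fun c => Φ (z ^ j * c)))
      = ∑ i ∈ (Finset.univ.filter (· ∈ e)) ×ˢ (Finset.univ.filter (· ∈ e)),
        (A i : ℂ) * (lam z (i.1 : K → ℂ) * conj (lam z (i.2 : K → ℂ))) ^ j) ∧
      ∀ i ∈ (Finset.univ.filter (· ∈ e)) ×ˢ (Finset.univ.filter (· ∈ e)), A i.swap = A i := by
  classical
  haveI : Fact p.Prime := ⟨hM.1⟩
  have hn := fun ξ : IrrCharacter K =>
    Cfsg.Agent.Lib.Helper2.IsCharacter.classInner_nat hΦ (isCharacter_of_irr ξ.2)
  choose n hn using hn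
  have hk : ∀ i : IrrCharacter K × IrrCharacter K, ∃ k : ℤ, i.2 ∈ e →
      (p : ℂ) ^ blockDefect p e * classInner (regPart p (i.1 : K → ℂ)) (i.2 : K → ℂ) = k := by
    intro i
    by_cases hi : i.2 ∈ e
    · obtain ⟨k, hk⟩ := Cfsg.Agent.S4666.exists_int_defect hM he i.1 i.2 hi
      exact ⟨k, fun _ => hk⟩
    · exact ⟨0, fun h => absurd h hi⟩
  choose k hk using hk
  refine ⟨fun i => (n i.1 : ℤ) * (n i.2 : ℤ) * k i, fun j => ?_, fun i hi => ?_⟩
  · rw [mmK_expand hz (isClassFunction_of_isCharacter hΦ) (isClassFunction_of_isCharacter hΦ),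
      Finset.mul_sum]
    apply Finset.sum_congr rfl
    intro i hi
    have hi2 : i.2 ∈ e := (Finset.mem_filter.1 (Finset.mem_product.1 hi).2).2
    push_cast
    rw [← hk i hi2, hn, hn, Complex.conj_natCast]
    ring
  · have hi1 : i.1 ∈ e := (Finset.mem_filter.1 (Finset.mem_product.1 hi).1).2
    have hi2 : i.2 ∈ e := (Finset.mem_filter.1 (Finset.mem_product.1 hi).2).2
    have h1 := hk i hi2
    have h2 := hk i.swap hi1
    simp only [Prod.fst_swap, Prod.snd_swap] at h2
    have h3 : classInner (regPart p (i.2 : K → ℂ)) (i.1 : K → ℂ)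
        = conj (classInner (regPart p (i.1 : K → ℂ)) (i.2 : K → ℂ)) := by
      rw [classInner_conj_symm, ← pReg_eq_regPart, ← pReg_eq_regPart, classInner_pReg_swap]
    have h4 : (k i.swap : ℂ) = (k i : ℂ) := by
      have h6 : conj ((k i : ℂ)) = (k i : ℂ) := map_intCast _ _
      rw [← h2, h3, ← h6, ← h1, map_mul, map_pow, Complex.conj_natCast]
    have h5 : k i.swap = k i := by exact_mod_cast h4
    simp only [Prod.fst_swap, Prod.snd_swap, h5]
    ring

end K

section G
variable {G : Type u} [Group G] {M : Ideal AlgInt} {p : ℕ}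

theorem pq_mm_unit [Fintype G] (hM : IsPModular p M) {H : Subgroup G} [Fintype H]
    {e : Set (IrrCharacter H)} {B : Set (IrrCharacter G)} (hind : IsInducedBlock M H e B) {y : G}
    (hy : ∃ k : ℕ, orderOf y = p ^ k) (hyH : y ∈ H) (hyc : ∀ c : H, Commute y (c : G))
    {χ ψ : IrrCharacter G} (hχ : χ ∈ B) (h0 : blockHeight p B (χ : G → ℂ) = 0)
    (hψ : ψ ∈ B) (h0' : blockHeight p B (ψ : G → ℂ) = 0) :
    ¬ MemLocalIdeal M ((p : ℂ) ^ blockDefect p e * mm p H e y (χ : G → ℂ) (ψ : G → ℂ)) := by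
  haveI := hM.2.1.isPrime
  have h1 := mm_unit hM hind hy hyH hyc hχ h0 hψ h0'
  intro hcon
  apply h1
  set s0 := sInf ((fun χ : IrrCharacter H => (charDegree (χ : H → ℂ)).factorization p) '' e)
    with hs0
  have hsa : s0 ≤ (Nat.card H).factorization p := sInf_le_factorization_card hind.1 p
  have hq : blockDefect p e = (Nat.card H).factorization p - s0 := rfl
  have hpc : (p : ℂ) ≠ 0 := by exact_mod_cast hM.1.ne_zero
  have h2 : (Nat.card H : ℂ) * mm p H e y (χ : G → ℂ) (ψ : G → ℂ) / ((p ^ s0 : ℕ) : ℂ)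
      = ((Nat.card H / p ^ (Nat.card H).factorization p : ℕ) : ℂ)
        * ((p : ℂ) ^ blockDefect p e * mm p H e y (χ : G → ℂ) (ψ : G → ℂ)) := by
    have h3 : (Nat.card H : ℂ) = (p : ℂ) ^ (Nat.card H).factorization p
        * ((Nat.card H / p ^ (Nat.card H).factorization p : ℕ) : ℂ) := by
      conv_lhs => rw [← Nat.ordProj_mul_ordCompl_eq_self (Nat.card H) p]
      push_cast
      rfl
    have h4 : (p : ℂ) ^ (Nat.card H).factorization p = (p : ℂ) ^ s0 * (p : ℂ) ^ blockDefect p e := by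
      rw [← pow_add, hq]; congr 1; omega
    rw [div_eq_iff (by exact_mod_cast pow_ne_zero _ hM.1.ne_zero)]
    conv_lhs => rw [h3, h4]
    push_cast
    ring
  rw [h2]
  exact memLocalIdeal_mul_left (memLocalRing_natCast _) hcon

/-- for `p = 2` the average of `2^q m_{χχ}` over the generators of `⟨y⟩` is an odd integer. -/
theorem mm_avg_two [Fintype G] (hM : IsPModular 2 M) {H : Subgroup G} [Fintype H]
    {e : Set (IrrCharacter H)} {B : Set (IrrCharacter G)} (hind : IsInducedBlock M H e B) {y : G}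
    {k : ℕ} (hy : orderOf y = 2 ^ k) (hyH : y ∈ H) (hyc : ∀ c : H, Commute y (c : G))
    {χ : IrrCharacter G} (hχ : χ ∈ B) (h0 : blockHeight 2 B (χ : G → ℂ) = 0) :
    ∃ m : ℤ, Odd m ∧ ∑ j ∈ (Finset.range (2 ^ k)).filter (fun j => j.Coprime (2 ^ k)),
      ((2 : ℕ) : ℂ) ^ blockDefect 2 e * mm 2 H e (y ^ j) (χ : G → ℂ) (χ : G → ℂ)
        = ((2 ^ k).totient : ℂ) * (m : ℂ) := by
  classical
  haveI := hM.2.1.isPrime
  haveI := Fintype.ofFinite (IrrCharacter H)
  have hzc := mk_mem_center hyH hyc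
  have hz : orderOf (⟨y, hyH⟩ : H) = 2 ^ k := by
    rw [← hy, ← Subgroup.orderOf_coe]
  obtain ⟨A, hA, hAs⟩ := mmK_coeff_symm hM hzc (isCharacter_restrict (isCharacter_of_irr χ.2) H)
    hind.1
  set s := (Finset.univ.filter (fun ξ : IrrCharacter H => ξ ∈ e))
    ×ˢ (Finset.univ.filter (fun ξ : IrrCharacter H => ξ ∈ e)) with hs
  have hzz : ∀ i ∈ s, (lam (⟨y, hyH⟩ : H) (i.1 : H → ℂ)
      * conj (lam (⟨y, hyH⟩ : H) (i.2 : H → ℂ))) ^ (2 ^ k) = 1 := by
    intro i _
    rw [← hz]; exact lam_mul_conj_pow hzc i.1 i.2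
  obtain ⟨m, hm, hpar⟩ := sum_coprime_two (k := k) s A
    (fun i => lam (⟨y, hyH⟩ : H) (i.1 : H → ℂ) * conj (lam (⟨y, hyH⟩ : H) (i.2 : H → ℂ)))
    hzz Prod.swap
    (fun i hi => by
      rw [hs, Finset.mem_product] at hi ⊢
      exact ⟨hi.2, hi.1⟩)
    (fun i _ => Prod.swap_swap i) hAs
    (fun i _ => zz_swap hzc i.1 i.2)
  refine ⟨m, ?_, ?_⟩
  · have h1 := pq_mm_unit hM hind ⟨k, hy⟩ hyH hyc hχ h0 hχ h0
    have h2 := hA 1
    have h3 := mm_pow_eq (p := 2) e hyH (χ : G → ℂ) (χ : G → ℂ) 1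
    rw [← h3] at h2
    simp only [pow_one] at h2
    rw [h2] at h1
    have h4 : MemLocalIdeal M (∑ i ∈ s, (A i : ℂ) * (lam (⟨y, hyH⟩ : H) (i.1 : H → ℂ)
        * conj (lam (⟨y, hyH⟩ : H) (i.2 : H → ℂ))) - ((∑ i ∈ s, A i : ℤ) : ℂ)) := by
      push_cast
      rw [← Finset.sum_sub_distrib]
      apply memLocalIdeal_sum
      intro i hi
      rw [← mul_sub_one]
      exact memLocalIdeal_mul_left (memLocalRing_intCast _)
        (memLocalIdeal_sub_one_of_pow hM (hzz i hi))
    have h5 := not_memLocalIdeal_of_sub (memLocalIdeal_sub_comm h4) h1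
    have h6 : ¬ (2 : ℤ) ∣ ∑ i ∈ s, A i := by
      rintro ⟨c, hc⟩
      apply h5
      rw [hc]
      push_cast
      exact memLocalIdeal_mul_right (by exact_mod_cast memLocalIdeal_p hM) (memLocalRing_intCast c)
    rw [← Int.not_even_iff_odd, even_iff_two_dvd]
    intro h7
    apply h6
    have := dvd_sub h7 hpar
    rwa [sub_sub_cancel] at this
  · rw [← hm]
    apply Finset.sum_congr rfl
    intro j _
    rw [mm_pow_eq e hyH, hA j]

end G

end Cfsg.Agent.Lib.Helper26.Ctr
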