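import Cfsg.Agent.Lib.Helper26.CtrE

set_option autoImplicit false
set_option linter.style.haveILetI false
set_option linter.unusedSectionVars false
open Cfsg
open Cfsg.Agent.Lib.Helper7 Cfsg.Agent.Lib.Helper24
open scoped ComplexConjugate

namespace Cfsg.Agent.Lib.Helper26.Ctr

universe u
variable {G : Type u} [Group G] {M : Ideal AlgInt} {p : ℕ}

theorem mm_parseval_B [Fintype G] [Fintype (IrrCharacter G)] (hM : IsPModular p M)
    {H : Subgroup G} [Fintype H] {x : G} (hH : H = Subgroup.centralizer ({x} : Set G))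
    (hx : ∃ k : ℕ, orderOf x = p ^ k) {B : Set (IrrCharacter G)} [DecidablePred (· ∈ B)]
    {e : Set (IrrCharacter H)} (hind : IsInducedBlock M H e B) (χ : G → ℂ) :
    ∑ ψ ∈ Finset.univ.filter (· ∈ B),
      mm p H e x χ (ψ : G → ℂ) * conj (mm p H e x χ (ψ : G → ℂ)) = mm p H e x χ χ := by
  classical
  subst hH
  haveI := hM.2.1.isPrime
  haveI := Fintype.ofFinite (IrrCharacter (Subgroup.centralizer ({x} : Set G)))
  have he : IsBlockUnion M e := isBlockUnion_of_isPBlock hind.1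
  rw [← mm_parseval hM hx he χ, Finset.sum_filter]
  apply Finset.sum_congr rfl
  intro ψ _
  split_ifs with hψ
  · rfl
  · rw [mm_eq_zero_of_not_mem hM hx hind _ hψ, zero_mul]

/-- the data behind the refined bound for `p = 2`. -/
theorem two_block_data [Fintype G] [Fintype (IrrCharacter G)] (hM : IsPModular 2 M)
    {B : Set (IrrCharacter G)} {y : G} {k : ℕ} (hk : orderOf y = 2 ^ k)
    {H : Subgroup G} [Fintype H] (hH : H = Subgroup.centralizer ({y} : Set G))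
    {e : Set (IrrCharacter H)} (hind : IsInducedBlock M H e B)
    (F0 : Finset (IrrCharacter G))
    (hF0 : ∀ χ, χ ∈ F0 ↔ χ ∈ B ∧ blockHeight 2 B (χ : G → ℂ) = 0) :
    ∃ m : IrrCharacter G → ℤ, (∀ χ ∈ F0, Odd (m χ) ∧
        (F0.card : ℤ) ≤ 2 ^ blockDefect 2 e * m χ) ∧
      ∑ χ ∈ F0, m χ ≤ 2 ^ blockDefect 2 e * (blockRank 2 e : ℤ) := by
  classical
  have hyH : y ∈ H := by rw [hH]; exact Subgroup.mem_centralizer_singleton_iff.2 rfl
  have hyc : ∀ c : H, Commute y (c : G) := fun c =>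
    (Subgroup.mem_centralizer_singleton_iff.1 (hH ▸ c.2)).symm
  set J := (Finset.range (2 ^ k)).filter (fun j => j.Coprime (2 ^ k)) with hJ
  set FB := Finset.univ.filter (fun χ : IrrCharacter G => χ ∈ B) with hFB
  set q := blockDefect 2 e with hq
  have hsub : F0 ⊆ FB := by
    intro χ hχ
    rw [hFB, Finset.mem_filter]
    exact ⟨Finset.mem_univ _, ((hF0 χ).1 hχ).1⟩
  have hpos : (0 : ℝ) < ((2 ^ k).totient : ℝ) := by
    exact_mod_cast Nat.totient_pos.2 (pow_pos (by norm_num) k)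
  have hex : ∀ χ : IrrCharacter G, ∃ m : ℤ, χ ∈ F0 → (Odd m ∧
      ∑ j ∈ J, ((2 : ℕ) : ℂ) ^ q * mm 2 H e (y ^ j) (χ : G → ℂ) (χ : G → ℂ)
        = ((2 ^ k).totient : ℂ) * (m : ℂ)) := by
    intro χ
    by_cases hχ : χ ∈ F0
    · obtain ⟨m, h1, h2⟩ := mm_avg_two hM hind hk hyH hyc ((hF0 χ).1 hχ).1 ((hF0 χ).1 hχ).2
      exact ⟨m, fun _ => ⟨h1, h2⟩⟩
    · exact ⟨0, fun h => absurd h hχ⟩
  choose m hm using hex
  have hrow : ∀ χ ∈ F0, ∑ j ∈ J, ∑ ψ ∈ FB,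
      ‖((2 : ℕ) : ℂ) ^ q * mm 2 H e (y ^ j) (χ : G → ℂ) (ψ : G → ℂ)‖ ^ 2
      = (2 : ℝ) ^ q * (((2 ^ k).totient : ℝ) * (m χ : ℝ)) := by
    intro χ hχ
    have h1 : ((∑ j ∈ J, ∑ ψ ∈ FB,
        ‖((2 : ℕ) : ℂ) ^ q * mm 2 H e (y ^ j) (χ : G → ℂ) (ψ : G → ℂ)‖ ^ 2 : ℝ) : ℂ)
        = (((2 : ℝ) ^ q * (((2 ^ k).totient : ℝ) * (m χ : ℝ)) : ℝ) : ℂ) := by
      push_cast
      rw [← (hm χ hχ).2, Finset.mul_sum]
      apply Finset.sum_congr rfl
      intro j hj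
      have hjc : j.Coprime (orderOf y) := by rw [hk]; exact (Finset.mem_filter.1 hj).2
      rw [← mm_parseval_B hM (hH.trans (centralizer_pow_eq hjc))
        ⟨k, by rw [Nat.Coprime.orderOf_pow hjc.symm, hk]⟩ hind, Finset.mul_sum, Finset.mul_sum]
      apply Finset.sum_congr rfl
      intro ψ _
      have h2c : conj (2 : ℂ) = 2 := Complex.conj_ofNat 2
      rw [← Complex.mul_conj', map_mul, map_pow, h2c]
      push_cast
      ring
    exact_mod_cast h1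
  refine ⟨m, fun χ hχ => ⟨(hm χ hχ).1, ?_⟩, ?_⟩
  · have h3 : ∀ ψ ∈ F0, ((2 ^ k).totient : ℝ) ≤ ∑ j ∈ J,
        ‖((2 : ℕ) : ℂ) ^ q * mm 2 H e (y ^ j) (χ : G → ℂ) (ψ : G → ℂ)‖ ^ 2 := by
      intro ψ hψ
      have hχ' := (hF0 χ).1 hχ
      have hψ' := (hF0 ψ).1 hψ
      exact mm_avg hM hind.1 hk hyH hyc (isCharacter_of_irr χ.2) (isCharacter_of_irr ψ.2)
        (mm_ne_zero hM hind ⟨k, hk⟩ hyH hyc hχ'.1 hχ'.2 hψ'.1 hψ'.2)
    have h4 := Finset.card_nsmul_le_sum F0 _ _ h3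
    rw [nsmul_eq_mul] at h4
    have h5 : (F0.card : ℝ) * ((2 ^ k).totient : ℝ)
        ≤ (2 : ℝ) ^ q * (((2 ^ k).totient : ℝ) * (m χ : ℝ)) := by
      rw [← hrow χ hχ, Finset.sum_comm]
      refine le_trans h4 (Finset.sum_le_sum_of_subset_of_nonneg hsub ?_)
      intro ψ _ _
      exact Finset.sum_nonneg (fun j _ => by positivity)
    have h6 : (F0.card : ℝ) ≤ (2 : ℝ) ^ q * (m χ : ℝ) := by
      have : ((2 ^ k).totient : ℝ) * (F0.card : ℝ)
          ≤ ((2 ^ k).totient : ℝ) * ((2 : ℝ) ^ q * (m χ : ℝ)) := by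
        calc ((2 ^ k).totient : ℝ) * (F0.card : ℝ) = (F0.card : ℝ) * ((2 ^ k).totient : ℝ) := by ring
          _ ≤ _ := h5
          _ = _ := by ring
      exact le_of_mul_le_mul_left this hpos
    exact_mod_cast h6
  · have hup : ∑ j ∈ J, ∑ χ ∈ FB, ∑ ψ ∈ FB,
        ‖((2 : ℕ) : ℂ) ^ q * mm 2 H e (y ^ j) (χ : G → ℂ) (ψ : G → ℂ)‖ ^ 2
        = ((2 ^ k).totient : ℝ) * ((2 : ℝ) ^ (2 * q) * (blockRank 2 e : ℝ)) := by
      have h1 : ∀ j ∈ J, ∑ χ ∈ FB, ∑ ψ ∈ FB,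
          ‖((2 : ℕ) : ℂ) ^ q * mm 2 H e (y ^ j) (χ : G → ℂ) (ψ : G → ℂ)‖ ^ 2
          = (2 : ℝ) ^ (2 * q) * (blockRank 2 e : ℝ) := by
        intro j hj
        have hjc : j.Coprime (orderOf y) := by rw [hk]; exact (Finset.mem_filter.1 hj).2
        rw [← sum_mm_normsq hM (hH.trans (centralizer_pow_eq hjc))
          ⟨k, by rw [Nat.Coprime.orderOf_pow hjc.symm, hk]⟩ hind, Finset.mul_sum]
        apply Finset.sum_congr rfl
        intro χ _
        rw [Finset.mul_sum]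
        apply Finset.sum_congr rfl
        intro ψ _
        rw [norm_mul, mul_pow, norm_pow, Complex.norm_natCast, ← pow_mul, mul_comm q 2]
        push_cast
        rfl
      rw [Finset.sum_congr rfl h1, Finset.sum_const, card_coprime_filter, nsmul_eq_mul]
    have h7 : ∑ χ ∈ F0, (2 : ℝ) ^ q * (((2 ^ k).totient : ℝ) * (m χ : ℝ))
        ≤ ((2 ^ k).totient : ℝ) * ((2 : ℝ) ^ (2 * q) * (blockRank 2 e : ℝ)) := by
      rw [← hup, Finset.sum_comm (s := J), ← Finset.sum_congr rfl hrow]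
      apply Finset.sum_le_sum_of_subset_of_nonneg hsub
      intro χ _ _
      exact Finset.sum_nonneg (fun j _ => Finset.sum_nonneg (fun ψ _ => by positivity))
    have h8 : (∑ χ ∈ F0, (m χ : ℝ)) ≤ (2 : ℝ) ^ q * (blockRank 2 e : ℝ) := by
      have h9 : ((2 : ℝ) ^ q * ((2 ^ k).totient : ℝ)) * (∑ χ ∈ F0, (m χ : ℝ))
          ≤ ((2 : ℝ) ^ q * ((2 ^ k).totient : ℝ)) * ((2 : ℝ) ^ q * (blockRank 2 e : ℝ)) := by
        calc ((2 : ℝ) ^ q * ((2 ^ k).totient : ℝ)) * (∑ χ ∈ F0, (m χ : ℝ))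
            = ∑ χ ∈ F0, (2 : ℝ) ^ q * (((2 ^ k).totient : ℝ) * (m χ : ℝ)) := by
              rw [Finset.mul_sum]
              apply Finset.sum_congr rfl
              intro χ _
              ring
          _ ≤ _ := h7
          _ = _ := by rw [two_mul, pow_add]; ring
      exact le_of_mul_le_mul_left h9 (by positivity)
    exact_mod_cast h8

/-- the arithmetic behind the refined bound. -/
theorem two_block_arith {ι : Type*} (F0 : Finset ι) (m : ι → ℤ) (Q l : ℕ)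
    (h1 : ∀ χ ∈ F0, Odd (m χ) ∧ (F0.card : ℤ) ≤ (Q : ℤ) * m χ)
    (h2 : ∑ χ ∈ F0, m χ ≤ (Q : ℤ) * (l : ℤ)) :
    (Odd (Nat.sqrt l) → F0.card ≤ Nat.sqrt l * Q) ∧
    (¬ Odd (Nat.sqrt l) → (Nat.sqrt l + 1) * F0.card ≤ l * Q) := by
  rcases F0.eq_empty_or_nonempty with rfl | hne
  · simp
  obtain ⟨χ₀, hχ₀, hmin⟩ := Finset.exists_min_image F0 m hne
  set K := F0.card with hK
  set r := Nat.sqrt l with hr
  have hr1 : r ^ 2 ≤ l := Nat.sqrt_le' l
  have hr2 : l < (r + 1) ^ 2 := Nat.lt_succ_sqrt' l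
  have hKpos : 0 < K := Finset.card_pos.2 hne
  obtain ⟨hodd, hle⟩ := h1 χ₀ hχ₀
  have h3 : (K : ℤ) * m χ₀ ≤ (Q : ℤ) * (l : ℤ) := by
    refine le_trans ?_ h2
    have := Finset.card_nsmul_le_sum F0 m (m χ₀) hmin
    rwa [nsmul_eq_mul] at this
  have hm0 : 0 < m χ₀ := by
    by_contra h
    have h4 : m χ₀ ≤ 0 := not_lt.1 h
    have : (Q : ℤ) * m χ₀ ≤ 0 := mul_nonpos_of_nonneg_of_nonpos (by positivity) h4
    have h5 : (0 : ℤ) < (K : ℤ) := by exact_mod_cast hKpos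
    omega
  obtain ⟨m0, hm0'⟩ : ∃ m0 : ℕ, m χ₀ = m0 := ⟨(m χ₀).toNat, by omega⟩
  rw [hm0'] at hodd hle h3 hm0
  have hodd' : Odd m0 := by exact_mod_cast hodd
  have hle' : K ≤ Q * m0 := by exact_mod_cast hle
  have h3' : K * m0 ≤ Q * l := by exact_mod_cast h3
  constructor
  · intro hro
    by_cases hc : m0 ≤ r
    · calc K ≤ Q * m0 := hle'
        _ ≤ Q * r := Nat.mul_le_mul_left _ hc
        _ = r * Q := mul_comm _ _
    · have h6 : r + 2 ≤ m0 := by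
        obtain ⟨a, ha⟩ := hodd'
        obtain ⟨b, hb⟩ := hro
        omega
      have h7 : K * (r + 2) ≤ (r * Q) * (r + 2) := by
        calc K * (r + 2) ≤ K * m0 := Nat.mul_le_mul_left _ h6
          _ ≤ Q * l := h3'
          _ ≤ Q * (r * (r + 2)) := by
            apply Nat.mul_le_mul_left
            nlinarith
          _ = (r * Q) * (r + 2) := by ring
      exact Nat.le_of_mul_le_mul_right h7 (by omega)
  · intro hro
    by_cases hc : r + 1 ≤ m0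
    · calc (r + 1) * K ≤ m0 * K := Nat.mul_le_mul_right _ hc
        _ = K * m0 := mul_comm _ _
        _ ≤ Q * l := h3'
        _ = l * Q := mul_comm _ _
    · have hre : Even r := Nat.not_odd_iff_even.1 hro
      have h6 : m0 + 1 ≤ r := by
        obtain ⟨a, ha⟩ := hodd'
        obtain ⟨b, hb⟩ := hre
        omega
      calc (r + 1) * K ≤ (r + 1) * (Q * m0) := Nat.mul_le_mul_left _ hle'
        _ = ((r + 1) * m0) * Q := by ring
        _ ≤ l * Q := by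
          apply Nat.mul_le_mul_right
          nlinarith

end Cfsg.Agent.Lib.Helper26.Ctr
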