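import Cfsg.Agent.Lib.Helper26.PrimeIndex
import Cfsg.Agent.Lib.Helper26.PPowerIndex

set_option autoImplicit false

namespace Cfsg.Agent.Lib.Helper26

open Cfsg Cfsg.FusionSystem

variable {Ω : Type*} [Group Ω] {S T : Subgroup Ω}

/-- the predicate cutting out the largest `Aut_F(T)`-invariant subsystem of `E` (over `T`) -/
def invPredT (E : FusionSystem T) (F : FusionSystem S) (P : Subgroup Ω) (g : Ω → Ω) : Prop :=
  P ≤ T ∧ ∀ γ ∈ F.autGroup T, IsMap E (img P (autFun γ)) (fun y => autFun γ (g (autFun γ⁻¹ y)))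

lemma invPredT_subPred (hTS : T ≤ S) (E : FusionSystem T) (F : FusionSystem S) :
    SubPred E T (invPredT E F) where
  congr := by
    rintro P f g hfg ⟨hP, h⟩
    refine ⟨hP, fun γ hγ => (h γ hγ).congr (fun y hy => ?_)⟩
    have hγm := ((mem_autGroup_iff hTS).mp hγ).mono hP
    obtain ⟨x, hx, rfl⟩ := hγm.mem_img.mp hy
    show autFun γ (f (autFun γ⁻¹ (autFun γ x))) = autFun γ (g (autFun γ⁻¹ (autFun γ x)))
    rw [autFun_inv_autFun γ (hP hx), hfg x hx]
  conj := by
    intro P a hP ha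
    refine ⟨hP, fun γ hγ => ?_⟩
    have hγS := (mem_autGroup_iff hTS).mp hγ
    have hγm := hγS.mono hP
    have hle : img P (autFun γ) ≤ T := by
      intro y hy
      obtain ⟨x, hx, rfl⟩ := hγm.mem_img.mp hy
      exact autFun_mem γ (hP hx)
    refine (isMap_conj E hle (autFun_mem γ ha)).congr (fun y hy => ?_)
    obtain ⟨x, hx, rfl⟩ := hγm.mem_img.mp hy
    show autFun γ a * autFun γ x * (autFun γ a)⁻¹ = autFun γ (a * autFun γ⁻¹ (autFun γ x) * a⁻¹)
    rw [autFun_inv_autFun γ (hP hx), hγS.map_mul (T.mul_mem ha (hP hx)) (T.inv_mem ha),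
      hγS.map_mul ha (hP hx), hγS.map_inv ha]
  comp := by
    rintro P Q f g hf hg hP hQ hfQ hgS ⟨-, h1⟩ ⟨-, h2⟩
    refine ⟨hP, fun γ hγ => ?_⟩
    have hγS := (mem_autGroup_iff hTS).mp hγ
    have hγm := hγS.mono hP
    refine ((h1 γ hγ).comp (h2 γ hγ) ?_).congr ?_
    · intro y hy
      obtain ⟨x, hx, rfl⟩ := hγm.mem_img.mp hy
      show autFun γ (f (autFun γ⁻¹ (autFun γ x))) ∈ _
      rw [autFun_inv_autFun γ (hP hx)]
      exact mem_img_of_mem (hfQ x hx)
    · intro y hy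
      obtain ⟨x, hx, rfl⟩ := hγm.mem_img.mp hy
      show autFun γ (g (autFun γ⁻¹ (autFun γ (f (autFun γ⁻¹ (autFun γ x)))))) =
        autFun γ (g (f (autFun γ⁻¹ (autFun γ x))))
      rw [autFun_inv_autFun γ (hP hx), autFun_inv_autFun γ (hQ (hfQ x hx))]
  inv := by
    rintro P f g hf hP hfS hg hgf ⟨-, h1⟩
    refine ⟨hf.img_le, fun γ hγ => ?_⟩
    have hγS := (mem_autGroup_iff hTS).mp hγ
    have hγm := hγS.mono hP
    have hγm' := hγS.mono hf.img_le
    obtain ⟨k, hk, hk1, -⟩ := (h1 γ hγ).exists_inv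
    have e : img (img P (autFun γ)) (fun y => autFun γ (f (autFun γ⁻¹ y))) =
        img (img P f) (autFun γ) := by
      apply le_antisymm
      · apply (Subgroup.closure_le _).mpr
        rintro _ ⟨y, hy, rfl⟩
        obtain ⟨x, hx, rfl⟩ := hγm.mem_img.mp hy
        show autFun γ (f (autFun γ⁻¹ (autFun γ x))) ∈ _
        rw [autFun_inv_autFun γ (hP hx)]
        exact mem_img_of_mem (mem_img_of_mem hx)
      · apply (Subgroup.closure_le _).mpr
        rintro _ ⟨y, hy, rfl⟩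
        obtain ⟨x, hx, rfl⟩ := hf.mem_img.mp hy
        have : autFun γ (f (autFun γ⁻¹ (autFun γ x))) ∈
            img (img P (autFun γ)) (fun y => autFun γ (f (autFun γ⁻¹ y))) :=
          mem_img_of_mem (f := fun y => autFun γ (f (autFun γ⁻¹ y))) (mem_img_of_mem hx)
        rwa [autFun_inv_autFun γ (hP hx)] at this
    rw [e] at hk
    refine hk.congr (fun z hz => ?_)
    obtain ⟨y, hy, rfl⟩ := hγm'.mem_img.mp hz
    obtain ⟨x, hx, rfl⟩ := hf.mem_img.mp hy
    have h2 : k (autFun γ (f (autFun γ⁻¹ (autFun γ x)))) = autFun γ x :=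
      hk1 (autFun γ x) (mem_img_of_mem hx)
    rw [autFun_inv_autFun γ (hP hx)] at h2
    show k (autFun γ (f x)) = autFun γ (g (autFun γ⁻¹ (autFun γ (f x))))
    rw [h2, autFun_inv_autFun γ (hfS x hx), hgf x hx]

/-- the largest `Aut_F(T)`-invariant subsystem of `E` -/
def invCoreT (hTS : T ≤ S) (E : FusionSystem T) (F : FusionSystem S) : FusionSystem T :=
  mkSub E le_rfl (invPredT_subPred hTS E F)

lemma isMap_invCoreT (hTS : T ≤ S) {E : FusionSystem T} {F : FusionSystem S} {P : Subgroup Ω}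
    {f : Ω → Ω} : IsMap (invCoreT hTS E F) P f ↔ IsMap E P f ∧ ∀ γ ∈ F.autGroup T,
      IsMap E (img P (autFun γ)) (fun y => autFun γ (f (autFun γ⁻¹ y))) := by
  unfold invCoreT
  rw [isMap_mkSub]
  constructor
  · rintro ⟨h1, -, -, -, h2⟩
    exact ⟨h1, h2⟩
  · rintro ⟨h1, h2⟩
    exact ⟨h1, h1.le, fun x hx => h1.mem_S hx, h1.le, h2⟩

/-- if `E` equals its invariant core then the invariance condition holds -/
lemma invCond_of_le_invCoreT (hTS : T ≤ S) {E : FusionSystem T} {F : FusionSystem S}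
    (h : E ≤ invCoreT hTS E F) : InvCond E F := by
  intro P hP f hf α hα
  obtain ⟨-, h2⟩ := (isMap_invCoreT hTS).mp (le_iff_isMap.mp h P f hf)
  refine ⟨_, h2 α hα, fun x hx => ?_⟩
  show autFun α (f (autFun α⁻¹ (autFun α x))) = _
  rw [autFun_inv_autFun α (hP hx)]

end Cfsg.Agent.Lib.Helper26
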