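import Cfsg.Agent.Lib.Helper26.FrattiniInd
import Cfsg.Agent.Lib.Helper26.Transport
import Cfsg.Agent.Lib.Helper26.FactorTools

set_option autoImplicit false

namespace Cfsg.Agent.Lib.Helper26

open Cfsg Cfsg.FusionSystem

section group

variable {G : Type*} [Group G] {p : ℕ} [Fact p.Prime]

lemma exists_sylIn [Finite G] (H : Subgroup G) : ∃ T : Subgroup G, T ≤ H ∧ SylIn p T H := by
  obtain ⟨R⟩ : Nonempty (Sylow p H) := inferInstance
  refine ⟨(R : Subgroup H).map H.subtype, Subgroup.map_subtype_le _, ?_⟩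
  rw [sylIn_iff_card (Subgroup.map_subtype_le _),
    Subgroup.card_map_of_injective H.subtype_injective]
  exact R.card_eq_multiplicity

/-- some conjugate of `H` meets a Sylow subgroup of `A` in a Sylow subgroup of the intersection -/
lemma sylIn_exists_conj_inf [Finite G] {Sg A : Subgroup G} (hSgA : Sg ≤ A) (h : SylIn p Sg A)
    (H : Subgroup G) : ∃ β ∈ A, SylIn p (Sg ⊓ cj β H) (A ⊓ cj β H) := by
  obtain ⟨T, hT, hTs⟩ := exists_sylIn (p := p) (A ⊓ H)
  have hTp := hTs.isPGroup hT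
  obtain ⟨β, hβ, hβT⟩ := h.exists_conj_le (hT.trans inf_le_left) hTp
  refine ⟨β, hβ, ?_⟩
  apply sylIn_of_le_card (inf_le_inf_right _ hSgA) ((h.isPGroup hSgA).to_le inf_le_left)
  have e : A ⊓ cj β H = cj β (A ⊓ H) := by
    rw [cj_inf, cj_eq_of_mem_normalizer (Subgroup.le_normalizer hβ)]
  rw [e, card_cj, ← (sylIn_iff_card hT).mp hTs, ← card_cj β T]
  exact Subgroup.card_le_of_le (le_inf hβT (cj_mono (hT.trans inf_le_right)))

/-- the kernel trick -/
lemma sylIn_exists_conj_le_of_sup [Finite G] {Sg A A₀ B : Subgroup G} (hSgA : Sg ≤ A)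
    (h : SylIn p Sg A) (hA₀ : A₀ ≤ A) (hn : A ≤ Subgroup.normalizer (A₀ : Set G))
    (hB : IsPGroup p B) (hBle : B ≤ Sg ⊔ A₀) : ∃ χ ∈ A₀, ∀ b ∈ B, χ * b * χ⁻¹ ∈ Sg := by
  have hsyl : SylIn p Sg (Sg ⊔ A₀) := SylIn.of_le hSgA h le_sup_left (sup_le hSgA hA₀)
  obtain ⟨u, hu, huB⟩ := hsyl.exists_conj_le hBle hB
  have hu' : u ∈ ((Sg ⊔ A₀ : Subgroup G) : Set G) := hu
  rw [Subgroup.coe_mul_of_left_le_normalizer_right _ _ (hSgA.trans hn)] at hu'
  obtain ⟨σ, hσ, κ, hκ, rfl⟩ := hu'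
  refine ⟨κ, hκ, fun b hb => ?_⟩
  have h1 : (σ * κ) * b * (σ * κ)⁻¹ ∈ Sg := huB (conj_mem_cj hb)
  have h2 := Subgroup.mul_mem _ (Subgroup.mul_mem _ (Subgroup.inv_mem _ hσ) h1) hσ
  have e : σ⁻¹ * ((σ * κ) * b * (σ * κ)⁻¹) * σ = κ * b * κ⁻¹ := by group
  rwa [e] at h2

end group

variable {Ω : Type*} [Group Ω] {S : Subgroup Ω}

/-- `N_S^L(R)` -/
def NK (S R : Subgroup Ω) (L : Subgroup (MulAut R)) : Subgroup Ω where
  carrier := {g | g ∈ S ∧ ∃ l ∈ L, ∀ x : R, ((l x : R) : Ω) = g * x * g⁻¹}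
  one_mem' := ⟨S.one_mem, 1, L.one_mem, fun x => by simp⟩
  mul_mem' := by
    rintro a b ⟨ha, l, hl, hl'⟩ ⟨hb, m, hm, hm'⟩
    exact ⟨S.mul_mem ha hb, l * m, L.mul_mem hl hm, fun x => by
      rw [MulAut.mul_apply, hl', hm']; group⟩
  inv_mem' := by
    rintro a ⟨ha, l, hl, hl'⟩
    refine ⟨S.inv_mem ha, l⁻¹, L.inv_mem hl, fun x => ?_⟩
    have := hl' (l⁻¹ x)
    rw [MulAut.apply_inv_self] at this
    rw [this]; group

lemma mem_NK {R : Subgroup Ω} {L : Subgroup (MulAut R)} {g : Ω} :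
    g ∈ NK S R L ↔ g ∈ S ∧ ∃ l ∈ L, ∀ x : R, ((l x : R) : Ω) = g * x * g⁻¹ := Iff.rfl

lemma NK_le (R : Subgroup Ω) (L : Subgroup (MulAut R)) : NK S R L ≤ S := fun _ h => h.1

lemma NK_le_normalizer (R : Subgroup Ω) (L : Subgroup (MulAut R)) :
    NK S R L ≤ Subgroup.normalizer (R : Set Ω) := by
  rintro g ⟨-, l, -, hl⟩
  exact mem_normalizer_of_aut hl

lemma centralizerIn_le_NK (R : Subgroup Ω) (L : Subgroup (MulAut R)) :
    centralizerIn S R ≤ NK S R L := by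
  intro g hg
  refine ⟨hg.1, 1, L.one_mem, fun x => ?_⟩
  rw [← (Subgroup.mem_centralizer_iff.mp hg.2) x x.2, mul_inv_cancel_right]
  rfl

/-- `(R, L)` is good: `R` is receptive and `Aut_S^L(R)` is Sylow in `Aut_F^L(R)` -/
def Good (F : FusionSystem S) (p : ℕ) (R : Subgroup Ω) (L : Subgroup (MulAut R)) : Prop :=
  F.IsReceptive R ∧ SylIn p (autInducedBy S R ⊓ L) (F.autGroup R ⊓ L)

/-- transport of a group of automorphisms along an isomorphism -/
abbrev trL {R R' : Subgroup Ω} (e : R ≃* R') (L : Subgroup (MulAut R)) : Subgroup (MulAut R') :=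
  L.map (MulAut.congr e).toMonoidHom

lemma congr_apply {R R' : Subgroup Ω} (e : R ≃* R') (α : MulAut R) (x : R) :
    MulAut.congr e α (e x) = e (α x) := by
  show e (α (e.symm (e x))) = _
  rw [MulEquiv.symm_apply_apply]

lemma trL_trans {R R' R'' : Subgroup Ω} (e : R ≃* R') (e' : R' ≃* R'') (L : Subgroup (MulAut R)) :
    trL e' (trL e L) = trL (e.trans e') L := by
  unfold trL
  rw [Subgroup.map_map]
  rfl

lemma trL_aut {R R' : Subgroup Ω} (e : R ≃* R') (β : MulAut R') (L : Subgroup (MulAut R)) :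
    trL (e.trans β) L = cj β (trL e L) := by
  unfold trL cj
  rw [Subgroup.map_map]
  rfl

variable [Finite S] {p : ℕ} [Fact p.Prime]

theorem exists_good (hS : IsPGroup p S) {F : FusionSystem S} (hF : F.IsSaturated p)
    {R : Subgroup Ω} (hR : R ≤ S) (L : Subgroup (MulAut R)) :
    ∃ (R' : Subgroup Ω) (e : R ≃* R'), Helper27.IsIso F e ∧ Good F p R' (trL e L) := by
  obtain ⟨U, hRU, hU⟩ := Helper27.IsSaturated.exists_fullyNormalized hS hF hR
  obtain ⟨-, hUaut, hUrec⟩ := Helper27.IsSaturated.fullyNormalized_props hS hF hU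
  have hUS := hU.1
  have hfinU : Finite U := finite_of_le hUS
  obtain ⟨e₀, he₀⟩ := Helper27.exists_iso_of_isConj hRU
  obtain ⟨β, hβ, hsyl⟩ := sylIn_exists_conj_inf (Helper27.autInducedBy_le_autGroup F hUS)
    hUaut.2 (trL e₀ L)
  refine ⟨U, e₀.trans β, he₀.trans ((Helper27.mem_autGroup_iff_isIso F hUS β).mp hβ), hUrec, ?_⟩
  rw [trL_aut]
  exact hsyl

theorem exists_ext_of_good (hS : IsPGroup p S) {F : FusionSystem S} {Q : Subgroup Ω}
    {K : Subgroup (MulAut Q)} (hg : Good F p Q K) {P : Subgroup Ω} {e : Q ≃* P}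
    (he : Helper27.IsIso F e) :
    ∃ χ ∈ F.autGroup Q ⊓ K, ∃ ψ, IsMap F (P ⊔ NK S P (trL e K)) ψ ∧
      ∀ y : Q, ψ (e y) = ((χ y : Q) : Ω) := by
  obtain ⟨hrec, hsyl⟩ := hg
  have hQS := hrec.1
  have hPS := he.target_le
  have hfinQ : Finite Q := finite_of_le hQS
  set B := (autInducedBy S P ⊓ trL e K).map (MulAut.congr e.symm).toMonoidHom with hB
  have hBp : IsPGroup p B := ((Helper27.autInducedBy_isPGroup hS P).to_le inf_le_left).map _
  have hBle : B ≤ F.autGroup Q ⊓ K := by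
    rintro _ ⟨l, ⟨hl1, k, hk, rfl⟩, rfl⟩
    refine ⟨he.symm.congr_mem_autGroup (Helper27.autInducedBy_le_autGroup F hPS hl1), ?_⟩
    have : (MulAut.congr e.symm).toMonoidHom ((MulAut.congr e).toMonoidHom k) = k := by
      ext x; simp [MulAut.congr]
    rw [this]; exact hk
  obtain ⟨χ, hχ, hχB⟩ := hsyl.exists_conj_le hBle hBp
  have hχm := (mem_autGroup_iff hQS).mp hχ.1
  have hem : IsMap F P (toFun (Q.subtype.comp e.symm.toMonoidHom)) := isMap_toFun he.symm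
  have hev : ∀ x : P, toFun (Q.subtype.comp e.symm.toMonoidHom) x = ((e.symm x : Q) : Ω) :=
    fun x => toFun_apply _ x
  have hf : IsMap F P (autFun χ ∘ toFun (Q.subtype.comp e.symm.toMonoidHom)) :=
    hem.comp hχm (fun x hx => by rw [hev ⟨x, hx⟩]; exact (e.symm ⟨x, hx⟩).2)
  have hfv : ∀ x : P, (autFun χ ∘ toFun (Q.subtype.comp e.symm.toMonoidHom)) x =
      ((χ (e.symm x) : Q) : Ω) := fun x => by
    show autFun χ (toFun _ (x : Ω)) = _
    rw [hev, autFun_apply]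
  have himg : img P (autFun χ ∘ toFun (Q.subtype.comp e.symm.toMonoidHom)) = Q := by
    apply le_antisymm
    · apply (Subgroup.closure_le _).mpr
      rintro _ ⟨x, hx, rfl⟩
      rw [hfv ⟨x, hx⟩]
      exact (χ _).2
    · intro y hy
      have : (autFun χ ∘ toFun (Q.subtype.comp e.symm.toMonoidHom)) (e (χ⁻¹ ⟨y, hy⟩) : P) ∈
          img P (autFun χ ∘ toFun (Q.subtype.comp e.symm.toMonoidHom)) :=
        mem_img_of_mem (e (χ⁻¹ ⟨y, hy⟩)).2
      rwa [hfv, MulEquiv.symm_apply_apply, MulAut.apply_inv_self] at this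
  obtain ⟨ψ, hψ, hψf⟩ := exists_ext_sup_of_receptive (A := NK S P (trL e K)) hrec hf himg (by
    rintro g hg
    obtain ⟨hgS, l, hl, hlg⟩ := hg
    have hgn : g ∈ Subgroup.normalizer (P : Set Ω) := mem_normalizer_of_aut hlg
    refine ⟨hgS, hgn, ?_⟩
    have hlS : l ∈ autInducedBy S P := mem_autInducedBy_iff.mpr ⟨g, hgS, hlg⟩
    have hb : (MulAut.congr e.symm).toMonoidHom l ∈ B := ⟨l, ⟨hlS, hl⟩, rfl⟩
    obtain ⟨h, hh, hh'⟩ := mem_autInducedBy_iff.mp (hχB (conj_mem_cj hb)).1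
    refine ⟨h, hh, fun x hx => ?_⟩
    have hgx : g * x * g⁻¹ ∈ P := (Subgroup.mem_normalizer_iff.mp hgn x).mp hx
    have h1 := hh' (χ (e.symm ⟨x, hx⟩))
    rw [hfv ⟨x, hx⟩, ← h1, hfv ⟨g * x * g⁻¹, hgx⟩]
    show _ = ((χ (e.symm (l (e.symm.symm (χ⁻¹ (χ (e.symm ⟨x, hx⟩)))))) : Q) : Ω)
    rw [MulAut.inv_apply_self, MulEquiv.symm_symm, MulEquiv.apply_symm_apply]
    congr 3
    exact Subtype.ext (hlg ⟨x, hx⟩).symm)
  refine ⟨χ, hχ, ψ, hψ, fun y => ?_⟩
  rw [hψf _ (e y).2, hfv, MulEquiv.symm_apply_apply]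

theorem good_of_ext (hS : IsPGroup p S) {F : FusionSystem S} (hF : F.IsSaturated p)
    {R : Subgroup Ω} {L : Subgroup (MulAut R)} (hg : Good F p R L) {f : Ω → Ω}
    (hf : IsMap F (R ⊔ NK S R L) f) {R' : Subgroup Ω} {e : R ≃* R'}
    (he : ∀ x : R, ((e x : R') : Ω) = f x) : Good F p R' (trL e L) := by
  obtain ⟨hrec, hsyl⟩ := hg
  have hRS := hrec.1
  have hfR := hf.mono le_sup_left
  have heI : Helper27.IsIso F e := hfR.hom_mem (fun x => he x)
  have hR'S := heI.target_le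
  have hfinR : Finite R := finite_of_le hRS
  have hfinR' : Finite R' := finite_of_le hR'S
  constructor
  · apply Helper27.IsSaturated.receptive_of_fullyCentralized hS hF
    have hfc := Helper27.fullyCentralized_of_receptive F hrec
    refine ⟨hR'S, fun Q' hQ' => ?_⟩
    have h1 : Nat.card (centralizerIn S Q') ≤ Nat.card (centralizerIn S R) :=
      hfc.2 Q' (isConj_trans heI.isConj hQ')
    refine h1.trans ?_
    have hCle : centralizerIn S R ≤ R ⊔ NK S R L := (centralizerIn_le_NK R L).trans le_sup_right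
    have hfC := hf.mono hCle
    rw [← hfC.card_img]
    have : Finite (centralizerIn S R') := finite_of_le inf_le_left
    apply Subgroup.card_le_of_le
    intro y hy
    obtain ⟨c, hc, rfl⟩ := hfC.mem_img.mp hy
    refine ⟨hfC.mem_S hc, Subgroup.mem_centralizer_iff.mpr fun z hz => ?_⟩
    obtain ⟨x, rfl⟩ : ∃ x : R, f x = z :=
      ⟨e.symm ⟨z, hz⟩, by rw [← he, MulEquiv.apply_symm_apply]⟩
    have hx : (x : Ω) ∈ R ⊔ NK S R L := (le_sup_left : R ≤ R ⊔ NK S R L) x.2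
    rw [← hf.map_mul hx (hCle hc), ← hf.map_mul (hCle hc) hx,
      (Subgroup.mem_centralizer_iff.mp hc.2) x x.2]
  · have hle : autInducedBy S R' ⊓ trL e L ≤ F.autGroup R' ⊓ trL e L :=
      inf_le_inf_right _ (Helper27.autInducedBy_le_autGroup F hR'S)
    apply sylIn_of_le_card hle ((Helper27.autInducedBy_isPGroup hS R').to_le inf_le_left)
    have e1 : F.autGroup R' ⊓ trL e L = (F.autGroup R ⊓ L).map (MulAut.congr e).toMonoidHom := by
      ext α'
      constructor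
      · rintro ⟨h1, α, hα, rfl⟩
        exact ⟨α, ⟨(heI.congr_mem_autGroup_iff α).mpr h1, hα⟩, rfl⟩
      · rintro ⟨α, ⟨h1, h2⟩, rfl⟩
        exact ⟨heI.congr_mem_autGroup h1, α, h2, rfl⟩
    rw [e1, Subgroup.card_map_of_injective (MulAut.congr e).injective,
      ← (sylIn_iff_card (inf_le_inf_right _ (Helper27.autInducedBy_le_autGroup F hRS))).mp hsyl,
      ← Subgroup.card_map_of_injective (K := autInducedBy S R ⊓ L) (f := (MulAut.congr e).toMonoidHom)
        (MulAut.congr e).injective]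
    apply Subgroup.card_le_of_le
    rintro _ ⟨α, ⟨h1, h2⟩, rfl⟩
    refine ⟨?_, α, h2, rfl⟩
    obtain ⟨g, hg, hαg⟩ := mem_autInducedBy_iff.mp h1
    have hgN : g ∈ R ⊔ NK S R L := (le_sup_right : NK S R L ≤ R ⊔ NK S R L) ⟨hg, α, h2, hαg⟩
    refine mem_autInducedBy_iff.mpr ⟨f g, hf.mem_S hgN, fun z => ?_⟩
    obtain ⟨x, rfl⟩ := e.surjective z
    have hx : (x : Ω) ∈ R ⊔ NK S R L := (le_sup_left : R ≤ R ⊔ NK S R L) x.2
    rw [show (MulAut.congr e).toMonoidHom α (e x) = e (α x) from congr_apply e α x, he, hαg, he,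
      hf.map_mul (Subgroup.mul_mem _ hgN hx) (Subgroup.inv_mem _ hgN), hf.map_mul hgN hx,
      hf.map_inv hgN]

end Cfsg.Agent.Lib.Helper26
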