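import Cfsg.Agent.Lib.Helper26.KNorm
import Cfsg.Agent.Lib.Helper26.Invariant

set_option autoImplicit false

namespace Cfsg.Agent.Lib.Helper26

open Cfsg Cfsg.FusionSystem

variable {Ω : Type*} [Group Ω] {S : Subgroup Ω}

lemma autFun_map_mul {R : Subgroup Ω} (α : MulAut R) {x y : Ω} (hx : x ∈ R) (hy : y ∈ R) :
    autFun α (x * y) = autFun α x * autFun α y := by
  rw [autFun_of_mem α hx, autFun_of_mem α hy, autFun_of_mem α (R.mul_mem hx hy), ← Subgroup.coe_mul,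
    ← map_mul]
  rfl

lemma autFun_inj {R : Subgroup Ω} (α : MulAut R) {x y : Ω} (hx : x ∈ R) (hy : y ∈ R)
    (h : autFun α x = autFun α y) : x = y := by
  rw [← autFun_inv_autFun α hx, h, autFun_inv_autFun α hy]

/-- `K_P`: automorphisms of `PQ` stabilizing `P` and inducing an element of `K` on `Q` -/
def KP (P Q : Subgroup Ω) (K : Subgroup (MulAut Q)) : Subgroup (MulAut ↥(P ⊔ Q)) where
  carrier := {α | (∀ x ∈ P ⊔ Q, x ∈ P ↔ autFun α x ∈ P) ∧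
    ∃ κ ∈ K, ∀ y ∈ Q, autFun α y = autFun κ y}
  one_mem' := ⟨fun x hx => by rw [autFun_one hx], 1, K.one_mem, fun y hy => by
    rw [autFun_one ((le_sup_right : Q ≤ P ⊔ Q) hy), autFun_one hy]⟩
  mul_mem' := by
    rintro α β ⟨hα, κ, hκ, hακ⟩ ⟨hβ, μ, hμ, hβμ⟩
    refine ⟨fun x hx => ?_, κ * μ, K.mul_mem hκ hμ, fun y hy => ?_⟩
    · rw [autFun_mul _ _ hx, hβ x hx, hα _ (autFun_mem β hx)]
    · rw [autFun_mul _ _ ((le_sup_right : Q ≤ P ⊔ Q) hy), hβμ y hy, hακ _ (autFun_mem μ hy),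
        autFun_mul _ _ hy]
  inv_mem' := by
    rintro α ⟨hα, κ, hκ, hακ⟩
    refine ⟨fun x hx => ?_, κ⁻¹, K.inv_mem hκ, fun y hy => ?_⟩
    · rw [hα _ (autFun_mem α⁻¹ hx), autFun_autFun_inv α hx]
    · have h1 := hακ _ (autFun_mem κ⁻¹ hy)
      rw [autFun_autFun_inv κ hy] at h1
      conv_lhs => rw [← h1]
      exact autFun_inv_autFun α ((le_sup_right : Q ≤ P ⊔ Q) (autFun_mem κ⁻¹ hy))

lemma mem_KP {P Q : Subgroup Ω} {K : Subgroup (MulAut Q)} {α : MulAut ↥(P ⊔ Q)} :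
    α ∈ KP P Q K ↔ (∀ x ∈ P ⊔ Q, x ∈ P ↔ autFun α x ∈ P) ∧
      ∃ κ ∈ K, ∀ y ∈ Q, autFun α y = autFun κ y := Iff.rfl

lemma mem_KP_of {P Q : Subgroup Ω} [Finite P] {K : Subgroup (MulAut Q)} {α : MulAut ↥(P ⊔ Q)}
    (h1 : ∀ x ∈ P, autFun α x ∈ P) (h2 : ∃ κ ∈ K, ∀ y ∈ Q, autFun α y = autFun κ y) :
    α ∈ KP P Q K := by
  refine ⟨fun x hx => ⟨h1 x, fun hαx => ?_⟩, h2⟩
  have hinj : Function.Injective (fun z : P => (⟨autFun α z, h1 z z.2⟩ : P)) := by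
    intro a b hab
    exact Subtype.ext (autFun_inj α ((le_sup_left : P ≤ P ⊔ Q) a.2)
      ((le_sup_left : P ≤ P ⊔ Q) b.2) (congrArg Subtype.val hab))
  obtain ⟨z, hz⟩ := (Finite.injective_iff_surjective.mp hinj) ⟨autFun α x, hαx⟩
  have := autFun_inj α ((le_sup_left : P ≤ P ⊔ Q) z.2) hx (congrArg Subtype.val hz)
  exact this ▸ z.2

/-- restriction of an automorphism to a stable subgroup -/
noncomputable def resOne {R P : Subgroup Ω} (hPR : P ≤ R) (α : MulAut R)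
    (h : ∀ x ∈ R, x ∈ P ↔ autFun α x ∈ P) : MulAut P where
  toFun x := ⟨autFun α x, (h x (hPR x.2)).mp x.2⟩
  invFun x := ⟨autFun α⁻¹ x, by
    rw [h _ (autFun_mem α⁻¹ (hPR x.2)), autFun_autFun_inv α (hPR x.2)]; exact x.2⟩
  left_inv x := Subtype.ext (autFun_inv_autFun α (hPR x.2))
  right_inv x := Subtype.ext (autFun_autFun_inv α (hPR x.2))
  map_mul' x y := Subtype.ext (autFun_map_mul α (hPR x.2) (hPR y.2))

/-- restriction homomorphism -/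
noncomputable def resAut {R P : Subgroup Ω} (hPR : P ≤ R) (H : Subgroup (MulAut R))
    (hH : ∀ α ∈ H, ∀ x ∈ R, x ∈ P ↔ autFun α x ∈ P) : H →* MulAut P :=
  MonoidHom.mk' (fun α => resOne hPR α (hH α α.2)) (by
    intro α β
    ext x
    exact autFun_mul _ _ (hPR x.2))

lemma resAut_apply {R P : Subgroup Ω} (hPR : P ≤ R) (H : Subgroup (MulAut R))
    (hH : ∀ α ∈ H, ∀ x ∈ R, x ∈ P ↔ autFun α x ∈ P) (α : H) (x : P) :
    ((resAut hPR H hH α x : P) : Ω) = autFun (α : MulAut R) x := rfl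

/-- data describing the `K`-normalizer system `E = N_F^K(Q)` over `T = N_S^K(Q)` -/
structure KData (F : FusionSystem S) (Q : Subgroup Ω) (K : Subgroup (MulAut Q)) {T : Subgroup Ω}
    (E : FusionSystem T) : Prop where
  hQ : Q ≤ S
  hT : ∀ g, g ∈ T ↔ g ∈ NK S Q K
  hE : ∀ P f, IsMap E P f ↔ IsMap F P f ∧ P ≤ T ∧ (∀ x ∈ P, f x ∈ T) ∧
    ∃ g, IsMap F (P ⊔ Q) g ∧ (∀ x ∈ P, g x = f x) ∧ ∃ κ ∈ K, ∀ y ∈ Q, g y = autFun κ y

namespace KData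

variable {F : FusionSystem S} {Q : Subgroup Ω} {K : Subgroup (MulAut Q)} {T : Subgroup Ω}
  {E : FusionSystem T}

lemma le_S (d : KData F Q K E) : T ≤ S := fun _ hg => ((d.hT _).mp hg).1

lemma le_normalizer (d : KData F Q K E) : T ≤ Subgroup.normalizer (Q : Set Ω) :=
  fun _ hg => NK_le_normalizer Q K ((d.hT _).mp hg)

lemma conjK (d : KData F Q K E) {t : Ω} (ht : t ∈ T) :
    ∃ κ ∈ K, ∀ y ∈ Q, autFun κ y = t * y * t⁻¹ := by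
  obtain ⟨-, l, hl, hl'⟩ := (d.hT _).mp ht
  exact ⟨l, hl, fun y hy => by rw [autFun_of_mem l hy, hl']⟩

lemma mem_T_of (d : KData F Q K E) {t : Ω} (htS : t ∈ S)
    (h : ∃ κ ∈ K, ∀ y ∈ Q, autFun κ y = t * y * t⁻¹) : t ∈ T := by
  obtain ⟨κ, hκ, hκ'⟩ := h
  exact (d.hT _).mpr ⟨htS, κ, hκ, fun y => by rw [← hκ' y y.2, autFun_apply]⟩

end KData

lemma mem_normalizer_sup {P Q : Subgroup Ω} {g : Ω} (hP : g ∈ Subgroup.normalizer (P : Set Ω))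
    (hQ : g ∈ Subgroup.normalizer (Q : Set Ω)) :
    g ∈ Subgroup.normalizer ((P ⊔ Q : Subgroup Ω) : Set Ω) := by
  have key : ∀ g : Ω, g ∈ Subgroup.normalizer (P : Set Ω) → g ∈ Subgroup.normalizer (Q : Set Ω) →
      ∀ x ∈ P ⊔ Q, g * x * g⁻¹ ∈ P ⊔ Q := by
    intro g hP hQ x hx
    have hle : P ⊔ Q ≤ (P ⊔ Q).comap (MulAut.conj g).toMonoidHom := by
      refine sup_le (fun y hy => ?_) (fun y hy => ?_)
      · exact (le_sup_left : P ≤ P ⊔ Q) ((Subgroup.mem_normalizer_iff.mp hP y).mp hy)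
      · exact (le_sup_right : Q ≤ P ⊔ Q) ((Subgroup.mem_normalizer_iff.mp hQ y).mp hy)
    exact hle hx
  rw [Subgroup.mem_normalizer_iff]
  intro x
  refine ⟨key g hP hQ x, fun h => ?_⟩
  have := key g⁻¹ (Subgroup.inv_mem _ hP) (Subgroup.inv_mem _ hQ) _ h
  have e : g⁻¹ * (g * x * g⁻¹) * g⁻¹⁻¹ = x := by group
  rwa [e] at this

variable [Finite S] {p : ℕ} [Fact p.Prime]
variable {F : FusionSystem S} {Q : Subgroup Ω} {K : Subgroup (MulAut Q)} {T : Subgroup Ω}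
  {E : FusionSystem T}

theorem knorm_automized (d : KData F Q K E) {P : Subgroup Ω} (hPT : P ≤ T)
    (hg : Good F p (P ⊔ Q) (KP P Q K)) : E.IsFullyAutomized p P := by
  have hTS := d.le_S
  have hPS := hPT.trans hTS
  have hRS : P ⊔ Q ≤ S := sup_le hPS d.hQ
  have hfinR : Finite ↥(P ⊔ Q) := finite_of_le hRS
  have hfinP : Finite P := finite_of_le hPS
  have hPR : P ≤ P ⊔ Q := le_sup_left
  have hQR : Q ≤ P ⊔ Q := le_sup_right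
  refine ⟨hPT, ?_⟩
  set Φ := resAut hPR (F.autGroup (P ⊔ Q) ⊓ KP P Q K) (fun α hα => hα.2.1) with hΦ
  have hΦv : ∀ (α : ↥(F.autGroup (P ⊔ Q) ⊓ KP P Q K)), ∀ x ∈ P,
      autFun (Φ α) x = autFun (α : MulAut ↥(P ⊔ Q)) x := by
    intro α x hx
    rw [autFun_of_mem _ hx]
    rfl
  have h1 := SylIn.map (p := p) hg.2 Φ
  have e1 : Φ.range = E.autGroup P := by
    apply le_antisymm
    · rintro _ ⟨α, rfl⟩
      have hαm := (mem_autGroup_iff hRS).mp α.2.1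
      rw [mem_autGroup_iff hPT, d.hE]
      refine ⟨(hαm.mono hPR).congr (fun x hx => (hΦv α x hx).symm), hPT,
        fun x hx => hPT (autFun_mem _ hx), autFun (α : MulAut ↥(P ⊔ Q)), hαm,
        fun x hx => (hΦv α x hx).symm, α.2.2.2⟩
    · intro β hβ
      obtain ⟨-, -, -, g, hg', hgβ, κ, hκ, hgκ⟩ := (d.hE _ _).mp ((mem_autGroup_iff hPT).mp hβ)
      have himg : img (P ⊔ Q) g = P ⊔ Q := by
        rw [hg'.img_sup hPR hQR, img_congr hgβ, img_autFun, img_congr hgκ, img_autFun]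
      obtain ⟨α, hα, hαg⟩ := hg'.exists_aut himg
      have hαv : ∀ x ∈ P ⊔ Q, autFun α x = g x := fun x hx => by rw [autFun_of_mem α hx, hαg]
      have hαK : α ∈ KP P Q K := mem_KP_of
        (fun x hx => by rw [hαv x (hPR hx), hgβ x hx]; exact autFun_mem β hx)
        ⟨κ, hκ, fun y hy => by rw [hαv y (hQR hy), hgκ y hy]⟩
      refine ⟨⟨α, hα, hαK⟩, ?_⟩
      ext x
      rw [← autFun_apply, hΦv _ x x.2, hαv x (hPR x.2), hgβ x x.2, autFun_apply]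
  have e2 : ((autInducedBy S (P ⊔ Q) ⊓ KP P Q K).subgroupOf
      (F.autGroup (P ⊔ Q) ⊓ KP P Q K)).map Φ = autInducedBy T P := by
    apply le_antisymm
    · rintro _ ⟨α, hα, rfl⟩
      obtain ⟨hα1, hα2⟩ := Subgroup.mem_subgroupOf.mp hα
      obtain ⟨s, hs, hαs⟩ := mem_autInducedBy_iff.mp hα1
      have hαv : ∀ x ∈ P ⊔ Q, autFun (α : MulAut ↥(P ⊔ Q)) x = s * x * s⁻¹ :=
        fun x hx => by rw [autFun_of_mem _ hx, hαs]
      obtain ⟨κ, hκ, hακ⟩ := hα2.2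
      have hsT : s ∈ T := d.mem_T_of hs ⟨κ, hκ, fun y hy => by rw [← hακ y hy, hαv y (hQR hy)]⟩
      refine mem_autInducedBy_iff.mpr ⟨s, hsT, fun x => ?_⟩
      rw [← autFun_apply, hΦv _ x x.2, hαv x (hPR x.2)]
    · intro β hβ
      obtain ⟨t, ht, hβt⟩ := mem_autInducedBy_iff.mp hβ
      have htP : t ∈ Subgroup.normalizer (P : Set Ω) := mem_normalizer_of_aut hβt
      have htR := mem_normalizer_sup htP (d.le_normalizer ht)
      have hc : Helper27.conjAut (P ⊔ Q) t htR ∈ autInducedBy S (P ⊔ Q) :=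
        Helper27.conjAut_mem_autInducedBy (hTS ht) htR
      have hcv : ∀ x ∈ P ⊔ Q, autFun (Helper27.conjAut (P ⊔ Q) t htR) x = t * x * t⁻¹ :=
        fun x hx => by rw [autFun_of_mem _ hx]; rfl
      obtain ⟨κ, hκ, hκt⟩ := d.conjK ht
      have hcK : Helper27.conjAut (P ⊔ Q) t htR ∈ KP P Q K := mem_KP_of
        (fun x hx => by
          rw [hcv x (hPR hx)]; exact (Subgroup.mem_normalizer_iff.mp htP x).mp hx)
        ⟨κ, hκ, fun y hy => by rw [hcv y (hQR hy), hκt y hy]⟩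
      refine ⟨⟨_, Helper27.autInducedBy_le_autGroup F hRS hc, hcK⟩,
        Subgroup.mem_subgroupOf.mpr ⟨hc, hcK⟩, ?_⟩
      ext x
      rw [← autFun_apply, hΦv _ x x.2, hcv x (hPR x.2), hβt]
  rw [e1, e2] at h1
  exact h1

omit [Finite S] in
/-- automorphisms of `PQ` fixing `P` elementwise -/
def fixP (P Q : Subgroup Ω) : Subgroup (MulAut ↥(P ⊔ Q)) where
  carrier := {α | ∀ x ∈ P, autFun α x = x}
  one_mem' := fun x hx => autFun_one ((le_sup_left : P ≤ P ⊔ Q) hx)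
  mul_mem' := by
    intro α β hα hβ x hx
    rw [autFun_mul _ _ ((le_sup_left : P ≤ P ⊔ Q) hx), hβ x hx, hα x hx]
  inv_mem' := by
    intro α hα x hx
    conv_lhs => rw [← hα x hx]
    exact autFun_inv_autFun α ((le_sup_left : P ≤ P ⊔ Q) hx)

theorem knorm_receptive (hS : IsPGroup p S) (d : KData F Q K E) {P : Subgroup Ω} (hPT : P ≤ T)
    (hg : Good F p (P ⊔ Q) (KP P Q K)) : E.IsReceptive P := by
  have hTS := d.le_S
  have hPS := hPT.trans hTS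
  have hPQS : P ⊔ Q ≤ S := sup_le hPS d.hQ
  have hfinPQ : Finite ↥(P ⊔ Q) := finite_of_le hPQS
  have hfinP : Finite P := finite_of_le hPS
  have hPP : P ≤ P ⊔ Q := le_sup_left
  have hQP : Q ≤ P ⊔ Q := le_sup_right
  apply isReceptive_of hPT
  intro R N f hf himg hRN hN
  obtain ⟨hfF, hRT, hfT, fb, hfb, hfbf, κ₀, hκ₀, hfbκ⟩ := (d.hE _ _).mp hf
  have hRS := hRT.trans hTS
  have hRQS : R ⊔ Q ≤ S := sup_le hRS d.hQ
  have hNT : N ≤ T := fun g hg => (hN g hg).1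
  have hNS : N ≤ S := hNT.trans hTS
  have hRR : R ≤ R ⊔ Q := le_sup_left
  have hQR : Q ≤ R ⊔ Q := le_sup_right
  have himgb : img (R ⊔ Q) fb = P ⊔ Q := by
    rw [hfb.img_sup hRR hQR, img_congr hfbf, himg, img_congr hfbκ, img_autFun]
  obtain ⟨e, he, hef⟩ := hfb.exists_iso himgb
  have hNn : ∀ g ∈ N, g ∈ Subgroup.normalizer ((R ⊔ Q : Subgroup Ω) : Set Ω) :=
    fun g hg => mem_normalizer_sup (hN g hg).2.1 (d.le_normalizer (hNT hg))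
  have hconjR : ∀ g ∈ N, ∀ x ∈ R, g * x * g⁻¹ ∈ R :=
    fun g hg x hx => (Subgroup.mem_normalizer_iff.mp (hN g hg).2.1 x).mp hx
  have hSgA : autInducedBy S (P ⊔ Q) ⊓ KP P Q K ≤ F.autGroup (P ⊔ Q) ⊓ KP P Q K :=
    inf_le_inf_right _ (Helper27.autInducedBy_le_autGroup F hPQS)
  have hn : F.autGroup (P ⊔ Q) ⊓ KP P Q K ≤ Subgroup.normalizer
      ((F.autGroup (P ⊔ Q) ⊓ KP P Q K ⊓ fixP P Q : Subgroup (MulAut ↥(P ⊔ Q))) :
        Set (MulAut ↥(P ⊔ Q))) := by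
    have key : ∀ a ∈ F.autGroup (P ⊔ Q) ⊓ KP P Q K,
        ∀ α ∈ F.autGroup (P ⊔ Q) ⊓ KP P Q K ⊓ fixP P Q,
        a * α * a⁻¹ ∈ F.autGroup (P ⊔ Q) ⊓ KP P Q K ⊓ fixP P Q := by
      intro a ha α hα
      refine ⟨Subgroup.mul_mem _ (Subgroup.mul_mem _ ha hα.1) (Subgroup.inv_mem _ ha),
        fun x hx => ?_⟩
      have hx' : autFun a⁻¹ x ∈ P := (((KP P Q K).inv_mem ha.2).1 x (hPP hx)).mp hx
      rw [autFun_mul _ _ (hPP hx), autFun_mul _ _ (hPP hx'), hα.2 _ hx',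
        autFun_autFun_inv a (hPP hx)]
    intro a ha
    rw [Subgroup.mem_normalizer_iff]
    intro α
    refine ⟨key a ha α, fun h => ?_⟩
    have := key a⁻¹ (Subgroup.inv_mem _ ha) _ h
    have e : a⁻¹ * (a * α * a⁻¹) * a⁻¹⁻¹ = α := by group
    rwa [e] at this
  set B := (autInducedBy N (R ⊔ Q)).map (MulAut.congr e).toMonoidHom with hB
  have hBp : IsPGroup p B :=
    ((Helper27.autInducedBy_isPGroup hS (R ⊔ Q)).to_le (autInducedBy_mono hNS _)).map _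
  have hBle : B ≤ (autInducedBy S (P ⊔ Q) ⊓ KP P Q K) ⊔
      (F.autGroup (P ⊔ Q) ⊓ KP P Q K ⊓ fixP P Q) := by
    rintro _ ⟨c, hc, rfl⟩
    obtain ⟨g, hg', hcg⟩ := mem_autInducedBy_iff.mp hc
    obtain ⟨hgT, hgn, k, hk, hkf⟩ := hN g hg'
    have hbv : ∀ x ∈ R ⊔ Q, autFun (MulAut.congr e c) (fb x) = fb (g * x * g⁻¹) := by
      intro x hx
      rw [← hef ⟨x, hx⟩, autFun_apply, congr_apply, hef, hcg]
    have hcA : c ∈ F.autGroup (R ⊔ Q) :=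
      Helper27.autInducedBy_le_autGroup F hRQS (autInducedBy_mono hNS _ hc)
    have hbA : MulAut.congr e c ∈ F.autGroup (P ⊔ Q) := he.congr_mem_autGroup hcA
    obtain ⟨κg, hκg, hκg'⟩ := d.conjK hgT
    have hbK : MulAut.congr e c ∈ KP P Q K := by
      refine mem_KP_of (fun z hz => ?_)
        ⟨κ₀ * κg * κ₀⁻¹, K.mul_mem (K.mul_mem hκ₀ hκg) (K.inv_mem hκ₀), fun y hy => ?_⟩
      · rw [← himg] at hz
        obtain ⟨x, hx, rfl⟩ := hfF.mem_img.mp hz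
        rw [← hfbf x hx, hbv x (hRR hx), hfbf _ (hconjR g hg' x hx), ← himg]
        exact mem_img_of_mem (hconjR g hg' x hx)
      · have hy0 : autFun κ₀⁻¹ y ∈ Q := autFun_mem _ hy
        have e1 : fb (autFun κ₀⁻¹ y) = y := by rw [hfbκ _ hy0, autFun_autFun_inv κ₀ hy]
        conv_lhs => rw [← e1]
        rw [hbv _ (hQR hy0), ← hκg' _ hy0, hfbκ _ (autFun_mem κg hy0), autFun_mul _ _ hy,
          autFun_mul _ _ hy0]
    have hkP : k ∈ Subgroup.normalizer (P : Set Ω) := mem_normalizer_of_conj_mem (fun z hz => by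
      rw [← himg] at hz ⊢
      obtain ⟨x, hx, rfl⟩ := hfF.mem_img.mp hz
      rw [← hkf x hx]
      exact mem_img_of_mem (hconjR g hg' x hx))
    have hkn := mem_normalizer_sup hkP (d.le_normalizer hk)
    have hck : Helper27.conjAut (P ⊔ Q) k hkn ∈ autInducedBy S (P ⊔ Q) :=
      Helper27.conjAut_mem_autInducedBy (hTS hk) hkn
    have hckv : ∀ x ∈ P ⊔ Q, autFun (Helper27.conjAut (P ⊔ Q) k hkn) x = k * x * k⁻¹ :=
      fun x hx => by rw [autFun_of_mem _ hx]; rfl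
    obtain ⟨κk, hκk, hκk'⟩ := d.conjK hk
    have hckK : Helper27.conjAut (P ⊔ Q) k hkn ∈ KP P Q K := mem_KP_of
      (fun x hx => by
        rw [hckv x (hPP hx)]; exact (Subgroup.mem_normalizer_iff.mp hkP x).mp hx)
      ⟨κk, hκk, fun y hy => by rw [hckv y (hQP hy), hκk' y hy]⟩
    have hb0 : MulAut.congr e c * (Helper27.conjAut (P ⊔ Q) k hkn)⁻¹ ∈
        F.autGroup (P ⊔ Q) ⊓ KP P Q K ⊓ fixP P Q := by
      refine ⟨⟨Subgroup.mul_mem _ hbA (Subgroup.inv_mem _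
        (Helper27.autInducedBy_le_autGroup F hPQS hck)),
        Subgroup.mul_mem _ hbK (Subgroup.inv_mem _ hckK)⟩, fun z hz => ?_⟩
      rw [autFun_mul _ _ (hPP hz)]
      have hw : autFun (Helper27.conjAut (P ⊔ Q) k hkn)⁻¹ z ∈ P :=
        (((KP P Q K).inv_mem hckK).1 z (hPP hz)).mp hz
      have hzw : z = k * autFun (Helper27.conjAut (P ⊔ Q) k hkn)⁻¹ z * k⁻¹ := by
        rw [← hckv _ (hPP hw), autFun_autFun_inv _ (hPP hz)]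
      have hw' : _ ∈ img R f := himg.ge hw
      obtain ⟨x, hx, hxw⟩ := hfF.mem_img.mp hw'
      rw [← hxw, ← hfbf x hx, hbv x (hRR hx), hfbf _ (hconjR g hg' x hx), hkf x hx, hxw, ← hzw]
    have := Subgroup.mul_mem _
      ((le_sup_right : _ ≤ (autInducedBy S (P ⊔ Q) ⊓ KP P Q K) ⊔
        (F.autGroup (P ⊔ Q) ⊓ KP P Q K ⊓ fixP P Q)) hb0)
      ((le_sup_left : _ ≤ (autInducedBy S (P ⊔ Q) ⊓ KP P Q K) ⊔
        (F.autGroup (P ⊔ Q) ⊓ KP P Q K ⊓ fixP P Q)) ⟨hck, hckK⟩)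
    rwa [inv_mul_cancel_right] at this
  obtain ⟨χ, hχ, hχB⟩ := sylIn_exists_conj_le_of_sup hSgA hg.2 inf_le_left hn hBp hBle
  have hχm : IsMap F (P ⊔ Q) (autFun χ) := (mem_autGroup_iff hPQS).mp hχ.1.1
  have hfbPQ : ∀ x ∈ R ⊔ Q, fb x ∈ P ⊔ Q := fun x hx => by rw [← himgb]; exact mem_img_of_mem hx
  have hf₂ : IsMap F (R ⊔ Q) (autFun χ ∘ fb) := hfb.comp hχm hfbPQ
  have himg₂ : img (R ⊔ Q) (autFun χ ∘ fb) = P ⊔ Q := by
    rw [hfb.img_comp hχm hfbPQ, himgb, img_autFun]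
  obtain ⟨ψ, hψ, hψf⟩ := exists_ext_sup_of_receptive (A := N) hg.1 hf₂ himg₂ (by
    intro g hg'
    refine ⟨hNS hg', hNn g hg', ?_⟩
    have hc : Helper27.conjAut (R ⊔ Q) g (hNn g hg') ∈ autInducedBy N (R ⊔ Q) :=
      Helper27.conjAut_mem_autInducedBy hg' (hNn g hg')
    obtain ⟨h, hh, hh'⟩ := mem_autInducedBy_iff.mp (hχB _ ⟨_, hc, rfl⟩).1
    refine ⟨h, hh, fun x hx => ?_⟩
    have hgx : g * x * g⁻¹ ∈ R ⊔ Q := (Subgroup.mem_normalizer_iff.mp (hNn g hg') x).mp hx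
    have h1 := hh' (χ (e ⟨x, hx⟩))
    have h2 : ((χ (e ⟨x, hx⟩) : ↥(P ⊔ Q)) : Ω) = (autFun χ ∘ fb) x := by
      show _ = autFun χ (fb x)
      rw [← hef ⟨x, hx⟩, autFun_apply]
    rw [h2] at h1
    rw [← h1]
    show autFun χ (fb (g * x * g⁻¹)) = _
    rw [← hef ⟨g * x * g⁻¹, hgx⟩, autFun_apply]
    show _ = ((χ (e (Helper27.conjAut (R ⊔ Q) g (hNn g hg') (e.symm (χ⁻¹ (χ (e ⟨x, hx⟩)))))) :
      ↥(P ⊔ Q)) : Ω)
    rw [MulAut.inv_apply_self, MulEquiv.symm_apply_apply]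
    rfl)
  obtain ⟨κχ, hκχ, hκχ'⟩ := hχ.1.2.2
  have hNle : N ≤ R ⊔ Q ⊔ N := le_sup_right
  have hQle : Q ≤ R ⊔ Q ⊔ N := hQR.trans le_sup_left
  have hψQ : ∀ y ∈ Q, ψ y = autFun (κχ * κ₀) y := by
    intro y hy
    rw [hψf y (hQR hy)]
    show autFun χ (fb y) = _
    rw [hfbκ y hy, hκχ' _ (autFun_mem κ₀ hy), autFun_mul _ _ hy]
  have hμ : κχ * κ₀ ∈ K := K.mul_mem hκχ hκ₀
  refine ⟨ψ, (d.hE _ _).mpr ⟨hψ.mono hNle, hNT, fun g hg' => ?_, ψ,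
    hψ.mono (sup_le hNle hQle), fun _ _ => rfl, κχ * κ₀, hμ, hψQ⟩, fun x hx => ?_⟩
  · obtain ⟨κg, hκg, hκg'⟩ := d.conjK (hNT hg')
    refine d.mem_T_of (hψ.mem_S (hNle hg'))
      ⟨(κχ * κ₀) * κg * (κχ * κ₀)⁻¹, K.mul_mem (K.mul_mem hμ hκg) (K.inv_mem hμ), fun y hy => ?_⟩
    have hy0 : autFun (κχ * κ₀)⁻¹ y ∈ Q := autFun_mem _ hy
    have e1 : ψ (autFun (κχ * κ₀)⁻¹ y) = y := by rw [hψQ _ hy0, autFun_autFun_inv _ hy]
    rw [autFun_mul _ _ hy, autFun_mul _ _ hy0, ← hψQ _ (autFun_mem κg hy0), hκg' _ hy0,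
      hψ.map_mul (Subgroup.mul_mem _ (hNle hg') (hQle hy0)) (Subgroup.inv_mem _ (hNle hg')),
      hψ.map_mul (hNle hg') (hQle hy0), hψ.map_inv (hNle hg'), e1]
  · rw [hψf x (hRR hx)]
    show autFun χ (fb x) = _
    rw [hfbf x hx]
    refine hχ.2 _ ?_
    rw [← himg]
    exact mem_img_of_mem hx

omit [Finite S] in
lemma KP_transport_le {P P' : Subgroup Ω} (e : ↥(P ⊔ Q) ≃* ↥(P' ⊔ Q))
    (heP : ∀ x : ↥(P ⊔ Q), (x : Ω) ∈ P ↔ ((e x : ↥(P' ⊔ Q)) : Ω) ∈ P')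
    {χ : MulAut Q} (hχ : χ ∈ K)
    (heQ : ∀ (y : Ω) (hy : y ∈ Q),
      ((e ⟨y, (le_sup_right : Q ≤ P ⊔ Q) hy⟩ : ↥(P' ⊔ Q)) : Ω) = autFun χ y) :
    trL e (KP P Q K) ≤ KP P' Q K := by
  rintro _ ⟨α, ⟨hα1, κ, hκ, hακ⟩, rfl⟩
  refine ⟨fun z hz => ?_, χ * κ * χ⁻¹, K.mul_mem (K.mul_mem hχ hκ) (K.inv_mem hχ),
    fun y hy => ?_⟩
  · obtain ⟨x, rfl⟩ : ∃ x : ↥(P ⊔ Q), ((e x : ↥(P' ⊔ Q)) : Ω) = z :=
      ⟨e.symm ⟨z, hz⟩, by rw [MulEquiv.apply_symm_apply]⟩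
    rw [autFun_apply]
    show _ ↔ ((MulAut.congr e α (e x) : ↥(P' ⊔ Q)) : Ω) ∈ P'
    rw [congr_apply, ← heP, ← heP, hα1 x x.2, autFun_apply]
  · have hy0 : autFun χ⁻¹ y ∈ Q := autFun_mem _ hy
    have e1 : ((e ⟨autFun χ⁻¹ y, (le_sup_right : Q ≤ P ⊔ Q) hy0⟩ : ↥(P' ⊔ Q)) : Ω) = y := by
      rw [heQ _ hy0, autFun_autFun_inv χ hy]
    conv_lhs => rw [← e1]
    rw [autFun_apply]
    show ((MulAut.congr e α (e _) : ↥(P' ⊔ Q)) : Ω) = _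
    rw [congr_apply]
    have h2 : α ⟨autFun χ⁻¹ y, (le_sup_right : Q ≤ P ⊔ Q) hy0⟩ =
        ⟨autFun κ (autFun χ⁻¹ y), (le_sup_right : Q ≤ P ⊔ Q) (autFun_mem κ hy0)⟩ :=
      Subtype.ext ((autFun_of_mem α ((le_sup_right : Q ≤ P ⊔ Q) hy0)).symm.trans (hακ _ hy0))
    rw [h2, heQ _ (autFun_mem κ hy0), autFun_mul _ _ hy, autFun_mul _ _ hy0]

omit [Finite S] in
lemma KP_transport {P P' : Subgroup Ω} (e : ↥(P ⊔ Q) ≃* ↥(P' ⊔ Q))
    (heP : ∀ x : ↥(P ⊔ Q), (x : Ω) ∈ P ↔ ((e x : ↥(P' ⊔ Q)) : Ω) ∈ P')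
    {χ : MulAut Q} (hχ : χ ∈ K)
    (heQ : ∀ (y : Ω) (hy : y ∈ Q),
      ((e ⟨y, (le_sup_right : Q ≤ P ⊔ Q) hy⟩ : ↥(P' ⊔ Q)) : Ω) = autFun χ y) :
    trL e (KP P Q K) = KP P' Q K := by
  apply le_antisymm (KP_transport_le e heP hχ heQ)
  have h := KP_transport_le (K := K) e.symm (fun z => by
    rw [heP (e.symm z), MulEquiv.apply_symm_apply]) (K.inv_mem hχ) (fun y hy => by
    have hy0 : autFun χ⁻¹ y ∈ Q := autFun_mem _ hy
    have e1 : e ⟨autFun χ⁻¹ y, (le_sup_right : Q ≤ P ⊔ Q) hy0⟩ =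
        ⟨y, (le_sup_right : Q ≤ P' ⊔ Q) hy⟩ :=
      Subtype.ext (by rw [heQ _ hy0, autFun_autFun_inv χ hy])
    rw [← e1, MulEquiv.symm_apply_apply])
  intro α' hα'
  refine ⟨MulAut.congr e.symm α', h ⟨α', hα', rfl⟩, ?_⟩
  ext x
  simp [MulAut.congr]

theorem knorm_exists_good (hS : IsPGroup p S) (hF : F.IsSaturated p) (d : KData F Q K E)
    (hgood : Good F p Q K) {P : Subgroup Ω} (hPT : P ≤ T) :
    ∃ (P' : Subgroup Ω) (f : Ω → Ω), IsMap E P f ∧ img P f = P' ∧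
      Good F p (P' ⊔ Q) (KP P' Q K) := by
  have hTS := d.le_S
  have hPS := hPT.trans hTS
  have hPQS : P ⊔ Q ≤ S := sup_le hPS d.hQ
  have hPP : P ≤ P ⊔ Q := le_sup_left
  have hQP : Q ≤ P ⊔ Q := le_sup_right
  obtain ⟨R₁, e₁, he₁, hgood₁⟩ := exists_good hS hF hPQS (KP P Q K)
  obtain ⟨f₁, hf₁, hf₁v⟩ : ∃ f₁, IsMap F (P ⊔ Q) f₁ ∧
      ∀ x : ↥(P ⊔ Q), f₁ x = ((e₁ x : R₁) : Ω) :=
    ⟨toFun (R₁.subtype.comp e₁.toMonoidHom), isMap_toFun he₁, fun x => toFun_apply _ x⟩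
  have hR₁ : img (P ⊔ Q) f₁ = R₁ := by
    rw [← IsMap.range_eq (φ := R₁.subtype.comp e₁.toMonoidHom) (fun x => (hf₁v x).symm)]
    exact Helper27.range_subtype_comp e₁
  obtain ⟨eQ, heQ, heQv⟩ := (hf₁.mono hQP).exists_iso rfl
  obtain ⟨χ, hχ, ψ, hψ, hψv⟩ := exists_ext_of_good hS hgood heQ
  have hconj : ∀ a ∈ P ⊔ Q, ∀ b ∈ P ⊔ Q, f₁ (a * b * a⁻¹) = f₁ a * f₁ b * (f₁ a)⁻¹ := by
    intro a ha b hb
    rw [hf₁.map_mul (Subgroup.mul_mem _ ha hb) (Subgroup.inv_mem _ ha), hf₁.map_mul ha hb,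
      hf₁.map_inv ha]
  have hdom : R₁ ⊔ NK S R₁ (trL e₁ (KP P Q K)) ≤ img Q f₁ ⊔ NK S (img Q f₁) (trL eQ K) := by
    refine sup_le ?_ ?_
    · rw [← hR₁, hf₁.img_sup hPP hQP]
      refine sup_le ?_ le_sup_left
      refine le_trans ?_ le_sup_right
      intro z hz
      obtain ⟨x, hx, rfl⟩ := (hf₁.mono hPP).mem_img.mp hz
      obtain ⟨κ, hκ, hκx⟩ := d.conjK (hPT hx)
      refine ⟨hf₁.mem_S (hPP hx), MulAut.congr eQ κ, ⟨κ, hκ, rfl⟩, fun w => ?_⟩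
      obtain ⟨y, rfl⟩ := eQ.surjective w
      rw [congr_apply, heQv, heQv, ← autFun_apply κ y, hκx y y.2, hconj x (hPP hx) y (hQP y.2)]
    · refine le_trans ?_ le_sup_right
      rintro g ⟨hgS, _, ⟨α, hα, rfl⟩, hlg⟩
      obtain ⟨κ, hκ, hακ⟩ := hα.2
      refine ⟨hgS, MulAut.congr eQ κ, ⟨κ, hκ, rfl⟩, fun w => ?_⟩
      obtain ⟨y, rfl⟩ := eQ.surjective w
      rw [congr_apply, heQv, heQv]
      have h1 := hlg (e₁ ⟨y, hQP y.2⟩)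
      rw [show (MulAut.congr e₁).toMonoidHom α (e₁ ⟨y, hQP y.2⟩) = e₁ (α ⟨y, hQP y.2⟩) from
        congr_apply e₁ α _, ← hf₁v, ← hf₁v, ← autFun_of_mem α (hQP y.2), hακ y y.2,
        autFun_apply] at h1
      exact h1
  have hψR₁ : IsMap F R₁ ψ := hψ.mono (le_sup_left.trans hdom)
  have hf₁R₁ : ∀ x ∈ P ⊔ Q, f₁ x ∈ R₁ := fun x hx => by rw [← hR₁]; exact mem_img_of_mem hx
  have hg : IsMap F (P ⊔ Q) (ψ ∘ f₁) := hf₁.comp hψR₁ hf₁R₁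
  have hgQ : ∀ y ∈ Q, (ψ ∘ f₁) y = autFun χ y := by
    intro y hy
    show ψ (f₁ y) = _
    rw [← heQv ⟨y, hy⟩, hψv, autFun_of_mem χ hy]
  have himgg : img (P ⊔ Q) (ψ ∘ f₁) = img P (ψ ∘ f₁) ⊔ Q := by
    rw [hg.img_sup hPP hQP, img_congr hgQ, img_autFun]
  have hgT : ∀ x ∈ P, (ψ ∘ f₁) x ∈ T := by
    intro x hx
    obtain ⟨κ, hκ, hκx⟩ := d.conjK (hPT hx)
    refine d.mem_T_of (hg.mem_S (hPP hx))
      ⟨χ * κ * χ⁻¹, K.mul_mem (K.mul_mem hχ.2 hκ) (K.inv_mem hχ.2), fun y hy => ?_⟩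
    have hy0 : autFun χ⁻¹ y ∈ Q := autFun_mem _ hy
    have e1 : (ψ ∘ f₁) (autFun χ⁻¹ y) = y := by rw [hgQ _ hy0, autFun_autFun_inv χ hy]
    rw [autFun_mul _ _ hy, autFun_mul _ _ hy0, ← hgQ _ (autFun_mem κ hy0), hκx _ hy0,
      hg.map_mul (Subgroup.mul_mem _ (hPP hx) (hQP hy0)) (Subgroup.inv_mem _ (hPP hx)),
      hg.map_mul (hPP hx) (hQP hy0), hg.map_inv (hPP hx), e1]
  have hEmap : IsMap E P (ψ ∘ f₁) :=
    (d.hE _ _).mpr ⟨hg.mono hPP, hPT, hgT, ψ ∘ f₁, hg, fun _ _ => rfl, χ, hχ.2, hgQ⟩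
  have himgψ : img R₁ ψ = img P (ψ ∘ f₁) ⊔ Q := by
    rw [← himgg, ← hR₁, hf₁.img_comp hψR₁ hf₁R₁]
  obtain ⟨e₂, he₂, he₂v⟩ := hψR₁.exists_iso himgψ
  have hgood₂ := good_of_ext hS hF hgood₁ (hψ.mono hdom) he₂v
  have hev : ∀ x : ↥(P ⊔ Q), (((e₁.trans e₂) x : ↥(img P (ψ ∘ f₁) ⊔ Q)) : Ω) = (ψ ∘ f₁) x := by
    intro x
    show ((e₂ (e₁ x) : ↥(img P (ψ ∘ f₁) ⊔ Q)) : Ω) = ψ (f₁ x)
    rw [he₂v, hf₁v]
  rw [trL_trans, KP_transport (e₁.trans e₂) (fun x => by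
    rw [hev]
    constructor
    · intro hx
      exact mem_img_of_mem hx
    · intro hx
      obtain ⟨x', hx', hxx'⟩ := (hg.mono hPP).mem_img.mp hx
      have := hg.inj (hPP hx') x.2 hxx'
      exact this ▸ hx') hχ.2 (fun y hy => by rw [hev]; exact hgQ y hy)] at hgood₂
  exact ⟨_, ψ ∘ f₁, hEmap, rfl, hgood₂⟩

theorem knorm_saturated (hS : IsPGroup p S) (hF : F.IsSaturated p) (d : KData F Q K E)
    (hgood : Good F p Q K) : E.IsSaturated p := by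
  intro P hPT
  obtain ⟨P', f, hf, himg, hg⟩ := knorm_exists_good hS hF d hgood hPT
  have hP'T : P' ≤ T := himg ▸ hf.img_le
  exact ⟨P', isConj_iff.mpr ⟨f, hf, himg⟩, knorm_automized d hP'T hg, knorm_receptive hS d hP'T hg⟩

end Cfsg.Agent.Lib.Helper26
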