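import Cfsg.Agent.Lib.Helper26.CtrL

set_option autoImplicit false
open scoped ComplexConjugate
open Finset

namespace Cfsg.Agent.Lib.Helper26.Km

open Cfsg.Agent.Lib.Helper26.Ctr

/-- the integral quadratic form attached to a matrix. -/
def QQ {ι : Type*} [Fintype ι] (A : ι → ι → ℤ) (x : ι → ℤ) : ℤ :=
  ∑ i, ∑ i', A i i' * (x i * x i')

/-- the bilinear form. -/
def BB {ι : Type*} [Fintype ι] (A : ι → ι → ℤ) (x y : ι → ℤ) : ℤ :=
  ∑ i, ∑ i', A i i' * (x i * y i')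

theorem BB_symm {ι : Type*} [Fintype ι] (A : ι → ι → ℤ) (hsym : ∀ i i', A i i' = A i' i)
    (x y : ι → ℤ) : BB A x y = BB A y x := by
  rw [BB, BB, sum_comm]
  apply sum_congr rfl
  intro i _
  apply sum_congr rfl
  intro i' _
  rw [hsym i' i]
  ring

theorem QQ_sub {ι : Type*} [Fintype ι] (A : ι → ι → ℤ) (hsym : ∀ i i', A i i' = A i' i)
    (x y : ι → ℤ) : QQ A (x - y) = QQ A x + QQ A y - 2 * BB A x y := by
  have h1 : QQ A (x - y) = QQ A x + QQ A y - BB A x y - BB A y x := by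
    simp only [QQ, BB, Pi.sub_apply]
    rw [← sum_add_distrib, ← sum_sub_distrib, ← sum_sub_distrib]
    apply sum_congr rfl
    intro i _
    rw [← sum_add_distrib, ← sum_sub_distrib, ← sum_sub_distrib]
    apply sum_congr rfl
    intro i' _
    ring
  rw [h1, BB_symm A hsym y x]
  ring

theorem QQ_zero {ι : Type*} [Fintype ι] (A : ι → ι → ℤ) : QQ A 0 = 0 := by
  simp [QQ]

theorem QQ_neg_sub {ι : Type*} [Fintype ι] (A : ι → ι → ℤ) (x y : ι → ℤ) :
    QQ A (x - y) = QQ A (y - x) := by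
  simp only [QQ, Pi.sub_apply]
  apply sum_congr rfl
  intro i _
  apply sum_congr rfl
  intro i' _
  ring

/-- a double sum with two distinguished indices. -/
theorem double_sum_ge {α : Type*} [DecidableEq α] (P : Finset α) {i0 i1 : α} (h0 : i0 ∈ P)
    (h1 : i1 ∈ P) (hne : i0 ≠ i1) (G : α → α → ℤ) (hG : ∀ s t, 0 ≤ G s t)
    (hA : ∀ t ∈ P, 2 ≤ G t i0 + G t i1) (hB : ∀ s ∈ P, 2 ≤ G i0 s + G i1 s) :
    4 * (P.card : ℤ) - 4 ≤ ∑ t ∈ P, ∑ s ∈ P, G t s := by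
  set P' := (P.erase i0).erase i1 with hP'
  have hi1 : i1 ∈ P.erase i0 := mem_erase.2 ⟨hne.symm, h1⟩
  have hcard : (P'.card : ℤ) = P.card - 2 := by
    rw [hP', card_erase_of_mem hi1, card_erase_of_mem h0]
    have : 2 ≤ P.card := by
      have := card_le_card (s := {i0, i1}) (t := P) (by
        intro x hx
        simp only [mem_insert, mem_singleton] at hx
        rcases hx with rfl | rfl <;> assumption)
      rwa [card_pair hne] at this
    omega
  have hsplit : ∀ F : α → ℤ, ∑ s ∈ P, F s = F i0 + F i1 + ∑ s ∈ P', F s := by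
    intro F
    rw [← add_sum_erase P F h0, ← add_sum_erase (P.erase i0) F hi1]
    ring
  have e1 : ∑ t ∈ P, ∑ s ∈ P, G t s
      = ∑ t ∈ P, (G t i0 + G t i1) + ∑ s ∈ P', ∑ t ∈ P, G t s := by
    rw [sum_comm (s := P'), ← sum_add_distrib]
    apply sum_congr rfl
    intro t _
    exact hsplit _
  have e2 : (2 : ℤ) * P.card ≤ ∑ t ∈ P, (G t i0 + G t i1) := by
    have := card_nsmul_le_sum P (fun t => G t i0 + G t i1) 2 hA
    simpa [mul_comm] using this
  have e3 : (2 : ℤ) * P'.card ≤ ∑ s ∈ P', ∑ t ∈ P, G t s := by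
    have : ∀ s ∈ P', 2 ≤ ∑ t ∈ P, G t s := by
      intro s hs
      have hsP : s ∈ P := mem_of_mem_erase (mem_of_mem_erase hs)
      rw [hsplit (fun t => G t s)]
      have := hB s hsP
      have h3 : 0 ≤ ∑ t ∈ P', G t s := sum_nonneg (fun t _ => hG t s)
      linarith
    have := card_nsmul_le_sum P' (fun s => ∑ t ∈ P, G t s) 2 this
    simpa [mul_comm] using this
  rw [e1]
  rw [hcard] at e3
  linarith

section main

variable {p c : ℕ} (hp : p.Prime) (hc : 0 < c) (μ : Finset ℂ)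
  (hμ : ∀ w : ℂ, w ∈ μ ↔ w ^ (p * c) = 1) (η : ℂ) (hη : IsPrimitiveRoot η p)

include hp hc hμ hη in
theorem sum_polar (a a' : ℂ → ℤ) :
    ∑ j ∈ (range (p * c)).filter (fun j => ¬ p ∣ j),
        (∑ w ∈ μ, (a w : ℂ) * w ^ j) * conj (∑ w ∈ μ, (a' w : ℂ) * w ^ j)
      = (((c : ℤ) * ∑ t ∈ range p, ∑ w ∈ μ, (a w * a' w - a (η ^ t * w) * a' w) : ℤ) : ℂ) := by
  have hn : 0 < p * c := Nat.mul_pos hp.pos hc
  have hconj : ∀ w ∈ μ, conj w = w⁻¹ := by
    intro w hw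
    rw [Complex.inv_eq_conj (Complex.norm_eq_one_of_pow_eq_one ((hμ w).1 hw) hn.ne')]
  have h1 : ∀ j : ℕ, (∑ w ∈ μ, (a w : ℂ) * w ^ j) * conj (∑ w ∈ μ, (a' w : ℂ) * w ^ j)
      = ∑ w' ∈ μ, ∑ w ∈ μ, (a w : ℂ) * (a' w' : ℂ) * (w * w'⁻¹) ^ j := by
    intro j
    rw [map_sum, mul_sum]
    apply sum_congr rfl
    intro w' hw'
    rw [sum_mul]
    apply sum_congr rfl
    intro w _
    rw [map_mul, map_pow, hconj w' hw', map_intCast, mul_pow]
    ring
  simp_rw [h1]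
  rw [sum_comm]
  have h2 : ∀ w' ∈ μ, ∑ j ∈ (range (p * c)).filter (fun j => ¬ p ∣ j),
      ∑ w ∈ μ, (a w : ℂ) * (a' w' : ℂ) * (w * w'⁻¹) ^ j
      = (c : ℂ) * ∑ t ∈ range p, ((a w' * a' w' - a (η ^ t * w') * a' w' : ℤ) : ℂ) := by
    intro w' hw'
    have hw1 := (hμ w').1 hw'
    have hw0 : w' ≠ 0 := by
      rintro rfl
      rw [zero_pow hn.ne'] at hw1; exact zero_ne_one hw1
    rw [sum_comm]
    have h3 : ∀ w ∈ μ, ∑ j ∈ (range (p * c)).filter (fun j => ¬ p ∣ j),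
        (a w : ℂ) * (a' w' : ℂ) * (w * w'⁻¹) ^ j
        = (if w = w' then ((p * c : ℕ) : ℂ) * ((a w : ℂ) * (a' w' : ℂ)) else 0)
          - (if (w * w'⁻¹) ^ p = 1 then (c : ℂ) * ((a w : ℂ) * (a' w' : ℂ)) else 0) := by
      intro w hw
      rw [← mul_sum, geom3 hp.pos (by rw [mul_pow, inv_pow, (hμ w).1 hw, hw1, inv_one, one_mul])]
      have h4 : w * w'⁻¹ = 1 ↔ w = w' := by
        rw [mul_inv_eq_one₀ hw0]
      simp only [h4]
      split_ifs <;> ring
    rw [sum_congr rfl h3, sum_sub_distrib, sum_ite_eq' μ w', if_pos hw',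
      sum_fib hp hc μ hμ η hη (fun w => (c : ℂ) * ((a w : ℂ) * (a' w' : ℂ))) hw', mul_sum]
    have h5 : ((p * c : ℕ) : ℂ) * ((a w' : ℂ) * (a' w' : ℂ))
        = ∑ t ∈ range p, (c : ℂ) * ((a w' : ℂ) * (a' w' : ℂ)) := by
      rw [sum_const, card_range, nsmul_eq_mul]
      push_cast
      ring
    rw [h5, ← sum_sub_distrib]
    apply sum_congr rfl
    intro t _
    push_cast
    ring
  rw [sum_congr rfl h2, ← mul_sum, sum_comm]
  push_cast
  rfl

end main

section vec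

variable {p c : ℕ} (hp : p.Prime) (hc : 0 < c) (μ : Finset ℂ)
  (hμ : ∀ w : ℂ, w ∈ μ ↔ w ^ (p * c) = 1) (η : ℂ) (hη : IsPrimitiveRoot η p)
  {ι : Type*} [Fintype ι] (A : ι → ι → ℤ) (hsym : ∀ i i', A i i' = A i' i)

include hp hc hμ hη in
theorem sum_fib' {β : Type*} [AddCommMonoid β] (F : ℂ → β) {w' : ℂ} (hw' : w' ∈ μ) :
    ∑ w ∈ μ.filter (fun w => (w * w'⁻¹) ^ p = 1), F w = ∑ t ∈ range p, F (η ^ t * w') := by
  have : NeZero p := ⟨hp.ne_zero⟩
  have hn : 0 < p * c := Nat.mul_pos hp.pos hc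
  have hw1 := (hμ w').1 hw'
  have hw0 : w' ≠ 0 := by
    rintro rfl
    rw [zero_pow hn.ne'] at hw1; exact zero_ne_one hw1
  have h1 : μ.filter (fun w => (w * w'⁻¹) ^ p = 1) = (range p).image (fun t => η ^ t * w') := by
    ext w
    simp only [mem_filter, mem_image, mem_range]
    constructor
    · rintro ⟨_, h2⟩
      obtain ⟨t, ht, h3⟩ := hη.eq_pow_of_pow_eq_one h2
      exact ⟨t, ht, by rw [h3]; field_simp⟩
    · rintro ⟨t, _, rfl⟩
      refine ⟨?_, ?_⟩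
      · rw [hμ, mul_pow, eta_pow η hη, hw1, one_mul]
      · rw [mul_assoc, mul_inv_cancel₀ hw0, mul_one, ← pow_mul, mul_comm, pow_mul, hη.pow_eq_one,
          one_pow]
  rw [h1, sum_image]
  intro s hs t ht h
  exact hη.pow_inj (mem_range.1 hs) (mem_range.1 ht) (mul_right_cancel₀ hw0 h)

include hp hc hμ hη in
theorem sum_vec (a : ℂ → ι → ℤ) :
    ∑ j ∈ (range (p * c)).filter (fun j => ¬ p ∣ j), ∑ i, ∑ i', (A i i' : ℂ) *
        ((∑ w ∈ μ, (a w i : ℂ) * w ^ j) * conj (∑ w ∈ μ, (a w i' : ℂ) * w ^ j))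
      = (((c : ℤ) * ∑ t ∈ range p, ∑ w ∈ μ,
          (QQ A (a w) - BB A (a (η ^ t * w)) (a w)) : ℤ) : ℂ) := by
  rw [sum_comm]
  have h1 : ∀ i : ι, ∑ j ∈ (range (p * c)).filter (fun j => ¬ p ∣ j), ∑ i', (A i i' : ℂ) *
        ((∑ w ∈ μ, (a w i : ℂ) * w ^ j) * conj (∑ w ∈ μ, (a w i' : ℂ) * w ^ j))
      = ∑ i', (A i i' : ℂ) * (((c : ℤ) * ∑ t ∈ range p, ∑ w ∈ μ,
          (a w i * a w i' - a (η ^ t * w) i * a w i') : ℤ) : ℂ) := by
    intro i
    rw [sum_comm]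
    apply sum_congr rfl
    intro i' _
    rw [← mul_sum, sum_polar hp hc μ hμ η hη (fun w => a w i) (fun w => a w i')]
  rw [sum_congr rfl (fun i _ => h1 i)]
  have h2 : ∀ (t : ℕ) (w : ℂ), QQ A (a w) - BB A (a (η ^ t * w)) (a w)
      = ∑ i, ∑ i', A i i' * (a w i * a w i' - a (η ^ t * w) i * a w i') := by
    intro t w
    rw [QQ, BB, ← sum_sub_distrib]
    apply sum_congr rfl
    intro i _
    rw [← sum_sub_distrib]
    apply sum_congr rfl
    intro i' _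
    ring
  have h3 : (c : ℤ) * ∑ t ∈ range p, ∑ w ∈ μ, (QQ A (a w) - BB A (a (η ^ t * w)) (a w))
      = ∑ i, ∑ i', A i i' * ((c : ℤ) * ∑ t ∈ range p, ∑ w ∈ μ,
          (a w i * a w i' - a (η ^ t * w) i * a w i')) := by
    simp_rw [h2]
    have h4 : ∀ t ∈ range p, ∑ w ∈ μ, ∑ i, ∑ i',
        A i i' * (a w i * a w i' - a (η ^ t * w) i * a w i')
        = ∑ i, ∑ i', ∑ w ∈ μ, A i i' * (a w i * a w i' - a (η ^ t * w) i * a w i') := by
      intro t _
      rw [sum_comm]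
      apply sum_congr rfl
      intro i _
      rw [sum_comm]
    rw [sum_congr rfl h4, sum_comm, mul_sum]
    apply sum_congr rfl
    intro i _
    rw [sum_comm, mul_sum]
    apply sum_congr rfl
    intro i' _
    simp_rw [← mul_sum]
    ring
  rw [h3]
  push_cast
  rfl

include hp hc hμ hη hsym in
theorem two_sum_vec (a : ℂ → ι → ℤ) :
    2 * ∑ t ∈ range p, ∑ w ∈ μ, (QQ A (a w) - BB A (a (η ^ t * w)) (a w))
      = ∑ t ∈ range p, ∑ w ∈ μ, QQ A (a (η ^ t * w) - a w) := by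
  rw [mul_sum]
  apply sum_congr rfl
  intro t _
  have h1 := sum_shift hp hc μ hμ (fun w => QQ A (a w)) (eta_pow (c := c) η hη t)
  simp_rw [QQ_sub A hsym]
  rw [sum_sub_distrib, sum_sub_distrib, sum_add_distrib, h1, ← mul_sum]
  ring

include hp hc hμ hη in
theorem S_ge (hQ0 : ∀ x : ι → ℤ, 0 ≤ QQ A x) (hQ1 : ∀ x : ι → ℤ, QQ A x ≠ 1)
    (hnull : ∀ x y : ι → ℤ, QQ A x = 0 → QQ A y = 0 → QQ A (x - y) = 0) (a : ℂ → ι → ℤ) :
    ∑ t ∈ range p, ∑ w ∈ μ, QQ A (a (η ^ t * w) - a w) = 0 ∨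
      4 * (p : ℤ) - 4 ≤ ∑ t ∈ range p, ∑ w ∈ μ, QQ A (a (η ^ t * w) - a w) := by
  by_cases hS : ∑ t ∈ range p, ∑ w ∈ μ, QQ A (a (η ^ t * w) - a w) = 0
  · exact Or.inl hS
  right
  obtain ⟨t0, ht0, h1⟩ := exists_ne_zero_of_sum_ne_zero hS
  obtain ⟨w0, hw0, h2⟩ := exists_ne_zero_of_sum_ne_zero h1
  have hn : 0 < p * c := Nat.mul_pos hp.pos hc
  have hw1 := (hμ w0).1 hw0
  have hw00 : w0 ≠ 0 := by
    rintro rfl
    rw [zero_pow hn.ne'] at hw1; exact zero_ne_one hw1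
  have ht00 : (0 : ℕ) ≠ t0 := by
    rintro rfl
    apply h2
    rw [pow_zero, one_mul, sub_self, QQ_zero]
  set u : ℕ → ι → ℤ := fun s => a (η ^ s * w0) with hu
  have hu0 : u 0 = a w0 := by simp [hu]
  have hkey : QQ A (u t0 - u 0) ≠ 0 := by rw [hu0]; exact h2
  have hA : ∀ t : ℕ, 2 ≤ QQ A (u t - u 0) + QQ A (u t - u t0) := by
    intro t
    have a1 := hQ0 (u t - u 0)
    have a2 := hQ0 (u t - u t0)
    have a3 := hQ1 (u t - u 0)
    have a4 := hQ1 (u t - u t0)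
    by_contra hlt
    have b1 : QQ A (u t - u 0) = 0 := by omega
    have b2 : QQ A (u t - u t0) = 0 := by omega
    have := hnull _ _ b1 b2
    apply hkey
    rw [← this]
    congr 1
    abel
  have hG := double_sum_ge (range p) (mem_range.2 hp.pos) ht0 ht00
    (fun t s => QQ A (u t - u s)) (fun s t => hQ0 _) (fun t _ => hA t) (fun s _ => by
      have := hA s
      rw [QQ_neg_sub A (u s) (u 0), QQ_neg_sub A (u s) (u t0)] at this
      exact this)
  rw [card_range] at hG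
  refine le_trans hG ?_
  -- compare
  have hmem : ∀ s : ℕ, η ^ s * w0 ∈ μ := by
    intro s
    rw [hμ, mul_pow, eta_pow η hη, hw1, one_mul]
  have h3 : ∀ t ∈ range p, ∑ s ∈ range p, QQ A (a (η ^ t * (η ^ s * w0)) - a (η ^ s * w0))
      ≤ ∑ w ∈ μ, QQ A (a (η ^ t * w) - a w) := by
    intro t _
    rw [← sum_fib' hp hc μ hμ η hη (fun w => QQ A (a (η ^ t * w) - a w)) hw0]
    exact sum_le_sum_of_subset_of_nonneg (filter_subset _ _) (fun _ _ _ => hQ0 _)
  refine le_trans (le_of_eq ?_) (sum_le_sum h3)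
  rw [sum_comm]
  rw [sum_comm (s := range p) (t := range p)
    (f := fun t s => QQ A (a (η ^ t * (η ^ s * w0)) - a (η ^ s * w0)))]
  apply sum_congr rfl
  intro s _
  rw [← sum_fib' hp hc μ hμ η hη (fun w => QQ A (a w - a (η ^ s * w0))) (hmem s),
    ← sum_fib' hp hc μ hμ η hη (fun w => QQ A (a w - a (η ^ s * w0))) hw0]
  apply sum_congr _ (fun _ _ => rfl)
  apply filter_congr
  intro w _
  have hη0 : η ≠ 0 := hη.ne_zero hp.ne_zero
  rw [mul_inv, ← mul_assoc, mul_right_comm, mul_pow _ ((η ^ s)⁻¹), inv_pow, ← pow_mul, mul_comm s,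
    pow_mul, hη.pow_eq_one, one_pow, inv_one, mul_one]

end vec

/-- the trace of an integral positive form without vectors of norm one, evaluated on
`ℤ[ζ_{p^k}]`-vectors, is `0` or at least `2 φ(p^k)`. -/
theorem form_sum_ge {p k : ℕ} (hp : p.Prime) {ι : Type*} [Fintype ι] (A : ι → ι → ℤ)
    (hsym : ∀ i i', A i i' = A i' i)
    (hQ0 : ∀ x : ι → ℤ, 0 ≤ QQ A x) (hQ1 : ∀ x : ι → ℤ, QQ A x ≠ 1)
    (hnull : ∀ x y : ι → ℤ, QQ A x = 0 → QQ A y = 0 → QQ A (x - y) = 0)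
    (n : ι → ℤ) (lam : ι → ℂ) (hlam : ∀ i, lam i ^ (p ^ k) = 1) :
    ∃ T : ℤ, ∑ j ∈ (range (p ^ k)).filter (fun j => j.Coprime (p ^ k)), ∑ i, ∑ i', (A i i' : ℂ) *
        (((n i : ℂ) * lam i ^ j) * conj ((n i' : ℂ) * lam i' ^ j)) = (T : ℂ)
      ∧ (T = 0 ∨ 2 * ((p ^ k).totient : ℤ) ≤ T) := by
  classical
  rcases Nat.eq_zero_or_pos k with rfl | hk
  · have h1 : (range (p ^ 0)).filter (fun j => j.Coprime (p ^ 0)) = {0} := by
      ext j
      simp
    refine ⟨QQ A n, ?_, ?_⟩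
    · rw [h1, sum_singleton, QQ]
      push_cast
      apply sum_congr rfl
      intro i _
      apply sum_congr rfl
      intro i' _
      simp
    · have a1 := hQ0 n
      have a2 := hQ1 n
      simp only [pow_zero, Nat.totient_one, Nat.cast_one]
      omega
  · obtain ⟨k, rfl⟩ : ∃ k', k = k' + 1 := ⟨k - 1, by omega⟩
    have hc : 0 < p ^ k := pow_pos hp.pos k
    have hn : 0 < p * p ^ k := Nat.mul_pos hp.pos hc
    have hpk : p ^ (k + 1) = p * p ^ k := by rw [pow_succ, mul_comm]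
    set μ : Finset ℂ := Polynomial.nthRootsFinset (p * p ^ k) (1 : ℂ) with hμdef
    have hμ : ∀ w : ℂ, w ∈ μ ↔ w ^ (p * p ^ k) = 1 := fun w =>
      Polynomial.mem_nthRootsFinset hn 1
    set a : ℂ → ι → ℤ := fun w i => if lam i = w then n i else 0 with ha
    have hfib : ∀ (i : ι) (j : ℕ), ∑ w ∈ μ, (a w i : ℂ) * w ^ j = (n i : ℂ) * lam i ^ j := by
      intro i j
      have h1 : ∀ w ∈ μ, (a w i : ℂ) * w ^ j = if lam i = w then (n i : ℂ) * w ^ j else 0 := by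
        intro w _
        simp only [ha]
        split_ifs with h
        · rfl
        · simp
      rw [sum_congr rfl h1, sum_ite_eq μ (lam i), if_pos ((hμ _).2 (by rw [← hpk]; exact hlam i))]
    have hη := Complex.isPrimitiveRoot_exp p hp.ne_zero
    have h1 := sum_vec hp hc μ hμ _ hη A a
    have h2 := two_sum_vec hp hc μ hμ _ hη A hsym a
    have h3 := S_ge hp hc μ hμ _ hη A hQ0 hQ1 hnull a
    simp_rw [hfib] at h1
    rw [← h2] at h3
    set X := ∑ t ∈ range p, ∑ w ∈ μ,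
        (QQ A (a w) - BB A (a (Complex.exp (2 * Real.pi * Complex.I / p) ^ t * w)) (a w)) with hX
    refine ⟨((p ^ k : ℕ) : ℤ) * X, ?_, ?_⟩
    · rw [coprime_filter hp]
      exact h1
    · rw [Nat.totient_prime_pow hp (Nat.succ_pos k), Nat.succ_sub_one]
      have hp1 : ((p - 1 : ℕ) : ℤ) = (p : ℤ) - 1 := by
        have := hp.pos
        push_cast [Nat.cast_sub (show 1 ≤ p by omega)]
        ring
      rcases h3 with h3 | h3
      · left
        have : X = 0 := by omega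
        rw [this, mul_zero]
      · right
        push_cast
        rw [hp1]
        have hX2 : 2 * ((p : ℤ) - 1) ≤ X := by linarith
        have hc' : (0 : ℤ) ≤ (p : ℤ) ^ k := by positivity
        nlinarith

end Cfsg.Agent.Lib.Helper26.Km
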