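import Cfsg.Agent.Lib.Helper26.CtrF

set_option autoImplicit false
set_option linter.style.haveILetI false
set_option linter.unusedSectionVars false
open Cfsg
open Cfsg.Agent.Lib.Helper7 Cfsg.Agent.Lib.Helper24
open scoped ComplexConjugate

namespace Cfsg.Agent.Lib.Helper26.Km

open Cfsg.Agent.Lib.Helper26.Ctr

universe u
variable {G : Type u} [Group G] {M : Ideal AlgInt} {p : ℕ}

open Classical in
/-- extension by zero of the `p`-regular part of a function on `H`. -/
noncomputable def gx (p : ℕ) (H : Subgroup G) (g : H → ℂ) : G → ℂ :=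
  fun k => if h : k ∈ H then (if p ∣ orderOf k then 0 else g ⟨k, h⟩) else 0

/-- the class function of `G` supported on the section of `v`. -/
noncomputable def Th [Fintype G] (p : ℕ) (H : Subgroup G) (v : G) (g : H → ℂ) : G → ℂ :=
  fun x => (Nat.card H : ℂ)⁻¹ * ∑ u : G, gx p H g ((u⁻¹ * x * u)⁻¹ * v)

theorem isClassFunction_Th [Fintype G] (H : Subgroup G) (v : G) (g : H → ℂ) :
    IsClassFunction G (Th p H v g) := by
  intro x t
  rw [Th, Th]
  congr 1
  refine Fintype.sum_equiv (Equiv.mulLeft t⁻¹) _ _ ?_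
  intro u
  simp only [Equiv.coe_mulLeft]
  congr 2
  group

theorem sum_gx [Fintype G] (H : Subgroup G) [Fintype H] (g : H → ℂ) (F : G → ℂ) :
    ∑ k : G, gx p H g k * F k
      = ∑ c : H, (if p ∣ orderOf c then 0 else g c) * F (c : G) := by
  symm
  refine Fintype.sum_of_injective (Subtype.val : H → G) Subtype.val_injective _ _ ?_ ?_
  · intro k hk
    have : k ∉ H := by
      intro h
      exact hk ⟨⟨k, h⟩, rfl⟩
    rw [gx, dif_neg this, zero_mul]
  · intro c
    rw [gx, dif_pos c.2, Subgroup.orderOf_coe]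

theorem sum_Th [Fintype G] (H : Subgroup G) [Fintype H] (v : G) (g : H → ℂ) {ψ : G → ℂ}
    (hψ : IsClassFunction G ψ) :
    ∑ x, Th p H v g x * ψ x
      = (Nat.card G : ℂ) / (Nat.card H : ℂ) * ∑ c : H, g c * shC p H v ψ c := by
  have h1 : ∀ u : G, ∑ x, gx p H g ((u⁻¹ * x * u)⁻¹ * v) * ψ x
      = ∑ c : H, g c * shC p H v ψ c := by
    intro u
    have h2 : ∑ x, gx p H g ((u⁻¹ * x * u)⁻¹ * v) * ψ x
        = ∑ k, gx p H g k * ψ (v * k⁻¹) := by
      refine Fintype.sum_equiv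
        ⟨fun x => (u⁻¹ * x * u)⁻¹ * v, fun k => u * (v * k⁻¹) * u⁻¹, ?_, ?_⟩ _ _ ?_
      · intro x; group
      · intro k; group
      · intro x
        simp only [Equiv.coe_fn_mk]
        congr 1
        have : v * ((u⁻¹ * x * u)⁻¹ * v)⁻¹ = u⁻¹ * x * u⁻¹⁻¹ := by group
        rw [this, hψ]
    rw [h2, sum_gx H g (fun k => ψ (v * k⁻¹))]
    apply Finset.sum_congr rfl
    intro c _
    rw [shC]
    split_ifs <;> simp
  have h3 : ∀ x, Th p H v g x * ψ x
      = (Nat.card H : ℂ)⁻¹ * ∑ u : G, gx p H g ((u⁻¹ * x * u)⁻¹ * v) * ψ x := by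
    intro x
    rw [Th, mul_assoc, Finset.sum_mul]
  rw [Finset.sum_congr rfl (fun x _ => h3 x), ← Finset.mul_sum, Finset.sum_comm,
    Finset.sum_congr rfl (fun u _ => h1 u), Finset.sum_const,
    Finset.card_univ, nsmul_eq_mul, ← Nat.card_eq_fintype_card]
  ring

theorem memLocalRing_Th [Fintype G] [M.IsPrime] (hp : p.Prime) {H : Subgroup G} {v : G}
    (hv : ∃ k : ℕ, orderOf v = p ^ k) (hvc : ∀ c : H, Commute v (c : G))
    (hvH : ∀ u : G, v * u = u * v → u ∈ H) {g : H → ℂ} (hg : IsClassFunction H g)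
    (hgR : ∀ c, MemLocalRing M (g c)) (x : G) : MemLocalRing M (Th p H v g x) := by
  classical
  haveI := Fintype.ofFinite H
  have hcard : (Nat.card H : ℂ) ≠ 0 := by exact_mod_cast Nat.card_pos.ne'
  by_cases hex : ∃ u0 : G, gx p H g ((u0⁻¹ * x * u0)⁻¹ * v) ≠ 0
  · obtain ⟨u0, hu0⟩ := hex
    set k0 := (u0⁻¹ * x * u0)⁻¹ * v with hk0
    have hk0H : k0 ∈ H := by
      by_contra h
      exact hu0 (by rw [gx, dif_neg h])
    have hk0r : ¬ p ∣ orderOf k0 := by
      intro h
      exact hu0 (by rw [gx, dif_pos hk0H, if_pos h])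
    have hx' : u0⁻¹ * x * u0 = v * k0⁻¹ := by rw [hk0]; group
    have h1 : ∑ u : G, gx p H g ((u⁻¹ * x * u)⁻¹ * v)
        = ∑ u : G, gx p H g ((u⁻¹ * (v * k0⁻¹) * u)⁻¹ * v) := by
      symm
      refine Fintype.sum_equiv (Equiv.mulLeft u0) _ _ ?_
      intro u
      simp only [Equiv.coe_mulLeft]
      rw [← hx']
      congr 2
      group
    have h2 : ∀ u : G, gx p H g ((u⁻¹ * (v * k0⁻¹) * u)⁻¹ * v)
        = if u ∈ H then g ⟨k0, hk0H⟩ else 0 := by
      intro u
      split_ifs with hu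
      · have hcu : v * u = u * v := (hvc ⟨u, hu⟩).eq
        have e1 : (u⁻¹ * (v * k0⁻¹) * u)⁻¹ * v = u⁻¹ * k0 * u⁻¹⁻¹ := by
          have : (u⁻¹ * (v * k0⁻¹) * u)⁻¹ * v = u⁻¹ * k0 * v⁻¹ * (u * v) := by group
          rw [this, ← hcu]
          group
        have hmem : u⁻¹ * k0 * u⁻¹⁻¹ ∈ H := H.mul_mem (H.mul_mem (H.inv_mem hu) hk0H)
          (H.inv_mem (H.inv_mem hu))
        rw [e1, gx, dif_pos hmem, if_neg (by rw [Cfsg.Agent.Lib.Helper7.orderOf_conj']; exact hk0r)]
        exact hg ⟨k0, hk0H⟩ ⟨u⁻¹, H.inv_mem hu⟩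
      · by_contra hne
        set k1 := (u⁻¹ * (v * k0⁻¹) * u)⁻¹ * v with hk1
        have hk1H : k1 ∈ H := by
          by_contra h
          exact hne (by rw [gx, dif_neg h])
        have hk1r : ¬ p ∣ orderOf k1 := by
          intro h
          exact hne (by rw [gx, dif_pos hk1H, if_pos h])
        have e2 : u⁻¹ * (v * k0⁻¹) * u⁻¹⁻¹ = v * k1⁻¹ := by rw [hk1]; group
        have := conj_section hp hv (y := k0⁻¹) (y' := k1⁻¹)
          ((hvc ⟨k0, hk0H⟩).inv_right.eq) ((hvc ⟨k1, hk1H⟩).inv_right.eq)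
          (by rw [orderOf_inv]; exact hk0r) (by rw [orderOf_inv]; exact hk1r) e2
        apply hu
        have h3 := hvH u⁻¹ this.1
        simpa using H.inv_mem h3
    rw [Th, h1, Finset.sum_congr rfl (fun u _ => h2 u), Finset.sum_ite, Finset.sum_const_zero,
      add_zero, Finset.sum_const, nsmul_eq_mul]
    have h4 : ((Finset.univ.filter (fun u : G => u ∈ H)).card : ℂ) = (Nat.card H : ℂ) := by
      rw [Nat.card_eq_fintype_card, Fintype.card_subtype]
    rw [h4, ← mul_assoc, inv_mul_cancel₀ hcard, one_mul]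
    exact hgR _
  · push Not at hex
    rw [Th, Finset.sum_congr rfl (fun u _ => hex u), Finset.sum_const_zero, mul_zero]
    exact memLocalRing_zero

/-- **Key congruence.**  The pairing of an integral class function of `H = C_G(v)` with the
section of `v`, divided by the degree, is constant on a block modulo the maximal ideal. -/
theorem key_congr [Fintype G] [M.IsPrime] (hp : p.Prime) {H : Subgroup G} [Fintype H] {v : G}
    (hv : ∃ k : ℕ, orderOf v = p ^ k) (hvc : ∀ c : H, Commute v (c : G))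
    (hvH : ∀ u : G, v * u = u * v → u ∈ H) {g : H → ℂ} (hg : IsClassFunction H g)
    (hgR : ∀ c, MemLocalRing M (g c)) {B : Set (IrrCharacter G)} (hB : IsPBlock M B)
    {ψ ψ' : IrrCharacter G} (hψ : ψ ∈ B) (hψ' : ψ' ∈ B) :
    MemLocalIdeal M
      ((Nat.card G : ℂ) / (Nat.card H : ℂ) * (∑ c : H, g c * shC p H v (ψ : G → ℂ) c)
          / (ψ : G → ℂ) 1
        - (Nat.card G : ℂ) / (Nat.card H : ℂ) * (∑ c : H, g c * shC p H v (ψ' : G → ℂ) c)
          / (ψ' : G → ℂ) 1) := by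
  have h1 := centralSubring_congr (M := M) (v := Om (Th p H v g))
    ⟨_, isClassFunction_Th H v g, memLocalRing_Th hp hv hvc hvH hg hgR, rfl⟩
    (sameBlock_of_mem hB hψ hψ')
  rw [Om, Om, sum_Th H v g (isClassFunction_irr ψ), sum_Th H v g (isClassFunction_irr ψ')] at h1
  exact h1

end Cfsg.Agent.Lib.Helper26.Km
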