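import Cfsg.Agent.Lib.Helper26.KmB

set_option autoImplicit false
set_option linter.style.haveILetI false
set_option linter.unusedSectionVars false
open Cfsg
open Cfsg.Agent.Lib.Helper7 Cfsg.Agent.Lib.Helper24
open scoped ComplexConjugate

namespace Cfsg.Agent.Lib.Helper26.Km

open Cfsg.Agent.Lib.Helper26.Ctr

universe u
variable {G : Type u} [Group G] {M : Ideal AlgInt} {p : ℕ}

/-- linear combinations of the characters in `e`. -/
noncomputable def FF {H : Type u} [Group H] [Fintype (IrrCharacter H)] (e : Set (IrrCharacter H))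
    [DecidablePred (· ∈ e)] (a : IrrCharacter H → ℂ) : H → ℂ :=
  ∑ ξ ∈ Finset.univ.filter (· ∈ e), a ξ • (ξ : H → ℂ)

theorem FF_apply {H : Type u} [Group H] [Fintype (IrrCharacter H)] (e : Set (IrrCharacter H))
    [DecidablePred (· ∈ e)] (a : IrrCharacter H → ℂ) (c : H) :
    FF e a c = ∑ ξ ∈ Finset.univ.filter (· ∈ e), a ξ * (ξ : H → ℂ) c := by
  simp [FF, Finset.sum_apply]

theorem isClassFunction_FF {H : Type u} [Group H] [Fintype (IrrCharacter H)]
    (e : Set (IrrCharacter H)) [DecidablePred (· ∈ e)] (a : IrrCharacter H → ℂ) :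
    IsClassFunction H (FF e a) := by
  intro g h
  rw [FF_apply, FF_apply]
  apply Finset.sum_congr rfl
  intro ξ _
  rw [isClassFunction_irr ξ]

theorem memLocalRing_FF {H : Type u} [Group H] [Finite H] [Fintype (IrrCharacter H)] [M.IsPrime]
    (e : Set (IrrCharacter H)) [DecidablePred (· ∈ e)] (a : IrrCharacter H → ℂ)
    (ha : ∀ ξ ∈ e, MemLocalRing M (a ξ)) (c : H) : MemLocalRing M (FF e a c) := by
  rw [FF_apply]
  apply memLocalRing_sum
  intro ξ hξ
  exact memLocalRing_mul (ha ξ (Finset.mem_filter.1 hξ).2)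
    (memLocalRing_of_isIntegral (char_isIntegral (isCharacter_of_irr ξ.2) _))

/-- **Non-vanishing on a major subsection.** -/
theorem pair_ne_zero [Fintype G] (hM : IsPModular p M) {H : Subgroup G} [Fintype H]
    [Fintype (IrrCharacter H)] {e : Set (IrrCharacter H)} [DecidablePred (· ∈ e)]
    {B : Set (IrrCharacter G)} (hind : IsInducedBlock M H e B) {y : G}
    (hy : ∃ k : ℕ, orderOf y = p ^ k) (hyc : ∀ c : H, Commute y (c : G))
    (hyH' : ∀ u : G, y * u = u * y → u ∈ H)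
    (hdef : blockDefect p e = blockDefect p B)
    (a : IrrCharacter H → ℂ) (ha : ∀ ξ ∈ e, MemLocalRing M (a ξ))
    (hunit : ¬ MemLocalIdeal M (FF e a 1 /
      (p ^ sInf ((fun χ : IrrCharacter H => (charDegree (χ : H → ℂ)).factorization p) '' e) : ℕ)))
    {ψ : IrrCharacter G} (hψ : ψ ∈ B) :
    ∑ c, FF e a c * shC p H y⁻¹ (ψ : G → ℂ) c ≠ 0 := by
  classical
  haveI := hM.2.1.isPrime
  set s0 := sInf ((fun χ : IrrCharacter H => (charDegree (χ : H → ℂ)).factorization p) '' e)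
    with hs0
  have hP0 : p ^ s0 ≠ 0 := pow_ne_zero _ hM.1.ne_zero
  have hPc : ((p ^ s0 : ℕ) : ℂ) ≠ 0 := by exact_mod_cast hP0
  obtain ⟨ξ₀, hξ₀⟩ := isPBlock_nonempty hind.1
  obtain ⟨ψ0, hψ0, hψs⟩ := exists_height_zero hind.2.1 p
  have h0' : blockHeight p B (ψ0 : G → ℂ) = 0 := by rw [blockHeight, hψs, Nat.sub_self]
  have hyi : ∃ k : ℕ, orderOf y⁻¹ = p ^ k := by rw [orderOf_inv]; exact hy
  have hyci : ∀ c : H, Commute y⁻¹ (c : G) := fun c => (hyc c).inv_left
  have hyHi : ∀ u : G, y⁻¹ * u = u * y⁻¹ → u ∈ H := by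
    intro u hu
    apply hyH'
    have : Commute y⁻¹ u := hu
    exact (Commute.inv_left_iff.1 this).eq
  have hG := lemG hind.1 a ha
    (isClassFunction_shC (p := p) hyci (isClassFunction_irr ψ0))
    (memLocalRing_shC H y⁻¹ (isCharacter_of_irr ψ0.2)) hξ₀ hP0
    (fun ξ hξ => pow_sInf_dvd hM.1 hξ)
  have hR := lemG_ring (M := M) (e := e) a ha hP0 (fun ξ hξ => pow_sInf_dvd hM.1 hξ)
  have hU := lemU hM hind hyi hyci hψ0 hξ₀
  have hW := not_memLocalIdeal_Om_regCoeff hM hind.2.1 hψ0 h0'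
  have hU' := not_memLocalIdeal_of_sub hU hW
  have hY := not_memLocalIdeal_of_sub hG (not_memLocalIdeal_mul hR hunit hU')
  intro hzero
  apply hY
  have hK := key_congr (M := M) hM.1 hyi hyci hyHi (isClassFunction_FF e a)
    (memLocalRing_FF e a ha) hind.2.1 hψ0 hψ
  rw [hzero, mul_zero, zero_div, sub_zero] at hK
  -- the rational factor
  have hdeg0 : (ψ0 : G → ℂ) 1 ≠ 0 := irr_apply_one_ne_zero ψ0.2
  have hcG : (Nat.card G : ℂ) ≠ 0 := by exact_mod_cast Nat.card_pos.ne'
  have hcH : (Nat.card H : ℂ) ≠ 0 := by exact_mod_cast Nat.card_pos.ne'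
  have hr : MemLocalRing M (((Nat.card H * charDegree (ψ0 : G → ℂ) : ℕ) : ℂ)
      / ((Nat.card G * p ^ s0 : ℕ) : ℂ)) := by
    rw [memLocalRing_div_iff hM (Nat.mul_ne_zero Nat.card_pos.ne' (charDegree_pos ψ0).ne')
      (Nat.mul_ne_zero Nat.card_pos.ne' hP0)]
    rw [Nat.factorization_mul Nat.card_pos.ne' hP0,
      Nat.factorization_mul Nat.card_pos.ne' (charDegree_pos ψ0).ne']
    simp only [Finsupp.add_apply]
    rw [hM.1.factorization_pow, Finsupp.single_eq_same, hψs]
    have h1 := sInf_le_factorization_card hind.1 p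
    have h2 := sInf_le_factorization_card hind.2.1 p
    rw [blockDefect, blockDefect] at hdef
    omega
  have := memLocalIdeal_mul_right hK hr
  convert this using 1
  rw [← charDegree_cast (isCharacter_of_irr ψ0.2)] at hdeg0 ⊢
  push_cast
  rw [FF] 
  field_simp

end Cfsg.Agent.Lib.Helper26.Km
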