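import Cfsg.Agent.Lib.Helper26.KmA
import Cfsg.Agent.Lib.Helper26.KmC

set_option autoImplicit false
set_option linter.style.haveILetI false
set_option linter.unusedSectionVars false
open Cfsg
open Cfsg.Agent.Lib.Helper7 Cfsg.Agent.Lib.Helper24
open scoped ComplexConjugate

namespace Cfsg.Agent.Lib.Helper26.Km

open Cfsg.Agent.Lib.Helper26.Ctr

universe u
variable {K : Type u} [Group K] {M : Ideal AlgInt} {p : ℕ}

theorem inner_FF [Fintype K] [Fintype (IrrCharacter K)] (e : Set (IrrCharacter K))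
    [DecidablePred (· ∈ e)] (a b : IrrCharacter K → ℂ) :
    classInner (pRegularPart p (FF e a)) (FF e b)
      = ∑ ξ ∈ Finset.univ.filter (· ∈ e), ∑ ξ' ∈ Finset.univ.filter (· ∈ e),
          a ξ * conj (b ξ') * classInner (regPart p (ξ : K → ℂ)) (ξ' : K → ℂ) := by
  rw [FF, FF, pReg_sum_smul, classInner_sum_left]
  apply Finset.sum_congr rfl
  intro ξ _
  rw [classInner_smul_left, classInner_sum_right, Finset.mul_sum]
  apply Finset.sum_congr rfl
  intro ξ' _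
  rw [classInner_smul_right, pReg_eq_regPart]
  ring

theorem exists_A0 [Fintype K] (hM : IsPModular p M) {e : Set (IrrCharacter K)}
    (he : IsPBlock M e) :
    ∃ A0 : IrrCharacter K → IrrCharacter K → ℤ,
      (∀ ξ ξ', ξ ∈ e → ξ' ∈ e → (p : ℂ) ^ blockDefect p e
        * classInner (regPart p (ξ : K → ℂ)) (ξ' : K → ℂ) = A0 ξ ξ') ∧
      (∀ ξ ξ', ¬ (ξ ∈ e ∧ ξ' ∈ e) → A0 ξ ξ' = 0) ∧ (∀ ξ ξ', A0 ξ ξ' = A0 ξ' ξ) := by
  classical
  haveI : Fact p.Prime := ⟨hM.1⟩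
  have hk : ∀ ξ ξ' : IrrCharacter K, ∃ k : ℤ, ξ' ∈ e →
      (p : ℂ) ^ blockDefect p e * classInner (regPart p (ξ : K → ℂ)) (ξ' : K → ℂ) = k := by
    intro ξ ξ'
    by_cases hi : ξ' ∈ e
    · obtain ⟨k, hk⟩ := Cfsg.Agent.S4666.exists_int_defect hM he ξ ξ' hi
      exact ⟨k, fun _ => hk⟩
    · exact ⟨0, fun h => absurd h hi⟩
  choose k hk using hk
  refine ⟨fun ξ ξ' => if ξ ∈ e ∧ ξ' ∈ e then k ξ ξ' else 0, ?_, ?_, ?_⟩
  · intro ξ ξ' h1 h2
    simp only [if_pos (And.intro h1 h2)]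
    exact hk ξ ξ' h2
  · intro ξ ξ' h
    simp only [if_neg h]
  · intro ξ ξ'
    by_cases h : ξ ∈ e ∧ ξ' ∈ e
    · simp only [if_pos h, if_pos h.symm]
      have h1 := hk ξ ξ' h.2
      have h2 := hk ξ' ξ h.1
      have h3 : ((k ξ ξ' : ℤ) : ℂ) = ((k ξ' ξ : ℤ) : ℂ) := by
        rw [← h2, ← map_intCast (starRingEnd ℂ) (k ξ ξ'), ← h1, map_mul, map_pow, Complex.conj_natCast,
          classInner_conj_symm, ← pReg_eq_regPart, ← pReg_eq_regPart, classInner_pReg_swap]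
      exact_mod_cast h3
    · simp only [if_neg h, if_neg (fun h' : ξ' ∈ e ∧ ξ ∈ e => h h'.symm)]

theorem form_eq [Fintype K] [Fintype (IrrCharacter K)] {e : Set (IrrCharacter K)}
    [DecidablePred (· ∈ e)] {A0 : IrrCharacter K → IrrCharacter K → ℤ} {d : ℕ}
    (h1 : ∀ ξ ξ', ξ ∈ e → ξ' ∈ e → (p : ℂ) ^ d
        * classInner (regPart p (ξ : K → ℂ)) (ξ' : K → ℂ) = A0 ξ ξ')
    (h2 : ∀ ξ ξ', ¬ (ξ ∈ e ∧ ξ' ∈ e) → A0 ξ ξ' = 0) (a b : IrrCharacter K → ℂ) :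
    ∑ i, ∑ i', (A0 i i' : ℂ) * (a i * conj (b i'))
      = (p : ℂ) ^ d * classInner (pRegularPart p (FF e a)) (FF e b) := by
  rw [inner_FF, Finset.sum_filter, Finset.mul_sum]
  apply Finset.sum_congr rfl
  intro ξ _
  split_ifs with hξ
  · rw [Finset.sum_filter, Finset.mul_sum]
    apply Finset.sum_congr rfl
    intro ξ' _
    split_ifs with hξ'
    · rw [← h1 ξ ξ' hξ hξ']
      ring
    · rw [h2 ξ ξ' (fun h => hξ' h.2)]
      simp
  · rw [mul_zero]
    apply Finset.sum_eq_zero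
    intro ξ' _
    rw [h2 ξ ξ' (fun h => hξ h.1)]
    simp

theorem QQ_eq [Fintype K] [Fintype (IrrCharacter K)] {e : Set (IrrCharacter K)}
    [DecidablePred (· ∈ e)] {A0 : IrrCharacter K → IrrCharacter K → ℤ} {d : ℕ}
    (h1 : ∀ ξ ξ', ξ ∈ e → ξ' ∈ e → (p : ℂ) ^ d
        * classInner (regPart p (ξ : K → ℂ)) (ξ' : K → ℂ) = A0 ξ ξ')
    (h2 : ∀ ξ ξ', ¬ (ξ ∈ e ∧ ξ' ∈ e) → A0 ξ ξ' = 0) (x : IrrCharacter K → ℤ) :
    ((QQ A0 x : ℤ) : ℂ) = (p : ℂ) ^ d * classInner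
      (pRegularPart p (FF e (fun ξ => (x ξ : ℂ)))) (FF e (fun ξ => (x ξ : ℂ))) := by
  rw [← form_eq h1 h2, QQ]
  push_cast
  apply Finset.sum_congr rfl
  intro i _
  apply Finset.sum_congr rfl
  intro i' _
  rw [map_intCast]

theorem classInner_self_real [Fintype K] (f : K → ℂ) :
    ∃ r : ℝ, 0 ≤ r ∧ classInner f f = (r : ℂ) := by
  refine ⟨(Nat.card K : ℝ)⁻¹ * ∑ g, Complex.normSq (f g),
    mul_nonneg (by positivity) (Finset.sum_nonneg (fun g _ => Complex.normSq_nonneg _)), ?_⟩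
  rw [classInner]
  push_cast
  congr 1
  apply Finset.sum_congr rfl
  intro g _
  rw [Complex.mul_conj]

theorem FF_sub [Fintype (IrrCharacter K)] (e : Set (IrrCharacter K)) [DecidablePred (· ∈ e)]
    (x y : IrrCharacter K → ℤ) :
    FF e (fun ξ => (((x - y) ξ : ℤ) : ℂ)) = FF e (fun ξ => (x ξ : ℂ)) - FF e (fun ξ => (y ξ : ℂ)) := by
  ext c
  rw [Pi.sub_apply, FF_apply, FF_apply, FF_apply, ← Finset.sum_sub_distrib]
  apply Finset.sum_congr rfl
  intro ξ _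
  rw [Pi.sub_apply]
  push_cast
  ring

theorem pReg_sub (f g : K → ℂ) :
    pRegularPart p (f - g) = pRegularPart p f - pRegularPart p g := by
  ext c
  by_cases hc : p ∣ orderOf c
  · rw [Pi.sub_apply, pReg_apply_of_sing _ hc, pReg_apply_of_sing _ hc, pReg_apply_of_sing _ hc,
      sub_zero]
  · rw [Pi.sub_apply, pReg_apply_of_reg _ hc, pReg_apply_of_reg _ hc, pReg_apply_of_reg _ hc,
      Pi.sub_apply]

/-- the trace bound for a block without generalized characters of norm `p^{-d}`. -/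
theorem trace_ge [Fintype K] [Fintype (IrrCharacter K)] (hM : IsPModular p M) {z : K}
    (hz : z ∈ Subgroup.center K) {k : ℕ} (hk : orderOf z = p ^ k) {Φ : K → ℂ}
    (hΦ : IsCharacter K Φ) {e : Set (IrrCharacter K)} [DecidablePred (· ∈ e)]
    (he : IsPBlock M e)
    (hno : ∀ x : IrrCharacter K → ℤ, (p : ℂ) ^ blockDefect p e * classInner
      (pRegularPart p (FF e (fun ξ => (x ξ : ℂ)))) (FF e (fun ξ => (x ξ : ℂ))) ≠ 1) :
    ∃ T : ℤ, ∑ j ∈ (Finset.range (p ^ k)).filter (fun j => j.Coprime (p ^ k)),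
        (p : ℂ) ^ blockDefect p e *
          classInner (pRegularPart p (blockPart e (fun c => Φ (z ^ j * c))))
            (blockPart e (fun c => Φ (z ^ j * c))) = (T : ℂ)
      ∧ (T = 0 ∨ 2 * ((p ^ k).totient : ℤ) ≤ T) := by
  classical
  obtain ⟨A0, h1, h2, h3⟩ := exists_A0 hM he
  have hp0 : (p : ℂ) ^ blockDefect p e ≠ 0 := pow_ne_zero _ (by exact_mod_cast hM.1.ne_zero)
  have hn := fun ξ : IrrCharacter K =>
    Cfsg.Agent.Lib.Helper2.IsCharacter.classInner_nat hΦ (isCharacter_of_irr ξ.2)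
  choose n hn using hn
  have hQ0 : ∀ x : IrrCharacter K → ℤ, 0 ≤ QQ A0 x := by
    intro x
    have e1 := QQ_eq h1 h2 x
    rw [classInner_pReg_left] at e1
    obtain ⟨r, hr, e2⟩ := classInner_self_real (pRegularPart p (FF e (fun ξ => (x ξ : ℂ))))
    rw [e2] at e1
    have e3 : ((QQ A0 x : ℤ) : ℝ) = (p : ℝ) ^ blockDefect p e * r := by exact_mod_cast e1
    have e4 : (0 : ℝ) ≤ ((QQ A0 x : ℤ) : ℝ) := by rw [e3]; positivity
    exact_mod_cast e4
  have hQ1 : ∀ x : IrrCharacter K → ℤ, QQ A0 x ≠ 1 := by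
    intro x hx
    apply hno x
    rw [← QQ_eq h1 h2 x, hx]
    simp
  have hz0 : ∀ x : IrrCharacter K → ℤ, QQ A0 x = 0 →
      pRegularPart p (FF e (fun ξ => (x ξ : ℂ))) = 0 := by
    intro x hx
    have e1 := QQ_eq h1 h2 x
    rw [hx, classInner_pReg_left, Int.cast_zero] at e1
    apply classInner_self_eq_zero
    have := mul_eq_zero.1 e1.symm
    simpa [hp0] using this
  have hnull : ∀ x y : IrrCharacter K → ℤ, QQ A0 x = 0 → QQ A0 y = 0 → QQ A0 (x - y) = 0 := by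
    intro x y hx hy
    have e1 := QQ_eq h1 h2 (x - y)
    rw [FF_sub, pReg_sub, hz0 x hx, hz0 y hy, sub_zero, classInner_zero_left, mul_zero] at e1
    exact_mod_cast e1
  obtain ⟨T, hT1, hT2⟩ := form_sum_ge hM.1 A0 h3 hQ0 hQ1 hnull (fun ξ => (n ξ : ℤ))
    (fun ξ => lam z (ξ : K → ℂ)) (fun ξ => by rw [← hk]; exact lam_pow_orderOf hz ξ) (k := k)
  refine ⟨T, ?_, hT2⟩
  rw [← hT1]
  apply Finset.sum_congr rfl
  intro j _
  rw [form_eq h1 h2, blockPart_shift hz (isClassFunction_of_isCharacter hΦ)]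
  congr 2
  · rw [FF]
    congr 1
    apply Finset.sum_congr rfl
    intro ξ _
    rw [hn]
    push_cast
    rfl
  · rw [FF]
    apply Finset.sum_congr rfl
    intro ξ _
    rw [hn]
    push_cast
    rfl

end Cfsg.Agent.Lib.Helper26.Km
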