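import Cfsg.Agent.Lib.Helper26.KmD

set_option autoImplicit false
set_option linter.style.haveILetI false
set_option linter.unusedSectionVars false
open Cfsg
open Cfsg.Agent.Lib.Helper7 Cfsg.Agent.Lib.Helper24
open scoped ComplexConjugate

namespace Cfsg.Agent.Lib.Helper26.Km

open Cfsg.Agent.Lib.Helper26.Ctr

universe u

section K
variable {K : Type u} [Group K] {M : Ideal AlgInt} {p : ℕ}

theorem blockPart_FF [Fintype K] [Fintype (IrrCharacter K)] (e : Set (IrrCharacter K))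
    [DecidablePred (· ∈ e)] (a : IrrCharacter K → ℂ) : blockPart e (FF e a) = FF e a := by
  have h1 : FF e a = ∑ ξ' : IrrCharacter K, (if ξ' ∈ e then a ξ' else 0) • (ξ' : K → ℂ) := by
    rw [FF, Finset.sum_filter]
    apply Finset.sum_congr rfl
    intro ξ _
    split_ifs <;> simp
  ext c
  rw [blockPart_apply, FF_apply, Finset.sum_filter]
  apply Finset.sum_congr rfl
  intro ξ _
  by_cases hξ : ξ ∈ e
  · rw [Set.indicator_of_mem hξ, if_pos hξ, h1, classInner_sum_irr, if_pos hξ]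
  · rw [Set.indicator_of_notMem hξ, if_neg hξ]

theorem FF_inv [Finite K] [Fintype (IrrCharacter K)] (e : Set (IrrCharacter K))
    [DecidablePred (· ∈ e)] (x : IrrCharacter K → ℤ) (c : K) :
    FF e (fun ξ => (x ξ : ℂ)) c⁻¹ = conj (FF e (fun ξ => (x ξ : ℂ)) c) := by
  rw [FF_apply, FF_apply, map_sum]
  apply Finset.sum_congr rfl
  intro ξ _
  rw [map_mul, map_intCast, char_inv_eq_conj (isCharacter_of_irr ξ.2)]

theorem unit_of_norm_one [Fintype K] [Fintype (IrrCharacter K)] (hM : IsPModular p M)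
    {e : Set (IrrCharacter K)} [DecidablePred (· ∈ e)] (he : IsPBlock M e)
    (x : IrrCharacter K → ℤ)
    (hx : (p : ℂ) ^ blockDefect p e * classInner
      (pRegularPart p (FF e (fun ξ => (x ξ : ℂ)))) (FF e (fun ξ => (x ξ : ℂ))) = 1) :
    ¬ MemLocalIdeal M (FF e (fun ξ => (x ξ : ℂ)) 1 /
      (p ^ sInf ((fun χ : IrrCharacter K => (charDegree (χ : K → ℂ)).factorization p) '' e) : ℕ)) := by
  classical
  haveI := hM.2.1.isPrime
  set s0 := sInf ((fun χ : IrrCharacter K => (charDegree (χ : K → ℂ)).factorization p) '' e)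
    with hs0
  set F := FF e (fun ξ => (x ξ : ℂ)) with hF
  have hP0 : p ^ s0 ≠ 0 := pow_ne_zero _ hM.1.ne_zero
  have hPc : ((p ^ s0 : ℕ) : ℂ) ≠ 0 := by exact_mod_cast hP0
  have hp0 : (p : ℂ) ^ blockDefect p e ≠ 0 := pow_ne_zero _ (by exact_mod_cast hM.1.ne_zero)
  have hcK : (Nat.card K : ℂ) ≠ 0 := by exact_mod_cast Nat.card_pos.ne'
  obtain ⟨ξ₀, hξ₀⟩ := isPBlock_nonempty he
  have ha : ∀ ξ ∈ e, MemLocalRing M ((fun ξ => (x ξ : ℂ)) ξ) := fun ξ _ =>
    memLocalRing_of_isIntegral (by simpa using (isIntegral_algebraMap (R := ℤ) (A := ℂ) (x := x ξ)))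
  have hgc : IsClassFunction K (regCoeff p F) :=
    isClassFunction_regCoeff (isClassFunction_FF e _)
  have hgR : ∀ c, MemLocalRing M (regCoeff p F c) := by
    intro c
    rw [regCoeff]
    split_ifs
    · exact memLocalRing_zero
    · exact memLocalRing_FF e _ ha _
  have hG := lemG he _ ha hgc hgR hξ₀ hP0 (fun ξ hξ => pow_sInf_dvd hM.1 hξ)
  change MemLocalIdeal M ((∑ c, F c * regCoeff p F c) / ((p ^ s0 : ℕ) : ℂ)
    - F 1 / ((p ^ s0 : ℕ) : ℂ) * Om (regCoeff p F) ξ₀) at hG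
  have hsum : ∑ c, F c * regCoeff p F c = (Nat.card K : ℂ) * classInner (pRegularPart p F) F := by
    rw [classInner, ← mul_assoc, mul_inv_cancel₀ hcK, one_mul]
    apply Finset.sum_congr rfl
    intro c _
    rw [regCoeff]
    by_cases hc : p ∣ orderOf c
    · rw [if_pos hc, pReg_apply_of_sing _ hc, mul_zero, zero_mul]
    · rw [if_neg hc, pReg_apply_of_reg _ hc, hF, FF_inv]
  intro hbad
  have hOm : MemLocalRing M (Om (regCoeff p F) ξ₀) :=
    centralSubring_apply_mem ⟨_, hgc, hgR, rfl⟩ ξ₀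
  have h1 := memLocalIdeal_mul_right hbad hOm
  have h2 := memLocalIdeal_add hG h1
  rw [sub_add_cancel] at h2
  rw [hsum] at h2
  have hN : classInner (pRegularPart p F) F = ((p : ℂ) ^ blockDefect p e)⁻¹ :=
    eq_inv_of_mul_eq_one_right hx
  rw [hN] at h2
  have hr : MemLocalRing M (((p ^ blockDefect p e * p ^ s0 : ℕ) : ℂ) / ((Nat.card K : ℕ) : ℂ)) := by
    rw [memLocalRing_div_iff hM (Nat.mul_ne_zero (pow_ne_zero _ hM.1.ne_zero) hP0)
      Nat.card_pos.ne', ← pow_add, hM.1.factorization_pow, Finsupp.single_eq_same]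
    have h1 := sInf_le_factorization_card he p
    rw [blockDefect]
    omega
  have h3 := memLocalIdeal_mul_right h2 hr
  apply not_memLocalIdeal_one (M := M)
  convert h3 using 1
  have hps : (p : ℂ) ^ s0 ≠ 0 := pow_ne_zero _ (by exact_mod_cast hM.1.ne_zero)
  push_cast
  field_simp

end K

section G
variable {G : Type u} [Group G] {M : Ideal AlgInt} {p : ℕ}

open Classical in
/-- a function on `G` whose shift by `x` restricts to `F` on `H`. -/
noncomputable def lift (H : Subgroup G) (x : G) (F : H → ℂ) : G → ℂ :=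
  fun g => if h : x⁻¹ * g ∈ H then F ⟨x⁻¹ * g, h⟩ else 0

theorem fp_lift [Fintype G] {H : Subgroup G} [Fintype H] [Fintype (IrrCharacter H)]
    (e : Set (IrrCharacter H)) [DecidablePred (· ∈ e)] (x : G) (a : IrrCharacter H → ℂ) :
    fp H e x (lift H x (FF e a)) = FF e a := by
  rw [fp]
  have : (fun c : H => lift H x (FF e a) (x * (c : G))) = FF e a := by
    funext c
    have h : x⁻¹ * (x * (c : G)) ∈ H := by rw [inv_mul_cancel_left]; exact c.2
    rw [lift, dif_pos h]
    congr 1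
    apply Subtype.ext
    simp
  rw [this, blockPart_FF]

/-- **Case I**: a generalized character of norm `p^{-d}` on the `p`-regular elements. -/
theorem case_one [Fintype G] [Fintype (IrrCharacter G)] (hM : IsPModular p M)
    {B : Set (IrrCharacter G)} {y : G} {k : ℕ} (hk : orderOf y = p ^ k)
    {H : Subgroup G} [Fintype H] [Fintype (IrrCharacter H)]
    (hH : H = Subgroup.centralizer ({y} : Set G))
    {e : Set (IrrCharacter H)} [DecidablePred (· ∈ e)] (hind : IsInducedBlock M H e B)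
    (hdef : blockDefect p e = blockDefect p B) (x : IrrCharacter H → ℤ)
    (hx : (p : ℂ) ^ blockDefect p e * classInner
      (pRegularPart p (FF e (fun ξ => (x ξ : ℂ)))) (FF e (fun ξ => (x ξ : ℂ))) = 1) :
    Nat.card B ≤ p ^ blockDefect p e := by
  classical
  haveI := hM.2.1.isPrime
  have hyH : y ∈ H := by rw [hH]; exact Subgroup.mem_centralizer_singleton_iff.2 rfl
  have hyc : ∀ c : H, Commute y (c : G) := fun c =>
    (Subgroup.mem_centralizer_singleton_iff.1 (hH ▸ c.2)).symm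
  have hyH' : ∀ u : G, y * u = u * y → u ∈ H := by
    intro u hu
    rw [hH]
    exact Subgroup.mem_centralizer_singleton_iff.2 hu.symm
  set J := (Finset.range (p ^ k)).filter (fun j => j.Coprime (p ^ k)) with hJ
  set FB := Finset.univ.filter (fun χ : IrrCharacter G => χ ∈ B) with hFB
  set q := blockDefect p e with hq
  set F := FF e (fun ξ => (x ξ : ℂ)) with hF
  have hp0 : (p : ℂ) ^ q ≠ 0 := pow_ne_zero _ (by exact_mod_cast hM.1.ne_zero)
  have hcH : (Nat.card H : ℂ) ≠ 0 := by exact_mod_cast Nat.card_pos.ne'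
  have hpos : (0 : ℝ) < ((p ^ k).totient : ℝ) := by
    exact_mod_cast Nat.totient_pos.2 (pow_pos hM.1.pos k)
  have hmm : ∀ (j : ℕ) (ψ : G → ℂ), mm p H e (y ^ j) (lift H (y ^ j) F) ψ
      = classInner (pRegularPart p F) (fp H e (y ^ j) ψ) := by
    intro j ψ
    rw [mm, hF, fp_lift]
  obtain ⟨A0, h1, h2, -⟩ := exists_A0 hM hind.1
  have hzo : orderOf (⟨y, hyH⟩ : H) = p ^ k := by rw [← hk, ← Subgroup.orderOf_coe]
  have hexp : ∀ ψ : IrrCharacter G, ∃ A : IrrCharacter H × IrrCharacter H → ℤ, ∀ j : ℕ,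
      (p : ℂ) ^ q * mm p H e (y ^ j) (lift H (y ^ j) F) (ψ : G → ℂ)
        = ∑ i ∈ (Finset.univ : Finset (IrrCharacter H)) ×ˢ (Finset.univ : Finset (IrrCharacter H)),
          (A i : ℂ) * (conj (lam (⟨y, hyH⟩ : H) (i.2 : H → ℂ))) ^ j := by
    intro ψ
    have hn := fun ξ : IrrCharacter H => Cfsg.Agent.Lib.Helper2.IsCharacter.classInner_nat
      (isCharacter_restrict (isCharacter_of_irr ψ.2) H) (isCharacter_of_irr ξ.2)
    choose n hn using hn
    refine ⟨fun i => A0 i.1 i.2 * x i.1 * (n i.2 : ℤ), fun j => ?_⟩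
    rw [hmm, fp_pow_eq e hyH, blockPart_shift (mk_mem_center hyH hyc)
      (isClassFunction_of_isCharacter (isCharacter_restrict (isCharacter_of_irr ψ.2) H))]
    change (p : ℂ) ^ q * classInner (pRegularPart p (FF e (fun ξ => (x ξ : ℂ))))
      (FF e (fun ξ => classInner (fun h : H => (ψ : G → ℂ) (h : G)) (ξ : H → ℂ)
        * lam (⟨y, hyH⟩ : H) (ξ : H → ℂ) ^ j)) = _
    rw [← form_eq h1 h2, Finset.sum_product]
    apply Finset.sum_congr rfl
    intro i _
    apply Finset.sum_congr rfl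
    intro i' _
    rw [hn, map_mul, map_pow, Complex.conj_natCast]
    push_cast
    ring
  have hne : ∀ ψ ∈ FB, mm p H e (y ^ 1) (lift H (y ^ 1) F) (ψ : G → ℂ) ≠ 0 := by
    intro ψ hψ
    have hψB : ψ ∈ B := (Finset.mem_filter.1 hψ).2
    have e1 := card_mul_mm hM (isBlockUnion_of_isPBlock hind.1) hyc (lift H y F)
      (isCharacter_of_irr ψ.2)
    rw [hF, fp_lift, ← hF] at e1
    have e2 := pair_ne_zero hM hind ⟨k, hk⟩ hyc hyH' hdef (fun ξ => (x ξ : ℂ))
      (fun ξ _ => memLocalRing_of_isIntegral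
        (by simpa using (isIntegral_algebraMap (R := ℤ) (A := ℂ) (x := x ξ))))
      (unit_of_norm_one hM hind.1 x hx) hψB
    rw [pow_one]
    intro h0
    rw [h0, mul_zero] at e1
    exact e2 e1.symm
  have havg : ∀ ψ ∈ FB, ((p ^ k).totient : ℝ) ≤ ∑ j ∈ J,
      ‖(p : ℂ) ^ q * mm p H e (y ^ j) (lift H (y ^ j) F) (ψ : G → ℂ)‖ ^ 2 := by
    intro ψ hψ
    obtain ⟨A, hA⟩ := hexp ψ
    have := sum_coprime_ge (k := k) hM.1 _ A
      (fun i => conj (lam (⟨y, hyH⟩ : H) (i.2 : H → ℂ)))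
      (fun i _ => by
        rw [← map_pow, ← hzo, lam_pow_orderOf (mk_mem_center hyH hyc), map_one]) (by
        have e1 := hA 1
        simp only [pow_one] at e1
        rw [← e1]
        have := hne ψ hψ
        rw [pow_one] at this
        exact mul_ne_zero hp0 this)
    refine le_trans this (le_of_eq ?_)
    apply Finset.sum_congr rfl
    intro j _
    rw [hA j]
  have hrow : ∀ j ∈ J, ∑ ψ ∈ FB,
      ‖(p : ℂ) ^ q * mm p H e (y ^ j) (lift H (y ^ j) F) (ψ : G → ℂ)‖ ^ 2 = (p : ℝ) ^ q := by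
    intro j hj
    have hjc : j.Coprime (orderOf y) := by rw [hk]; exact (Finset.mem_filter.1 hj).2
    have e1 := mm_parseval_B hM (hH.trans (centralizer_pow_eq hjc))
      ⟨k, by rw [Nat.Coprime.orderOf_pow hjc.symm, hk]⟩ hind (lift H (y ^ j) F)
    rw [hmm j (lift H (y ^ j) F), hF, fp_lift, ← hF] at e1
    have e2 : ((∑ ψ ∈ FB,
        ‖(p : ℂ) ^ q * mm p H e (y ^ j) (lift H (y ^ j) F) (ψ : G → ℂ)‖ ^ 2 : ℝ) : ℂ)
        = (((p : ℝ) ^ q : ℝ) : ℂ) := by
      push_cast
      have e4 : ∀ ψ : IrrCharacter G,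
          ((‖(p : ℂ) ^ q * mm p H e (y ^ j) (lift H (y ^ j) F) (ψ : G → ℂ)‖ : ℝ) : ℂ) ^ 2
          = (p : ℂ) ^ q * ((p : ℂ) ^ q * (mm p H e (y ^ j) (lift H (y ^ j) F) (ψ : G → ℂ)
            * conj (mm p H e (y ^ j) (lift H (y ^ j) F) (ψ : G → ℂ)))) := by
        intro ψ
        rw [← Complex.mul_conj', map_mul, map_pow, Complex.conj_natCast]
        ring
      rw [Finset.sum_congr rfl (fun ψ _ => e4 ψ), ← Finset.mul_sum, ← Finset.mul_sum, e1, hx,
        mul_one]
    exact_mod_cast e2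
  have h4 := Finset.card_nsmul_le_sum FB _ _ havg
  rw [nsmul_eq_mul, Finset.sum_comm, Finset.sum_congr rfl hrow, Finset.sum_const,
    card_coprime_filter, nsmul_eq_mul] at h4
  have h5 : (FB.card : ℝ) ≤ (p : ℝ) ^ q := by
    have : ((p ^ k).totient : ℝ) * (FB.card : ℝ) ≤ ((p ^ k).totient : ℝ) * (p : ℝ) ^ q := by
      linarith
    exact le_of_mul_le_mul_left this hpos
  have hcard : Nat.card B = FB.card := by
    rw [Nat.card_eq_fintype_card, hFB, ← Fintype.card_subtype]
  rw [hcard]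
  exact_mod_cast h5

end G

end Cfsg.Agent.Lib.Helper26.Km
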