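import Cfsg.Agent.Lib.Helper26.KmE

set_option autoImplicit false
set_option linter.style.haveILetI false
set_option linter.unusedSectionVars false
open Cfsg
open Cfsg.Agent.Lib.Helper7 Cfsg.Agent.Lib.Helper24
open scoped ComplexConjugate

namespace Cfsg.Agent.Lib.Helper26.Km

open Cfsg.Agent.Lib.Helper26.Ctr

universe u
variable {G : Type u} [Group G] {M : Ideal AlgInt} {p : ℕ}

/-- every row of the contribution matrix of a major subsection is non-zero. -/
theorem major_ne_zero [Fintype G] (hM : IsPModular p M)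
    {B : Set (IrrCharacter G)} {y : G} {k : ℕ} (hk : orderOf y = p ^ k)
    {H : Subgroup G} [Fintype H] (hH : H = Subgroup.centralizer ({y} : Set G))
    {e : Set (IrrCharacter H)} (hind : IsInducedBlock M H e B)
    (hdef : blockDefect p e = blockDefect p B) {ψ0 χ : IrrCharacter G} (hψ0 : ψ0 ∈ B)
    (h0 : blockHeight p B (ψ0 : G → ℂ) = 0) (hχ : χ ∈ B) :
    mm p H e y (χ : G → ℂ) (ψ0 : G → ℂ) ≠ 0 := by
  classical
  haveI := hM.2.1.isPrime
  haveI := Fintype.ofFinite (IrrCharacter H)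
  have hyH : y ∈ H := by rw [hH]; exact Subgroup.mem_centralizer_singleton_iff.2 rfl
  have hyc : ∀ c : H, Commute y (c : G) := fun c =>
    (Subgroup.mem_centralizer_singleton_iff.1 (hH ▸ c.2)).symm
  have hyH' : ∀ u : G, y * u = u * y → u ∈ H := by
    intro u hu
    rw [hH]
    exact Subgroup.mem_centralizer_singleton_iff.2 hu.symm
  have hF : fp H e y (ψ0 : G → ℂ) = FF e (co H ⟨y, hyH⟩ (ψ0 : G → ℂ)) :=
    fp_eq_sum e hyH hyc (isClassFunction_irr ψ0)
  have hu := fp_one_unit hM hind ⟨k, hk⟩ hyH hyc hψ0 h0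
  rw [hF] at hu
  have e2 := pair_ne_zero hM hind ⟨k, hk⟩ hyc hyH' hdef (co H ⟨y, hyH⟩ (ψ0 : G → ℂ))
    (fun ξ _ => memLocalRing_co hyH hyc (isCharacter_of_irr ψ0.2) ξ) hu hχ
  have e1 := card_mul_mm hM (isBlockUnion_of_isPBlock hind.1) hyc (ψ0 : G → ℂ)
    (isCharacter_of_irr χ.2)
  rw [hF] at e1
  have e3 : mm p H e y (ψ0 : G → ℂ) (χ : G → ℂ) ≠ 0 := by
    intro h
    rw [h, mul_zero] at e1
    exact e2 e1.symm
  have e4 : mm p H e y (χ : G → ℂ) (ψ0 : G → ℂ) = conj (mm p H e y (ψ0 : G → ℂ) (χ : G → ℂ)) := by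
    rw [mm, mm, classInner_conj_symm, classInner_pReg_swap]
  rw [e4]
  exact (map_ne_zero _).2 e3

/-- **Case II**: no generalized character of norm `p^{-d}`. -/
theorem case_two [Fintype G] [Fintype (IrrCharacter G)] (hM : IsPModular p M)
    {B : Set (IrrCharacter G)} {y : G} {k : ℕ} (hk : orderOf y = p ^ k)
    {H : Subgroup G} [Fintype H] [Fintype (IrrCharacter H)]
    (hH : H = Subgroup.centralizer ({y} : Set G))
    {e : Set (IrrCharacter H)} [DecidablePred (· ∈ e)] (hind : IsInducedBlock M H e B)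
    (hdef : blockDefect p e = blockDefect p B)
    (hno : ∀ x : IrrCharacter H → ℤ, (p : ℂ) ^ blockDefect p e * classInner
      (pRegularPart p (FF e (fun ξ => (x ξ : ℂ)))) (FF e (fun ξ => (x ξ : ℂ))) ≠ 1)
    (hl : blockRank p e ≤ 2) :
    Nat.card B ≤ p ^ blockDefect p e := by
  classical
  haveI := hM.2.1.isPrime
  have hyH : y ∈ H := by rw [hH]; exact Subgroup.mem_centralizer_singleton_iff.2 rfl
  have hyc : ∀ c : H, Commute y (c : G) := fun c =>
    (Subgroup.mem_centralizer_singleton_iff.1 (hH ▸ c.2)).symm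
  set J := (Finset.range (p ^ k)).filter (fun j => j.Coprime (p ^ k)) with hJ
  set FB := Finset.univ.filter (fun χ : IrrCharacter G => χ ∈ B) with hFB
  set q := blockDefect p e with hq
  have hpq : (0 : ℝ) < (p : ℝ) ^ q := pow_pos (by exact_mod_cast hM.1.pos) q
  have hpos : (0 : ℝ) < ((p ^ k).totient : ℝ) := by
    exact_mod_cast Nat.totient_pos.2 (pow_pos hM.1.pos k)
  have hzo : orderOf (⟨y, hyH⟩ : H) = p ^ k := by rw [← hk, ← Subgroup.orderOf_coe]
  obtain ⟨ψ0, hψ0, hψs⟩ := exists_height_zero hind.2.1 p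
  have h0' : blockHeight p B (ψ0 : G → ℂ) = 0 := by rw [blockHeight, hψs, Nat.sub_self]
  have hψ0F : ψ0 ∈ FB := Finset.mem_filter.2 ⟨Finset.mem_univ _, hψ0⟩
  obtain ⟨j0, hj0, hyj0⟩ : ∃ j0 ∈ J, y ^ j0 = y := by
    rcases Nat.eq_zero_or_pos k with rfl | hk0
    · refine ⟨0, by simp [hJ], ?_⟩
      rw [pow_zero] at hk
      rw [pow_zero, orderOf_eq_one_iff.1 hk]
    · refine ⟨1, ?_, pow_one y⟩
      rw [hJ, Finset.mem_filter, Finset.mem_range]
      exact ⟨Nat.one_lt_pow hk0.ne' hM.1.one_lt, Nat.coprime_one_left _⟩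
  have hreal : ∀ χ : IrrCharacter G, ∀ j ∈ J,
      (p : ℂ) ^ q * mm p H e (y ^ j) (χ : G → ℂ) (χ : G → ℂ)
      = (((p : ℝ) ^ q * ∑ ψ ∈ FB, ‖mm p H e (y ^ j) (χ : G → ℂ) (ψ : G → ℂ)‖ ^ 2 : ℝ) : ℂ) := by
    intro χ j hj
    have hjc : j.Coprime (orderOf y) := by rw [hk]; exact (Finset.mem_filter.1 hj).2
    rw [← mm_parseval_B hM (hH.trans (centralizer_pow_eq hjc))
      ⟨k, by rw [Nat.Coprime.orderOf_pow hjc.symm, hk]⟩ hind]
    push_cast
    congr 1
    apply Finset.sum_congr rfl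
    intro ψ _
    rw [← Complex.mul_conj']
  have hT : ∀ χ ∈ FB, 2 * ((p ^ k).totient : ℝ)
      ≤ ∑ j ∈ J, (p : ℝ) ^ q * ∑ ψ ∈ FB, ‖mm p H e (y ^ j) (χ : G → ℂ) (ψ : G → ℂ)‖ ^ 2 := by
    intro χ hχ
    have hχB : χ ∈ B := (Finset.mem_filter.1 hχ).2
    obtain ⟨T, hT1, hT2⟩ := trace_ge hM (mk_mem_center hyH hyc) hzo
      (isCharacter_restrict (isCharacter_of_irr χ.2) H) hind.1 hno
    have e1 : ((∑ j ∈ J, (p : ℝ) ^ q * ∑ ψ ∈ FB,
        ‖mm p H e (y ^ j) (χ : G → ℂ) (ψ : G → ℂ)‖ ^ 2 : ℝ) : ℂ) = (T : ℂ) := by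
      rw [← hT1, Complex.ofReal_sum]
      apply Finset.sum_congr rfl
      intro j hj
      rw [← hreal χ j hj, mm_pow_eq e hyH]
    have e2 : (∑ j ∈ J, (p : ℝ) ^ q * ∑ ψ ∈ FB,
        ‖mm p H e (y ^ j) (χ : G → ℂ) (ψ : G → ℂ)‖ ^ 2 : ℝ) = (T : ℝ) := by exact_mod_cast e1
    rw [e2]
    have e3 : (0 : ℝ) < (T : ℝ) := by
      rw [← e2]
      have hnn : ∀ j ∈ J, (0 : ℝ) ≤ (p : ℝ) ^ q * ∑ ψ ∈ FB,
          ‖mm p H e (y ^ j) (χ : G → ℂ) (ψ : G → ℂ)‖ ^ 2 := by
        intro j _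
        exact mul_nonneg hpq.le (Finset.sum_nonneg (fun ψ _ => by positivity))
      refine lt_of_lt_of_le ?_ (Finset.single_le_sum hnn hj0)
      apply mul_pos hpq
      refine lt_of_lt_of_le ?_ (Finset.single_le_sum (f := fun ψ : IrrCharacter G =>
        ‖mm p H e (y ^ j0) (χ : G → ℂ) (ψ : G → ℂ)‖ ^ 2) (fun ψ _ => by positivity) hψ0F)
      rw [hyj0]
      have := major_ne_zero hM hk hH hind hdef hψ0 h0' hχB
      positivity
    have e4 : (0 : ℤ) < T := by exact_mod_cast e3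
    rcases hT2 with h | h
    · omega
    · exact_mod_cast h
  have hup : ∑ j ∈ J, ∑ χ ∈ FB, (p : ℝ) ^ q * ∑ ψ ∈ FB,
      ‖mm p H e (y ^ j) (χ : G → ℂ) (ψ : G → ℂ)‖ ^ 2
      = ((p ^ k).totient : ℝ) * ((p : ℝ) ^ q * (blockRank p e : ℝ)) := by
    have h1 : ∀ j ∈ J, ∑ χ ∈ FB, (p : ℝ) ^ q * ∑ ψ ∈ FB,
        ‖mm p H e (y ^ j) (χ : G → ℂ) (ψ : G → ℂ)‖ ^ 2 = (p : ℝ) ^ q * (blockRank p e : ℝ) := by
      intro j hj
      have hjc : j.Coprime (orderOf y) := by rw [hk]; exact (Finset.mem_filter.1 hj).2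
      rw [← sum_mm_normsq hM (hH.trans (centralizer_pow_eq hjc))
        ⟨k, by rw [Nat.Coprime.orderOf_pow hjc.symm, hk]⟩ hind, Finset.mul_sum]
    rw [Finset.sum_congr rfl h1, Finset.sum_const, card_coprime_filter, nsmul_eq_mul]
  have h4 := Finset.card_nsmul_le_sum FB _ _ hT
  rw [nsmul_eq_mul, Finset.sum_comm, hup] at h4
  have hl' : (blockRank p e : ℝ) ≤ 2 := by exact_mod_cast hl
  have h5 : (FB.card : ℝ) ≤ (p : ℝ) ^ q := by
    have h6 : ((p ^ k).totient : ℝ) * ((p : ℝ) ^ q * (blockRank p e : ℝ))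
        ≤ ((p ^ k).totient : ℝ) * ((p : ℝ) ^ q * 2) :=
      mul_le_mul_of_nonneg_left (mul_le_mul_of_nonneg_left hl' hpq.le) hpos.le
    have : (2 * ((p ^ k).totient : ℝ)) * (FB.card : ℝ) ≤ (2 * ((p ^ k).totient : ℝ)) * (p : ℝ) ^ q := by
      linarith
    exact le_of_mul_le_mul_left this (by positivity)
  have hcard : Nat.card B = FB.card := by
    rw [Nat.card_eq_fintype_card, hFB, ← Fintype.card_subtype]
  rw [hcard]
  exact_mod_cast h5

/-- **`k(B) ≤ p^d` for a major subsection of rank at most two.** -/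
theorem card_le_of_major [Finite G] (hM : IsPModular p M)
    {B : Set (IrrCharacter G)} {y : G} {k : ℕ} (hk : orderOf y = p ^ k)
    {e : Set (IrrCharacter (Subgroup.centralizer ({y} : Set G)))}
    (hind : IsInducedBlock M (Subgroup.centralizer ({y} : Set G)) e B)
    (hdef : blockDefect p e = blockDefect p B) (hl : blockRank p e ≤ 2) :
    Nat.card B ≤ p ^ blockDefect p B := by
  classical
  haveI := Fintype.ofFinite G
  haveI := Fintype.ofFinite (IrrCharacter G)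
  haveI := Fintype.ofFinite (Subgroup.centralizer ({y} : Set G))
  haveI := Fintype.ofFinite (IrrCharacter (Subgroup.centralizer ({y} : Set G)))
  rw [← hdef]
  by_cases hex : ∃ x : IrrCharacter (Subgroup.centralizer ({y} : Set G)) → ℤ,
      (p : ℂ) ^ blockDefect p e * classInner
        (pRegularPart p (FF e (fun ξ => (x ξ : ℂ)))) (FF e (fun ξ => (x ξ : ℂ))) = 1
  · obtain ⟨x, hx⟩ := hex
    exact case_one hM hk rfl hind hdef x hx
  · push Not at hex
    exact case_two hM hk rfl hind hdef hex hl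

end Cfsg.Agent.Lib.Helper26.Km
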