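import Cfsg.Agent.Lib.Helper26.CtrL
import Cfsg.Agent.Lib.Helper7.BlockRes
import Cfsg.Agent.Lib.Helper7.BlockDefect

set_option autoImplicit false
set_option linter.style.haveILetI false
open Cfsg
open Cfsg.Agent.Lib.Helper7
open scoped ComplexConjugate
open Finset

namespace Cfsg.Agent.Lib.Helper26.Kn

variable {M : Ideal AlgInt}

theorem sum_shift_periodic {m : ℕ} (G : ℕ → ℂ) (hG : ∀ k, G (k + m) = G k) (r : ℕ) :
    ∑ k ∈ range m, G (k + r) = ∑ k ∈ range m, G k := by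
  induction r with
  | zero => simp
  | succ r ih =>
    rw [← ih]
    have h1 := sum_range_succ (fun k => G (k + r)) m
    have h2 := sum_range_succ' (fun k => G (k + r)) m
    rw [h1] at h2
    have h3 : G (m + r) = G (0 + r) := by rw [add_comm m r, hG, zero_add]
    rw [h3] at h2
    have h4 := add_right_cancel h2
    rw [h4]
    apply sum_congr rfl
    intro k _
    congr 1
    ring

/-- the element of `ℤ[ζ]` with coordinates `c`. -/
noncomputable def xc (ζ : ℂ) (m : ℕ) (c : ℕ → ℤ) : ℂ := ∑ k ∈ range m, (c k : ℂ) * ζ ^ k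

theorem xc_shift {ζ : ℂ} {m : ℕ} (hζ : ζ ^ m = -1) {c : ℕ → ℤ} (hc : ∀ k, c (k + m) = - c k)
    (r : ℕ) : xc ζ m (fun k => c (k + r)) * ζ ^ r = xc ζ m c := by
  rw [xc, xc, sum_mul]
  rw [← sum_shift_periodic (fun k => (c k : ℂ) * ζ ^ k) (by
    intro k
    rw [hc, pow_add, hζ]
    push_cast
    ring) r]
  apply sum_congr rfl
  intro k _
  rw [pow_add]
  ring

theorem isIntegral_zeta {ζ : ℂ} {m : ℕ} (hm : 0 < m) (hζ : ζ ^ m = -1) : IsIntegral ℤ ζ :=
  IsIntegral.of_pow hm (by rw [hζ]; exact isIntegral_one.neg)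

theorem memLocalRing_xc [M.IsPrime] {ζ : ℂ} {m : ℕ} (hm : 0 < m) (hζ : ζ ^ m = -1) (c : ℕ → ℤ) :
    MemLocalRing M (xc ζ m c) := by
  rw [xc]
  apply memLocalRing_sum
  intro k _
  exact memLocalRing_mul (memLocalRing_intCast _)
    (memLocalRing_of_isIntegral ((isIntegral_zeta hm hζ).pow k))

theorem Zj (hM : IsPModular 2 M) {n : ℕ} {ζ : ℂ} (hζ : ζ ^ (2 ^ n) = -1) (j : ℕ) (hj : j ≤ n) :
    ∀ c : ℕ → ℤ, (∀ k, c (k + 2 ^ n) = - c k) → MemLocalRing M (xc ζ (2 ^ n) c / 2) →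
      (∀ k, (2 : ℤ) ∣ c k + c (k + 2 ^ j)) → ∀ k, (2 : ℤ) ∣ c k := by
  haveI := hM.2.1.isPrime
  have hm : 0 < 2 ^ n := pow_pos (by norm_num) n
  have hint := isIntegral_zeta hm hζ
  induction j with
  | zero =>
    intro c hc hx hpar
    simp only [pow_zero] at hpar
    have hsame : ∀ k, (2 : ℤ) ∣ c k - c 0 := by
      intro k
      induction k with
      | zero => simp
      | succ k ih =>
        have := hpar k
        omega
    by_contra hcon
    push Not at hcon
    obtain ⟨k0, hk0⟩ := hcon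
    have hodd : ∀ k, ∃ e : ℤ, c k = 2 * e + 1 := by
      intro k
      have h1 := hsame k
      have h2 := hsame k0
      exact ⟨(c k - 1) / 2, by omega⟩
    choose e he using hodd
    have h1 : xc ζ (2 ^ n) c = ∑ k ∈ range (2 ^ n), ζ ^ k + 2 * xc ζ (2 ^ n) e := by
      rw [xc, xc, mul_sum, ← sum_add_distrib]
      apply sum_congr rfl
      intro k _
      rw [he k]
      push_cast
      ring
    have h2 : MemLocalRing M ((∑ k ∈ range (2 ^ n), ζ ^ k) / 2) := by
      have : (∑ k ∈ range (2 ^ n), ζ ^ k) / 2 = xc ζ (2 ^ n) c / 2 - xc ζ (2 ^ n) e := by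
        rw [h1]; ring
      rw [this]
      exact memLocalRing_sub hx (memLocalRing_xc hm hζ e)
    have h3 : MemLocalIdeal M (ζ - 1) :=
      memLocalIdeal_sub_one_of_pow hM (k := n + 1) (by rw [pow_succ, pow_mul, hζ]; norm_num)
    have h4 := memLocalIdeal_mul_right h3 h2
    have h5 : (ζ - 1) * ((∑ k ∈ range (2 ^ n), ζ ^ k) / 2) = -1 := by
      rw [← mul_div_assoc, mul_geom_sum, hζ]
      norm_num
    rw [h5] at h4
    have := memLocalIdeal_neg h4
    rw [neg_neg] at this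
    exact not_memLocalIdeal_one this
  | succ j ih =>
    intro c hc hx hpar
    have hjn : j ≤ n := by omega
    have hr : 2 ^ j ≤ 2 * 2 ^ n := by
      calc 2 ^ j ≤ 2 ^ n := Nat.pow_le_pow_right (by norm_num) hjn
        _ ≤ 2 * 2 ^ n := by omega
    have hone : ζ ^ (2 * 2 ^ n) = 1 := by rw [mul_comm, pow_mul, hζ]; norm_num
    have hsh : xc ζ (2 ^ n) (fun k => c (k + 2 ^ j)) = xc ζ (2 ^ n) c * ζ ^ (2 * 2 ^ n - 2 ^ j) := by
      rw [← xc_shift hζ hc (2 ^ j), mul_assoc, ← pow_add, Nat.add_sub_cancel' hr, hone, mul_one]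
    have hadd : xc ζ (2 ^ n) (fun k => c k + c (k + 2 ^ j))
        = xc ζ (2 ^ n) c * (1 + ζ ^ (2 * 2 ^ n - 2 ^ j)) := by
      rw [mul_add, mul_one, ← hsh, xc, xc, xc, ← sum_add_distrib]
      apply sum_congr rfl
      intro k _
      push_cast
      ring
    have h1 : ∀ k, (2 : ℤ) ∣ c k + c (k + 2 ^ j) := by
      apply ih hjn (fun k => c k + c (k + 2 ^ j))
      · intro k
        have e1 : k + 2 ^ n + 2 ^ j = (k + 2 ^ j) + 2 ^ n := by ring
        simp only [e1, hc]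
        ring
      · rw [hadd, mul_div_right_comm]
        exact memLocalRing_mul hx (memLocalRing_add memLocalRing_one
          (memLocalRing_of_isIntegral (hint.pow _)))
      · intro k
        have e1 : k + 2 ^ j + 2 ^ j = k + 2 ^ (j + 1) := by rw [pow_succ]; ring
        simp only [e1]
        have := hpar k
        omega
    exact ih hjn c hc hx h1

theorem Z1 (hM : IsPModular 2 M) {n : ℕ} {ζ : ℂ} (hζ : ζ ^ (2 ^ n) = -1) (c : ℕ → ℤ)
    (hc : ∀ k, c (k + 2 ^ n) = - c k) (hx : MemLocalRing M (xc ζ (2 ^ n) c / 2)) :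
    ∀ k, (2 : ℤ) ∣ c k :=
  Zj hM hζ n le_rfl c hc hx (fun k => by rw [hc]; simp)

theorem Zh (hM : IsPModular 2 M) {n : ℕ} {ζ : ℂ} (hζ : ζ ^ (2 ^ n) = -1) (h : ℕ) :
    ∀ c : ℕ → ℤ, (∀ k, c (k + 2 ^ n) = - c k) → MemLocalRing M (xc ζ (2 ^ n) c / 2 ^ h) →
      ∀ k, (2 : ℤ) ^ h ∣ c k := by
  haveI := hM.2.1.isPrime
  induction h with
  | zero => intro c _ _ k; simp
  | succ h ih =>
    intro c hc hx k
    have h1 : MemLocalRing M (xc ζ (2 ^ n) c / 2) := by
      have : xc ζ (2 ^ n) c / 2 = xc ζ (2 ^ n) c / 2 ^ (h + 1) * ((2 ^ h : ℕ) : ℂ) := by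
        push_cast
        rw [pow_succ]
        field_simp
      rw [this]
      exact memLocalRing_mul hx (memLocalRing_natCast _)
    have h2 := Z1 hM hζ c hc h1
    choose c' hc' using h2
    have h3 : xc ζ (2 ^ n) c = 2 * xc ζ (2 ^ n) c' := by
      rw [xc, xc, mul_sum]
      apply sum_congr rfl
      intro k _
      rw [hc' k]
      push_cast
      ring
    have h4 := ih c' (by
      intro k
      have e1 := hc k
      rw [hc' k, hc' (k + 2 ^ n)] at e1
      omega) (by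
      have : xc ζ (2 ^ n) c' / 2 ^ h = xc ζ (2 ^ n) c / 2 ^ (h + 1) := by
        rw [h3, pow_succ]
        field_simp
      rw [this]
      exact hx) k
    rw [hc' k, pow_succ, mul_comm]
    exact mul_dvd_mul_left 2 h4

/-- a symmetric element is congruent to its constant coefficient. -/
theorem xc_congr (hM : IsPModular 2 M) {n : ℕ} {ζ : ℂ} (hζ : ζ ^ (2 ^ n) = -1) (c : ℕ → ℤ)
    (hsym : ∀ k, 0 < k → k < 2 ^ n → c (2 ^ n - k) = - c k) :
    MemLocalIdeal M (xc ζ (2 ^ n) c - (c 0 : ℂ)) := by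
  haveI := hM.2.1.isPrime
  obtain ⟨m, hm⟩ : ∃ m, 2 ^ n = m + 1 := ⟨2 ^ n - 1, by have := pow_pos (show 0 < 2 by norm_num) n; omega⟩
  have h1 : ∑ k ∈ range m, c (k + 1) = 0 := by
    have h2 := sum_range_reflect (fun k => c (k + 1)) m
    have h3 : ∑ j ∈ range m, c (m - 1 - j + 1) = - ∑ k ∈ range m, c (k + 1) := by
      rw [← sum_neg_distrib]
      apply sum_congr rfl
      intro j hj
      have hj' := mem_range.1 hj
      rw [← hsym (j + 1) (by omega) (by omega)]
      congr 1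
      omega
    rw [h3] at h2
    omega
  have h4 : xc ζ (2 ^ n) c - (c 0 : ℂ) = ∑ k ∈ range (2 ^ n), (c k : ℂ) * (ζ ^ k - 1) := by
    have h5 : ∑ k ∈ range (2 ^ n), (c k : ℂ) = (c 0 : ℂ) := by
      rw [hm, sum_range_succ']
      have : ∑ k ∈ range m, (c (k + 1) : ℂ) = ((∑ k ∈ range m, c (k + 1) : ℤ) : ℂ) := by push_cast; rfl
      rw [this, h1]
      simp
    rw [← h5, xc, ← sum_sub_distrib]
    apply sum_congr rfl
    intro k _
    ring
  rw [h4]
  apply memLocalIdeal_sum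
  intro k _
  apply memLocalIdeal_mul_left (memLocalRing_intCast _)
  exact memLocalIdeal_sub_one_of_pow hM (k := n + 1) (by
    rw [← pow_mul, mul_comm, pow_mul, pow_succ, pow_mul, hζ]; norm_num)

end Cfsg.Agent.Lib.Helper26.Kn
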