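import Cfsg.Agent.Lib.Helper26.KnA

set_option autoImplicit false
set_option linter.style.haveILetI false
open Cfsg
open Cfsg.Agent.Lib.Helper7
open scoped ComplexConjugate
open Finset

namespace Cfsg.Agent.Lib.Helper26.Kn

open Cfsg.Agent.Lib.Helper26.Ctr

variable {M : Ideal AlgInt}

open Classical in
/-- the coordinates of `∑ A_i z_i`. -/
noncomputable def cf {ι : Type*} (s : Finset ι) (A : ι → ℤ) (z : ι → ℂ) (ζ : ℂ) (k : ℕ) : ℤ :=
  ∑ i ∈ s, A i * ((if z i = ζ ^ k then 1 else 0) - (if z i = - ζ ^ k then 1 else 0))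

section root
variable {m : ℕ} {ζ : ℂ} (hm : 0 < m) (hζ : IsPrimitiveRoot ζ (2 * m)) (hζm : ζ ^ m = -1)

include hm hζ hζm in
open Classical in
theorem single_root {w : ℂ} (hw : w ^ (2 * m) = 1) {j : ℕ} (hj : Odd j) :
    ∑ k ∈ range m, (((if w = ζ ^ k then 1 else 0) - (if w = - ζ ^ k then 1 else 0) : ℤ) : ℂ)
      * (ζ ^ k) ^ j = w ^ j := by
  haveI : NeZero (2 * m) := ⟨by omega⟩
  have hζ0 : ζ ≠ 0 := hζ.ne_zero (by omega)
  obtain ⟨k0, hk0, rfl⟩ := hζ.eq_pow_of_pow_eq_one hw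
  have hneg : ∀ k, - ζ ^ k = ζ ^ (k + m) := by
    intro k
    rw [pow_add, hζm]; ring
  have hself : ∀ k, ζ ^ k ≠ - ζ ^ k := by
    intro k h
    have h1 : (2 : ℂ) * ζ ^ k = 0 := by linear_combination h
    have h2 : ζ ^ k ≠ 0 := pow_ne_zero _ hζ0
    simp [h2] at h1
  by_cases hlt : k0 < m
  · rw [sum_eq_single k0]
    · rw [if_pos rfl, if_neg (hself k0)]
      simp
    · intro k hk hne
      have hk' := mem_range.1 hk
      rw [if_neg, if_neg]
      · simp
      · rw [hneg]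
        intro h
        have := hζ.pow_inj hk0 (by omega) h
        omega
      · intro h
        have := hζ.pow_inj hk0 (by omega) h
        omega
    · intro h
      exact absurd (mem_range.2 hlt) h
  · have hk1 : k0 - m < m := by omega
    have hk0' : ζ ^ k0 = - ζ ^ (k0 - m) := by
      rw [hneg]; congr 1; omega
    rw [sum_eq_single (k0 - m)]
    · rw [if_neg, if_pos hk0']
      · rw [hk0', hj.neg_pow]
        push_cast
        ring
      · rw [hk0']
        exact fun h => hself _ h.symm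
    · intro k hk hne
      have hk' := mem_range.1 hk
      rw [if_neg, if_neg]
      · simp
      · rw [hneg]
        intro h
        have := hζ.pow_inj hk0 (by omega) h
        omega
      · intro h
        have := hζ.pow_inj hk0 (by omega) h
        omega
    · intro h
      exact absurd (mem_range.2 hk1) h

include hm hζ hζm in
theorem sum_eq_cf {ι : Type*} (s : Finset ι) (A : ι → ℤ) (z : ι → ℂ)
    (hz : ∀ i ∈ s, z i ^ (2 * m) = 1) {j : ℕ} (hj : Odd j) :
    ∑ i ∈ s, (A i : ℂ) * z i ^ j = ∑ k ∈ range m, (cf s A z ζ k : ℂ) * (ζ ^ k) ^ j := by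
  classical
  simp only [cf]
  push_cast
  simp_rw [sum_mul]
  rw [sum_comm]
  apply sum_congr rfl
  intro i hi
  rw [← single_root hm hζ hζm (hz i hi) hj, mul_sum]
  apply sum_congr rfl
  intro k _
  push_cast
  ring

include hζm in
theorem cf_add (hone : ζ ^ (2 * m) = 1) {ι : Type*} (s : Finset ι) (A : ι → ℤ) (z : ι → ℂ) (k : ℕ) :
    cf s A z ζ (k + m) = - cf s A z ζ k := by
  classical
  rw [cf, cf, ← sum_neg_distrib]
  apply sum_congr rfl
  intro i _
  have h1 : ζ ^ (k + m) = - ζ ^ k := by rw [pow_add, hζm]; ring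
  rw [h1, neg_neg]
  ring

end root

theorem zeta_data (n : ℕ) : ∃ ζ : ℂ, IsPrimitiveRoot ζ (2 * 2 ^ n) ∧ ζ ^ (2 ^ n) = -1 := by
  have hpos : 0 < 2 * 2 ^ n := by positivity
  have h1 := Complex.isPrimitiveRoot_exp (2 * 2 ^ n) hpos.ne'
  refine ⟨_, h1, ?_⟩
  have h2 := h1.pow hpos (show 2 * 2 ^ n = 2 ^ n * 2 by ring)
  exact h2.eq_neg_one_of_two_right

theorem int_dvd_of_mem (hM : IsPModular 2 M) (X : ℤ) (h : ℕ)
    (hx : MemLocalRing M ((X : ℂ) / 2 ^ h)) : (2 : ℤ) ^ h ∣ X := by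
  have := Zh hM (n := 0) (ζ := -1) (by simp) h (fun k => (-1) ^ k * X)
    (by intro k; simp [pow_succ]) (by simpa [xc] using hx) 0
  simpa using this

theorem odd_of_mem_J {n j : ℕ}
    (hj : j ∈ (range (2 ^ (n + 1))).filter (fun j => j.Coprime (2 ^ (n + 1)))) : Odd j := by
  have := (mem_filter.1 hj).2
  rw [Nat.coprime_pow_right_iff (Nat.succ_pos n)] at this
  exact Nat.coprime_two_right.1 this

/-- **Norm bound with divisibility.** -/
theorem P1 (hM : IsPModular 2 M) {k : ℕ} {ι : Type*} (s : Finset ι) (A : ι → ℤ) (z : ι → ℂ)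
    (hz : ∀ i ∈ s, z i ^ (2 ^ k) = 1) (h : ℕ)
    (hx : MemLocalRing M ((∑ i ∈ s, (A i : ℂ) * z i) / 2 ^ h))
    (hne : ∑ i ∈ s, (A i : ℂ) * z i ≠ 0) :
    ((2 ^ k).totient : ℝ) * 4 ^ h ≤ ∑ j ∈ (range (2 ^ k)).filter (fun j => j.Coprime (2 ^ k)),
      ‖∑ i ∈ s, (A i : ℂ) * z i ^ j‖ ^ 2 := by
  classical
  rcases Nat.eq_zero_or_pos k with rfl | hk
  · have h1 : (range (2 ^ 0)).filter (fun j => j.Coprime (2 ^ 0)) = {0} := by
      ext j
      simp
    rw [h1, sum_singleton]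
    simp only [pow_zero, Nat.totient_one, Nat.cast_one, mul_one, one_mul]
    have h2 : ∑ i ∈ s, (A i : ℂ) * z i = ((∑ i ∈ s, A i : ℤ) : ℂ) := by
      push_cast
      apply sum_congr rfl
      intro i hi
      have := hz i hi
      rw [pow_zero, pow_one] at this
      rw [this, mul_one]
    rw [h2] at hne hx
    have h3 : (∑ i ∈ s, A i : ℤ) ≠ 0 := by
      intro h
      rw [h] at hne
      exact hne (by simp)
    obtain ⟨t, ht⟩ := int_dvd_of_mem hM _ h hx
    have ht0 : t ≠ 0 := by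
      rintro rfl
      exact h3 (by rw [ht, mul_zero])
    have h4 : ∑ i ∈ s, (A i : ℂ) = ((∑ i ∈ s, A i : ℤ) : ℂ) := by push_cast; rfl
    rw [h4, Complex.norm_intCast, ht]
    have h5 : (1 : ℤ) ≤ |t| := Int.one_le_abs ht0
    have h6 : (1 : ℝ) ≤ |(t : ℝ)| := by exact_mod_cast h5
    push_cast
    rw [abs_mul, mul_pow, sq_abs, ← pow_mul, mul_comm h 2, pow_mul]
    have h7 : (1 : ℝ) ≤ |(t : ℝ)| ^ 2 := by nlinarith
    have h8 : (0 : ℝ) < (2 ^ 2 : ℝ) ^ h := by positivity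
    have h9 : ((4 : ℝ)) ^ h = (2 ^ 2 : ℝ) ^ h := by norm_num
    rw [h9]
    nlinarith
  · obtain ⟨n, rfl⟩ : ∃ k', k = k' + 1 := ⟨k - 1, by omega⟩
    obtain ⟨ζ, hζ, hζm⟩ := zeta_data n
    have hm : 0 < 2 ^ n := by positivity
    have hN : 2 ^ (n + 1) = 2 * 2 ^ n := by rw [pow_succ]; ring
    have hz' : ∀ i ∈ s, z i ^ (2 * 2 ^ n) = 1 := by
      intro i hi; rw [← hN]; exact hz i hi
    set c := cf s A z ζ with hc
    have hcadd : ∀ k, c (k + 2 ^ n) = - c k := cf_add hζm hζ.pow_eq_one s A z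
    have hx1 : ∑ i ∈ s, (A i : ℂ) * z i = xc ζ (2 ^ n) c := by
      have := sum_eq_cf hm hζ hζm s A z hz' (j := 1) (by decide)
      simpa [xc] using this
    rw [hx1] at hx
    have hdvd := Zh hM hζm h c hcadd hx
    choose c' hc' using hdvd
    have hxj : ∀ j, Odd j → ∑ i ∈ s, (A i : ℂ) * z i ^ j
        = 2 ^ h * ∑ k ∈ range (2 ^ n), (c' k : ℂ) * (ζ ^ k) ^ j := by
      intro j hj
      rw [sum_eq_cf hm hζ hζm s A z hz' hj, mul_sum]
      apply sum_congr rfl
      intro k _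
      rw [← hc, hc' k]
      push_cast
      ring
    have hne' : ∑ k ∈ range (2 ^ n), (c' k : ℂ) * ζ ^ k ≠ 0 := by
      intro h0
      apply hne
      have := hxj 1 (by decide)
      simp only [pow_one] at this
      rw [this, h0, mul_zero]
    have h1 := sum_coprime_ge (k := n + 1) Nat.prime_two (range (2 ^ n)) c' (fun k => ζ ^ k)
      (fun k _ => by rw [← pow_mul, mul_comm, pow_mul, hN, hζ.pow_eq_one, one_pow]) hne'
    calc ((2 ^ (n + 1)).totient : ℝ) * 4 ^ h
        ≤ (∑ j ∈ (range (2 ^ (n + 1))).filter (fun j => j.Coprime (2 ^ (n + 1))),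
          ‖∑ k ∈ range (2 ^ n), (c' k : ℂ) * (ζ ^ k) ^ j‖ ^ 2) * 4 ^ h :=
          mul_le_mul_of_nonneg_right h1 (by positivity)
      _ = _ := by
          rw [sum_mul]
          apply sum_congr rfl
          intro j hj
          rw [hxj j (odd_of_mem_J hj), norm_mul, mul_pow, norm_pow, Complex.norm_ofNat, ← pow_mul,
            mul_comm h 2, pow_mul]
          norm_num
          ring

theorem cf_symm {m : ℕ} {ζ : ℂ} (hm : 0 < m) (hζm : ζ ^ m = -1) {ι : Type*} (s : Finset ι)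
    (A : ι → ℤ) (z : ι → ℂ) (σ : ι → ι) (hσs : ∀ i ∈ s, σ i ∈ s) (hσσ : ∀ i ∈ s, σ (σ i) = i)
    (hσA : ∀ i ∈ s, A (σ i) = A i) (hσz : ∀ i ∈ s, z (σ i) = conj (z i))
    (k : ℕ) (hk : k < m) : cf s A z ζ (m - k) = - cf s A z ζ k := by
  classical
  have hone : ζ ^ (2 * m) = 1 := by rw [mul_comm, pow_mul, hζm]; norm_num
  have hnorm : ‖ζ‖ = 1 := Complex.norm_eq_one_of_pow_eq_one hone (by omega)
  have hconj : conj (ζ ^ k) = (ζ ^ k)⁻¹ := by
    rw [Complex.inv_eq_conj (by rw [norm_pow, hnorm, one_pow])]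
  have hζ0 : ζ ^ k ≠ 0 := by
    intro h
    have : ‖ζ ^ k‖ = 0 := by rw [h, norm_zero]
    rw [norm_pow, hnorm, one_pow] at this
    exact one_ne_zero this
  have h1 : ζ ^ (m - k) = - conj (ζ ^ k) := by
    rw [hconj, eq_neg_iff_add_eq_zero]
    have : ζ ^ (m - k) * ζ ^ k = -1 := by rw [← pow_add, Nat.sub_add_cancel hk.le, hζm]
    field_simp
    linear_combination this
  rw [cf, cf, ← sum_neg_distrib]
  refine sum_nbij' σ σ hσs hσs hσσ hσσ ?_
  intro i hi
  rw [hσA i hi, hσz i hi, h1, neg_neg]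
  have e1 : (z i = - conj (ζ ^ k)) ↔ (conj (z i) = - ζ ^ k) := by
    constructor
    · intro h; rw [h, map_neg, Complex.conj_conj]
    · intro h
      have := congrArg conj h
      rw [Complex.conj_conj, map_neg] at this
      exact this
  have e2 : (z i = conj (ζ ^ k)) ↔ (conj (z i) = ζ ^ k) := by
    constructor
    · intro h; rw [h, Complex.conj_conj]
    · intro h
      have := congrArg conj h
      rw [Complex.conj_conj] at this
      exact this
  simp only [e1, e2]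
  ring

/-- **Trace of a symmetric element.** -/
theorem P2 (hM : IsPModular 2 M) {k : ℕ} {ι : Type*} (s : Finset ι) (A : ι → ℤ) (z : ι → ℂ)
    (hz : ∀ i ∈ s, z i ^ (2 ^ k) = 1) (σ : ι → ι) (hσs : ∀ i ∈ s, σ i ∈ s)
    (hσσ : ∀ i ∈ s, σ (σ i) = i) (hσA : ∀ i ∈ s, A (σ i) = A i)
    (hσz : ∀ i ∈ s, z (σ i) = conj (z i)) :
    ∃ α : ℤ, ∑ j ∈ (range (2 ^ k)).filter (fun j => j.Coprime (2 ^ k)),
        ∑ i ∈ s, (A i : ℂ) * z i ^ j = ((2 ^ k).totient : ℂ) * α ∧
      ∀ h : ℕ, MemLocalRing M ((∑ i ∈ s, (A i : ℂ) * z i) / 2 ^ h) →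
        ∃ α' : ℤ, α = 2 ^ h * α' ∧ MemLocalIdeal M ((∑ i ∈ s, (A i : ℂ) * z i) / 2 ^ h - α') := by
  classical
  haveI := hM.2.1.isPrime
  rcases Nat.eq_zero_or_pos k with rfl | hk
  · have h1 : (range (2 ^ 0)).filter (fun j => j.Coprime (2 ^ 0)) = {0} := by
      ext j
      simp
    have h2 : ∑ i ∈ s, (A i : ℂ) * z i = ((∑ i ∈ s, A i : ℤ) : ℂ) := by
      push_cast
      apply sum_congr rfl
      intro i hi
      have := hz i hi
      rw [pow_zero, pow_one] at this
      rw [this, mul_one]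
    refine ⟨∑ i ∈ s, A i, ?_, ?_⟩
    · rw [h1, sum_singleton]
      simp
    · intro h hx
      rw [h2] at hx ⊢
      obtain ⟨t, ht⟩ := int_dvd_of_mem hM _ h hx
      refine ⟨t, ht, ?_⟩
      rw [ht]
      push_cast
      rw [mul_div_cancel_left₀ _ (pow_ne_zero _ two_ne_zero), sub_self]
      exact memLocalIdeal_zero
  · obtain ⟨n, rfl⟩ : ∃ k', k = k' + 1 := ⟨k - 1, by omega⟩
    obtain ⟨ζ, hζ, hζm⟩ := zeta_data n
    have hm : 0 < 2 ^ n := by positivity
    have hN : 2 ^ (n + 1) = 2 * 2 ^ n := by rw [pow_succ]; ring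
    have hz' : ∀ i ∈ s, z i ^ (2 * 2 ^ n) = 1 := by
      intro i hi; rw [← hN]; exact hz i hi
    set c := cf s A z ζ with hc
    have hcadd : ∀ k, c (k + 2 ^ n) = - c k := cf_add hζm hζ.pow_eq_one s A z
    have hcsym : ∀ k, k < 2 ^ n → c (2 ^ n - k) = - c k :=
      cf_symm hm hζm s A z σ hσs hσσ hσA hσz
    have hx1 : ∑ i ∈ s, (A i : ℂ) * z i = xc ζ (2 ^ n) c := by
      have := sum_eq_cf hm hζ hζm s A z hz' (j := 1) (by decide)
      simpa [xc] using this
    refine ⟨c 0, ?_, ?_⟩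
    · have e1 : ∀ j ∈ (range (2 ^ (n + 1))).filter (fun j => j.Coprime (2 ^ (n + 1))),
          ∑ i ∈ s, (A i : ℂ) * z i ^ j = ∑ k ∈ range (2 ^ n), (c k : ℂ) * (ζ ^ k) ^ j :=
        fun j hj => sum_eq_cf hm hζ hζm s A z hz' (odd_of_mem_J hj)
      rw [sum_congr rfl e1, sum_comm, coprime_filter Nat.prime_two]
      have e2 : ∀ k ∈ range (2 ^ n), ∑ j ∈ (range (2 * 2 ^ n)).filter (fun j => ¬ 2 ∣ j),
          (c k : ℂ) * (ζ ^ k) ^ j = if k = 0 then (c 0 : ℂ) * (2 ^ n : ℕ) else 0 := by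
        intro k hk
        have hk' := mem_range.1 hk
        rw [← mul_sum, geom3 (by norm_num) (by
          rw [← pow_mul, mul_comm, pow_mul, hζ.pow_eq_one, one_pow])]
        by_cases h0 : k = 0
        · subst h0
          rw [pow_zero, if_pos rfl, if_pos (one_pow 2), if_pos rfl]
          push_cast
          ring
        · rw [if_neg h0, if_neg, if_neg]
          · simp
          · rw [← pow_mul]
            intro h
            have := hζ.pow_inj (i := k * 2) (j := 0) (by omega) (by omega) (by rw [h, pow_zero])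
            omega
          · intro h
            have := hζ.pow_inj (i := k) (j := 0) (by omega) (by omega) (by rw [h, pow_zero])
            omega
      rw [sum_congr rfl e2, sum_ite_eq' (range (2 ^ n)) 0, if_pos (mem_range.2 hm),
        Nat.totient_prime_pow Nat.prime_two (Nat.succ_pos n), Nat.succ_sub_one]
      push_cast
      ring
    · intro h hx
      rw [hx1] at hx ⊢
      have hdvd := Zh hM hζm h c hcadd hx
      choose c' hc' using hdvd
      have h2h : (2 : ℤ) ^ h ≠ 0 := pow_ne_zero _ two_ne_zero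
      refine ⟨c' 0, hc' 0, ?_⟩
      have e3 : xc ζ (2 ^ n) c / 2 ^ h = xc ζ (2 ^ n) c' := by
        rw [div_eq_iff (pow_ne_zero _ two_ne_zero), xc, xc, sum_mul]
        apply sum_congr rfl
        intro k _
        rw [hc' k]
        push_cast
        ring
      rw [e3]
      apply xc_congr hM hζm c'
      intro k _ hk
      have := hcsym k hk
      rw [hc' k, hc' (2 ^ n - k)] at this
      have h3 : (2 : ℤ) ^ h * (c' (2 ^ n - k) + c' k) = 0 := by linarith
      have := (mul_eq_zero.1 h3).resolve_left h2h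
      omega

end Cfsg.Agent.Lib.Helper26.Kn
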