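import Cfsg.Agent.Lib.Helper26.KmF
import Cfsg.Agent.Lib.Helper24.ContribVal

set_option autoImplicit false
set_option linter.style.haveILetI false
set_option linter.unusedSectionVars false
open Cfsg
open Cfsg.Agent.Lib.Helper7 Cfsg.Agent.Lib.Helper24
open scoped ComplexConjugate

namespace Cfsg.Agent.Lib.Helper26.Kn

open Cfsg.Agent.Lib.Helper26.Ctr Cfsg.Agent.Lib.Helper26.Km

universe u
variable {G : Type u} [Group G] {M : Ideal AlgInt} {p : ℕ}

theorem fp_one_mem [Fintype G] (hM : IsPModular p M) {H : Subgroup G} [Fintype H]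
    {e : Set (IrrCharacter H)} {B : Set (IrrCharacter G)} (hind : IsInducedBlock M H e B) {y : G}
    (hy : ∃ k : ℕ, orderOf y = p ^ k) (hyH : y ∈ H) (hyc : ∀ c : H, Commute y (c : G))
    {χ : IrrCharacter G} (hχ : χ ∈ B) (h0 : blockHeight p B (χ : G → ℂ) ≠ 0) :
    MemLocalIdeal M (fp H e y (χ : G → ℂ) 1 /
      (p ^ sInf ((fun χ : IrrCharacter H => (charDegree (χ : H → ℂ)).factorization p) '' e) : ℕ)) := by
  classical
  haveI := hM.2.1.isPrime
  haveI := Fintype.ofFinite (IrrCharacter H)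
  set s0 := sInf ((fun χ : IrrCharacter H => (charDegree (χ : H → ℂ)).factorization p) '' e)
    with hs0
  have hP0 : p ^ s0 ≠ 0 := pow_ne_zero _ hM.1.ne_zero
  have hPc : ((p ^ s0 : ℕ) : ℂ) ≠ 0 := by exact_mod_cast hP0
  obtain ⟨ξ₀, hξ₀, hξs⟩ := exists_height_zero hind.1 p
  have hF := fp_eq_sum e hyH hyc (isClassFunction_irr χ)
  have hG := lemG hind.1 (co H ⟨y, hyH⟩ (χ : G → ℂ))
    (fun ξ _ => memLocalRing_co hyH hyc (isCharacter_of_irr χ.2) ξ)
    (isClassFunction_regCoeff (p := p) (isClassFunction_irr ξ₀))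
    (memLocalRing_regCoeff (isCharacter_of_irr ξ₀.2)) hξ₀ hP0
    (fun ξ hξ => pow_sInf_dvd hM.1 hξ)
  have hR := lemG_ring (M := M) (e := e) (co H ⟨y, hyH⟩ (χ : G → ℂ))
    (fun ξ _ => memLocalRing_co hyH hyc (isCharacter_of_irr χ.2) ξ) hP0
    (fun ξ hξ => pow_sInf_dvd hM.1 hξ)
  rw [← hF] at hG hR
  have hcard : (Nat.card H : ℂ) ≠ 0 := by exact_mod_cast Nat.card_pos.ne'
  have h1 : ∑ c, fp H e y (χ : G → ℂ) c * regCoeff p (ξ₀ : H → ℂ) c
      = (ξ₀ : H → ℂ) 1 * Om (shC p H y (χ : G → ℂ)) ξ₀ := by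
    have hA := Cfsg.Agent.S4428.classInner_blockPart_regPart hM hind.1 hξ₀
      (fun c : H => (χ : G → ℂ) (y * (c : G)))
    rw [classInner, classInner] at hA
    have hA' := mul_left_cancel₀ (inv_ne_zero hcard) hA
    have e1 : ∑ c, fp H e y (χ : G → ℂ) c * regCoeff p (ξ₀ : H → ℂ) c
        = ∑ c, blockPart e (fun c : H => (χ : G → ℂ) (y * (c : G))) c
          * conj (regPart p (ξ₀ : H → ℂ) c) := by
      apply Finset.sum_congr rfl
      intro c _
      rw [fp]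
      congr 1
      by_cases hc : p ∣ orderOf c
      · simp [regCoeff, regPart, hc]
      · simp only [regCoeff, regPart, if_neg hc]
        rw [char_inv_eq_conj (isCharacter_of_irr ξ₀.2)]
    rw [e1, hA', ← sum_mul_irr]
    apply Fintype.sum_equiv (Equiv.inv _)
    intro c
    simp only [Equiv.inv_apply, shC, regPart, orderOf_inv, inv_inv]
    by_cases hc : p ∣ orderOf c
    · simp [hc]
    · simp only [if_neg hc]
      rw [char_inv_eq_conj (isCharacter_of_irr ξ₀.2), mul_comm]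
  rw [h1] at hG
  have hU := lemU hM hind hy hyc hχ hξ₀
  have hW : MemLocalIdeal M (Om (regCoeff p (χ : G → ℂ)) χ) := by
    by_contra hcon
    exact h0 ((not_memLocalIdeal_Om_regCoeff_iff hM hind.2.1 hχ hχ).1 hcon)
  have hU' : MemLocalIdeal M (Om (shC p H y (χ : G → ℂ)) ξ₀) := by
    have := memLocalIdeal_add hU hW
    rwa [sub_add_cancel] at this
  have ht'' : MemLocalRing M ((ξ₀ : H → ℂ) 1 / ((p ^ s0 : ℕ) : ℂ)) :=
    deg_div_mem ξ₀ hP0 (pow_sInf_dvd hM.1 hξ₀)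
  have h2 : MemLocalIdeal M ((ξ₀ : H → ℂ) 1 * Om (shC p H y (χ : G → ℂ)) ξ₀
      / ((p ^ s0 : ℕ) : ℂ)) := by
    rw [mul_div_right_comm]
    exact memLocalIdeal_mul_left ht'' hU'
  have h3 : MemLocalIdeal M (fp H e y (χ : G → ℂ) 1 / ((p ^ s0 : ℕ) : ℂ)
      * Om (regCoeff p (ξ₀ : H → ℂ)) ξ₀) := by
    have := memLocalIdeal_sub h2 hG
    rwa [sub_sub_cancel] at this
  have hξh : blockHeight p e (ξ₀ : H → ℂ) = 0 := by rw [blockHeight, hξs, Nat.sub_self]
  have hW' := not_memLocalIdeal_Om_regCoeff hM hind.1 hξ₀ hξh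
  by_contra hcon
  exact not_memLocalIdeal_mul hR hcon hW' h3

/-- the normalised contribution `|G| m_{χψ} / ψ(1)`. -/
noncomputable def XX [Fintype G] (p : ℕ) (H : Subgroup G) [Fintype H] (e : Set (IrrCharacter H))
    (y : G) (χ ψ : G → ℂ) : ℂ :=
  (Nat.card G : ℂ) * mm p H e y χ ψ / ψ 1

section
variable [Fintype G] [M.IsPrime] (hM : IsPModular p M) {H : Subgroup G} [Fintype H]
    {e : Set (IrrCharacter H)} {B : Set (IrrCharacter G)} (hind : IsInducedBlock M H e B) {y : G}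
    {k : ℕ} (hk : orderOf y = p ^ k) (hH : H = Subgroup.centralizer ({y} : Set G))

include hM hind hk hH in
theorem XX_eq_Om (χ ψ : IrrCharacter G) :
    XX p H e y (χ : G → ℂ) (ψ : G → ℂ)
      = Om (Th p H y⁻¹ (fp H e y (χ : G → ℂ))) ψ := by
  have hyc : ∀ c : H, Commute y (c : G) := fun c =>
    (Subgroup.mem_centralizer_singleton_iff.1 (hH ▸ c.2)).symm
  have hcH : (Nat.card H : ℂ) ≠ 0 := by exact_mod_cast Nat.card_pos.ne'
  rw [Om, sum_Th H y⁻¹ _ (isClassFunction_irr ψ),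
    ← card_mul_mm hM (isBlockUnion_of_isPBlock hind.1) hyc _ (isCharacter_of_irr ψ.2), XX]
  field_simp

include hM hind hk hH in
theorem Th_mem (χ : IrrCharacter G) :
    Om (Th p H y⁻¹ (fp H e y (χ : G → ℂ))) ∈ centralSubring (G := G) (localRing M) := by
  classical
  haveI := Fintype.ofFinite (IrrCharacter H)
  have hyH : y ∈ H := by rw [hH]; exact Subgroup.mem_centralizer_singleton_iff.2 rfl
  have hyc : ∀ c : H, Commute y (c : G) := fun c =>
    (Subgroup.mem_centralizer_singleton_iff.1 (hH ▸ c.2)).symm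
  have hyi : ∃ k : ℕ, orderOf y⁻¹ = p ^ k := by rw [orderOf_inv]; exact ⟨k, hk⟩
  have hyci : ∀ c : H, Commute y⁻¹ (c : G) := fun c => (hyc c).inv_left
  have hyHi : ∀ u : G, y⁻¹ * u = u * y⁻¹ → u ∈ H := by
    intro u hu
    rw [hH]
    have : Commute y⁻¹ u := hu
    exact Subgroup.mem_centralizer_singleton_iff.2 (Commute.inv_left_iff.1 this).eq.symm
  have hF : fp H e y (χ : G → ℂ) = FF e (co H ⟨y, hyH⟩ (χ : G → ℂ)) :=
    fp_eq_sum e hyH hyc (isClassFunction_irr χ)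
  refine ⟨_, isClassFunction_Th H y⁻¹ _, memLocalRing_Th hM.1 hyi hyci hyHi ?_ ?_, rfl⟩
  · rw [hF]; exact isClassFunction_FF e _
  · rw [hF]
    exact memLocalRing_FF e _ (fun ξ _ => memLocalRing_co hyH hyc (isCharacter_of_irr χ.2) ξ)

include hM hind hk hH in
theorem XX_mem (χ ψ : IrrCharacter G) : MemLocalRing M (XX p H e y (χ : G → ℂ) (ψ : G → ℂ)) := by
  rw [XX_eq_Om hM hind hk hH]
  exact centralSubring_apply_mem (Th_mem hM hind hk hH χ) ψ

include hM hind hk hH in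
theorem XX_congr (χ : IrrCharacter G) {ψ ψ' : IrrCharacter G} (hψ : ψ ∈ B) (hψ' : ψ' ∈ B) :
    MemLocalIdeal M (XX p H e y (χ : G → ℂ) (ψ : G → ℂ) - XX p H e y (χ : G → ℂ) (ψ' : G → ℂ)) := by
  rw [XX_eq_Om hM hind hk hH, XX_eq_Om hM hind hk hH]
  exact centralSubring_congr (Th_mem hM hind hk hH χ) (sameBlock_of_mem hind.2.1 hψ hψ')

include hM hind hk hH in
theorem XX_ideal {χ ψ : IrrCharacter G} (hχ : χ ∈ B) (h0 : blockHeight p B (χ : G → ℂ) ≠ 0)
    (hdef : blockDefect p e = blockDefect p B) (hψ : ψ ∈ B) :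
    MemLocalIdeal M (XX p H e y (χ : G → ℂ) (ψ : G → ℂ)) := by
  classical
  haveI := Fintype.ofFinite (IrrCharacter H)
  have hyH : y ∈ H := by rw [hH]; exact Subgroup.mem_centralizer_singleton_iff.2 rfl
  have hyc : ∀ c : H, Commute y (c : G) := fun c =>
    (Subgroup.mem_centralizer_singleton_iff.1 (hH ▸ c.2)).symm
  have hyci : ∀ c : H, Commute y⁻¹ (c : G) := fun c => (hyc c).inv_left
  set s0 := sInf ((fun χ : IrrCharacter H => (charDegree (χ : H → ℂ)).factorization p) '' e)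
    with hs0
  have hP0 : p ^ s0 ≠ 0 := pow_ne_zero _ hM.1.ne_zero
  have hPc : ((p ^ s0 : ℕ) : ℂ) ≠ 0 := by exact_mod_cast hP0
  obtain ⟨ξ₀, hξ₀⟩ := isPBlock_nonempty hind.1
  obtain ⟨ψ0, hψ0, hψs⟩ := exists_height_zero hind.2.1 p
  have hF := fp_eq_sum e hyH hyc (isClassFunction_irr χ)
  have hG := lemG hind.1 (co H ⟨y, hyH⟩ (χ : G → ℂ))
    (fun ξ _ => memLocalRing_co hyH hyc (isCharacter_of_irr χ.2) ξ)
    (isClassFunction_shC (p := p) hyci (isClassFunction_irr ψ0))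
    (memLocalRing_shC H y⁻¹ (isCharacter_of_irr ψ0.2)) hξ₀ hP0
    (fun ξ hξ => pow_sInf_dvd hM.1 hξ)
  rw [← hF] at hG
  rw [← card_mul_mm hM (isBlockUnion_of_isPBlock hind.1) hyc _ (isCharacter_of_irr ψ0.2)] at hG
  have h1 := fp_one_mem hM hind ⟨k, hk⟩ hyH hyc hχ h0
  have hOm : MemLocalRing M (Om (shC p H y⁻¹ (ψ0 : G → ℂ)) ξ₀) :=
    centralSubring_apply_mem ⟨_, isClassFunction_shC (p := p) hyci (isClassFunction_irr ψ0),
      memLocalRing_shC H y⁻¹ (isCharacter_of_irr ψ0.2), rfl⟩ ξ₀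
  have h2 := memLocalIdeal_add hG (memLocalIdeal_mul_right h1 hOm)
  rw [sub_add_cancel] at h2
  have hr : MemLocalRing M (((Nat.card G * p ^ s0 : ℕ) : ℂ)
      / ((Nat.card H * charDegree (ψ0 : G → ℂ) : ℕ) : ℂ)) := by
    rw [memLocalRing_div_iff hM (Nat.mul_ne_zero Nat.card_pos.ne' hP0)
      (Nat.mul_ne_zero Nat.card_pos.ne' (charDegree_pos ψ0).ne')]
    rw [Nat.factorization_mul Nat.card_pos.ne' hP0,
      Nat.factorization_mul Nat.card_pos.ne' (charDegree_pos ψ0).ne']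
    simp only [Finsupp.add_apply]
    rw [hM.1.factorization_pow, Finsupp.single_eq_same, hψs]
    have h1 := sInf_le_factorization_card hind.1 p
    have h2 := sInf_le_factorization_card hind.2.1 p
    rw [blockDefect, blockDefect] at hdef
    omega
  have h3 := memLocalIdeal_mul_right h2 hr
  have h4 : MemLocalIdeal M (XX p H e y (χ : G → ℂ) (ψ0 : G → ℂ)) := by
    convert h3 using 1
    have hdeg0 : (ψ0 : G → ℂ) 1 ≠ 0 := irr_apply_one_ne_zero ψ0.2
    have hcH : (Nat.card H : ℂ) ≠ 0 := by exact_mod_cast Nat.card_pos.ne'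
    rw [XX]
    rw [← charDegree_cast (isCharacter_of_irr ψ0.2)] at hdeg0 ⊢
    have hps : (p : ℂ) ^ s0 ≠ 0 := pow_ne_zero _ (by exact_mod_cast hM.1.ne_zero)
    push_cast
    field_simp
  have h5 := memLocalIdeal_add (XX_congr hM hind hk hH χ hψ hψ0) h4
  rwa [sub_add_cancel] at h5

include hM hind in
theorem factor_mem (hdef : blockDefect p e = blockDefect p B) {ψ : IrrCharacter G} (hψ : ψ ∈ B) :
    MemLocalRing M (((p ^ blockDefect p e * charDegree (ψ : G → ℂ) : ℕ) : ℂ)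
      / ((p ^ blockHeight p B (ψ : G → ℂ) * Nat.card G : ℕ) : ℂ)) := by
  have hq0 : p ^ blockDefect p e ≠ 0 := pow_ne_zero _ hM.1.ne_zero
  have hh0 : p ^ blockHeight p B (ψ : G → ℂ) ≠ 0 := pow_ne_zero _ hM.1.ne_zero
  rw [memLocalRing_div_iff hM (Nat.mul_ne_zero hq0 (charDegree_pos ψ).ne')
    (Nat.mul_ne_zero hh0 Nat.card_pos.ne')]
  rw [Nat.factorization_mul hq0 (charDegree_pos ψ).ne',
    Nat.factorization_mul hh0 Nat.card_pos.ne']
  simp only [Finsupp.add_apply]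
  rw [hM.1.factorization_pow, hM.1.factorization_pow, Finsupp.single_eq_same,
    Finsupp.single_eq_same, hdef, blockDefect, blockHeight]
  have h2 := sInf_le_factorization_card hind.2.1 p
  have h3 := sInf_le_of_mem p hψ
  omega

theorem scaled_eq (χ : G → ℂ) (ψ : IrrCharacter G) (q h : ℕ) (hp : p ≠ 0) :
    (p : ℂ) ^ q * mm p H e y χ (ψ : G → ℂ) / (p : ℂ) ^ h
      = XX p H e y χ (ψ : G → ℂ) * (((p ^ q * charDegree (ψ : G → ℂ) : ℕ) : ℂ)
        / ((p ^ h * Nat.card G : ℕ) : ℂ)) := by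
  have hdeg0 : (ψ : G → ℂ) 1 ≠ 0 := irr_apply_one_ne_zero ψ.2
  have hcG : (Nat.card G : ℂ) ≠ 0 := by exact_mod_cast Nat.card_pos.ne'
  have hpc : (p : ℂ) ≠ 0 := by exact_mod_cast hp
  rw [XX]
  rw [← charDegree_cast (isCharacter_of_irr ψ.2)] at hdeg0 ⊢
  push_cast
  field_simp

include hM hind hk hH in
/-- `p^d m_{χψ}` is divisible by `p^{h(ψ)}`. -/
theorem D2a (hdef : blockDefect p e = blockDefect p B) (χ : IrrCharacter G) {ψ : IrrCharacter G}
    (hψ : ψ ∈ B) :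
    MemLocalRing M ((p : ℂ) ^ blockDefect p e * mm p H e y (χ : G → ℂ) (ψ : G → ℂ)
      / (p : ℂ) ^ blockHeight p B (ψ : G → ℂ)) := by
  rw [scaled_eq _ _ _ _ hM.1.ne_zero]
  exact memLocalRing_mul (XX_mem hM hind hk hH χ ψ) (factor_mem hM hind hdef hψ)

include hM hind hk hH in
theorem D2b (hdef : blockDefect p e = blockDefect p B) {χ ψ : IrrCharacter G} (hχ : χ ∈ B)
    (h0 : blockHeight p B (χ : G → ℂ) ≠ 0) (hψ : ψ ∈ B) :
    MemLocalIdeal M ((p : ℂ) ^ blockDefect p e * mm p H e y (χ : G → ℂ) (ψ : G → ℂ)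
      / (p : ℂ) ^ blockHeight p B (ψ : G → ℂ)) := by
  rw [scaled_eq _ _ _ _ hM.1.ne_zero]
  exact memLocalIdeal_mul_right (XX_ideal hM hind hk hH hχ h0 hdef hψ) (factor_mem hM hind hdef hψ)

include hM hind hk hH in
theorem D2c {χ : IrrCharacter G} (hχ : χ ∈ B) (h0 : blockHeight p B (χ : G → ℂ) = 0) :
    ¬ MemLocalIdeal M ((p : ℂ) ^ blockDefect p e * mm p H e y (χ : G → ℂ) (χ : G → ℂ)) := by
  have hyH : y ∈ H := by rw [hH]; exact Subgroup.mem_centralizer_singleton_iff.2 rfl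
  have hyc : ∀ c : H, Commute y (c : G) := fun c =>
    (Subgroup.mem_centralizer_singleton_iff.1 (hH ▸ c.2)).symm
  have h1 := mm_unit hM hind ⟨k, hk⟩ hyH hyc hχ h0 hχ h0
  set s0 := sInf ((fun χ : IrrCharacter H => (charDegree (χ : H → ℂ)).factorization p) '' e)
    with hs0
  have hP0 : p ^ s0 ≠ 0 := pow_ne_zero _ hM.1.ne_zero
  have hq0 : p ^ blockDefect p e ≠ 0 := pow_ne_zero _ hM.1.ne_zero
  intro hcon
  apply h1
  have hr : MemLocalRing M (((Nat.card H : ℕ) : ℂ) / ((p ^ blockDefect p e * p ^ s0 : ℕ) : ℂ)) := by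
    rw [memLocalRing_div_iff hM Nat.card_pos.ne' (Nat.mul_ne_zero hq0 hP0), ← pow_add,
      hM.1.factorization_pow, Finsupp.single_eq_same, blockDefect]
    have h1 := sInf_le_factorization_card hind.1 p
    omega
  have := memLocalIdeal_mul_right hcon hr
  convert this using 1
  have hpc : (p : ℂ) ≠ 0 := by exact_mod_cast hM.1.ne_zero
  push_cast
  field_simp

end

end Cfsg.Agent.Lib.Helper26.Kn
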