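import Cfsg.Agent.Lib.Helper26.KnB
import Cfsg.Agent.Lib.Helper26.KnC

set_option autoImplicit false
set_option linter.style.haveILetI false
set_option linter.unusedSectionVars false
open Cfsg
open Cfsg.Agent.Lib.Helper7 Cfsg.Agent.Lib.Helper24
open scoped ComplexConjugate

namespace Cfsg.Agent.Lib.Helper26.Kn

open Cfsg.Agent.Lib.Helper26.Ctr Cfsg.Agent.Lib.Helper26.Km

universe u
variable {G : Type u} [Group G] {M : Ideal AlgInt}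

theorem diag_data [Fintype G] (hM : IsPModular 2 M) {H : Subgroup G} [Fintype H]
    {e : Set (IrrCharacter H)} (he : IsPBlock M e) {y : G}
    {k : ℕ} (hy : orderOf y = 2 ^ k) (hyH : y ∈ H) (hyc : ∀ c : H, Commute y (c : G))
    (χ : IrrCharacter G) :
    ∃ α : ℤ, ∑ j ∈ (Finset.range (2 ^ k)).filter (fun j => j.Coprime (2 ^ k)),
      ((2 : ℕ) : ℂ) ^ blockDefect 2 e * mm 2 H e (y ^ j) (χ : G → ℂ) (χ : G → ℂ)
        = ((2 ^ k).totient : ℂ) * (α : ℂ) ∧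
      ∀ h : ℕ, MemLocalRing M (((2 : ℕ) : ℂ) ^ blockDefect 2 e
          * mm 2 H e y (χ : G → ℂ) (χ : G → ℂ) / ((2 : ℕ) : ℂ) ^ h) →
        ∃ α' : ℤ, α = 2 ^ h * α' ∧ MemLocalIdeal M (((2 : ℕ) : ℂ) ^ blockDefect 2 e
          * mm 2 H e y (χ : G → ℂ) (χ : G → ℂ) / ((2 : ℕ) : ℂ) ^ h - α') := by
  classical
  haveI := Fintype.ofFinite (IrrCharacter H)
  have hzc := mk_mem_center hyH hyc
  have hz : orderOf (⟨y, hyH⟩ : H) = 2 ^ k := by rw [← hy, ← Subgroup.orderOf_coe]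
  obtain ⟨A, hA, hAs⟩ := mmK_coeff_symm hM hzc (isCharacter_restrict (isCharacter_of_irr χ.2) H) he
  set s := (Finset.univ.filter (fun ξ : IrrCharacter H => ξ ∈ e))
    ×ˢ (Finset.univ.filter (fun ξ : IrrCharacter H => ξ ∈ e)) with hs
  have hzz : ∀ i ∈ s, (lam (⟨y, hyH⟩ : H) (i.1 : H → ℂ)
      * conj (lam (⟨y, hyH⟩ : H) (i.2 : H → ℂ))) ^ (2 ^ k) = 1 := by
    intro i _
    rw [← hz]; exact lam_mul_conj_pow hzc i.1 i.2
  obtain ⟨α, h1, h2⟩ := P2 hM (k := k) s A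
    (fun i => lam (⟨y, hyH⟩ : H) (i.1 : H → ℂ) * conj (lam (⟨y, hyH⟩ : H) (i.2 : H → ℂ)))
    hzz Prod.swap
    (fun i hi => by
      rw [hs, Finset.mem_product] at hi ⊢
      exact ⟨hi.2, hi.1⟩)
    (fun i _ => Prod.swap_swap i) hAs
    (fun i _ => by
      simp only [Prod.fst_swap, Prod.snd_swap, map_mul, Complex.conj_conj]
      rw [mul_comm])
  have hx : ((2 : ℕ) : ℂ) ^ blockDefect 2 e * mm 2 H e y (χ : G → ℂ) (χ : G → ℂ)
      = ∑ i ∈ s, (A i : ℂ) * (lam (⟨y, hyH⟩ : H) (i.1 : H → ℂ)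
        * conj (lam (⟨y, hyH⟩ : H) (i.2 : H → ℂ))) := by
    have h2 := hA 1
    have h3 := mm_pow_eq (p := 2) e hyH (χ : G → ℂ) (χ : G → ℂ) 1
    rw [← h3] at h2
    simpa only [pow_one] using h2
  refine ⟨α, ?_, ?_⟩
  · rw [← h1]
    apply Finset.sum_congr rfl
    intro j _
    rw [mm_pow_eq e hyH, hA j]
  · intro h hh
    rw [hx] at hh ⊢
    have h22 : ((2 : ℕ) : ℂ) = 2 := by norm_num
    rw [h22] at hh ⊢
    exact h2 h hh

theorem row_bound [Fintype G] (hM : IsPModular 2 M) {H : Subgroup G} [Fintype H]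
    {e : Set (IrrCharacter H)} (he : IsPBlock M e) {y : G}
    {k : ℕ} (hy : orderOf y = 2 ^ k) (hyH : y ∈ H) (hyc : ∀ c : H, Commute y (c : G))
    (χ ψ : IrrCharacter G) (h : ℕ)
    (hx : MemLocalRing M (((2 : ℕ) : ℂ) ^ blockDefect 2 e
          * mm 2 H e y (χ : G → ℂ) (ψ : G → ℂ) / ((2 : ℕ) : ℂ) ^ h))
    (hne : mm 2 H e y (χ : G → ℂ) (ψ : G → ℂ) ≠ 0) :
    ((2 ^ k).totient : ℝ) * 4 ^ h
      ≤ ∑ j ∈ (Finset.range (2 ^ k)).filter (fun j => j.Coprime (2 ^ k)),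
      ‖((2 : ℕ) : ℂ) ^ blockDefect 2 e * mm 2 H e (y ^ j) (χ : G → ℂ) (ψ : G → ℂ)‖ ^ 2 := by
  classical
  haveI := Fintype.ofFinite (IrrCharacter H)
  have hzc := mk_mem_center hyH hyc
  have hz : orderOf (⟨y, hyH⟩ : H) = 2 ^ k := by rw [← hy, ← Subgroup.orderOf_coe]
  obtain ⟨A, hA⟩ := mmK_coeff hM hzc (isCharacter_restrict (isCharacter_of_irr χ.2) H)
    (isCharacter_restrict (isCharacter_of_irr ψ.2) H) he
  set s := (Finset.univ.filter (fun ξ : IrrCharacter H => ξ ∈ e))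
    ×ˢ (Finset.univ.filter (fun ξ : IrrCharacter H => ξ ∈ e)) with hs
  have hzz : ∀ i ∈ s, (lam (⟨y, hyH⟩ : H) (i.1 : H → ℂ)
      * conj (lam (⟨y, hyH⟩ : H) (i.2 : H → ℂ))) ^ (2 ^ k) = 1 := by
    intro i _
    rw [← hz]; exact lam_mul_conj_pow hzc i.1 i.2
  have hxx : ((2 : ℕ) : ℂ) ^ blockDefect 2 e * mm 2 H e y (χ : G → ℂ) (ψ : G → ℂ)
      = ∑ i ∈ s, (A i : ℂ) * (lam (⟨y, hyH⟩ : H) (i.1 : H → ℂ)
        * conj (lam (⟨y, hyH⟩ : H) (i.2 : H → ℂ))) := by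
    have h2 := hA 1
    have h3 := mm_pow_eq (p := 2) e hyH (χ : G → ℂ) (ψ : G → ℂ) 1
    rw [← h3] at h2
    simpa only [pow_one] using h2
  have h22 : ((2 : ℕ) : ℂ) = 2 := by norm_num
  have hne' : ∑ i ∈ s, (A i : ℂ) * (lam (⟨y, hyH⟩ : H) (i.1 : H → ℂ)
        * conj (lam (⟨y, hyH⟩ : H) (i.2 : H → ℂ))) ≠ 0 := by
    rw [← hxx]
    exact mul_ne_zero (pow_ne_zero _ (by norm_num)) hne
  rw [hxx, h22] at hx
  have := P1 hM (k := k) s A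
    (fun i => lam (⟨y, hyH⟩ : H) (i.1 : H → ℂ) * conj (lam (⟨y, hyH⟩ : H) (i.2 : H → ℂ)))
    hzz h hx hne'
  refine le_trans this (le_of_eq ?_)
  apply Finset.sum_congr rfl
  intro j _
  rw [mm_pow_eq e hyH, hA j]

end Cfsg.Agent.Lib.Helper26.Kn
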