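import Cfsg.Agent.Lib.Helper26.KnD

set_option autoImplicit false
set_option linter.style.haveILetI false
set_option linter.unusedSectionVars false
open Cfsg
open Cfsg.Agent.Lib.Helper7 Cfsg.Agent.Lib.Helper24
open scoped ComplexConjugate

namespace Cfsg.Agent.Lib.Helper26.Kn

open Cfsg.Agent.Lib.Helper26.Ctr Cfsg.Agent.Lib.Helper26.Km

universe u
variable {G : Type u} [Group G] {M : Ideal AlgInt}

theorem ideal_int_iff (hM : IsPModular 2 M) (c : ℤ) : MemLocalIdeal M (c : ℂ) ↔ (2 : ℤ) ∣ c := by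
  haveI := hM.2.1.isPrime
  have h2 : MemLocalIdeal M (2 : ℂ) := by exact_mod_cast memLocalIdeal_p hM
  constructor
  · intro h
    by_contra hc
    rw [← even_iff_two_dvd, Int.not_even_iff_odd] at hc
    obtain ⟨m, rfl⟩ := hc
    apply not_memLocalIdeal_one (M := M)
    have h3 : MemLocalIdeal M ((2 : ℂ) * (m : ℂ)) := memLocalIdeal_mul_right h2 (memLocalRing_intCast m)
    have := memLocalIdeal_sub h h3
    push_cast at this
    rwa [add_sub_cancel_left] at this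
  · rintro ⟨m, rfl⟩
    push_cast
    exact memLocalIdeal_mul_right h2 (memLocalRing_intCast m)

theorem main_data [Fintype G] [Fintype (IrrCharacter G)] (hM : IsPModular 2 M)
    {B : Set (IrrCharacter G)} [DecidablePred (· ∈ B)] {y : G} {k : ℕ} (hk : orderOf y = 2 ^ k)
    {H : Subgroup G} [Fintype H] (hH : H = Subgroup.centralizer ({y} : Set G))
    {e : Set (IrrCharacter H)} (hind : IsInducedBlock M H e B)
    (hdef : blockDefect 2 e = blockDefect 2 B) :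
    ∃ α : IrrCharacter G → ℤ,
      (∀ χ ∈ B, 0 < α χ) ∧
      (∀ χ ∈ B, blockHeight 2 B (χ : G → ℂ) = 0 → Odd (α χ)) ∧
      (∀ χ ∈ B, blockHeight 2 B (χ : G → ℂ) ≠ 0 →
        (2 : ℤ) ^ (blockHeight 2 B (χ : G → ℂ) + 1) ∣ α χ) ∧
      (∑ χ ∈ Finset.univ.filter (· ∈ B), α χ = 2 ^ blockDefect 2 e * (blockRank 2 e : ℤ)) ∧
      (∀ χ ∈ B, blockHeight 2 B (χ : G → ℂ) = 0 →
        ∑ ψ ∈ Finset.univ.filter (· ∈ B), (4 : ℤ) ^ blockHeight 2 B (ψ : G → ℂ)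
          ≤ 2 ^ blockDefect 2 e * α χ) ∧
      (∀ χ ∈ B, α χ ≤ 2 ^ blockDefect 2 e) ∧
      (∀ χ ∈ B, blockHeight 2 B (χ : G → ℂ) ≠ 0 → α χ ≠ 2 ^ blockDefect 2 e) ∧
      (∀ χ ∈ B, blockHeight 2 B (χ : G → ℂ) = 0 →
        ((Finset.univ.filter (· ∈ B)).card : ℤ) - 1 + (2 ^ blockDefect 2 e - α χ) ^ 2
          ≤ 2 ^ blockDefect 2 e * (2 ^ blockDefect 2 e - α χ)) := by
  classical
  haveI := hM.2.1.isPrime
  have hyH : y ∈ H := by rw [hH]; exact Subgroup.mem_centralizer_singleton_iff.2 rfl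
  have hyc : ∀ c : H, Commute y (c : G) := fun c =>
    (Subgroup.mem_centralizer_singleton_iff.1 (hH ▸ c.2)).symm
  set J := (Finset.range (2 ^ k)).filter (fun j => j.Coprime (2 ^ k)) with hJ
  set FB := Finset.univ.filter (fun χ : IrrCharacter G => χ ∈ B) with hFB
  set q := blockDefect 2 e with hq
  set P : ℝ := (2 : ℝ) ^ q with hP
  set φ : ℝ := ((2 ^ k).totient : ℝ) with hφ
  have hpq : (0 : ℝ) < P := pow_pos (by norm_num) q
  have hpos : (0 : ℝ) < φ := by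
    rw [hφ]
    exact_mod_cast Nat.totient_pos.2 (pow_pos (by norm_num) k)
  have hJc : (J.card : ℝ) = φ := by rw [hJ, card_coprime_filter]
  obtain ⟨ψ0, hψ0, hψs⟩ := exists_height_zero hind.2.1 2
  have h0' : blockHeight 2 B (ψ0 : G → ℂ) = 0 := by rw [blockHeight, hψs, Nat.sub_self]
  have hψ0F : ψ0 ∈ FB := Finset.mem_filter.2 ⟨Finset.mem_univ _, hψ0⟩
  obtain ⟨j0, hj0, hyj0⟩ : ∃ j0 ∈ J, y ^ j0 = y := by
    rcases Nat.eq_zero_or_pos k with rfl | hk0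
    · refine ⟨0, by simp [hJ], ?_⟩
      rw [pow_zero] at hk
      rw [pow_zero, orderOf_eq_one_iff.1 hk]
    · refine ⟨1, ?_, pow_one y⟩
      rw [hJ, Finset.mem_filter, Finset.mem_range]
      exact ⟨Nat.one_lt_pow hk0.ne' (by norm_num), Nat.coprime_one_left _⟩
  set R : IrrCharacter G → ℕ → ℝ := fun χ j =>
    ∑ ψ ∈ FB, ‖mm 2 H e (y ^ j) (χ : G → ℂ) (ψ : G → ℂ)‖ ^ 2 with hR
  have hR0 : ∀ χ j, 0 ≤ R χ j := fun χ j => Finset.sum_nonneg (fun ψ _ => by positivity)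
  have hreal : ∀ χ : IrrCharacter G, ∀ j ∈ J,
      mm 2 H e (y ^ j) (χ : G → ℂ) (χ : G → ℂ) = ((R χ j : ℝ) : ℂ) := by
    intro χ j hj
    have hjc : j.Coprime (orderOf y) := by rw [hk]; exact (Finset.mem_filter.1 hj).2
    rw [← mm_parseval_B hM (hH.trans (centralizer_pow_eq hjc))
      ⟨k, by rw [Nat.Coprime.orderOf_pow hjc.symm, hk]⟩ hind, hR]
    push_cast
    apply Finset.sum_congr rfl
    intro ψ _
    rw [← Complex.mul_conj']
  have hα := fun χ : IrrCharacter G => diag_data hM hind.1 hk hyH hyc χ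
  choose α hα1 hα2 using hα
  have hsum : ∀ χ, ∑ j ∈ J, P * R χ j = φ * (α χ : ℝ) := by
    intro χ
    have e1 : ((∑ j ∈ J, P * R χ j : ℝ) : ℂ) = ((φ * (α χ : ℝ) : ℝ) : ℂ) := by
      have := hα1 χ
      rw [hφ, hP]
      push_cast
      push_cast at this
      rw [← this]
      apply Finset.sum_congr rfl
      intro j hj
      rw [hreal χ j hj]
    exact_mod_cast e1
  have ha : ∀ χ ∈ B, 0 < α χ := by
    intro χ hχ
    have e3 : (0 : ℝ) < φ * (α χ : ℝ) := by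
      rw [← hsum χ]
      refine lt_of_lt_of_le ?_ (Finset.single_le_sum (f := fun j => P * R χ j)
        (fun j _ => mul_nonneg hpq.le (hR0 χ j)) hj0)
      apply mul_pos hpq
      refine lt_of_lt_of_le ?_ (Finset.single_le_sum (f := fun ψ : IrrCharacter G =>
        ‖mm 2 H e (y ^ j0) (χ : G → ℂ) (ψ : G → ℂ)‖ ^ 2) (fun ψ _ => by positivity) hψ0F)
      rw [hyj0]
      have := major_ne_zero hM hk hH hind hdef hψ0 h0' hχ
      positivity
    have e4 : (0 : ℝ) < (α χ : ℝ) := (mul_pos_iff_of_pos_left hpos).1 e3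
    exact_mod_cast e4
  have hb : ∀ χ ∈ B, blockHeight 2 B (χ : G → ℂ) = 0 → Odd (α χ) := by
    intro χ hχ h0
    have h1 := D2a hM hind hk hH hdef χ hχ
    obtain ⟨α', e1, e2⟩ := hα2 χ _ h1
    rw [h0, pow_zero, div_one] at e2
    rw [h0, pow_zero, one_mul] at e1
    have h2 := D2c hM hind hk hH hχ h0
    rw [← Int.not_even_iff_odd, even_iff_two_dvd, e1]
    intro h3
    apply h2
    have := memLocalIdeal_add e2 ((ideal_int_iff hM α').2 h3)
    rwa [sub_add_cancel] at this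
  have hc : ∀ χ ∈ B, blockHeight 2 B (χ : G → ℂ) ≠ 0 →
      (2 : ℤ) ^ (blockHeight 2 B (χ : G → ℂ) + 1) ∣ α χ := by
    intro χ hχ h0
    have h1 := D2a hM hind hk hH hdef χ hχ
    obtain ⟨α', e1, e2⟩ := hα2 χ _ h1
    have h2 := D2b hM hind hk hH hdef hχ h0 hχ
    have h3 : MemLocalIdeal M (α' : ℂ) := by
      have := memLocalIdeal_sub h2 e2
      rwa [sub_sub_cancel] at this
    obtain ⟨c, hc⟩ := (ideal_int_iff hM α').1 h3
    rw [e1, hc, pow_succ]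
    exact ⟨c, by ring⟩
  have hup : ∑ j ∈ J, ∑ χ ∈ FB, P * R χ j = φ * (P * (blockRank 2 e : ℝ)) := by
    have h1 : ∀ j ∈ J, ∑ χ ∈ FB, P * R χ j = P * (blockRank 2 e : ℝ) := by
      intro j hj
      have hjc : j.Coprime (orderOf y) := by rw [hk]; exact (Finset.mem_filter.1 hj).2
      rw [← sum_mm_normsq hM (hH.trans (centralizer_pow_eq hjc))
        ⟨k, by rw [Nat.Coprime.orderOf_pow hjc.symm, hk]⟩ hind, Finset.mul_sum]
    rw [Finset.sum_congr rfl h1, Finset.sum_const, nsmul_eq_mul, hJc]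
  have hd : ∑ χ ∈ FB, α χ = 2 ^ q * (blockRank 2 e : ℤ) := by
    have e1 : φ * ∑ χ ∈ FB, (α χ : ℝ) = φ * (P * (blockRank 2 e : ℝ)) := by
      rw [← hup, Finset.sum_comm, Finset.mul_sum]
      apply Finset.sum_congr rfl
      intro χ _
      rw [hsum]
    have e2 := mul_left_cancel₀ hpos.ne' e1
    rw [hP] at e2
    exact_mod_cast e2
  have hnorm : ∀ (χ ψ : IrrCharacter G) (j : ℕ),
      ‖((2 : ℕ) : ℂ) ^ q * mm 2 H e (y ^ j) (χ : G → ℂ) (ψ : G → ℂ)‖ ^ 2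
        = P ^ 2 * ‖mm 2 H e (y ^ j) (χ : G → ℂ) (ψ : G → ℂ)‖ ^ 2 := by
    intro χ ψ j
    rw [norm_mul, mul_pow, norm_pow, hP]
    simp
  have hrow : ∀ χ ∈ B, blockHeight 2 B (χ : G → ℂ) = 0 → ∀ ψ ∈ FB,
      φ * 4 ^ blockHeight 2 B (ψ : G → ℂ)
        ≤ ∑ j ∈ J, P ^ 2 * ‖mm 2 H e (y ^ j) (χ : G → ℂ) (ψ : G → ℂ)‖ ^ 2 := by
    intro χ hχ h0 ψ hψ
    have hψB := (Finset.mem_filter.1 hψ).2
    have hne : mm 2 H e y (χ : G → ℂ) (ψ : G → ℂ) ≠ 0 := by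
      have e3 := major_ne_zero hM hk hH hind hdef hχ h0 hψB
      have e4 : mm 2 H e y (χ : G → ℂ) (ψ : G → ℂ)
          = conj (mm 2 H e y (ψ : G → ℂ) (χ : G → ℂ)) := by
        rw [mm, mm, classInner_conj_symm, classInner_pReg_swap]
      rw [e4]
      exact (map_ne_zero _).2 e3
    have := row_bound hM hind.1 hk hyH hyc χ ψ _ (D2a hM hind hk hH hdef χ hψB) hne
    refine le_trans this (le_of_eq ?_)
    apply Finset.sum_congr rfl
    intro j _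
    exact hnorm χ ψ j
  have htot : ∀ χ : IrrCharacter G, ∑ ψ ∈ FB, ∑ j ∈ J,
      P ^ 2 * ‖mm 2 H e (y ^ j) (χ : G → ℂ) (ψ : G → ℂ)‖ ^ 2 = P * (φ * (α χ : ℝ)) := by
    intro χ
    rw [Finset.sum_comm, ← hsum χ, Finset.mul_sum]
    apply Finset.sum_congr rfl
    intro j _
    simp only [hR]
    rw [Finset.mul_sum, Finset.mul_sum]
    apply Finset.sum_congr rfl
    intro ψ _
    ring
  have he : ∀ χ ∈ B, blockHeight 2 B (χ : G → ℂ) = 0 →
      ∑ ψ ∈ FB, (4 : ℤ) ^ blockHeight 2 B (ψ : G → ℂ) ≤ 2 ^ q * α χ := by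
    intro χ hχ h0
    have e1 : ∑ ψ ∈ FB, φ * (4 : ℝ) ^ blockHeight 2 B (ψ : G → ℂ) ≤ P * (φ * (α χ : ℝ)) := by
      rw [← htot χ]
      exact Finset.sum_le_sum (hrow χ hχ h0)
    rw [← Finset.mul_sum] at e1
    have e2 : φ * ∑ ψ ∈ FB, (4 : ℝ) ^ blockHeight 2 B (ψ : G → ℂ) ≤ φ * (P * (α χ : ℝ)) := by
      linarith
    have e3 := le_of_mul_le_mul_left e2 hpos
    rw [hP] at e3
    exact_mod_cast e3
  have hRle : ∀ χ ∈ FB, ∀ j ∈ J, R χ j ≤ 1 := by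
    intro χ hχ j hj
    have e1 : ‖mm 2 H e (y ^ j) (χ : G → ℂ) (χ : G → ℂ)‖ ^ 2 ≤ R χ j :=
      Finset.single_le_sum (f := fun ψ : IrrCharacter G =>
        ‖mm 2 H e (y ^ j) (χ : G → ℂ) (ψ : G → ℂ)‖ ^ 2) (fun ψ _ => by positivity) hχ
    rw [hreal χ j hj, Complex.norm_real, Real.norm_eq_abs, sq_abs] at e1
    by_contra h
    push Not at h
    nlinarith [hR0 χ j]
  have hf : ∀ χ ∈ B, α χ ≤ 2 ^ q := by
    intro χ hχ
    have hχF : χ ∈ FB := Finset.mem_filter.2 ⟨Finset.mem_univ _, hχ⟩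
    have e1 : φ * (α χ : ℝ) ≤ φ * P := by
      rw [← hsum χ, ← hJc, ← nsmul_eq_mul, ← Finset.sum_const]
      apply Finset.sum_le_sum
      intro j hj
      have := hRle χ hχF j hj
      nlinarith
    have e2 := le_of_mul_le_mul_left e1 hpos
    rw [hP] at e2
    exact_mod_cast e2
  have hf' : ∀ χ ∈ B, blockHeight 2 B (χ : G → ℂ) ≠ 0 → α χ ≠ 2 ^ q := by
    intro χ hχ h0 hcon
    have hχF : χ ∈ FB := Finset.mem_filter.2 ⟨Finset.mem_univ _, hχ⟩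
    have hne : χ ≠ ψ0 := by rintro rfl; exact h0 h0'
    have e1 : ∑ j ∈ J, P * (1 - R χ j) = 0 := by
      simp only [mul_sub, mul_one]
      rw [Finset.sum_sub_distrib, hsum χ, Finset.sum_const, nsmul_eq_mul, hJc, hcon, hP]
      push_cast
      ring
    have e2 := (Finset.sum_eq_zero_iff_of_nonneg (fun j hj =>
      mul_nonneg hpq.le (sub_nonneg.2 (hRle χ hχF j hj)))).1 e1 j0 hj0
    have e3 : R χ j0 = 1 := by
      have := (mul_eq_zero.1 e2).resolve_left hpq.ne'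
      linarith
    have e4 : ‖mm 2 H e (y ^ j0) (χ : G → ℂ) (χ : G → ℂ)‖ ^ 2
        + ‖mm 2 H e (y ^ j0) (χ : G → ℂ) (ψ0 : G → ℂ)‖ ^ 2 ≤ R χ j0 := by
      have hsub : ({χ, ψ0} : Finset (IrrCharacter G)) ⊆ FB := by
        intro x hx
        rw [Finset.mem_insert, Finset.mem_singleton] at hx
        rcases hx with rfl | rfl <;> assumption
      have := Finset.sum_le_sum_of_subset_of_nonneg (f := fun ψ : IrrCharacter G =>
        ‖mm 2 H e (y ^ j0) (χ : G → ℂ) (ψ : G → ℂ)‖ ^ 2) hsub (fun ψ _ _ => by positivity)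
      rwa [Finset.sum_pair hne] at this
    rw [hreal χ j0 hj0, Complex.norm_real, Real.norm_eq_abs, sq_abs, e3, hyj0] at e4
    have h1 := major_ne_zero hM hk hH hind hdef hψ0 h0' hχ
    have h2 : 0 < ‖mm 2 H e y (χ : G → ℂ) (ψ0 : G → ℂ)‖ ^ 2 := by positivity
    linarith
  have hg : ∀ χ ∈ B, blockHeight 2 B (χ : G → ℂ) = 0 →
      (FB.card : ℤ) - 1 + (2 ^ q - α χ) ^ 2 ≤ 2 ^ q * (2 ^ q - α χ) := by
    intro χ hχ h0
    have hχF : χ ∈ FB := Finset.mem_filter.2 ⟨Finset.mem_univ _, hχ⟩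
    have e1 := htot χ
    rw [← Finset.add_sum_erase FB _ hχF] at e1
    have e2 : ((FB.erase χ).card : ℝ) * φ ≤ ∑ ψ ∈ FB.erase χ, ∑ j ∈ J,
        P ^ 2 * ‖mm 2 H e (y ^ j) (χ : G → ℂ) (ψ : G → ℂ)‖ ^ 2 := by
      rw [← nsmul_eq_mul]
      apply Finset.card_nsmul_le_sum
      intro ψ hψ
      have h1 := hrow χ hχ h0 ψ (Finset.mem_of_mem_erase hψ)
      have h2 : (1 : ℝ) ≤ 4 ^ blockHeight 2 B (ψ : G → ℂ) := one_le_pow₀ (by norm_num)
      nlinarith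
    have e3 : ∑ j ∈ J, P ^ 2 * ‖mm 2 H e (y ^ j) (χ : G → ℂ) (χ : G → ℂ)‖ ^ 2
        = ∑ j ∈ J, (P * R χ j) ^ 2 := by
      apply Finset.sum_congr rfl
      intro j hj
      rw [hreal χ j hj, Complex.norm_real, Real.norm_eq_abs, sq_abs]
      ring
    have e4 : (∑ j ∈ J, (P - P * R χ j)) ^ 2 ≤ φ * ∑ j ∈ J, (P - P * R χ j) ^ 2 := by
      rw [← hJc]
      exact sq_sum_le_card_mul_sum_sq
    have e5 : ∑ j ∈ J, (P - P * R χ j) = φ * (P - (α χ : ℝ)) := by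
      rw [Finset.sum_sub_distrib, hsum χ, Finset.sum_const, nsmul_eq_mul, hJc]
      ring
    have e6 : ∑ j ∈ J, (P - P * R χ j) ^ 2
        = φ * P ^ 2 - 2 * P * (φ * (α χ : ℝ)) + ∑ j ∈ J, (P * R χ j) ^ 2 := by
      have h1 : ∀ j ∈ J, (P - P * R χ j) ^ 2
          = P ^ 2 - 2 * P * (P * R χ j) + (P * R χ j) ^ 2 := fun j _ => by ring
      rw [Finset.sum_congr rfl h1, Finset.sum_add_distrib, Finset.sum_sub_distrib,
        Finset.sum_const, nsmul_eq_mul, hJc, ← Finset.mul_sum, hsum χ]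
    rw [e5, e6] at e4
    have e7 : φ * (P - (α χ : ℝ)) ^ 2
        ≤ φ * P ^ 2 - 2 * P * (φ * (α χ : ℝ)) + ∑ j ∈ J, (P * R χ j) ^ 2 := by
      have h1 : φ * (φ * (P - (α χ : ℝ)) ^ 2)
          ≤ φ * (φ * P ^ 2 - 2 * P * (φ * (α χ : ℝ)) + ∑ j ∈ J, (P * R χ j) ^ 2) := by
        calc φ * (φ * (P - (α χ : ℝ)) ^ 2) = (φ * (P - (α χ : ℝ))) ^ 2 := by ring
          _ ≤ _ := e4
      exact le_of_mul_le_mul_left h1 hpos
    have hcard : ((FB.erase χ).card : ℝ) = (FB.card : ℝ) - 1 := by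
      rw [Finset.card_erase_of_mem hχF, Nat.cast_sub (Finset.card_pos.2 ⟨χ, hχF⟩), Nat.cast_one]
    rw [e3] at e1
    rw [hcard] at e2
    have e8 : φ * ((FB.card : ℝ) - 1 + (P - (α χ : ℝ)) ^ 2) ≤ φ * (P * (P - (α χ : ℝ))) := by
      nlinarith
    have e9 := le_of_mul_le_mul_left e8 hpos
    rw [hP] at e9
    exact_mod_cast e9
  exact ⟨α, ha, hb, hc, hd, he, hf, hf', hg⟩

end Cfsg.Agent.Lib.Helper26.Kn
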