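import Cfsg.Agent.Lib.Helper26.KnE

set_option autoImplicit false
set_option linter.style.haveILetI false
set_option linter.unusedSectionVars false
open Cfsg
open Cfsg.Agent.Lib.Helper7 Cfsg.Agent.Lib.Helper24
open scoped ComplexConjugate

namespace Cfsg.Agent.Lib.Helper26.Kn

open Cfsg.Agent.Lib.Helper26.Ctr Cfsg.Agent.Lib.Helper26.Km

universe u
variable {G : Type u} [Group G] {M : Ideal AlgInt}

theorem sum_w [Fintype (IrrCharacter G)] (B : Set (IrrCharacter G)) [DecidablePred (· ∈ B)] :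
    ∑ χ ∈ Finset.univ.filter (· ∈ B),
      (if blockHeight 2 B (χ : G → ℂ) = 0 then 3 else 2 * 2 ^ blockHeight 2 B (χ : G → ℂ))
    = 3 * (Finset.univ.filter
        (fun χ : IrrCharacter G => χ ∈ B ∧ blockHeight 2 B (χ : G → ℂ) = 0)).card
      + 2 * ∑ χ ∈ Finset.univ.filter
        (fun χ : IrrCharacter G => χ ∈ B ∧ 1 ≤ blockHeight 2 B (χ : G → ℂ)),
          2 ^ blockHeight 2 B (χ : G → ℂ) := by
  rw [← Finset.sum_filter_add_sum_filter_not _
    (fun χ : IrrCharacter G => blockHeight 2 B (χ : G → ℂ) = 0),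
    Finset.filter_filter, Finset.filter_filter]
  congr 1
  · rw [Finset.sum_congr rfl (g := fun _ => 3)
      (fun χ hχ => if_pos (Finset.mem_filter.1 hχ).2.2), Finset.sum_const, smul_eq_mul, mul_comm]
  · rw [Finset.mul_sum]
    apply Finset.sum_congr
    · ext χ
      simp [Nat.one_le_iff_ne_zero]
    · intro χ hχ
      have := (Finset.mem_filter.1 hχ).2.2
      exact if_neg (by omega)

theorem w_bound [Fintype G] [Fintype (IrrCharacter G)] (hM : IsPModular 2 M)
    {B : Set (IrrCharacter G)} [DecidablePred (· ∈ B)] {y : G} {k : ℕ} (hk : orderOf y = 2 ^ k)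
    {H : Subgroup G} [Fintype H] (hH : H = Subgroup.centralizer ({y} : Set G))
    {e : Set (IrrCharacter H)} (hind : IsInducedBlock M H e B)
    (hdef : blockDefect 2 e = blockDefect 2 B) (hl : blockRank 2 e ≤ 3) :
    ∑ χ ∈ Finset.univ.filter (· ∈ B),
      (if blockHeight 2 B (χ : G → ℂ) = 0 then 3 else 2 * 2 ^ blockHeight 2 B (χ : G → ℂ))
      ≤ 3 * 2 ^ blockDefect 2 e := by
  obtain ⟨α, ha, hb, hc, hd, he, -, -, -⟩ := main_data hM hk hH hind hdef
  have hl' : (blockRank 2 e : ℤ) ≤ 3 := by exact_mod_cast hl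
  have hq0 : (0 : ℤ) < 2 ^ blockDefect 2 e := by positivity
  suffices h : ∑ χ ∈ Finset.univ.filter (· ∈ B),
      ((if blockHeight 2 B (χ : G → ℂ) = 0 then 3
        else 2 * 2 ^ blockHeight 2 B (χ : G → ℂ) : ℕ) : ℤ) ≤ 3 * 2 ^ blockDefect 2 e by
    exact_mod_cast h
  by_cases hex : ∃ χ0 ∈ B, blockHeight 2 B (χ0 : G → ℂ) = 0 ∧ α χ0 = 1
  · obtain ⟨χ0, hχ0, h0, h1⟩ := hex
    have h2 := he χ0 hχ0 h0
    rw [h1, mul_one] at h2
    have h3 : ∑ χ ∈ Finset.univ.filter (· ∈ B),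
        ((if blockHeight 2 B (χ : G → ℂ) = 0 then 3
          else 2 * 2 ^ blockHeight 2 B (χ : G → ℂ) : ℕ) : ℤ)
        ≤ ∑ χ ∈ Finset.univ.filter (· ∈ B), 3 * (4 : ℤ) ^ blockHeight 2 B (χ : G → ℂ) := by
      apply Finset.sum_le_sum
      intro χ _
      split_ifs with h
      · rw [h]; norm_num
      · push_cast
        have e1 : (4 : ℤ) ^ blockHeight 2 B (χ : G → ℂ)
            = 2 ^ blockHeight 2 B (χ : G → ℂ) * 2 ^ blockHeight 2 B (χ : G → ℂ) := by
          rw [← mul_pow]; norm_num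
        have e2 : (1 : ℤ) ≤ 2 ^ blockHeight 2 B (χ : G → ℂ) := one_le_pow₀ (by norm_num)
        rw [e1]
        nlinarith
    rw [← Finset.mul_sum] at h3
    linarith
  · push Not at hex
    have h3 : ∑ χ ∈ Finset.univ.filter (· ∈ B),
        ((if blockHeight 2 B (χ : G → ℂ) = 0 then 3
          else 2 * 2 ^ blockHeight 2 B (χ : G → ℂ) : ℕ) : ℤ)
        ≤ ∑ χ ∈ Finset.univ.filter (· ∈ B), α χ := by
      apply Finset.sum_le_sum
      intro χ hχ
      have hχB := (Finset.mem_filter.1 hχ).2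
      split_ifs with h
      · obtain ⟨m, hm⟩ := hb χ hχB h
        have h1 := ha χ hχB
        have h2 := hex χ hχB h
        push_cast
        omega
      · have h1 := Int.le_of_dvd (ha χ hχB) (hc χ hχB h)
        push_cast
        rw [pow_succ] at h1
        linarith
    rw [hd] at h3
    nlinarith

theorem thm4540 [Finite G] (hM : IsPModular 2 M)
    {B : Set (IrrCharacter G)} {y : G} {k : ℕ} (hk : orderOf y = 2 ^ k)
    {e : Set (IrrCharacter (Subgroup.centralizer ({y} : Set G)))}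
    (hind : IsInducedBlock M (Subgroup.centralizer ({y} : Set G)) e B)
    (hdef : blockDefect 2 e = blockDefect 2 B) (hl : blockRank 2 e ≤ 3) :
    3 * Nat.card B ≤ 3 * Nat.card {χ : IrrCharacter G // χ ∈ B ∧ blockHeight 2 B (χ : G → ℂ) = 0}
      + 2 * (∑ᶠ χ ∈ {χ : IrrCharacter G | χ ∈ B ∧ 1 ≤ blockHeight 2 B (χ : G → ℂ)},
        2 ^ blockHeight 2 B (χ : G → ℂ)) ∧
    3 * Nat.card {χ : IrrCharacter G // χ ∈ B ∧ blockHeight 2 B (χ : G → ℂ) = 0}
      + 2 * (∑ᶠ χ ∈ {χ : IrrCharacter G | χ ∈ B ∧ 1 ≤ blockHeight 2 B (χ : G → ℂ)},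
        2 ^ blockHeight 2 B (χ : G → ℂ)) ≤ 3 * 2 ^ blockDefect 2 B := by
  classical
  haveI := Fintype.ofFinite G
  haveI := Fintype.ofFinite (IrrCharacter G)
  haveI := Fintype.ofFinite (Subgroup.centralizer ({y} : Set G))
  have hcard : Nat.card B = (Finset.univ.filter (fun χ : IrrCharacter G => χ ∈ B)).card := by
    rw [Nat.card_eq_fintype_card, ← Fintype.card_subtype]
  have hcard0 : Nat.card {χ : IrrCharacter G // χ ∈ B ∧ blockHeight 2 B (χ : G → ℂ) = 0}
      = (Finset.univ.filter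
        (fun χ : IrrCharacter G => χ ∈ B ∧ blockHeight 2 B (χ : G → ℂ) = 0)).card := by
    rw [Nat.card_eq_fintype_card, ← Fintype.card_subtype]
  have hset : {χ : IrrCharacter G | χ ∈ B ∧ 1 ≤ blockHeight 2 B (χ : G → ℂ)}
      = ↑(Finset.univ.filter
        (fun χ : IrrCharacter G => χ ∈ B ∧ 1 ≤ blockHeight 2 B (χ : G → ℂ))) := by
    ext χ
    simp
  rw [hcard, hcard0, hset, finsum_mem_coe_finset, ← sum_w B, ← hdef]
  refine ⟨?_, w_bound hM hk rfl hind hdef hl⟩
  rw [mul_comm, ← smul_eq_mul]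
  apply Finset.card_nsmul_le_sum
  intro χ _
  split_ifs with h
  · exact le_rfl
  · have : 2 ^ 1 ≤ 2 ^ blockHeight 2 B (χ : G → ℂ) :=
      Nat.pow_le_pow_right (by norm_num) (Nat.one_le_iff_ne_zero.2 h)
    omega

end Cfsg.Agent.Lib.Helper26.Kn
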