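import Cfsg.Agent.Lib.Helper26.KnE

set_option autoImplicit false
set_option linter.style.haveILetI false
set_option linter.unusedSectionVars false
open Cfsg
open Cfsg.Agent.Lib.Helper7 Cfsg.Agent.Lib.Helper24
open scoped ComplexConjugate

namespace Cfsg.Agent.Lib.Helper26.Kn

open Cfsg.Agent.Lib.Helper26.Ctr Cfsg.Agent.Lib.Helper26.Km

universe u
variable {G : Type u} [Group G] {M : Ideal AlgInt}

theorem thm4575 [Finite G] (hM : IsPModular 2 M)
    {B : Set (IrrCharacter G)} {y : G} {k : ℕ} (hk : orderOf y = 2 ^ k)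
    {e : Set (IrrCharacter (Subgroup.centralizer ({y} : Set G)))}
    (hind : IsInducedBlock M (Subgroup.centralizer ({y} : Set G)) e B)
    (hdef : blockDefect 2 e = blockDefect 2 B) (h : Nat.card B ≤ blockRank 2 e + 3) :
    Nat.card B ≤ 2 ^ blockDefect 2 B := by
  classical
  haveI := hM.2.1.isPrime
  haveI := Fintype.ofFinite G
  haveI := Fintype.ofFinite (IrrCharacter G)
  haveI := Fintype.ofFinite (Subgroup.centralizer ({y} : Set G))
  have hcard : Nat.card B = (Finset.univ.filter (fun χ : IrrCharacter G => χ ∈ B)).card := by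
    rw [Nat.card_eq_fintype_card, ← Fintype.card_subtype]
  obtain ⟨α, ha, hb, hc, hd, he, hf, hf', hg⟩ := main_data hM hk rfl hind hdef
  rw [← hdef]
  rw [hcard] at h ⊢
  set FB := Finset.univ.filter (fun χ : IrrCharacter G => χ ∈ B) with hFB
  set q := blockDefect 2 e with hq
  have h' : (FB.card : ℤ) ≤ (blockRank 2 e : ℤ) + 3 := by exact_mod_cast h
  suffices hs : (FB.card : ℤ) ≤ 2 ^ q by exact_mod_cast hs
  have hq0 : (0 : ℤ) < 2 ^ q := by positivity
  by_cases hex : ∃ χ0 ∈ B, blockHeight 2 B (χ0 : G → ℂ) = 0 ∧ α χ0 = 1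
  · obtain ⟨χ0, hχ0, h0, h1⟩ := hex
    have h2 := he χ0 hχ0 h0
    rw [h1, mul_one] at h2
    have h3 : FB.card • (1 : ℤ) ≤ ∑ ψ ∈ FB, (4 : ℤ) ^ blockHeight 2 B (ψ : G → ℂ) := by
      apply Finset.card_nsmul_le_sum
      intro ψ _
      exact one_le_pow₀ (by norm_num)
    rw [nsmul_eq_mul, mul_one] at h3
    exact le_trans h3 h2
  by_cases hex' : ∃ χ0 ∈ B, blockHeight 2 B (χ0 : G → ℂ) = 0 ∧ 2 ^ q - α χ0 = 1
  · obtain ⟨χ0, hχ0, h0, h1⟩ := hex'
    have h2 := hg χ0 hχ0 h0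
    rw [h1] at h2
    linarith
  push Not at hex hex'
  obtain ⟨ψ0, hψ0, hψs⟩ := exists_height_zero hind.2.1 2
  have h0' : blockHeight 2 B (ψ0 : G → ℂ) = 0 := by rw [blockHeight, hψs, Nat.sub_self]
  have hq2 : 2 ≤ q := by
    obtain ⟨m, hm⟩ := hb ψ0 hψ0 h0'
    have h1 := ha ψ0 hψ0
    have h2 := hex ψ0 hψ0 h0'
    have h3 := hf ψ0 hψ0
    have h4 : (3 : ℤ) ≤ 2 ^ q := by omega
    by_contra hcon
    have : q = 0 ∨ q = 1 := by omega
    rcases this with h5 | h5 <;> rw [h5] at h4 <;> norm_num at h4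
  obtain ⟨Q', hQ'⟩ : (4 : ℤ) ∣ 2 ^ q := by
    have : (2 : ℤ) ^ 2 ∣ 2 ^ q := pow_dvd_pow 2 hq2
    simpa using this
  have h3 : FB.card • (3 : ℤ) ≤ ∑ χ ∈ FB, (2 ^ q - α χ) := by
    apply Finset.card_nsmul_le_sum
    intro χ hχ
    have hχB := (Finset.mem_filter.1 hχ).2
    have h1 := hf χ hχB
    by_cases h0 : blockHeight 2 B (χ : G → ℂ) = 0
    · obtain ⟨m, hm⟩ := hb χ hχB h0
      have h2 := hex' χ hχB h0
      omega
    · have h2 := hf' χ hχB h0
      obtain ⟨c, hc'⟩ : (4 : ℤ) ∣ α χ := by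
        have e1 : (2 : ℤ) ^ 2 ∣ 2 ^ (blockHeight 2 B (χ : G → ℂ) + 1) :=
          pow_dvd_pow 2 (by omega)
        have e2 := dvd_trans e1 (hc χ hχB h0)
        simpa using e2
      omega
  rw [Finset.sum_sub_distrib, hd, Finset.sum_const, nsmul_eq_mul, nsmul_eq_mul] at h3
  nlinarith

end Cfsg.Agent.Lib.Helper26.Kn
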