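import Cfsg.Agent.Lib.Helper26.NormSys
import Cfsg.Agent.Lib.Helper26.SubgroupFS
import Cfsg.Agent.S5102

set_option autoImplicit false

namespace Cfsg.Agent.Lib.Helper26

open Cfsg Cfsg.FusionSystem

/-- in a group with `C_G(O_p(G)) ≤ O_p(G)`, subgroups normal in the fusion system are normal -/
theorem normal_of_isNormal_groupFS {G : Type*} [Group G] [Finite G] {p : ℕ} [Fact p.Prime]
    (T : Sylow p G)
    (hC : Subgroup.centralizer ((pCore p G : Subgroup G) : Set G) ≤ pCore p G)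
    {Q : Subgroup G} (hQ : (groupFusionSystem (T : Subgroup G)).IsNormal Q) : Q.Normal := by
  have hUT : pCore p G ≤ (T : Subgroup G) := Helper27.pCore_le_sylow T
  have hUn : (pCore p G).Normal := Helper27.pCore_normal'
  have hTQ := Helper27.IsNormal.le_normalizer hQ
  obtain ⟨hQT, hQ'⟩ := isNormal_iff.mp hQ
  constructor
  intro y hy g
  have hm : IsMap (groupFusionSystem (T : Subgroup G)) (pCore p G) (fun x => g * x * g⁻¹) :=
    isMap_groupFS.mpr ⟨hUT, fun x hx => hUT (hUn.conj_mem x hx g), g, fun _ _ => rfl⟩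
  obtain ⟨k, hk, hkg, hkQ⟩ := hQ' _ _ hm
  obtain ⟨-, -, h, hh⟩ := isMap_groupFS.mp hk
  have hc : h⁻¹ * g ∈ Subgroup.centralizer ((pCore p G : Subgroup G) : Set G) := by
    rw [Subgroup.mem_centralizer_iff]
    intro u hu
    have h1 := hkg u hu
    rw [hh u ((le_sup_left : pCore p G ≤ pCore p G ⊔ Q) hu)] at h1
    have h2 : u = h⁻¹ * (g * u * g⁻¹) * h := by rw [← h1]; group
    calc u * (h⁻¹ * g) = h⁻¹ * (g * u * g⁻¹) * h * (h⁻¹ * g) := by rw [← h2]
      _ = h⁻¹ * g * u := by group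
  have ht : h⁻¹ * g ∈ Subgroup.normalizer (Q : Set G) := hTQ (hUT (hC hc))
  have h1 : (h⁻¹ * g) * y * (h⁻¹ * g)⁻¹ ∈ Q := (Subgroup.mem_normalizer_iff.mp ht y).mp hy
  have h2 : k ((h⁻¹ * g) * y * (h⁻¹ * g)⁻¹) ∈ img Q k := mem_img_of_mem h1
  rw [hkQ, hh _ ((le_sup_right : Q ≤ pCore p G ⊔ Q) h1)] at h2
  have e : h * (h⁻¹ * g * y * (h⁻¹ * g)⁻¹) * h⁻¹ = g * y * g⁻¹ := by group
  rwa [e] at h2

variable {Ω : Type*} [Group Ω] {S : Subgroup Ω}

lemma normalizerSystem_isNormal {F : FusionSystem S} {R : Subgroup Ω} (hR : R ≤ S)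
    {E : FusionSystem (normalizerIn S R)} (hE : F.IsNormalizerSystem R E) : E.IsNormal R := by
  have hRN : R ≤ normalizerIn S R := fun x hx => ⟨hR hx, Subgroup.le_normalizer hx⟩
  rw [isNormal_iff]
  refine ⟨hRN, fun P f hf => ?_⟩
  obtain ⟨hfF, hPN, hfN, g, hg, hgf, hgR⟩ := (isMap_normalizerSystem hE).mp hf
  refine ⟨g, (isMap_normalizerSystem hE).mpr ⟨hg, sup_le hPN hRN, ?_, g, ?_, fun _ _ => rfl, hgR⟩,
    hgf, hgR⟩
  · have hle : img (P ⊔ R) g ≤ normalizerIn S R := by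
      rw [hg.img_sup le_sup_left le_sup_right, hgR, img_congr hgf]
      refine sup_le ?_ hRN
      intro y hy
      obtain ⟨x, hx, rfl⟩ := hfF.mem_img.mp hy
      exact hfN x hx
    exact fun x hx => hle (mem_img_of_mem hx)
  · rw [sup_assoc, sup_idem]
    exact hg

lemma normalizerSystem_le {F : FusionSystem S} {R : Subgroup Ω}
    {E : FusionSystem (normalizerIn S R)} (hE : F.IsNormalizerSystem R E) {P : Subgroup Ω}
    {f : Ω → Ω} (h : IsMap E P f) : IsMap F P f := ((isMap_normalizerSystem hE).mp h).1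

lemma normalizerSystem_autGroup {F : FusionSystem S} {R : Subgroup Ω} (hR : R ≤ S)
    {E : FusionSystem (normalizerIn S R)} (hE : F.IsNormalizerSystem R E) :
    E.autGroup R = F.autGroup R := by
  have hRN : R ≤ normalizerIn S R := fun x hx => ⟨hR hx, Subgroup.le_normalizer hx⟩
  ext α
  rw [mem_autGroup_iff hRN, mem_autGroup_iff hR]
  refine ⟨normalizerSystem_le hE, fun h => (isMap_normalizerSystem hE).mpr
    ⟨h, hRN, fun x hx => hRN (autFun_mem α hx), autFun α, by rw [sup_idem]; exact h,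
      fun _ _ => rfl, img_autFun α⟩⟩

lemma normalizerSystem_centric {F : FusionSystem S} {R : Subgroup Ω} (hR : F.IsCentric R)
    {E : FusionSystem (normalizerIn S R)} (hE : F.IsNormalizerSystem R E) : E.IsCentric R := by
  have hRN : R ≤ normalizerIn S R := fun x hx => ⟨hR.1 hx, Subgroup.le_normalizer hx⟩
  refine ⟨hRN, fun Q' hQ' => ?_⟩
  obtain ⟨f, hf, rfl⟩ := isConj_iff.mp hQ'
  have := hR.2 _ (isConj_iff.mpr ⟨f, normalizerSystem_le hE hf, rfl⟩)
  exact fun c hc => this ⟨hc.1.1, hc.2⟩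

lemma normalizerSystem_radical {F : FusionSystem S} {p : ℕ} {R : Subgroup Ω}
    (hR : F.IsRadical p R)
    {E : FusionSystem (normalizerIn S R)} (hE : F.IsNormalizerSystem R E) : E.IsRadical p R := by
  have hRN : R ≤ normalizerIn S R := fun x hx => ⟨hR.1 hx, Subgroup.le_normalizer hx⟩
  refine ⟨hRN, ?_⟩
  rw [normalizerSystem_autGroup hR.1 hE]
  exact hR.2

end Cfsg.Agent.Lib.Helper26
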