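import Cfsg.Agent.Lib.Helper26.KNorm2

set_option autoImplicit false

namespace Cfsg.Agent.Lib.Helper26

open Cfsg Cfsg.FusionSystem

variable {Ω : Type*} [Group Ω] {S : Subgroup Ω}

/-- function-level description of the normalizer system -/
lemma isMap_normalizerSystem {F : FusionSystem S} {Q : Subgroup Ω}
    {E : FusionSystem (normalizerIn S Q)} (hE : F.IsNormalizerSystem Q E) {P : Subgroup Ω}
    {f : Ω → Ω} : IsMap E P f ↔ IsMap F P f ∧ P ≤ normalizerIn S Q ∧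
      (∀ x ∈ P, f x ∈ normalizerIn S Q) ∧
      ∃ g, IsMap F (P ⊔ Q) g ∧ (∀ x ∈ P, g x = f x) ∧ img Q g = Q := by
  constructor
  · rintro ⟨φ, hφ, hf⟩
    rw [hE P] at hφ
    obtain ⟨hφF, hPN, hφN, ψ, hψ, hψφ, hψQ⟩ := hφ
    refine ⟨⟨φ, hφF, hf⟩, hPN, fun x hx => by rw [← hf ⟨x, hx⟩]; exact hφN _, toFun ψ,
      isMap_toFun hψ, fun x hx => ?_, ?_⟩
    · rw [← hf ⟨x, hx⟩, ← hψφ, toFun_of_mem ψ ((le_sup_left : P ≤ P ⊔ Q) hx)]
      rfl
    · rw [← map_subgroupOf_eq_img le_sup_right, hψQ]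
  · rintro ⟨⟨φ, hφ, hf⟩, hPN, hfN, g, ⟨ψ, hψ, hg⟩, hgf, hgQ⟩
    refine ⟨φ, ?_, hf⟩
    rw [hE P]
    refine ⟨hφ, hPN, fun x => by rw [hf]; exact hfN x x.2, ψ, hψ, fun x => ?_, ?_⟩
    · rw [hg, hf]
      exact hgf x x.2
    · rw [map_subgroupOf_eq_img le_sup_right]
      refine Eq.trans (img_congr ?_) hgQ
      intro x hx
      rw [toFun_of_mem ψ ((le_sup_right : Q ≤ P ⊔ Q) hx), hg]

/-- function-level description of the centralizer system -/
lemma isMap_centralizerSystem {F : FusionSystem S} {Q : Subgroup Ω}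
    {E : FusionSystem (centralizerIn S Q)} (hE : F.IsCentralizerSystem Q E) {P : Subgroup Ω}
    {f : Ω → Ω} : IsMap E P f ↔ IsMap F P f ∧ P ≤ centralizerIn S Q ∧
      (∀ x ∈ P, f x ∈ centralizerIn S Q) ∧
      ∃ g, IsMap F (P ⊔ Q) g ∧ (∀ x ∈ P, g x = f x) ∧ ∀ y ∈ Q, g y = y := by
  constructor
  · rintro ⟨φ, hφ, hf⟩
    rw [hE P] at hφ
    obtain ⟨hφF, hPN, hφN, ψ, hψ, hψφ, hψQ⟩ := hφ
    refine ⟨⟨φ, hφF, hf⟩, hPN, fun x hx => by rw [← hf ⟨x, hx⟩]; exact hφN _, toFun ψ,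
      isMap_toFun hψ, fun x hx => ?_, fun y hy => ?_⟩
    · rw [← hf ⟨x, hx⟩, ← hψφ, toFun_of_mem ψ ((le_sup_left : P ≤ P ⊔ Q) hx)]
      rfl
    · rw [toFun_of_mem ψ ((le_sup_right : Q ≤ P ⊔ Q) hy)]
      exact hψQ ⟨y, hy⟩
  · rintro ⟨⟨φ, hφ, hf⟩, hPN, hfN, g, ⟨ψ, hψ, hg⟩, hgf, hgQ⟩
    refine ⟨φ, ?_, hf⟩
    rw [hE P]
    refine ⟨hφ, hPN, fun x => by rw [hf]; exact hfN x x.2, ψ, hψ, fun x => ?_, fun y => ?_⟩
    · rw [hg, hf]
      exact hgf x x.2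
    · rw [hg]
      exact hgQ y y.2

lemma kdata_normalizer {F : FusionSystem S} {Q : Subgroup Ω} (hQ : Q ≤ S)
    {E : FusionSystem (normalizerIn S Q)} (hE : F.IsNormalizerSystem Q E) :
    KData F Q ⊤ E where
  hQ := hQ
  hT g := ⟨fun hg => ⟨hg.1, Helper27.conjAut Q g hg.2, trivial, fun _ => rfl⟩,
    fun hg => ⟨hg.1, NK_le_normalizer _ _ hg⟩⟩
  hE P f := by
    rw [isMap_normalizerSystem hE]
    constructor
    · rintro ⟨h1, h2, h3, g, hg, hgf, hgQ⟩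
      obtain ⟨κ, -, hκ⟩ := (hg.mono le_sup_right).exists_aut hgQ
      exact ⟨h1, h2, h3, g, hg, hgf, κ, trivial, fun y hy => by rw [autFun_of_mem κ hy, hκ]⟩
    · rintro ⟨h1, h2, h3, g, hg, hgf, κ, -, hκ⟩
      exact ⟨h1, h2, h3, g, hg, hgf, by rw [img_congr hκ, img_autFun]⟩

lemma kdata_centralizer {F : FusionSystem S} {Q : Subgroup Ω} (hQ : Q ≤ S)
    {E : FusionSystem (centralizerIn S Q)} (hE : F.IsCentralizerSystem Q E) :
    KData F Q ⊥ E where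
  hQ := hQ
  hT g := by
    constructor
    · intro hg
      exact centralizerIn_le_NK Q ⊥ hg
    · rintro ⟨hgS, l, hl, hlg⟩
      refine ⟨hgS, Subgroup.mem_centralizer_iff.mpr fun y hy => ?_⟩
      have h1 := hlg ⟨y, hy⟩
      rw [Subgroup.mem_bot.mp hl] at h1
      have h2 : y = g * y * g⁻¹ := h1
      calc y * g = g * y * g⁻¹ * g := by rw [← h2]
        _ = g * y := by group
  hE P f := by
    rw [isMap_centralizerSystem hE]
    constructor
    · rintro ⟨h1, h2, h3, g, hg, hgf, hgQ⟩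
      exact ⟨h1, h2, h3, g, hg, hgf, 1, Subgroup.one_mem _, fun y hy => by
        rw [autFun_one hy, hgQ y hy]⟩
    · rintro ⟨h1, h2, h3, g, hg, hgf, κ, hκ, hgκ⟩
      refine ⟨h1, h2, h3, g, hg, hgf, fun y hy => ?_⟩
      rw [hgκ y hy, Subgroup.mem_bot.mp hκ, autFun_one hy]

variable [Finite S] {p : ℕ} [Fact p.Prime]

theorem normalizerSystem_saturated (hS : IsPGroup p S) {F : FusionSystem S}
    (hF : F.IsSaturated p) {Q : Subgroup Ω} (hQ : F.IsFullyNormalized Q)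
    {E : FusionSystem (normalizerIn S Q)} (hE : F.IsNormalizerSystem Q E) : E.IsSaturated p := by
  obtain ⟨-, haut, hrec⟩ := Helper27.IsSaturated.fullyNormalized_props hS hF hQ
  refine knorm_saturated hS hF (kdata_normalizer hQ.1 hE) ⟨hrec, ?_⟩
  rw [inf_top_eq, inf_top_eq]
  exact haut.2

theorem centralizerSystem_saturated (hS : IsPGroup p S) {F : FusionSystem S}
    (hF : F.IsSaturated p) {Q : Subgroup Ω} (hQ : F.IsFullyCentralized Q)
    {E : FusionSystem (centralizerIn S Q)} (hE : F.IsCentralizerSystem Q E) :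
    E.IsSaturated p := by
  have hrec := Helper27.IsSaturated.receptive_of_fullyCentralized hS hF hQ
  have hfin : Finite Q := finite_of_le hQ.1
  refine knorm_saturated hS hF (kdata_centralizer hQ.1 hE) ⟨hrec, ?_⟩
  rw [inf_bot_eq, inf_bot_eq, sylIn_iff_card le_rfl]
  simp

end Cfsg.Agent.Lib.Helper26
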