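import Cfsg.Agent.Lib.Helper26.InvCore
import Cfsg.Agent.Lib.Helper26.KNorm2

set_option autoImplicit false

namespace Cfsg.Agent.Lib.Helper26

open Cfsg Cfsg.FusionSystem

variable {Ω : Type*} [Group Ω] {S : Subgroup Ω} [Finite S] {p : ℕ} [Fact p.Prime]

theorem stronglyClosed_of_hyperfocal_le (hS : IsPGroup p S) {F : FusionSystem S}
    (hF : F.IsSaturated p) {T : Subgroup Ω} (hTS : T ≤ S)
    (hTn : ∀ s ∈ S, ∀ t ∈ T, s * t * s⁻¹ ∈ T) (hT : F.hyperfocalSubgroup p ≤ T) :
    F.StronglyClosed T := by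
  have hC : SubPred F S (fun P f => ∀ x ∈ P, x ∈ T ↔ f x ∈ T) :=
    { congr := fun h hc x hx => by rw [← h x hx]; exact hc x hx
      conj := fun {P a} hP ha x hx => ⟨fun h => hTn a ha x h, fun h => by
        have := hTn a⁻¹ (S.inv_mem ha) _ h
        have e : a⁻¹ * (a * x * a⁻¹) * a⁻¹⁻¹ = x := by group
        rwa [e] at this⟩
      comp := fun {P Q f g} hf hg _ _ h _ hcf hcg x hx => (hcf x hx).trans (hcg _ (h x hx))
      inv := fun {P f g} hf _ _ hg hgf hcf y hy => by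
        obtain ⟨x, hx, rfl⟩ := hf.mem_img.mp hy
        rw [hgf x hx]; exact (hcf x hx).symm }
  have hle : F ≤ mkSub F le_rfl hC := by
    apply le_of_pResidual_le hS hF
    intro P hP
    have hPS := (fullyNormalized_of_eq_or_essential hP).1
    rintro _ ⟨β, hβ, rfl⟩
    rw [mem_autGroup_iff hPS, isMap_mkSub]
    refine ⟨(mem_autGroup_iff hPS).mp β.2, hPS, fun x hx => hPS (autFun_mem _ hx), fun x hx => ?_⟩
    have h1 : x⁻¹ * autFun ((F.autGroup P).subtype β) x ∈ T :=
      hT (Subgroup.subset_closure ⟨P, β, ⟨x, hx⟩, hPS, hβ, by rw [autFun_of_mem _ hx]; rfl⟩)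
    constructor
    · intro h
      have := T.mul_mem h h1
      rwa [mul_inv_cancel_left] at this
    · intro h
      have := T.mul_mem h (T.inv_mem h1)
      rwa [mul_inv_rev, inv_inv, mul_inv_cancel_left] at this
  rw [stronglyClosed_iff]
  refine ⟨hTS, fun R hR f hf x hx => ?_⟩
  have := (isMap_mkSub le_rfl hC).mp (le_iff_isMap.mp hle R f hf)
  exact (this.2.2.2 x hx).mp (hR hx)

omit [Finite S] in
theorem invCond_of_pPowerIndex {F : FusionSystem S} {T : Subgroup Ω} (hTS : T ≤ S) [Finite T]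
    (hTp : IsPGroup p T) {E : FusionSystem T} (hEs : E.IsSaturated p)
    (hEi : E.HasPPowerIndexIn F p) : InvCond E F := by
  apply invCond_of_le_invCoreT hTS
  apply le_of_pResidual_le hTp hEs
  intro P hP
  have hPT := (fullyNormalized_of_eq_or_essential hP).1
  have hPS := hPT.trans hTS
  rintro _ ⟨β, hβ, rfl⟩
  rw [mem_autGroup_iff hPT, isMap_invCoreT]
  refine ⟨(mem_autGroup_iff hPT).mp β.2, fun γ hγ => ?_⟩
  have hγT := (mem_autGroup_iff hTS).mp hγ
  have hγm := hγT.mono hPT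
  obtain ⟨e, he, hef⟩ := hγm.exists_iso rfl
  have hQT : img P (autFun γ) ≤ T := by
    intro y hy
    obtain ⟨x, hx, rfl⟩ := hγm.mem_img.mp hy
    exact autFun_mem γ (hPT hx)
  have hβ' := map_mem_pResidual (Subgroup.inclusion (autGroup_le_of_subsystem hEi.1 hPT hPS))
    (Subgroup.inclusion_injective _) hβ
  have hβ'' := map_mem_pResidual (autTr he) (autTr_injective he) hβ'
  have h1 := hEi.2.2 _ hQT ⟨_, hβ'', rfl⟩
  rw [mem_autGroup_iff hQT] at h1
  refine h1.congr (fun y hy => ?_)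
  obtain ⟨x, hx, rfl⟩ := hγm.mem_img.mp hy
  rw [autFun_inv_autFun γ (hPT hx), ← hef ⟨x, hx⟩, autFun_apply]
  show ((((autTr he _ : F.autGroup (img P (autFun γ))) : MulAut ↥(img P (autFun γ)))
    (e ⟨x, hx⟩) : ↥(img P (autFun γ))) : Ω) = _
  rw [autTr_apply, hef]
  congr 1
  exact (autFun_of_mem _ hx).symm

theorem fratCond_of_pPowerIndex (hS : IsPGroup p S) {F : FusionSystem S} (hF : F.IsSaturated p)
    {T : Subgroup Ω} (hT : F.StronglyClosed T) {E : FusionSystem T} (hinv : InvCond E F)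
    (hEi : E.HasPPowerIndexIn F p) : FratCond E F := by
  have hTS := hT.1
  apply fratCond_of_invCond hS hF hT hinv
  intro U hUT hU _ _
  have hUS := hU.1
  obtain ⟨-, hUaut, -⟩ := Helper27.IsSaturated.fullyNormalized_props hS hF hU
  refine ⟨E.autGroup U, autGroup_le_of_subsystem hEi.1 hUT hUS, ?_,
    Helper27.autInducedBy_le_autGroup E hUT, fun κ hκ => ⟨1, Subgroup.one_mem _, autFun κ,
      (mem_autGroup_iff hUT).mp hκ, fun x hx => by rw [autFun_one (hUT (autFun_mem κ hx))]⟩⟩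
  rw [autGroup_eq_sup_of_fullyAutomized hUaut]
  refine sup_le ((hEi.2.2 U hUT).trans Subgroup.le_normalizer) ?_
  have key : ∀ σ ∈ autInducedBy S U, ∀ κ ∈ E.autGroup U, σ * κ * σ⁻¹ ∈ E.autGroup U := by
    intro σ hσ κ hκ
    obtain ⟨s, hs, hσs⟩ := mem_autInducedBy_iff.mp hσ
    have hsT : s ∈ Subgroup.normalizer (T : Set Ω) := by
      have : Finite T := finite_of_le hTS
      exact mem_normalizer_of_conj_mem (fun t ht => stronglyClosed_conj_mem hT hs ht)
    have hα : Helper27.conjAut T s hsT ∈ F.autGroup T :=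
      Helper27.autInducedBy_le_autGroup F hTS (Helper27.conjAut_mem_autInducedBy hs hsT)
    have hαv : ∀ x ∈ T, autFun (Helper27.conjAut T s hsT) x = s * x * s⁻¹ :=
      fun x hx => by rw [autFun_of_mem _ hx]; rfl
    have hσv : ∀ x ∈ U, autFun σ x = s * x * s⁻¹ := fun x hx => by rw [autFun_of_mem σ hx, hσs]
    obtain ⟨h, hh, hh'⟩ := hinv U hUT _ ((mem_autGroup_iff hUT).mp hκ) _ hα
    have e : img U (autFun (Helper27.conjAut T s hsT)) = U := by
      rw [img_congr (g := autFun σ) (fun x hx => by rw [hαv x (hUT hx), hσv x hx]), img_autFun]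
    rw [e] at hh
    rw [mem_autGroup_iff hUT]
    refine hh.congr (fun x hx => ?_)
    have hx' : autFun σ⁻¹ x ∈ U := autFun_mem _ hx
    have h1 := hh' _ hx'
    rw [hαv _ (hUT hx'), ← hσv _ hx', autFun_autFun_inv σ hx,
      hαv _ (hUT (autFun_mem κ hx')), ← hσv _ (autFun_mem κ hx')] at h1
    rw [h1, autFun_mul _ _ hx, autFun_mul _ _ hx']
  intro σ hσ
  rw [Subgroup.mem_normalizer_iff]
  intro κ
  refine ⟨key σ hσ κ, fun h => ?_⟩
  have := key σ⁻¹ (Subgroup.inv_mem _ hσ) _ h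
  have e : σ⁻¹ * (σ * κ * σ⁻¹) * σ⁻¹⁻¹ = κ := by group
  rwa [e] at this

omit [Finite S] [Fact p.Prime] in
lemma ext_maps_centralizer {T : Subgroup Ω} (hTS : T ≤ S) {α : MulAut T}
    {β : MulAut ↥(T ⊔ centralizerIn S T)} (h : ∀ x ∈ T, autFun β x = autFun α x) {c : Ω}
    (hc : c ∈ centralizerIn S T) : autFun β c ∈ centralizerIn S T := by
  have hTD : T ≤ T ⊔ centralizerIn S T := le_sup_left
  have hCD : centralizerIn S T ≤ T ⊔ centralizerIn S T := le_sup_right
  have hDS : T ⊔ centralizerIn S T ≤ S := sup_le hTS inf_le_left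
  refine ⟨hDS (autFun_mem β (hCD hc)), Subgroup.mem_centralizer_iff.mpr fun t ht => ?_⟩
  have ht' : autFun α⁻¹ t ∈ T := autFun_mem _ ht
  have e : autFun β (autFun α⁻¹ t) = t := by rw [h _ ht', autFun_autFun_inv α ht]
  rw [← e, ← autFun_map_mul β (hTD ht') (hCD hc), ← autFun_map_mul β (hCD hc) (hTD ht'),
    (Subgroup.mem_centralizer_iff.mp hc.2) _ ht']

omit [Finite S] [Fact p.Prime] in
/-- the automorphisms of `T` satisfying the extension condition -/
def extGroup (F : FusionSystem S) {T : Subgroup Ω} (hTS : T ≤ S) : Subgroup (MulAut T) where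
  carrier := {α | ∃ β ∈ F.autGroup (T ⊔ centralizerIn S T), (∀ x ∈ T, autFun β x = autFun α x) ∧
    ∀ c ∈ centralizerIn S T, c⁻¹ * autFun β c ∈ T ⊓ Subgroup.centralizer (T : Set Ω)}
  one_mem' := ⟨1, Subgroup.one_mem _, fun x hx => by
      rw [autFun_one ((le_sup_left : T ≤ T ⊔ centralizerIn S T) hx), autFun_one hx],
    fun c hc => by
      rw [autFun_one ((le_sup_right : centralizerIn S T ≤ T ⊔ centralizerIn S T) hc),
        inv_mul_cancel]
      exact Subgroup.one_mem _⟩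
  mul_mem' := by
    rintro α₁ α₂ ⟨β₁, hβ₁, h₁, h₁'⟩ ⟨β₂, hβ₂, h₂, h₂'⟩
    refine ⟨β₁ * β₂, Subgroup.mul_mem _ hβ₁ hβ₂, fun x hx => ?_, fun c hc => ?_⟩
    · rw [autFun_mul _ _ ((le_sup_left : T ≤ T ⊔ centralizerIn S T) hx), h₂ x hx,
        h₁ _ (autFun_mem α₂ hx), autFun_mul _ _ hx]
    · rw [autFun_mul _ _ ((le_sup_right : centralizerIn S T ≤ T ⊔ centralizerIn S T) hc)]
      have := Subgroup.mul_mem _ (h₂' c hc) (h₁' _ (ext_maps_centralizer hTS h₂ hc))
      rwa [mul_assoc, mul_inv_cancel_left] at this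
  inv_mem' := by
    rintro α ⟨β, hβ, h, h'⟩
    have hinv : ∀ x ∈ T, autFun β⁻¹ x = autFun α⁻¹ x := by
      intro x hx
      have hx' : autFun α⁻¹ x ∈ T := autFun_mem _ hx
      have e : autFun β (autFun α⁻¹ x) = x := by rw [h _ hx', autFun_autFun_inv α hx]
      conv_lhs => rw [← e]
      exact autFun_inv_autFun β ((le_sup_left : T ≤ T ⊔ centralizerIn S T) hx')
    refine ⟨β⁻¹, Subgroup.inv_mem _ hβ, hinv, fun c hc => ?_⟩
    have hc' := ext_maps_centralizer hTS hinv hc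
    have := Subgroup.inv_mem _ (h' _ hc')
    rwa [autFun_autFun_inv β ((le_sup_right : centralizerIn S T ≤ T ⊔ centralizerIn S T) hc),
      mul_inv_rev, inv_inv] at this

omit [Finite S] [Fact p.Prime] in
lemma ext_pow {T D : Subgroup Ω} (hTD : T ≤ D) {α : MulAut T} {β : MulAut D}
    (h : ∀ x ∈ T, autFun β x = autFun α x) (n : ℕ) :
    ∀ x ∈ T, autFun (β ^ n) x = autFun (α ^ n) x := by
  induction n with
  | zero => intro x hx; rw [pow_zero, pow_zero, autFun_one (hTD hx), autFun_one hx]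
  | succ n ih =>
    intro x hx
    rw [pow_succ', pow_succ', autFun_mul _ _ (hTD hx), autFun_mul _ _ hx, ih x hx,
      h _ (autFun_mem _ hx)]

lemma fullyNormalized_of_stronglyClosed {F : FusionSystem S} {T : Subgroup Ω}
    (hT : F.StronglyClosed T) : F.IsFullyNormalized T := by
  refine ⟨hT.1, fun Q hQ => ?_⟩
  obtain ⟨f, hf, rfl⟩ := isConj_iff.mp hQ
  rw [img_eq_of_stronglyClosed hT hf le_rfl]

theorem autGroup_le_extGroup (hS : IsPGroup p S) {F : FusionSystem S} (hF : F.IsSaturated p)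
    {T : Subgroup Ω} (hT : F.StronglyClosed T) (hhyp : F.hyperfocalSubgroup p ≤ T)
    {E : FusionSystem T} (hEs : E.IsSaturated p) (hEF : E.IsSubsystemOf F) :
    E.autGroup T ≤ extGroup F hT.1 := by
  have hTS := hT.1
  have hfinT : Finite T := finite_of_le hTS
  have hTp : IsPGroup p T := hS.to_le hTS
  have hTD : T ≤ T ⊔ centralizerIn S T := le_sup_left
  have hCD : centralizerIn S T ≤ T ⊔ centralizerIn S T := le_sup_right
  have hDS : T ⊔ centralizerIn S T ≤ S := sup_le hTS inf_le_left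
  have hfinD : Finite ↥(T ⊔ centralizerIn S T) := finite_of_le hDS
  obtain ⟨-, haut, -⟩ := Helper27.IsSaturated.fullyNormalized_props hTp hEs (fullyNormalized_self E)
  obtain ⟨-, -, hrec⟩ := Helper27.IsSaturated.fullyNormalized_props hS hF
    (fullyNormalized_of_stronglyClosed hT)
  rw [autGroup_eq_sup_of_fullyAutomized haut]
  refine sup_le ?_ ?_
  · rw [Subgroup.map_le_iff_le_comap]
    apply (Subgroup.closure_le _).mpr
    intro α hα
    have hα' : Nat.Coprime (orderOf α) p := hα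
    have hαm : IsMap F T (autFun (α : MulAut T)) :=
      isSubsystemOf_iff.mp hEF _ _ ((mem_autGroup_iff le_rfl).mp α.2)
    obtain ⟨b₀, hb₀, hb₀α⟩ := exists_ext_sup_of_receptive (A := centralizerIn S T) hrec hαm
      (img_autFun _) (by
        intro g hg
        refine ⟨hg.1, Subgroup.centralizer_le_normalizer _ hg.2, 1, S.one_mem, fun x hx => ?_⟩
        have : g * x * g⁻¹ = x := by
          rw [← (Subgroup.mem_centralizer_iff.mp hg.2) x hx, mul_inv_cancel_right]
        rw [this]; simp)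
    have himg : img (T ⊔ centralizerIn S T) b₀ = T ⊔ centralizerIn S T := by
      apply img_eq_of_le_of_finite hb₀
      rw [hb₀.img_sup hTD hCD, img_congr hb₀α, img_autFun]
      refine sup_le_sup_left ?_ T
      intro y hy
      obtain ⟨c, hc, rfl⟩ := (hb₀.mono hCD).mem_img.mp hy
      refine ⟨hb₀.mem_S (hCD hc), Subgroup.mem_centralizer_iff.mpr fun t ht => ?_⟩
      have ht' : autFun (α : MulAut T)⁻¹ t ∈ T := autFun_mem _ ht
      have e : b₀ (autFun (α : MulAut T)⁻¹ t) = t := by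
        rw [hb₀α _ ht', autFun_autFun_inv _ ht]
      rw [← e, ← hb₀.map_mul (hTD ht') (hCD hc), ← hb₀.map_mul (hCD hc) (hTD ht'),
        (Subgroup.mem_centralizer_iff.mp hc.2) _ ht']
    obtain ⟨β₀, hβ₀, hβ₀b⟩ := hb₀.exists_aut himg
    have hβ₀α : ∀ x ∈ T, autFun β₀ x = autFun (α : MulAut T) x := fun x hx => by
      rw [autFun_of_mem β₀ (hTD hx), hβ₀b, hb₀α x hx]
    obtain ⟨k, hk⟩ := exists_pow_mem_pResidual p (⟨β₀, hβ₀⟩ : F.autGroup (T ⊔ centralizerIn S T))
    obtain ⟨t, ht⟩ := exists_pow_eq_self_of_coprime (x := α) (n := p ^ k)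
      (Nat.Coprime.pow_left k hα'.symm)
    have hres := Subgroup.pow_mem _ hk t
    have hext : ∀ x ∈ T, autFun ((β₀ ^ p ^ k) ^ t) x = autFun (α : MulAut T) x := by
      intro x hx
      rw [ext_pow hTD (ext_pow hTD hβ₀α (p ^ k)) t x hx]
      congr 1
      exact congrArg Subtype.val ht
    refine ⟨(β₀ ^ p ^ k) ^ t, Subgroup.pow_mem _ (Subgroup.pow_mem _ hβ₀ _) _, hext,
      fun c hc => ⟨?_, ?_⟩⟩
    · apply hhyp
      apply Subgroup.subset_closure
      refine ⟨_, _, ⟨c, hCD hc⟩, hDS, hres, ?_⟩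
      rw [autFun_of_mem _ (hCD hc)]
      rfl
    · exact Subgroup.mul_mem _ (Subgroup.inv_mem _ hc.2) (ext_maps_centralizer hTS hext hc).2
  · intro α hα
    obtain ⟨t, ht, hαt⟩ := mem_autInducedBy_iff.mp hα
    have htn : t ∈ Subgroup.normalizer ((T ⊔ centralizerIn S T : Subgroup Ω) : Set Ω) :=
      Subgroup.le_normalizer (hTD ht)
    have hv : ∀ x ∈ T ⊔ centralizerIn S T,
        autFun (Helper27.conjAut (T ⊔ centralizerIn S T) t htn) x = t * x * t⁻¹ :=
      fun x hx => by rw [autFun_of_mem _ hx]; rfl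
    refine ⟨Helper27.conjAut _ t htn, Helper27.autInducedBy_le_autGroup F hDS
      (Helper27.conjAut_mem_autInducedBy (hTS ht) htn), fun x hx => ?_, fun c hc => ?_⟩
    · rw [hv x (hTD hx), autFun_of_mem α hx, hαt]
    · rw [hv c (hCD hc), (Subgroup.mem_centralizer_iff.mp hc.2) t ht, mul_inv_cancel_right,
        inv_mul_cancel]
      exact Subgroup.one_mem _

/-- S5120 -/
theorem pPowerIndex_isNormalIn (hS : IsPGroup p S) {F : FusionSystem S} (hF : F.IsSaturated p)
    {T : Subgroup Ω} (hTS : T ≤ S) (hTn : (T.subgroupOf S).Normal)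
    (hT : F.hyperfocalSubgroup p ≤ T) {E : FusionSystem T} (hEs : E.IsSaturated p)
    (hEi : E.HasPPowerIndexIn F p) : E.IsNormalIn F p := by
  have hfinT : Finite T := finite_of_le hTS
  have hsc : F.StronglyClosed T := stronglyClosed_of_hyperfocal_le hS hF hTS (fun s hs t ht =>
    Subgroup.mem_subgroupOf.mp (hTn.conj_mem ⟨t, hTS ht⟩ (Subgroup.mem_subgroupOf.mpr ht)
      ⟨s, hs⟩)) hT
  have hinv := invCond_of_pPowerIndex hTS (hS.to_le hTS) hEs hEi
  have hfr := fratCond_of_pPowerIndex hS hF hsc hinv hEi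
  refine ⟨⟨hEs, hF, isInvariantIn_iff.mpr ⟨hEi.1, hsc, hinv, hfr⟩⟩, fun α hα => ?_⟩
  obtain ⟨β, hβ, h1, h2⟩ := autGroup_le_extGroup hS hF hsc hT hEs hEi.1 hα
  refine ⟨β, hβ, fun x => ?_, fun c hc => ?_⟩
  · rw [← autFun_apply α x, ← h1 x x.2, autFun_of_mem β ((le_sup_left : T ≤ _) x.2)]
    rfl
  · have := h2 c hc
    rwa [autFun_apply] at this

end Cfsg.Agent.Lib.Helper26
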