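import Cfsg.Agent.Lib.Helper26.MkFS
import Cfsg.Prelude.Def_FusionComponents

set_option autoImplicit false

namespace Cfsg.Agent.Lib.Helper26

open Cfsg Cfsg.FusionSystem

variable {Ω₁ Ω₂ : Type*} [Group Ω₁] [Group Ω₂] {S₁ : Subgroup Ω₁} {S₂ : Subgroup Ω₂}

/-- first projection of a subgroup of a product -/
abbrev pr₁ (P : Subgroup (Ω₁ × Ω₂)) : Subgroup Ω₁ := P.map (MonoidHom.fst Ω₁ Ω₂)
/-- second projection of a subgroup of a product -/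
abbrev pr₂ (P : Subgroup (Ω₁ × Ω₂)) : Subgroup Ω₂ := P.map (MonoidHom.snd Ω₁ Ω₂)

lemma fst_mem_pr₁ {P : Subgroup (Ω₁ × Ω₂)} {x : Ω₁ × Ω₂} (hx : x ∈ P) : x.1 ∈ pr₁ P :=
  ⟨x, hx, rfl⟩
lemma snd_mem_pr₂ {P : Subgroup (Ω₁ × Ω₂)} {x : Ω₁ × Ω₂} (hx : x ∈ P) : x.2 ∈ pr₂ P :=
  ⟨x, hx, rfl⟩

/-- function-level maps of the product system -/
def ProdMap (F₁ : FusionSystem S₁) (F₂ : FusionSystem S₂) (P : Subgroup (Ω₁ × Ω₂))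
    (f : Ω₁ × Ω₂ → Ω₁ × Ω₂) : Prop :=
  P ≤ S₁.prod S₂ ∧ ∃ f₁ f₂, IsMap F₁ (pr₁ P) f₁ ∧ IsMap F₂ (pr₂ P) f₂ ∧
    ∀ x ∈ P, f x = (f₁ x.1, f₂ x.2)

lemma prodMap_mul {F₁ : FusionSystem S₁} {F₂ : FusionSystem S₂} {P : Subgroup (Ω₁ × Ω₂)}
    {f : Ω₁ × Ω₂ → Ω₁ × Ω₂} (h : ProdMap F₁ F₂ P f) :
    ∀ x ∈ P, ∀ y ∈ P, f (x * y) = f x * f y := by
  obtain ⟨hP, f₁, f₂, hf₁, hf₂, hf⟩ := h
  intro x hx y hy
  rw [hf _ (P.mul_mem hx hy), hf x hx, hf y hy]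
  ext
  · exact hf₁.map_mul (fst_mem_pr₁ hx) (fst_mem_pr₁ hy)
  · exact hf₂.map_mul (snd_mem_pr₂ hx) (snd_mem_pr₂ hy)

theorem prodPred (F₁ : FusionSystem S₁) (F₂ : FusionSystem S₂) :
    FSPred (S₁.prod S₂) (ProdMap F₁ F₂) where
  le h := h.1
  mem := by
    rintro P f ⟨hP, f₁, f₂, hf₁, hf₂, hf⟩ x hx
    rw [hf x hx]
    exact ⟨hf₁.mem_S (fst_mem_pr₁ hx), hf₂.mem_S (snd_mem_pr₂ hx)⟩
  mul h := prodMap_mul h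
  inj := by
    rintro P f ⟨hP, f₁, f₂, hf₁, hf₂, hf⟩ x hx hx1
    rw [hf x hx] at hx1
    have h1 : f₁ x.1 = 1 := congrArg Prod.fst hx1
    have h2 : f₂ x.2 = 1 := congrArg Prod.snd hx1
    ext
    · exact hf₁.inj (fst_mem_pr₁ hx) (Subgroup.one_mem _) (h1.trans hf₁.map_one.symm)
    · exact hf₂.inj (snd_mem_pr₂ hx) (Subgroup.one_mem _) (h2.trans hf₂.map_one.symm)
  congr := by
    rintro P f g ⟨hP, f₁, f₂, hf₁, hf₂, hf⟩ hfg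
    exact ⟨hP, f₁, f₂, hf₁, hf₂, fun x hx => by rw [← hfg x hx]; exact hf x hx⟩
  conj := by
    intro P a hP ha
    refine ⟨hP, _, _, isMap_conj F₁ ?_ ha.1, isMap_conj F₂ ?_ ha.2, fun x hx => rfl⟩
    · rintro _ ⟨x, hx, rfl⟩; exact (hP hx).1
    · rintro _ ⟨x, hx, rfl⟩; exact (hP hx).2
  comp := by
    rintro P Q f g ⟨hP, f₁, f₂, hf₁, hf₂, hf⟩ ⟨hQ, g₁, g₂, hg₁, hg₂, hg⟩ hPQ
    refine ⟨hP, g₁ ∘ f₁, g₂ ∘ f₂, hf₁.comp hg₁ ?_, hf₂.comp hg₂ ?_, fun x hx => ?_⟩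
    · rintro _ ⟨x, hx, rfl⟩
      have := fst_mem_pr₁ (hPQ x hx)
      rwa [hf x hx] at this
    · rintro _ ⟨x, hx, rfl⟩
      have := snd_mem_pr₂ (hPQ x hx)
      rwa [hf x hx] at this
    · show g (f x) = _
      rw [hg _ (hPQ x hx), hf x hx]
      rfl
  inv := by
    intro P f h
    have hmul := prodMap_mul h
    obtain ⟨hP, f₁, f₂, hf₁, hf₂, hf⟩ := h
    have e₁ : pr₁ (img P f) = img (pr₁ P) f₁ := by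
      ext y
      rw [hf₁.mem_img]
      constructor
      · rintro ⟨z, hz, rfl⟩
        obtain ⟨x, hx, rfl⟩ := (mem_img_of_mul hmul).mp hz
        exact ⟨x.1, fst_mem_pr₁ hx, by rw [hf x hx]; rfl⟩
      · rintro ⟨_, ⟨x, hx, rfl⟩, rfl⟩
        exact ⟨f x, mem_img_of_mem hx, by rw [hf x hx]; rfl⟩
    have e₂ : pr₂ (img P f) = img (pr₂ P) f₂ := by
      ext y
      rw [hf₂.mem_img]
      constructor
      · rintro ⟨z, hz, rfl⟩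
        obtain ⟨x, hx, rfl⟩ := (mem_img_of_mul hmul).mp hz
        exact ⟨x.2, snd_mem_pr₂ hx, by rw [hf x hx]; rfl⟩
      · rintro ⟨_, ⟨x, hx, rfl⟩, rfl⟩
        exact ⟨f x, mem_img_of_mem hx, by rw [hf x hx]; rfl⟩
    obtain ⟨g₁, hg₁, hg₁', -⟩ := hf₁.exists_inv
    obtain ⟨g₂, hg₂, hg₂', -⟩ := hf₂.exists_inv
    refine ⟨fun y => (g₁ y.1, g₂ y.2), ⟨?_, g₁, g₂, by rw [e₁]; exact hg₁, by rw [e₂]; exact hg₂,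
      fun _ _ => rfl⟩, fun x hx => ?_⟩
    · intro z hz
      obtain ⟨x, hx, rfl⟩ := (mem_img_of_mul hmul).mp hz
      rw [hf x hx]
      exact ⟨hf₁.mem_S (fst_mem_pr₁ hx), hf₂.mem_S (snd_mem_pr₂ hx)⟩
    · rw [hf x hx]
      ext
      · exact hg₁' _ (fst_mem_pr₁ hx)
      · exact hg₂' _ (snd_mem_pr₂ hx)

lemma prodMap_toFun_iff {F₁ : FusionSystem S₁} {F₂ : FusionSystem S₂} {P : Subgroup (Ω₁ × Ω₂)}
    {φ : P →* Ω₁ × Ω₂} : ProdMap F₁ F₂ P (toFun φ) ↔ P ≤ S₁.prod S₂ ∧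
      ∃ φ₁ ∈ F₁.Hom (P.map (MonoidHom.fst Ω₁ Ω₂)), ∃ φ₂ ∈ F₂.Hom (P.map (MonoidHom.snd Ω₁ Ω₂)),
        ∀ (x : P) (h₁ : (x : Ω₁ × Ω₂).1 ∈ P.map (MonoidHom.fst Ω₁ Ω₂))
          (h₂ : (x : Ω₁ × Ω₂).2 ∈ P.map (MonoidHom.snd Ω₁ Ω₂)),
          φ x = (φ₁ ⟨(x : Ω₁ × Ω₂).1, h₁⟩, φ₂ ⟨(x : Ω₁ × Ω₂).2, h₂⟩) := by
  constructor
  · rintro ⟨hP, f₁, f₂, ⟨φ₁, hφ₁, hf₁⟩, ⟨φ₂, hφ₂, hf₂⟩, hf⟩
    refine ⟨hP, φ₁, hφ₁, φ₂, hφ₂, fun x h₁ h₂ => ?_⟩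
    rw [← toFun_apply, hf x x.2, hf₁, hf₂]
  · rintro ⟨hP, φ₁, hφ₁, φ₂, hφ₂, h⟩
    refine ⟨hP, toFun φ₁, toFun φ₂, isMap_toFun hφ₁, isMap_toFun hφ₂, fun x hx => ?_⟩
    rw [toFun_of_mem φ hx, h ⟨x, hx⟩ (fst_mem_pr₁ hx) (snd_mem_pr₂ hx),
      toFun_of_mem φ₁ (fst_mem_pr₁ hx), toFun_of_mem φ₂ (snd_mem_pr₂ hx)]

theorem isProductSystem_iff {F₁ : FusionSystem S₁} {F₂ : FusionSystem S₂}
    {E : FusionSystem (S₁.prod S₂)} :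
    IsProductSystem F₁ F₂ E ↔ ∀ P f, IsMap E P f ↔ ProdMap F₁ F₂ P f := by
  constructor
  · intro h P f
    constructor
    · rintro ⟨φ, hφ, hf⟩
      exact (prodPred F₁ F₂).congr (prodMap_toFun_iff.mpr ((h P φ).mp hφ))
        (fun x hx => by rw [toFun_of_mem _ hx, hf])
    · intro hf
      refine ⟨homOf P f (prodMap_mul hf), ?_, fun x => rfl⟩
      rw [h, ← prodMap_toFun_iff]
      exact (prodPred F₁ F₂).congr hf (fun x hx => by rw [toFun_of_mem _ hx]; rfl)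
  · intro h P φ
    rw [← prodMap_toFun_iff, ← h]
    exact ⟨isMap_toFun, fun h => h.hom_mem (fun x => (toFun_apply φ x).symm)⟩

theorem exists_productSystem (F₁ : FusionSystem S₁) (F₂ : FusionSystem S₂) :
    ∃ E : FusionSystem (S₁.prod S₂), IsProductSystem F₁ F₂ E :=
  ⟨mkFS (prodPred F₁ F₂), isProductSystem_iff.mpr (fun _ _ => isMap_mkFS _)⟩

end Cfsg.Agent.Lib.Helper26
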